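import Mathlib
import Cfsg.Prelude.Def_Classical
import Cfsg.Agent.Lib.L33.Defs
import Cfsg.Agent.Lib.PComp.Residual

/-! Standard `L₃(3)`, the case `PSp₆(3)` (plans/L3F.md): definitions. -/

set_option autoImplicit false

namespace CfsgLib.L3F

open Subgroup CfsgLib.Tech CfsgLib.L33 CfsgLib.PComp

variable {G : Type*} [Group G]

/-! ### The 2-group of order `1024` -/

/-- three commuting groups `⟨wᵢ, kᵢ⟩` (quaternion if `σ = 1`, dihedral if `σ = 0`) with `z₁ z₂ z₃ = 1`,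
`f` swaps the first two, `t` is a diagonal automorphism -/
structure Lf (G : Type*) [Group G] where
  σ : ZMod 2
  w1 : G
  w2 : G
  w3 : G
  k1 : G
  k2 : G
  k3 : G
  f : G
  t : G
  w14 : w1 ^ 4 = 1
  w24 : w2 ^ 4 = 1
  w34 : w3 ^ 4 = 1
  w12 : w1 ^ 2 ≠ 1
  w32 : w3 ^ 2 ≠ 1
  zzz : w1 ^ 2 * w2 ^ 2 * w3 ^ 2 = 1
  kk1 : k1 * k1 = (w1 ^ 2) ^ σ.val
  kk2 : k2 * k2 = (w2 ^ 2) ^ σ.val
  kk3 : k3 * k3 = (w3 ^ 2) ^ σ.val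
  kw1 : k1 * w1 * k1⁻¹ = w1⁻¹
  kw2 : k2 * w2 * k2⁻¹ = w2⁻¹
  kw3 : k3 * w3 * k3⁻¹ = w3⁻¹
  w1w2 : Commute w1 w2
  w1k2 : Commute w1 k2
  k1w2 : Commute k1 w2
  k1k2 : Commute k1 k2
  w1w3 : Commute w1 w3
  w1k3 : Commute w1 k3
  k1w3 : Commute k1 w3
  k1k3 : Commute k1 k3
  w2w3 : Commute w2 w3
  w2k3 : Commute w2 k3
  k2w3 : Commute k2 w3
  k2k3 : Commute k2 k3
  ff : f * f = 1
  tt : t * t = 1
  ft : Commute f t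
  fw1 : f * w1 * f⁻¹ = w2
  fk1 : f * k1 * f⁻¹ = k2
  fw3 : Commute f w3
  fk3 : Commute f k3
  tw1 : t * w1 * t⁻¹ = w1⁻¹
  tw2 : t * w2 * t⁻¹ = w2⁻¹
  tw3 : t * w3 * t⁻¹ = w3⁻¹
  tk1 : t * k1 * t⁻¹ = w1 * k1
  tk2 : t * k2 * t⁻¹ = w2 * k2
  tk3 : t * k3 * t⁻¹ = w3 * k3

/-- `w ^ i * k ^ j` -/
abbrev Qd := ZMod 4 × ZMod 2

def qm (σ : ZMod 2) (a b : Qd) : Qd :=
  (a.1 + (if a.2 = 0 then b.1 else -b.1) + (if σ * a.2 * b.2 = 0 then 0 else 2), a.2 + b.2)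

def qi (σ : ZMod 2) (a : Qd) : Qd := if a.2 = 0 then (-a.1, 0) else (a.1 + (if σ = 0 then 0 else 2), 1)

/-- the action of `t` -/
def qt (β : ZMod 2) (a : Qd) : Qd := if β = 0 then a else (-a.1 + (if a.2 = 0 then 0 else 1), a.2)

/-- `q₁ q₂ q₃ f ^ α t ^ β` -/
abbrev Mo := Qd × Qd × Qd × ZMod 2 × ZMod 2

def mm (σ : ZMod 2) (a b : Mo) : Mo :=
  (qm σ a.1 (qt a.2.2.2.2 (if a.2.2.2.1 = 0 then b.1 else b.2.1)),
    qm σ a.2.1 (qt a.2.2.2.2 (if a.2.2.2.1 = 0 then b.2.1 else b.1)),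
    qm σ a.2.2.1 (qt a.2.2.2.2 b.2.2.1), a.2.2.2.1 + b.2.2.2.1, a.2.2.2.2 + b.2.2.2.2)

def mi (σ : ZMod 2) (a : Mo) : Mo :=
  (qt a.2.2.2.2 (qi σ (if a.2.2.2.1 = 0 then a.1 else a.2.1)),
    qt a.2.2.2.2 (qi σ (if a.2.2.2.1 = 0 then a.2.1 else a.1)),
    qt a.2.2.2.2 (qi σ a.2.2.1), a.2.2.2.1, a.2.2.2.2)

/-- multiplication by `z₁ z₂ z₃` -/
def ng (a : Mo) : Mo :=
  ((a.1.1 + 2, a.1.2), (a.2.1.1 + 2, a.2.1.2), (a.2.2.1.1 + 2, a.2.2.1.2), a.2.2.2.1, a.2.2.2.2)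

/-- equality in the model -/
def eqv (a b : Mo) : Prop := a = b ∨ a = ng b

instance (a b : Mo) : Decidable (eqv a b) := inferInstanceAs (Decidable (_ ∨ _))

namespace Lf

variable (L : Lf G)

def z : G := L.w3 ^ 2
def e : G := L.w1 ^ 2
def E : Subgroup G := closure {L.e, L.z}
def Q1 : Subgroup G := closure {L.w1, L.k1}
def Q2 : Subgroup G := closure {L.w2, L.k2}
def Q3 : Subgroup G := closure {L.w3, L.k3}
def A3 : Subgroup G := closure {L.w1, L.w2, L.w3}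
def Q : Subgroup G := closure {L.w1, L.k1, L.w2, L.k2, L.w3, L.k3}
def T1 : Subgroup G := closure {L.w1, L.k1, L.w2, L.k2, L.f}
def T0 : Subgroup G := closure {L.w1, L.k1, L.w2, L.k2, L.w3, L.k3, L.f}
def R : Subgroup G := closure {L.w1, L.k1, L.w2, L.k2, L.w3, L.k3, L.t}
def P : Subgroup G := closure {L.w1, L.k1, L.w2, L.k2, L.w3, L.k3, L.f, L.t}

def ev (a : Mo) : G :=
  L.w1 ^ a.1.1.val * L.k1 ^ a.1.2.val * (L.w2 ^ a.2.1.1.val * L.k2 ^ a.2.1.2.val) *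
    (L.w3 ^ a.2.2.1.1.val * L.k3 ^ a.2.2.1.2.val) * L.f ^ a.2.2.2.1.val * L.t ^ a.2.2.2.2.val

/-- congruence modulo `E` -/
def Eq (u v : G) : Prop := ∃ c ∈ L.E, u = v * c

/-- the ten involutions of `T₀` conjugate to `e` in `C(z)` -/
def Y (d : G) : Prop := d = L.e ∨ d = L.e * L.z ∨ ∃ r ∈ L.Q1, d = r * L.f * r⁻¹

def a1 (i : ZMod 3) : G := if i = 0 then L.w1 else if i = 1 then L.w1 * L.k1 else L.k1
def a2 (j : ZMod 3) : G := if j = 0 then L.w2 else if j = 1 then L.k2 else L.w2 * L.k2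

end Lf

/-- the facts on `L₃(3)` -/
structure KF (K : Subgroup G) (t x e z f : G) : Prop where
  h1 : ∀ U : Subgroup G, Odd (Nat.card U) → (∀ u ∈ U, u * t = t * u) → (∀ u ∈ U, u * z = z * u) →
    (∀ u ∈ U, x * u * x⁻¹ ∈ U) → (∀ u ∈ U, e * u * e⁻¹ ∈ U) → ∀ u ∈ U, u * e = e * u
  h2 : Group.IsSolvable (centralizer {t, z} : Subgroup G)
  h3 : ∃ ξ ∈ K, ξ ^ 3 = 1 ∧ ξ ≠ 1 ∧ ξ * e = e * ξ ∧ z * ξ * z⁻¹ = ξ⁻¹ ∧ Commute ξ (f * ξ * f⁻¹)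

/-- the element of order 3 on `Q / E` -/
structure Lam (L : Lf G) (l : G) : Prop where
  le : l * L.e = L.e * l
  lz : l * L.z = L.z * l
  lQ : l ∈ normalizer (L.Q : Set G)
  w1 : L.Eq (l * L.w1 * l⁻¹) (L.w1 * L.k1)
  k1 : L.Eq (l * L.k1 * l⁻¹) L.w1
  w2 : L.Eq (l * L.w2 * l⁻¹) L.k2
  k2 : L.Eq (l * L.k2 * l⁻¹) (L.w2 * L.k2)

/-- the frame for the identification of `PSp₆(3)` -/
structure Bf (G : Type*) [Group G] extends Lf G where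
  σ1 : σ = 1
  K : Subgroup G
  Kn : K.Normal
  simple : IsSimpleGroup K
  nab : ¬ IsMulCommutative K
  hG : ∀ g, g ∈ K ∨ t * g ∈ K
  tK : t ∉ K
  T0K : toLf.T0 ≤ K
  syl : IsSylowIn 2 toLf.P ⊤
  θ : G
  θK : θ ∈ K
  θw3 : θ * w3 * θ⁻¹ = w1
  θw1 : θ * w1 * θ⁻¹ = w2
  θw2 : θ * w2 * θ⁻¹ = w3
  θk3 : θ * k3 * θ⁻¹ = k1
  θk1 : θ * k1 * θ⁻¹ = k2
  θk2 : θ * k2 * θ⁻¹ = k3
  l : G
  lK : l ∈ K
  lam : Lam toLf l
  x : G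
  xK : x ∈ K
  xt : x * t = t * x
  xz : x * toLf.z = toLf.z * x
  xe : x * toLf.e * x⁻¹ = f
  ρ : G
  ρz : ρ * toLf.z = toLf.z * ρ
  ρy : ρ * (toLf.e * f) * ρ⁻¹ = x * toLf.e
  kf : KF K t x toLf.e toLf.z f

namespace Bf

variable (B : Bf G)

/-- `C_K(z)` -/
def C : Subgroup G := B.K ⊓ centralizer {B.z}
/-- `C_K(E)` -/
def X : Subgroup G := B.K ⊓ centralizer {B.e, B.z}
/-- `O(C_K(z))` -/
def W : Subgroup G := opOf 2 B.C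
/-- the normal closure of `E` in `C_K(v)` -/
def N (v : G) : Subgroup G := closure {u | ∃ g ∈ B.K, g * v = v * g ∧ ∃ s ∈ B.E, u = g * s * g⁻¹}
/-- `d` is conjugate to `e` in `C_K(z)` -/
def D (d : G) : Prop := ∃ g ∈ B.C, d = g * B.e * g⁻¹

/-- the preimage of the perfect core of `C(Q₃ W / ⟨z⟩ W)` -/
structure Kp (M : Subgroup G) : Prop where
  le : M ≤ B.C
  norm : ∀ g ∈ B.C, ∀ m ∈ M, g * m * g⁻¹ ∈ M
  zM : B.z ∈ M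
  com : ∀ m ∈ M, ∀ q ∈ B.Q3, m * q * m⁻¹ * q⁻¹ ∈ B.W ⊔ zpowers B.z
  sol : ∃ n, (derivedSeries ↥(B.C ⊓ normalizer (B.Q3 : Set G)) n).map (Subgroup.subtype _) ≤ M
  q3 : ∀ q ∈ B.Q3, q ∈ M → q ∈ zpowers B.z

end Bf

/-! ### The case `Four` -/

def X0 (D : Fr G) (a p : G) : Subgroup G := closure {D.t, D.τ, D.e, D.f, a, p}
def B0 (D : Fr G) (a p : G) : Subgroup G := closure {D.t, D.τ, D.z, D.e, a, p}
def g0 (D : Fr G) (b : G) : G := D.x⁻¹ * b⁻¹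

/-- an element of `N(B) ∩ C(E)` moving `τ` -/
structure Yr (D : Fr G) (a b p y : G) : Prop where
  nB : y ∈ normalizer (D.B a b p : Set G)
  yz : y * D.z = D.z * y
  ye : y * D.e = D.e * y
  yτ : y * D.τ * y⁻¹ = D.τ * D.z
  ya : y * a * y⁻¹ = a⁻¹
  yt : y * D.t * y⁻¹ = D.t * a⁻¹ * D.e
  yp : y * p * y⁻¹ = p * a
  yy : y * y = D.z
  fy : D.f * y * D.f⁻¹ = D.e * a * y

/-- a Sylow 2-subgroup of `N(B) ∩ C(E)` and an element of odd order normalizing it -/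
structure Rr (D : Fr G) (a b p y φ : G) (R : Subgroup G) : Prop where
  th : D.Th φ
  odd : Odd (orderOf φ)
  φa : φ * a * φ⁻¹ = b
  φb : φ * b * φ⁻¹ = (a * b)⁻¹
  φp : φ * p = p * φ
  BR : D.B a b p ≤ R
  yR : y ∈ R
  φR : ∀ r ∈ R, φ * r * φ⁻¹ ∈ R
  cube : ∀ r ∈ R, φ ^ 3 * r = r * φ ^ 3
  cz : ∀ r ∈ R, r * D.z = D.z * r
  ce : ∀ r ∈ R, r * D.e = D.e * r
  cτ : ∀ r ∈ R, r * D.τ = D.τ * r → r ∈ D.B a b p

/-- the frame `L` inside the configuration `Four` -/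
structure Lk (D : Fr G) (a b y φ : G) (L : Lf G) : Prop where
  t : L.t = D.t
  f : L.f = D.f
  w1 : L.w1 = b * D.τ
  w2 : L.w2 = (a * b)⁻¹ * D.τ
  w3 : L.w3 = a * D.τ
  z : L.z = D.z
  e : L.e = D.e
  k3 : φ * L.k3 * φ⁻¹ = L.k1
  k1 : φ * L.k1 * φ⁻¹ = L.k2
  k2 : φ * L.k2 * φ⁻¹ = L.k3
  y : L.Eq y (L.k1 * L.w1 * L.k2 * (L.w1 * L.w2 * L.w3) ^ (1 + L.σ).val)

/-! ### Symplectic groups over `𝔽₃` -/

abbrev Sp4 := Matrix.symplecticGroup (Fin 2) (ZMod 3)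
abbrev Sp6 := Matrix.symplecticGroup (Fin 3) (ZMod 3)

/-- `A` fixes `e_k`, `f_k` for `k ≠ j` -/
def Fx {n : ℕ} (j : Fin n) (A : Matrix.symplecticGroup (Fin n) (ZMod 3)) : Prop :=
  ∀ k : Fin n, k ≠ j →
    (A : Matrix (Fin n ⊕ Fin n) (Fin n ⊕ Fin n) (ZMod 3)).mulVec (Pi.single (Sum.inl k) 1) = Pi.single (Sum.inl k) 1 ∧
    (A : Matrix (Fin n ⊕ Fin n) (Fin n ⊕ Fin n) (ZMod 3)).mulVec (Pi.single (Sum.inr k) 1) = Pi.single (Sum.inr k) 1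

def ε0 : Sp4 := ⟨Matrix.fromBlocks !![-1, 0; 0, 1] 0 0 !![-1, 0; 0, 1], by
  rw [SymplecticGroup.mem_iff]; decide +kernel⟩
def ε1 : Sp4 := ⟨Matrix.fromBlocks !![1, 0; 0, -1] 0 0 !![1, 0; 0, -1], by
  rw [SymplecticGroup.mem_iff]; decide +kernel⟩
/-- the short root element -/
def xr : Sp4 := ⟨Matrix.fromBlocks 1 !![0, 1; 1, 0] 0 1, by
  rw [SymplecticGroup.mem_iff]; decide +kernel⟩
/-- the permutation of the two hyperbolic planes -/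
def sw : Sp4 := ⟨Matrix.fromBlocks !![0, 1; 1, 0] 0 0 !![0, 1; 1, 0], by
  rw [SymplecticGroup.mem_iff]; decide +kernel⟩

end CfsgLib.L3F
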