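import Mathlib
import Cfsg.Agent.Lib.L3F.Defs
import Cfsg.Agent.Lib.L33.F2

/-! Standard `L₃(3)`, the case `PSp₆(3)`, package Xc: the group `X₀` normalized by `x` and `b`.  See `plans/L3F.md`. -/

set_option autoImplicit false
set_option linter.unusedSectionVars false

namespace CfsgLib.L3F

open Subgroup CfsgLib.Tech CfsgLib.L33 CfsgLib.PComp

variable {G : Type*} [Group G] [Finite G]

namespace Xc

open Fr Fr.Nrm Fr.F1

variable {D : Fr G} {a b p θ : G} (h : D.Four a b p θ)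
include h

omit h in
theorem t_X : D.t ∈ X0 D a p := subset_closure (by simp)
omit h in
theorem τ_X : D.τ ∈ X0 D a p := subset_closure (by simp)
omit h in
theorem e_X : D.e ∈ X0 D a p := subset_closure (by simp)
omit h in
theorem f_X : D.f ∈ X0 D a p := subset_closure (by simp)
omit h in
theorem a_X : a ∈ X0 D a p := subset_closure (by simp)
omit h in
theorem p_X : p ∈ X0 D a p := subset_closure (by simp)
theorem z_X : D.z ∈ X0 D a p := h.a2 ▸ mul_mem a_X a_X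
omit h in
theorem t_B0 : D.t ∈ B0 D a p := subset_closure (by simp)
omit h in
theorem τ_B0 : D.τ ∈ B0 D a p := subset_closure (by simp)
omit h in
theorem z_B0 : D.z ∈ B0 D a p := subset_closure (by simp)
omit h in
theorem e_B0 : D.e ∈ B0 D a p := subset_closure (by simp)
omit h in
theorem a_B0 : a ∈ B0 D a p := subset_closure (by simp)
omit h in
theorem p_B0 : p ∈ B0 D a p := subset_closure (by simp)

theorem τ_Bh : D.τ ∈ D.Bh a b p := h.A0_le (τ_A0 D)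
theorem z_Bh : D.z ∈ D.Bh a b p := h.A0_le (z_A0 D)
theorem e_Bh : D.e ∈ D.Bh a b p := h.A0_le (e_A0 D)

omit h in
theorem xz : D.x * D.z * D.x⁻¹ = D.z := fix D.c_zx.symm
omit h in
theorem xt : D.x * D.t * D.x⁻¹ = D.t := fix D.c_tx.symm

omit h in
theorem back {g u v : G} (e : g * u * g⁻¹ = v) : g⁻¹ * v * g⁻¹⁻¹ = u := by rw [← e]; group

theorem bf : b * D.f * b⁻¹ = D.f * a⁻¹ * D.e := by
  have e1 : D.f * b * D.f = (a * b)⁻¹ := by rw [h.hb]; exact h.toTr.fb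
  have e2 : D.e = b⁻¹ * b⁻¹ := by rw [← mul_inv_rev, b2 h, inv_eq_of_mul_eq_one_right D.ee]
  rw [e2, ← mul_assoc, mul_assoc D.f, ← mul_inv_rev, ← (ab h).eq, ← e1, ← mul_assoc, ← mul_assoc, D.ff, one_mul]

theorem b_fix {u : G} (hu : u ∈ D.Bh a b p) : b * u * b⁻¹ = u := fix (h.comm b_Bh hu)
theorem bi_fix {u : G} (hu : u ∈ D.Bh a b p) : b⁻¹ * u * b⁻¹⁻¹ = u := fix (h.comm (inv_mem b_Bh) hu)

theorem bi_t : b⁻¹ * D.t * b⁻¹⁻¹ = D.t * D.e :=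
  back (by rw [cjm, bt h, b_fix h (e_Bh h), mul_assoc, D.ee, mul_one])

theorem bi_f : b⁻¹ * D.f * b⁻¹⁻¹ = D.f * a * D.e :=
  back (by
    have ae : Commute a D.e := h.ae
    rw [cjm, cjm, bf h, b_fix h (e_Bh h), b_fix h a_Bh, mul_assoc _ D.e a, ← ae.eq]
    simp only [mul_assoc, inv_mul_cancel_left, D.ee, mul_one])

omit h in
theorem xi_z : D.x⁻¹ * D.z * D.x⁻¹⁻¹ = D.z := back xz
omit h in
theorem xi_t : D.x⁻¹ * D.t * D.x⁻¹⁻¹ = D.t := back xt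
omit h in
theorem xi_f : D.x⁻¹ * D.f * D.x⁻¹⁻¹ = D.e := back D.xe
omit h in
theorem xi_e : D.x⁻¹ * D.e * D.x⁻¹⁻¹ = D.f * D.z := back (by rw [cjm, D.xf, xz, mul_assoc, D.zz, mul_one])

/-- `x a x⁻¹` -/
theorem xa' : Commute (D.x * a * D.x⁻¹) D.z ∧ Commute (D.x * a * D.x⁻¹) D.e ∧ Commute (D.x * a * D.x⁻¹) D.f ∧
    D.x * (D.x * a * D.x⁻¹) * D.x⁻¹ = a ∧ D.x * a * D.x⁻¹ * (D.x * a * D.x⁻¹) = D.z ∧
    D.x * a * D.x⁻¹ ∈ D.Z0 a p := by
  have az : Commute a D.z := h.az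
  have ae : Commute a D.e := h.ae
  have af : Commute a D.f := h.af
  have zf : Commute D.z D.f := D.c_zf
  have ze : Commute D.z D.e := D.c_ze
  have m1 : a ∈ D.Z0 a p := subset_closure (by simp)
  have m2 : D.z ∈ D.Z0 a p := subset_closure (by simp)
  have sq : D.x * a * D.x⁻¹ * (D.x * a * D.x⁻¹) = D.z := by rw [conj_mul, h.a2, xz]
  rcases h.xa with e | e
  · refine ⟨?_, ?_, ?_, ?_, sq, ?_⟩ <;> rw [e]
    exacts [az, ae, af, e, m1]
  · refine ⟨?_, ?_, ?_, ?_, sq, ?_⟩ <;> rw [e]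
    exacts [az.mul_left rfl, ae.mul_left ze, af.mul_left zf, by rw [cjm, e, xz, mul_assoc, D.zz, mul_one],
      mul_mem m1 m2]

theorem xi_a : D.x⁻¹ * a * D.x⁻¹⁻¹ = D.x * a * D.x⁻¹ := back (xa' h).2.2.2.1

theorem Z0_le : D.Z0 a p ≤ D.Bh a b p := (closure_le _).2 (by
  rintro _ (rfl | rfl | rfl | rfl)
  exacts [τ_Bh h, z_Bh h, a_Bh, p_Bh])

omit h in
theorem Z0_le_B0 : D.Z0 a p ≤ B0 D a p := (closure_le _).2 (by
  rintro _ (rfl | rfl | rfl | rfl)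
  exacts [τ_B0, z_B0, a_B0, p_B0])

omit h in
theorem Z1_le_Z0 : D.Z1 ≤ D.Z0 a p := closure_mono (by rintro _ (rfl | rfl) <;> simp)

theorem x_Z0 : D.x ∈ normalizer (D.Z0 a p : Set G) := by
  have m1 : a ∈ D.Z0 a p := subset_closure (by simp)
  have m2 : D.z ∈ D.Z0 a p := subset_closure (by simp)
  have m3 : D.τ ∈ D.Z0 a p := subset_closure (by simp)
  have m4 : p ∈ D.Z0 a p := subset_closure (by simp)
  refine norm_of rfl ?_
  rintro _ (rfl | rfl | rfl | rfl)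
  · rw [D.xτ h.τ1]; exact mul_mem m3 m2
  · rw [xz]; exact m2
  · exact (xa' h).2.2.2.2.2
  · exact (mul_mem_cancel_right (inv_mem (mul_mem m4 m1))).1 (Z1_le_Z0 h.xp)

theorem f_B0 : ∀ k ∈ B0 D a p, D.f * k * D.f⁻¹ ∈ B0 D a p := fun k hk =>
  conj_mem_of_mem_normalizer (norm_of (K := B0 D a p) rfl (by
    rintro _ (rfl | rfl | rfl | rfl | rfl | rfl)
    · rw [fix D.c_tf.symm]; exact t_B0
    · rw [fix D.c_τf.symm]; exact τ_B0
    · rw [f_z]; exact z_B0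
    · rw [f_e]; exact mul_mem e_B0 z_B0
    · rw [fix h.af.symm]; exact a_B0
    · rw [fix h.pf.symm]; exact p_B0)) hk

theorem X0_eq : X0 D a p = B0 D a p ⊔ zpowers D.f := by
  refine le_antisymm ((closure_le _).2 ?_) (sup_le ((closure_le _).2 ?_) (zpowers_le.2 f_X))
  · rintro _ (rfl | rfl | rfl | rfl | rfl | rfl)
    exacts [mem_sup_left t_B0, mem_sup_left τ_B0, mem_sup_left e_B0, mem_sup_right (mem_zpowers _),
      mem_sup_left a_B0, mem_sup_left p_B0]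
  · rintro _ (rfl | rfl | rfl | rfl | rfl | rfl)
    exacts [t_X, τ_X, z_X h, e_X, a_X, p_X]

omit h in
theorem g0_cj (u : G) : g0 D b * u * (g0 D b)⁻¹ = D.x⁻¹ * (b⁻¹ * u * b⁻¹⁻¹) * D.x⁻¹⁻¹ := cj2 _ _ _

theorem g0_Bh {u : G} (hu : u ∈ D.Bh a b p) : g0 D b * u * (g0 D b)⁻¹ = D.x⁻¹ * u * D.x⁻¹⁻¹ := by
  rw [g0_cj, bi_fix h hu]

theorem g0_a : g0 D b * a * (g0 D b)⁻¹ = D.x * a * D.x⁻¹ := by rw [g0_Bh h a_Bh, xi_a h]

theorem g0_f : g0 D b * D.f * (g0 D b)⁻¹ = D.e * (D.x * a * D.x⁻¹) * (D.f * D.z) := by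
  rw [g0_cj, bi_f h, cjm, cjm, xi_f, xi_a h, xi_e]

theorem not_dvd : ¬ 2 ^ 11 ∣ Nat.card G := by
  obtain ⟨P, hP, l⟩ := exists_isSylowIn_ge h.two_B (h.B_cent.trans (centralizer_le_normalizer _))
  have c := card_le_eight_mul hP.pgroup (fun v hv => D.A_sq (D.A0_le_A hv)) h.card_A0 hP.le
  rw [h.sylB.eq_of_le hP.pgroup.to_inf_left (le_inf l h.B_cent) inf_le_right, h.card_B] at c
  exact not_dvd_of_syl (k := 10) (syl_top_of_norm hP fun g => Fr.F2.norm_le h h.sylB hP l) c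

theorem B0_le : B0 D a p ≤ D.B a b p := by
  refine (closure_le _).2 ?_
  rintro _ (rfl | rfl | rfl | rfl | rfl | rfl)
  exacts [t_B, Bh_le (τ_Bh h), Bh_le (z_Bh h), Bh_le (e_Bh h), Bh_le a_Bh, Bh_le p_Bh]

theorem B0_le_X0 : B0 D a p ≤ X0 D a p := by
  rw [X0_eq h]; exact le_sup_left

theorem two_X0 : IsPGroup 2 (X0 D a p) := by
  rw [X0_eq h]
  exact two_sup_two (h.two_B.to_le (B0_le h)) (f_B0 h) (D.ff ▸ one_mem _)

theorem X0_cases {u : G} (hu : u ∈ X0 D a p) : u ∈ B0 D a p ∨ D.f * u ∈ B0 D a p := by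
  rw [X0_eq h] at hu
  exact (mem_sup_two (f_B0 h) (D.ff ▸ one_mem _)).1 hu

theorem mem_B0 {u : G} (hu : u ∈ X0 D a p) (he : u * D.e = D.e * u) : u ∈ B0 D a p := by
  refine (X0_cases h hu).resolve_right fun k => D.z1 ?_
  have e := h.B_cent (B0_le h k) _ (e_A0 D)
  rw [mul_assoc D.f u, he, ← mul_assoc, ← mul_assoc, mul_left_inj, D.ef, D.fe] at e
  exact (by simpa using e : D.z = 1)

theorem x_norm : D.x ∈ normalizer (X0 D a p : Set G) := by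
  refine norm_of rfl ?_
  rintro _ (rfl | rfl | rfl | rfl | rfl | rfl)
  · rw [xt]; exact t_X
  · rw [D.xτ h.τ1]; exact mul_mem τ_X (z_X h)
  · rw [D.xe]; exact f_X
  · rw [D.xf]; exact mul_mem e_X (z_X h)
  · exact B0_le_X0 h (Z0_le_B0 (xa' h).2.2.2.2.2)
  · exact B0_le_X0 h (Z0_le_B0 (conj_mem_of_mem_normalizer (x_Z0 h) (subset_closure (by simp))))

theorem b_norm : b ∈ normalizer (X0 D a p : Set G) := by
  refine norm_of rfl ?_
  rintro _ (rfl | rfl | rfl | rfl | rfl | rfl)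
  · rw [bt h]; exact mul_mem t_X e_X
  · rw [b_fix h (τ_Bh h)]; exact τ_X
  · rw [b_fix h (e_Bh h)]; exact e_X
  · rw [bf h]; exact mul_mem (mul_mem f_X (inv_mem a_X)) e_X
  · rw [b_fix h a_Bh]; exact a_X
  · rw [b_fix h p_Bh]; exact p_X

theorem g0_t : g0 D b * D.t * (g0 D b)⁻¹ = D.t * D.f * D.z := by
  rw [g0_cj, bi_t h, cjm, xi_t, xi_e, mul_assoc]

theorem g0_z : g0 D b * D.z * (g0 D b)⁻¹ = D.z := by
  rw [g0_Bh h (z_Bh h), xi_z]

theorem g0_e : g0 D b * D.e * (g0 D b)⁻¹ = D.f * D.z := by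
  rw [g0_Bh h (e_Bh h), xi_e]

theorem g0_y : g0 D b * D.y * (g0 D b)⁻¹ = D.x * a * D.x⁻¹ * (D.e * D.z) := by
  obtain ⟨c1, c2, c3, -, -, -⟩ := xa' h
  have zf : Commute D.z D.f := D.c_zf
  have ze : Commute D.z D.e := D.c_ze
  rw [← D.ef, cjm, g0_e h, g0_f h, ← c2.eq, ← D.fef]
  generalize D.x * a * D.x⁻¹ = a' at c1 c2 c3
  simp only [mul_assoc]
  rw [← c1.left_comm, ← c3.left_comm, ze.left_comm, zf.left_comm, D.zz, mul_one]

theorem g0_ya : g0 D b * (D.y * a) * (g0 D b)⁻¹ = D.e := by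
  obtain ⟨c1, c2, -, -, c5, -⟩ := xa' h
  rw [cjm, g0_y h, g0_a h]
  generalize D.x * a * D.x⁻¹ = a' at c1 c2 c5
  rw [mul_assoc, ← (c2.mul_right c1).eq, ← mul_assoc, c5, ← mul_assoc, D.c_ze, mul_assoc, D.zz, mul_one]

theorem g0_y1 (hx : D.x * a * D.x⁻¹ = a * D.z) : g0 D b * D.y * (g0 D b)⁻¹ = a * D.e := by
  have ze : Commute D.z D.e := D.c_ze
  rw [g0_y h, hx, mul_assoc, ze.left_comm, D.zz, mul_one]

theorem g0_y0 (hx : D.x * a * D.x⁻¹ = a) : g0 D b * D.y * (g0 D b)⁻¹ = a * D.e * D.z := by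
  rw [g0_y h, hx, mul_assoc]


/-- the action of `x' = g₀ x g₀⁻¹` on `X₀` -/
theorem act {x' : G} (hx' : x' = g0 D b * D.x * (g0 D b)⁻¹) :
    x' * D.z = D.z * x' ∧ x' * D.τ * x'⁻¹ = D.τ * D.z ∧ x' * a * x'⁻¹ = D.x * a * D.x⁻¹ ∧
      (∃ s ∈ D.Z1, x' * p * x'⁻¹ = p * a * s) ∧
      (D.x * a * D.x⁻¹ = a * D.z → x' * D.e * x'⁻¹ = D.e * D.z ∧ x' * D.t * x'⁻¹ = D.t * a * D.e) ∧
      (D.x * a * D.x⁻¹ = a → x' * D.e * x'⁻¹ = D.e ∧ x' * D.t * x'⁻¹ = D.t * a * D.e * D.z) := by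
  have key : ∀ u, x' * (g0 D b * u * (g0 D b)⁻¹) * x'⁻¹ = g0 D b * (D.x * u * D.x⁻¹) * (g0 D b)⁻¹ := fun u => by
    rw [hx']; group
  have k0 : ∀ u ∈ D.Z0 a p, x' * u * x'⁻¹ = D.x * u * D.x⁻¹ := fun u hu => by
    have h1 := conj_mem_of_mem_normalizer (x_Z0 h) hu
    have h2 := conj_mem_of_mem_normalizer (x_Z0 h) h1
    have := key (D.x * u * D.x⁻¹)
    rwa [g0_Bh h (Z0_le h h1), g0_Bh h (Z0_le h h2), back rfl, back rfl] at this
  obtain ⟨c1, c2, c3, -, -, -⟩ := xa' h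
  have zf : Commute D.z D.f := D.c_zf
  have ze : Commute D.z D.e := D.c_ze
  have ke : x' * D.e * x'⁻¹ = g0 D b * (D.y * (D.x * a * D.x⁻¹)) * (g0 D b)⁻¹ := by
    rw [← g0_ya h, key, cjm D.x, fix D.c_xy]
  have kt : x' * D.t * x'⁻¹ = D.t * (D.x * a * D.x⁻¹) * (D.e * D.z) := by
    have := key (D.t * D.e)
    rw [cjm (g0 D b), cjm D.x, xt, D.xe, cjm (g0 D b), g0_t h, g0_e h, g0_f h, ← c2.eq] at this
    rw [← D.fef]
    generalize D.x * a * D.x⁻¹ = a' at c1 c2 c3 this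
    simp only [mul_assoc] at this ⊢
    rwa [← c1.left_comm, ← c3.left_comm, ze.left_comm, zf.left_comm, zf.left_comm, D.zz, mul_one,
      ← mul_assoc D.z D.z, D.zz, one_mul, ← mul_assoc D.f D.f, D.ff, one_mul] at this
  refine ⟨com ((k0 _ (subset_closure (by simp))).trans xz), (k0 _ (subset_closure (by simp))).trans (D.xτ h.τ1),
    k0 _ (subset_closure (by simp)), ⟨_, h.xp, ?_⟩, fun e => ⟨?_, ?_⟩, fun e => ⟨?_, ?_⟩⟩
  · rw [k0 _ (subset_closure (by simp)), h.comm (mul_mem p_Bh a_Bh) (Z0_le h (Z1_le_Z0 h.xp)), inv_mul_cancel_right]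
  · rw [ke, e, ← mul_assoc D.y, cjm, g0_ya h, g0_z h]
  · rw [kt, e]; simp only [mul_assoc]; rw [ze.left_comm, D.zz, mul_one]
  · rw [ke, e, g0_ya h]
  · rw [kt, e, mul_assoc _ D.e]


end Xc

end CfsgLib.L3F
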