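import Mathlib
import Cfsg.Agent.Lib.L3F.Defs
import Cfsg.Agent.Lib.L3F.Xc

/-! Standard `L₃(3)`, the case `PSp₆(3)`, package A1: a conjugate of `x` normalizing `B`.  See `plans/L3F.md`. -/

set_option autoImplicit false
set_option linter.unusedSectionVars false

namespace CfsgLib.L3F

open Subgroup CfsgLib.Tech CfsgLib.L33 CfsgLib.PComp

variable {G : Type*} [Group G] [Finite G]

namespace A1

open Fr Fr.Nrm

/-- `C(A₀) ∩ N(X₀)` -/
def NS (D : Fr G) (a p : G) : Subgroup G := centralizer (D.A0 : Set G) ⊓ normalizer (X0 D a p : Set G)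

variable {D : Fr G} {a b p θ : G} (h : D.Four a b p θ)
include h

theorem nB0 {g u : G} (hg : g ∈ NS D a p) (hu : u ∈ B0 D a p) : g * u * g⁻¹ ∈ B0 D a p := by
  refine Xc.mem_B0 h (conj_mem_of_mem_normalizer hg.2 (Xc.B0_le_X0 h hu)) ?_
  have := syl_comm_conj (g := g) (h.B_cent (Xc.B0_le h hu) _ (e_A0 D)).symm
  rwa [fix (hg.1 _ (e_A0 D)).symm] at this

theorem st1 {g u : G} (hg : g ∈ NS D a p) (hu : u ∈ B0 D a p) (hu' : u ∈ D.Bh a b p) :
    u⁻¹ * (g * u * g⁻¹) ∈ D.A0 := by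
  have e : g * u * g⁻¹ * (g * u * g⁻¹) = u * u := by rw [conj_mul, fix (hg.1 _ (h.sq_mem hu')).symm]
  by_cases k : u * u = 1
  · rw [fix (hg.1 _ (h.mem_A0 hu' k)).symm, inv_mul_cancel]; exact one_mem _
  have m := h.mem_Bh_of (Xc.B0_le h (nB0 h hg hu)) (e ▸ k)
  refine h.mem_A0 (mul_mem (inv_mem hu') m) ?_
  rw [(show Commute _ _ from h.comm (inv_mem hu') m).symm.mul_mul_mul_comm, e]
  group

theorem st2 {g u : G} (hg : g ∈ NS D a p) (hu : u ∈ B0 D a p) : u⁻¹ * (g * u * g⁻¹) ∈ D.Bh a b p := by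
  by_cases k : u ∈ D.Bh a b p
  · exact h.A0_le (st1 h hg hu k)
  have m1 := (h.mem_B.1 (Xc.B0_le h hu)).resolve_left k
  have m2 := (h.mem_B.1 (Xc.B0_le h (nB0 h hg hu))).resolve_left fun k' => k (by
    have := mul_mem k' (h.A0_le (st1 h (inv_mem hg) (nB0 h hg hu) k'))
    rwa [mul_inv_cancel_left, show g⁻¹ * (g * u * g⁻¹) * g⁻¹⁻¹ = u by group] at this)
  have := mul_mem (inv_mem m1) m2
  rwa [show (D.t * u)⁻¹ * (D.t * (g * u * g⁻¹)) = u⁻¹ * (g * u * g⁻¹) by group] at this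

theorem st3 {g u : G} (hg : g ∈ NS D a p) (hu : u ∈ B0 D a p) : u * g ^ 4 = g ^ 4 * u := by
  obtain ⟨w, hw⟩ : ∃ w, w = u⁻¹ * (g * u * g⁻¹) := ⟨_, rfl⟩
  have w1 : w ∈ D.Bh a b p := hw ▸ st2 h hg hu
  have w2 : w ∈ B0 D a p := hw ▸ mul_mem (inv_mem hu) (nB0 h hg hu)
  obtain ⟨c, hc⟩ : ∃ c, c = w * w * (w⁻¹ * (g * w * g⁻¹)) := ⟨_, rfl⟩
  have c1 : c ∈ D.A0 := hc ▸ mul_mem (h.sq_mem w1) (st1 h hg w2 w1)
  have e : g * g * u * (g * g)⁻¹ = u * c := by rw [hc, hw]; group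
  have c2 : g * g * c * (g * g)⁻¹ = c := fix ((mul_mem hg.1 hg.1) _ c1).symm
  symm
  rw [← mul_inv_eq_iff_eq_mul, show g ^ 4 * u * (g ^ 4)⁻¹ = g * g * (g * g * u * (g * g)⁻¹) * (g * g)⁻¹ by
    simp only [pow_succ, pow_zero, one_mul]; group, e, cjm, e, c2, mul_assoc, D.A_sq (D.A0_le_A c1), mul_one]

theorem sylN : IsSylowIn 2 (D.B a b p) (NS D a p) := by
  have : Fact (Nat.Prime 2) := ⟨Nat.prime_two⟩
  refine h.sylB.of_le (le_inf h.B_cent ((closure_le _).2 fun x hx => ?_)) inf_le_left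
  simp only [Set.mem_insert_iff, Set.mem_singleton_iff] at hx
  have k : ∀ u ∈ ({D.t, D.τ, D.z, D.e, a, p} : Set G), u ∈ normalizer (X0 D a p : Set G) := fun u hu =>
    le_normalizer (Xc.B0_le_X0 h (subset_closure hu))
  rcases hx with rfl | rfl | rfl | rfl | rfl | rfl | rfl
  exacts [k _ (by simp), k _ (by simp), k _ (by simp), k _ (by simp), k _ (by simp), Xc.b_norm h, k _ (by simp)]

theorem A_le : D.A ≤ B0 D a p := closure_mono (by intro; simp; tauto)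

theorem g0_norm : g0 D b ∈ normalizer (X0 D a p : Set G) :=
  mul_mem (inv_mem (Xc.x_norm h)) (inv_mem (Xc.b_norm h))

theorem x_norm : g0 D b * D.x * (g0 D b)⁻¹ ∈ normalizer (NS D a p : Set G) := by
  obtain ⟨k1, k2, -, -, k3, k4⟩ := Xc.act h rfl
  have n1 : g0 D b * D.x * (g0 D b)⁻¹ ∈ normalizer (X0 D a p : Set G) :=
    mul_mem (mul_mem (g0_norm h) (Xc.x_norm h)) (inv_mem (g0_norm h))
  generalize g0 D b * D.x * (g0 D b)⁻¹ = x' at *
  have n2 : x' ∈ normalizer (D.A0 : Set G) := norm_of rfl fun x hx => by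
    simp only [Set.mem_insert_iff, Set.mem_singleton_iff] at hx
    rcases hx with rfl | rfl | rfl
    · rw [k2]; exact mul_mem (τ_A0 D) (z_A0 D)
    · rw [fix k1]; exact z_A0 D
    · rcases h.xa with e | e
      · rw [(k4 e).1]; exact e_A0 D
      · rw [(k3 e).1]; exact mul_mem (e_A0 D) (z_A0 D)
  refine mem_normalizer_of_forall fun y hy => ⟨fun s hs => ?_, Subgroup.mul_mem _ (Subgroup.mul_mem _ n1 hy.2) (Subgroup.inv_mem _ n1)⟩
  simpa [mul_assoc] using congrArg (fun y => x' * y * x'⁻¹) (hy.1 _ (conj_mem_of_mem_normalizer' n2 hs))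

theorem odd_X0 {o : G} (ho : Odd (orderOf o)) (h1 : o ∈ normalizer (X0 D a p : Set G))
    (h2 : o ∈ centralizer (B0 D a p : Set G)) {u : G} (hu : u ∈ X0 D a p) : u * o = o * u := by
  have hf : D.f * o = o * D.f := by
    rcases Xc.X0_cases h (conj_mem_of_mem_normalizer h1 (show D.f ∈ X0 D a p from subset_closure (by simp)))
      with k | k
    · have := h2 _ k
      rw [inv_mul_cancel_right, ← mul_assoc, ← mul_assoc, eq_mul_inv_iff_mul_eq, mul_assoc, mul_assoc,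
        mul_right_inj] at this
      exact this
    · obtain ⟨n, hn⟩ := isPGroup_iff_mem.1 (Xc.two_X0 h) _ (Xc.B0_le_X0 h k)
      have e : o * D.f * o⁻¹ = D.f * (D.f * (o * D.f * o⁻¹)) := by rw [← mul_assoc D.f, D.ff, one_mul]
      have := odd_cent ho e (h2 _ k).symm hn
      rw [this, mul_one] at e
      exact (mul_inv_eq_iff_eq_mul.1 e).symm
  rcases Xc.X0_cases h hu with k | k
  · exact h2 _ k
  · have := h2 _ k
    rwa [mul_assoc, ← mul_assoc o, ← hf, mul_assoc, mul_right_inj] at this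

end A1

open A1 in
theorem exists_g1 {D : Fr G} {a b p θ : G} (h : D.Four a b p θ) :
    ∃ g, (∀ u ∈ X0 D a p, g * u * g⁻¹ = g0 D b * u * (g0 D b)⁻¹) ∧
      g * D.x * g⁻¹ ∈ normalizer (D.B a b p : Set G) := by
  have : Fact (Nat.Prime 2) := ⟨Nat.prime_two⟩
  obtain ⟨P, hP, l⟩ := exists_isSylowIn_ge (p := 2) (isPGroup_zpowers_of_pow (k := 3)
    (show (g0 D b * D.x * (g0 D b)⁻¹) ^ 2 ^ 3 = 1 by rw [conj_pow, show D.x ^ 2 ^ 3 = 1 from D.rel.x8]; group))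
    (zpowers_le.2 (x_norm h))
  have s := hP.inf_of_le_normalizer le_rfl
  rw [inf_eq_right.2 le_normalizer] at s
  obtain ⟨n, hn, e⟩ := (sylN h).exists_cj_eq s
  obtain ⟨u, hu, c⟩ := syl_cover (sylN h) (C := NS D a p ⊓ centralizer (B0 D a p : Set G)) inf_le_left
    (fun g hg c hc => ⟨Subgroup.mul_mem _ (Subgroup.mul_mem _ hg hc.1) (Subgroup.inv_mem _ hg), fun s hs => by
      simpa [mul_assoc] using congrArg (fun y => g * y * g⁻¹) (hc.2 _ (nB0 h (inv_mem hg) hs))⟩)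
    (fun g hg => ⟨pow_mem hg 4, fun s hs => st3 h hg hs⟩) (inv_mem hn)
  obtain ⟨a₀, ha, o, -, ho, od, e'⟩ := D.cent_A (c := u⁻¹ * n⁻¹) fun v hv => (c.2 v (A_le h hv)).symm
  have oc := zpowers_le.2 c ho
  have k := fun v hv => odd_X0 h od oc.1.2 oc.2 (u := v) hv
  refine ⟨o * g0 D b, fun v hv => ?_, ?_⟩
  · have := k _ (conj_mem_of_mem_normalizer (g0_norm h) hv)
    rw [show o * g0 D b * v * (o * g0 D b)⁻¹ = o * (g0 D b * v * (g0 D b)⁻¹) * o⁻¹ by group, ← this,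
      mul_inv_cancel_right]
  have x1 : g0 D b * D.x * (g0 D b)⁻¹ ∈ normalizer (cj n (D.B a b p) : Set G) := by
    rw [e]
    exact mem_normalizer_of_forall fun y hy => ⟨P.mul_mem (P.mul_mem (l (mem_zpowers _)) hy.1) (P.inv_mem (l (mem_zpowers _))),
      conj_mem_of_mem_normalizer (x_norm h) hy.2⟩
  rw [← cj_normalizer, mem_cj] at x1
  have m : u * a₀ ∈ normalizer (D.B a b p : Set G) := le_normalizer (mul_mem hu (Xc.B0_le h (A_le h ha)))
  have := mul_mem (mul_mem (inv_mem m) x1) m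
  rwa [show n = (u * (u⁻¹ * n⁻¹))⁻¹ by group, e', show (u * a₀)⁻¹ * ((u * (a₀ * o))⁻¹⁻¹ * (g0 D b * D.x * (g0 D b)⁻¹) *
    (u * (a₀ * o))⁻¹) * (u * a₀) = o * g0 D b * D.x * (o * g0 D b)⁻¹ by group] at this

end CfsgLib.L3F
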