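import Mathlib
import Cfsg.Agent.Lib.L3F.Defs
import Cfsg.Agent.Lib.L3F.A1

/-! Standard `L₃(3)`, the case `PSp₆(3)`, package A2: the element `y`.  See `plans/L3F.md`. -/

set_option autoImplicit false
set_option linter.unusedSectionVars false

namespace CfsgLib.L3F

open Subgroup CfsgLib.Tech CfsgLib.L33 CfsgLib.PComp

variable {G : Type*} [Group G] [Finite G]

namespace A2

variable {D : Fr G} {a b p θ : G}

theorem cjm (g u v : G) : g * (u * v) * g⁻¹ = g * u * g⁻¹ * (g * v * g⁻¹) := by group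

theorem mul_cj (g k u : G) : g * k * u * (g * k)⁻¹ = g * (k * u * k⁻¹) * g⁻¹ := by group

theorem cj_of {g u : G} (h : g * u = u * g) : g * u * g⁻¹ = u := by rw [h, mul_inv_cancel_right]

theorem p_inv (h : D.Four a b p θ) : p⁻¹ = p * D.τ :=
  inv_eq_of_mul_eq_one_right (by rw [← mul_assoc, h.p2, D.ττ])

theorem a_inv (h : D.Four a b p θ) : a⁻¹ = a * D.z :=
  inv_eq_of_mul_eq_one_right (by rw [← mul_assoc, h.a2, D.zz])

theorem B_le (p : G) : D.B a b p⁻¹ ≤ D.B a b p := by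
  refine (closure_le _).2 ?_
  simp only [Set.insert_subset_iff, Set.singleton_subset_iff, SetLike.mem_coe, inv_mem_iff]
  refine ⟨?_, ?_, ?_, ?_, ?_, ?_, ?_⟩ <;> exact subset_closure (by simp)

theorem f_norm (h : D.Four a b p θ) : D.f ∈ normalizer (D.B a b p : Set G) := by
  have m : ∀ u ∈ ({D.t, D.τ, D.z, D.e, a, b, p} : Set G), u ∈ D.B a b p := fun u hu => subset_closure hu
  have fi : D.f⁻¹ = D.f := inv_eq_of_mul_eq_one_right D.ff
  refine mem_normalizer_fintype fun u hu => ?_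
  induction hu using closure_induction with
  | one => simp
  | mul u v _ _ h1 h2 => rw [cjm]; exact mul_mem h1 h2
  | inv u _ h1 => rw [show D.f * u⁻¹ * D.f⁻¹ = (D.f * u * D.f⁻¹)⁻¹ by group]; exact inv_mem h1
  | mem u hu =>
    have hu' := m u hu
    rcases hu with rfl | rfl | rfl | rfl | rfl | rfl | rfl
    · rwa [cj_of D.c_tf.symm]
    · rwa [cj_of D.c_τf.symm]
    · rwa [cj_of D.c_zf.symm]
    · rw [fi, D.fef]; exact mul_mem hu' (m _ (by simp))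
    · rwa [cj_of h.af.symm]
    · have := h.toTr.fb
      rw [← h.hb] at this
      rw [fi, this]; exact inv_mem (mul_mem (m _ (by simp)) hu')
    · rwa [cj_of h.pf.symm]

end A2

open A2

theorem four_inv {D : Fr G} {a b p θ : G} (h : D.Four a b p θ) : D.Four a b p⁻¹ θ ∧ D.B a b p⁻¹ = D.B a b p := by
  have c : ∀ {u : G}, p * u = u * p → p⁻¹ * u = u * p⁻¹ := fun e => (Commute.inv_left e).eq
  have pt : p⁻¹ * D.t * p⁻¹⁻¹ = D.t * D.τ := by
    rw [p_inv h, mul_cj, cj_of D.c_tτ.symm, h.pt]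
  have p2 : p⁻¹ * p⁻¹ = D.τ := by rw [← mul_inv_rev, h.p2, inv_eq_of_mul_eq_one_right D.ττ]
  have xp : D.x * p⁻¹ * D.x⁻¹ * (p⁻¹ * a)⁻¹ ∈ D.Z1 := by
    have e : D.x * p⁻¹ * D.x⁻¹ * (p⁻¹ * a)⁻¹ = D.x * p * D.x⁻¹ * (p * a)⁻¹ * D.z := by
      have c1 : Commute D.z (p * a)⁻¹ := (Commute.mul_right h.pz.symm h.az.symm).inv_right
      rw [p_inv h, cjm, D.xτ h.τ1, mul_assoc p D.τ, ← h.aτ, ← mul_assoc p, mul_inv_rev (p * a),
        inv_eq_of_mul_eq_one_right D.ττ, mul_assoc _ _ D.z, ← c1.eq, D.c_τz, mul_assoc, mul_assoc D.z,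
        ← mul_assoc D.τ, D.ττ, one_mul]
    rw [e]
    exact mul_mem h.xp (subset_closure (by simp))
  refine ⟨{ h with
    pz := c h.pz, pe := c h.pe, pτ := c h.pτ, pf := c h.pf, pa := c h.pa, pθ := c h.pθ,
    hp := .inr ⟨h.τ1, pt, xp, .inr ⟨h.a2, p2⟩⟩, pt := pt, xp := xp, p2 := p2 }, le_antisymm (B_le p) ?_⟩
  simpa using B_le (D := D) (a := a) (b := b) p⁻¹

theorem A2.fin {D : Fr G} {a b p θ y s : G} (h : D.Four a b p θ) (nB : y ∈ normalizer (D.B a b p : Set G))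
    (yz : y * D.z = D.z * y) (ye : y * D.e = D.e * y) (yτ : y * D.τ * y⁻¹ = D.τ * D.z) (ya : y * a * y⁻¹ = a⁻¹)
    (yt : y * D.t * y⁻¹ = D.t * a⁻¹ * D.e) (hs : s ∈ D.Z1) (yp : y * p * y⁻¹ = p * a * s) (yy : y * y = D.z)
    (fy : D.f * y * D.f⁻¹ = D.e * a * y) : ∃ p', D.Four a b p' θ ∧ Yr D a b p' y := by
  have k : a * s * a⁻¹ * (y * s * y⁻¹) = 1 := by
    have : y * y * p * (y * y)⁻¹ = p := by rw [yy, cj_of h.pz.symm]
    rw [mul_cj, yp, cjm, cjm, yp, ya] at this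
    refine mul_left_cancel (a := p) ?_
    rw [mul_one]
    refine Eq.trans ?_ this
    group
  rcases D.mem_Z1.1 hs with rfl | rfl | rfl | rfl
  · exact ⟨p, h, nB, yz, ye, yτ, ya, yt, by rw [yp, mul_one], yy, fy⟩
  · refine ⟨p⁻¹, (four_inv h).1, (four_inv h).2 ▸ nB, yz, ye, yτ, ya, yt, ?_, yy, fy⟩
    rw [show y * p⁻¹ * y⁻¹ = (y * p * y⁻¹)⁻¹ by group, yp, mul_assoc, ← a_inv h, mul_inv_rev, inv_inv]
    exact (Commute.inv_left h.pa).eq.symm
  · rw [cj_of h.aτ, yτ, ← mul_assoc, D.ττ, one_mul] at k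
    exact (D.z1 k).elim
  · rw [cjm, cjm, cj_of h.aτ, cj_of h.az, yτ, cj_of yz, mul_assoc D.τ D.z D.z, D.zz, mul_one, D.c_τz,
      mul_assoc, D.ττ, mul_one] at k
    exact (D.z1 k).elim

theorem exists_y {D : Fr G} {a b p θ : G} (h : D.Four a b p θ) : ∃ p' y g, D.Four a b p' θ ∧ Yr D a b p' y ∧
    ((D.x * a * D.x⁻¹ = a * D.z ∧ g * D.z * g⁻¹ = D.z ∧ g * (D.y * a) * g⁻¹ = D.e ∧ g * D.y * g⁻¹ = a * D.e ∧
      g * D.i * g⁻¹ = y * a⁻¹) ∨ y = g * D.x * g⁻¹ * D.t * D.e) := by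
  obtain ⟨g, hg, nB⟩ := exists_g1 h
  have m : ∀ u ∈ ({D.t, D.τ, D.e, D.f, a, p} : Set G), u ∈ X0 D a p := fun u hu => subset_closure hu
  have mB : ∀ u ∈ ({D.t, D.τ, D.z, D.e, a, b, p} : Set G), u ∈ normalizer (D.B a b p : Set G) :=
    fun u hu => le_normalizer (subset_closure hu)
  have mz : D.z ∈ X0 D a p := h.a2 ▸ mul_mem (m _ (by simp)) (m _ (by simp))
  have my : D.y ∈ X0 D a p := D.ef ▸ mul_mem (m _ (by simp)) (m _ (by simp))
  have n0 : g0 D b ∈ normalizer (X0 D a p : Set G) := mul_mem (inv_mem (Xc.x_norm h)) (inv_mem (Xc.b_norm h))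
  have ac : ∀ u ∈ X0 D a p, g * D.x * g⁻¹ * u * (g * D.x * g⁻¹)⁻¹ =
      g0 D b * D.x * (g0 D b)⁻¹ * u * (g0 D b * D.x * (g0 D b)⁻¹)⁻¹ := fun u hu => by
    have h1 : (g0 D b)⁻¹ * u * (g0 D b)⁻¹⁻¹ ∈ X0 D a p := (mem_normalizer_iff.1 (inv_mem n0) u).1 hu
    have h2 := hg _ h1
    have h3 := hg _ ((mem_normalizer_iff.1 (Xc.x_norm h) _).1 h1)
    have h4 : g⁻¹ * u * g = (g0 D b)⁻¹ * u * (g0 D b)⁻¹⁻¹ := by
      rw [show u = g * ((g0 D b)⁻¹ * u * (g0 D b)⁻¹⁻¹) * g⁻¹ by rw [h2]; group]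
      conv_rhs => rw [h2]
      group
    calc _ = g * (D.x * (g⁻¹ * u * g) * D.x⁻¹) * g⁻¹ := by group
      _ = _ := by rw [h4, h3]; group
  obtain ⟨-, xτ, xa, ⟨s, hs, xp⟩, h1, h0⟩ := Xc.act h rfl
  rw [← ac _ (m _ (by simp))] at xτ xa xp
  rw [← ac _ (m D.e (by simp)), ← ac _ (m D.t (by simp))] at h1 h0
  have gz : g * D.z * g⁻¹ = D.z := (hg _ mz).trans (Xc.g0_z h)
  have ge : g * D.e * g⁻¹ = D.f * D.z := (hg _ (m _ (by simp))).trans (Xc.g0_e h)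
  have xz : g * D.x * g⁻¹ * D.z = D.z * (g * D.x * g⁻¹) := by rw [← gz, ← cjm, ← D.c_zx, cjm]
  have fz : ∀ u, Commute D.z u → D.f * u * D.f⁻¹ = g * D.e * g⁻¹ * u * (g * D.e * g⁻¹)⁻¹ := fun u hu => by
    rw [ge, mul_cj, cj_of hu.eq]
  have ei : D.e⁻¹ = D.e := inv_eq_of_mul_eq_one_right D.ee
  have fi : D.f⁻¹ = D.f := inv_eq_of_mul_eq_one_right D.ff
  have ti : D.t⁻¹ = D.t := inv_eq_of_mul_eq_one_right D.tt
  have ex : D.e * D.x * D.e⁻¹ = D.y * D.x := by rw [ei, D.rel.ex, Fr.y, ← pow_succ]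
  rcases h.xa with hx | hx
  · obtain ⟨xe, xt⟩ := h0 hx
    have xx : g * D.x * g⁻¹ * (g * D.x * g⁻¹) = a * D.e * D.z := by
      rw [← cjm, D.xx, hg _ my, Xc.g0_y0 h hx]
    have fx : D.f * (g * D.x * g⁻¹) * D.f⁻¹ = a * D.e * D.z * (g * D.x * g⁻¹) := by
      rw [fz _ xz.symm, ← xx, ← cjm g D.x, ← cjm g (D.x * D.x), D.xx, ← ex]; group
    rw [hx] at xa
    generalize hxg : g * D.x * g⁻¹ = x at nB xτ xa xp xe xt xx fx xz
    have ta := h.t_Bh (u := a) (subset_closure (by simp))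
    have tp := h.t_Bh (u := p) (subset_closure (by simp))
    obtain ⟨p', h', hy⟩ := A2.fin (y := x * D.t * D.e) (s := D.z * s⁻¹ * D.τ) h
      (mul_mem (mul_mem nB (mB _ (by simp))) (mB _ (by simp)))
      (Commute.mul_left (Commute.mul_left xz D.c_tz) D.c_ze.symm)
      (Commute.mul_left (Commute.mul_left (mul_inv_eq_iff_eq_mul.1 xe) D.c_te) rfl)
      (by rw [mul_cj, mul_cj, cj_of D.c_τe.symm, cj_of D.c_tτ, xτ])
      (by rw [mul_cj, mul_cj, cj_of h.ae.symm, ti, ta, show x * a⁻¹ * x⁻¹ = (x * a * x⁻¹)⁻¹ by group, xa])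
      (by rw [mul_cj, mul_cj, cj_of D.c_te.symm, cj_of rfl, xt, a_inv h, mul_assoc, ← D.c_ze]; group)
      (mul_mem (mul_mem (subset_closure (by simp)) (inv_mem hs)) (subset_closure (by simp)))
      (by
        have cs : ∀ u, u * D.τ = D.τ * u → u * D.z = D.z * u → Commute u s := fun u h1 h2 => by
          rcases D.mem_Z1.1 hs with rfl | rfl | rfl | rfl
          exacts [Commute.one_right u, h2, h1, Commute.mul_right h1 h2]
        rw [mul_cj, mul_cj, cj_of h.pe.symm, ti, tp, show x * p⁻¹ * x⁻¹ = (x * p * x⁻¹)⁻¹ by group, xp,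
          mul_inv_rev, mul_inv_rev, ← (Commute.inv_inv h.pa).eq,
          ← (((cs p h.pτ h.pz).inv_inv).mul_left (cs a h.aτ h.az).inv_inv).eq, p_inv h, a_inv h, mul_assoc p D.τ,
          ← mul_assoc D.τ, ← h.aτ, mul_assoc a, D.c_τz, mul_assoc D.z, (cs D.τ rfl D.c_τz).inv_right.symm.eq]
        group)
      (by
        have : x * (D.t * D.e) * x⁻¹ = D.t * (a * D.z) := by
          rw [cjm, xe, xt, mul_assoc, D.c_ze, ← mul_assoc, mul_assoc (D.t * a), D.ee, mul_one, mul_assoc]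
        calc _ = x * (D.t * D.e) * x⁻¹ * (x * x) * (D.t * D.e) := by group
          _ = D.t * (a⁻¹ * a) * D.e * (D.z * (D.t * D.e)) := by rw [this, xx, ← a_inv h]; group
          _ = _ := by
            rw [inv_mul_cancel, mul_one, (Commute.mul_left D.c_tz D.c_ze.symm).left_comm,
              (Commute.mul_mul_mul_comm D.c_te.symm D.t D.e), D.tt, D.ee, one_mul, mul_one])
      (by
        rw [cjm, cjm, fx, cj_of D.c_tf.symm, fi, D.fef, h.ae, mul_assoc _ D.z, ← xz, ← D.c_ze]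
        calc _ = D.e * a * x * (D.z * D.t * D.z) * D.e := by group
          _ = _ := by rw [← D.c_tz, mul_assoc D.t, D.zz, mul_one]; group)
    exact ⟨p', _, g, h', hy, .inr (by rw [hxg])⟩
  · obtain ⟨xe, xt⟩ := h1 hx
    have gy := (hg _ my).trans (Xc.g0_y1 h hx)
    have gi : g * D.i * g⁻¹ = g * D.x * g⁻¹ * (D.f * D.z) := by rw [Fr.i, cjm, ge]
    have jj : g * D.i * g⁻¹ * (g * D.i * g⁻¹) = D.z := by rw [← cjm, D.ii, gz]
    have jz : g * D.i * g⁻¹ * D.z = D.z * (g * D.i * g⁻¹) := by rw [← gz, ← cjm, ← D.c_zi, cjm]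
    have fj : D.f * (g * D.i * g⁻¹) * D.f⁻¹ = a * D.e * (g * D.i * g⁻¹) := by
      rw [fz _ jz.symm, ← gy, ← cjm g D.y, Fr.i, ← mul_assoc D.y, ← ex]; group
    have jc : ∀ u, Commute D.z u → Commute D.f u → g * D.i * g⁻¹ * u * (g * D.i * g⁻¹)⁻¹ =
        g * D.x * g⁻¹ * u * (g * D.x * g⁻¹)⁻¹ := fun u h1 h2 => by
      rw [gi, mul_cj, cj_of (h2.mul_left h1).eq]
    have je : g * D.i * g⁻¹ * D.e * (g * D.i * g⁻¹)⁻¹ = D.e := by
      rw [gi, mul_cj, mul_cj D.f, cj_of D.c_ze, fi, D.fef, cjm, xe, cj_of xz, mul_assoc, D.zz, mul_one]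
    rw [← jc _ D.c_τz.symm D.c_τf.symm] at xτ
    rw [← jc _ h.az.symm h.af.symm, hx, ← a_inv h] at xa
    rw [← jc _ h.pz.symm h.pf.symm] at xp
    rw [← jc _ D.c_tz.symm D.c_tf.symm] at xt
    have nj : g * D.i * g⁻¹ ∈ normalizer (D.B a b p : Set G) :=
      gi ▸ mul_mem nB (mul_mem (f_norm h) (mB _ (by simp)))
    obtain ⟨p', h', hy⟩ := A2.fin (y := g * D.i * g⁻¹ * a) h (mul_mem nj (mB _ (by simp)))
      (Commute.mul_left jz h.az) (Commute.mul_left (mul_inv_eq_iff_eq_mul.1 je) h.ae)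
      (by rw [mul_cj, cj_of h.aτ, xτ]) (by rw [mul_cj, cj_of (u := a) rfl, xa])
      (by rw [mul_cj, h.at', cjm, xt, cj_of jz, a_inv h, mul_assoc, ← D.c_ze]; group) hs
      (by rw [mul_cj, cj_of h.pa.symm, xp])
      (by
        generalize g * D.i * g⁻¹ = j at xa jj
        calc _ = j * a * j⁻¹ * (j * j) * a := by group
          _ = _ := by rw [xa, jj, mul_assoc, ← h.az, inv_mul_cancel_left])
      (by rw [cjm, fj, cj_of h.af.symm, h.ae, mul_assoc])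
    exact ⟨p', _, g, h', hy, .inl ⟨hx, gz, (hg _ (mul_mem my (m _ (by simp)))).trans (Xc.g0_ya h), gy,
      (mul_inv_cancel_right _ _).symm⟩⟩

end CfsgLib.L3F
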