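import Mathlib
import Cfsg.Agent.Lib.L3F.Defs
import Cfsg.Agent.Lib.L33.F2

/-! Standard `L₃(3)`, the case `PSp₆(3)`, package A3: the group `R`.  See `plans/L3F.md`. -/

set_option autoImplicit false
set_option linter.unusedSectionVars false

namespace CfsgLib.L3F

open Subgroup CfsgLib.Tech CfsgLib.L33 CfsgLib.PComp

variable {G : Type*} [Group G] [Finite G]

namespace A3

/-- `g` and `k` induce the same map on `B` -/
def Ac (B : Subgroup G) (g k : G) : Prop := ∀ u ∈ B, g * u * g⁻¹ = k * u * k⁻¹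

theorem Ac.refl (B : Subgroup G) (g : G) : Ac B g g := fun _ _ => rfl

theorem Ac.trans {B : Subgroup G} {g k l : G} (h : Ac B g k) (h' : Ac B k l) : Ac B g l :=
  fun u hu => (h u hu).trans (h' u hu)

theorem Ac.mul {B : Subgroup G} {g k g' k' : G} (h : Ac B g k) (h' : Ac B g' k')
    (hk : k' ∈ normalizer (B : Set G)) : Ac B (g * g') (k * k') := fun u hu => by
  calc g * g' * u * (g * g')⁻¹ = g * (g' * u * g'⁻¹) * g⁻¹ := by group
    _ = k * (k' * u * k'⁻¹) * k⁻¹ := by rw [h' u hu, h _ (conj_mem_of_mem_normalizer hk hu)]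
    _ = _ := by group

theorem Ac.inv {B : Subgroup G} {g k : G} (h : Ac B g k) (hk : k ∈ normalizer (B : Set G)) :
    Ac B g⁻¹ k⁻¹ := fun u hu => by
  have := h _ (conj_mem_of_mem_normalizer' hk hu)
  calc g⁻¹ * u * g⁻¹⁻¹ = g⁻¹ * (k * (k⁻¹ * u * k) * k⁻¹) * g := by group
    _ = _ := by rw [← this]; group

theorem Ac.pow {B : Subgroup G} {g k : G} (h : Ac B g k) (hk : k ∈ normalizer (B : Set G)) (n : ℕ) :
    Ac B (g ^ n) (k ^ n) := by
  induction n with
  | zero => simpa using Ac.refl B 1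
  | succ n ih => rw [pow_succ, pow_succ]; exact ih.mul h hk

theorem Ac.com {B : Subgroup G} {g : G} (h : Ac B g 1) {u : G} (hu : u ∈ B) : g * u = u * g := by
  have := h u hu
  rw [one_mul, inv_one, mul_one] at this
  exact mul_inv_eq_iff_eq_mul.1 this

theorem norm_cent (H : Subgroup G) : normalizer (H : Set G) ≤ normalizer (centralizer (H : Set G) : Set G) := by
  intro n hn
  refine mem_normalizer_of_forall fun x hx => ?_
  rw [mem_centralizer_iff] at hx ⊢
  intro c hc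
  have := hx _ (conj_mem_of_mem_normalizer' hn hc)
  calc c * (n * x * n⁻¹) = n * (n⁻¹ * c * n * x) * n⁻¹ := by group
    _ = n * x * n⁻¹ * c := by rw [this]; group

theorem sq_fix {k u c : G} (h : k * u * k⁻¹ = u * c) (hc : k * c = c * k) (c2 : c * c = 1) :
    k * k * u = u * (k * k) := by
  have : k * k * u * (k * k)⁻¹ = u := by
    calc k * k * u * (k * k)⁻¹ = k * (k * u * k⁻¹) * k⁻¹ := by group
      _ = k * (u * c) * k⁻¹ := by rw [h]
      _ = k * u * k⁻¹ * (k * c * k⁻¹) := by group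
      _ = u := by rw [hc, h, mul_inv_cancel_right, mul_assoc, c2, mul_one]
  exact mul_inv_eq_iff_eq_mul.1 this

theorem norm_clos {S : Set G} {g : G} (h : ∀ s ∈ S, g * s * g⁻¹ ∈ closure S) :
    g ∈ normalizer (closure S : Set G) := by
  refine mem_normalizer_of_forall fun x hx => ?_
  induction hx using closure_induction with
  | mem x hx => exact h x hx
  | one => simp
  | mul x y _ _ hx hy =>
    rw [show g * (x * y) * g⁻¹ = g * x * g⁻¹ * (g * y * g⁻¹) by group]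
    exact mul_mem hx hy
  | inv x _ hx =>
    rw [show g * x⁻¹ * g⁻¹ = (g * x * g⁻¹)⁻¹ by group]
    exact inv_mem hx

theorem fix {g v : G} (h : g * v = v * g) : g * v * g⁻¹ = v := by rw [h, mul_inv_cancel_right]

variable {D : Fr G} {a b p θ : G}

theorem mem_cE {g : G} : g ∈ centralizer (D.E : Set G) ↔ g * D.z = D.z * g ∧ g * D.e = D.e * g := by
  rw [mem_centralizer_iff]
  constructor
  · intro h
    exact ⟨(h _ (subset_closure (by simp))).symm, (h _ (subset_closure (by simp))).symm⟩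
  · rintro ⟨hz, he⟩ c hc
    rcases D.mem_E.1 hc with rfl | rfl | rfl | rfl
    · simp
    · exact hz.symm
    · exact he.symm
    · rw [mul_assoc, ← hz, ← mul_assoc, ← he, mul_assoc]

variable (h : D.Four a b p θ)
include h

theorem four {g : G} (hg : g ∈ normalizer (D.B a b p : Set G)) (hc : g ∈ centralizer (D.E : Set G)) :
    g ^ 4 ∈ centralizer (D.B a b p : Set G) := by
  have nA : g ∈ normalizer (D.A0 : Set G) := mem_normalizer_of_forall (h.norm_Bh hg).2.1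
  have τA : D.τ ∈ D.A0 := subset_closure (by simp)
  have h1 := Fr.F2.cm_mem h D.E_le_A0 (by rw [D.card_E]; norm_num) nA (fun s hs => (hc s hs).symm) τA
  have kτ : g * g * D.τ = D.τ * (g * g) := by
    refine sq_fix (c := D.τ * (g * D.τ * g⁻¹)) ?_ (hc _ h1).symm (D.A_sq (D.A0_le_A (D.E_le_A0 h1)))
    rw [← mul_assoc, D.ττ, one_mul]
  have kc := mem_cE.1 (mul_mem hc hc)
  have kA : ∀ v ∈ D.A0, g * g * v = v * (g * g) := Fr.Trb.cent_A0 kτ kc.1 kc.2
  have kN := mul_mem hg hg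
  have kt : g * g * (g * g) * D.t = D.t * (g * g * (g * g)) := by
    have w := h.mem_A0 (h.norm_Bh kN).2.2 (Fr.F2.lam_eq_one h kN fun v hv => (kA v hv).symm)
    refine sq_fix (c := D.t * (g * g * D.t * (g * g)⁻¹)) ?_ (kA _ w) (D.A_sq (D.A0_le_A w))
    rw [← mul_assoc, D.tt, one_mul]
  have ku : ∀ u ∈ D.Bh a b p, g * g * (g * g) * u = u * (g * g * (g * g)) := by
    intro u hu
    have u' := (h.norm_Bh kN).1 u hu
    have w : u⁻¹ * (g * g * u * (g * g)⁻¹) ∈ D.A0 := by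
      refine h.mem_A0 (mul_mem (inv_mem hu) u') ?_
      have c := h.comm (inv_mem hu) u'
      have s := fix (kA _ (h.sq_mem hu))
      calc u⁻¹ * (g * g * u * (g * g)⁻¹) * (u⁻¹ * (g * g * u * (g * g)⁻¹))
          = u⁻¹ * (g * g * u * (g * g)⁻¹ * u⁻¹) * (g * g * u * (g * g)⁻¹) := by group
        _ = (u * u)⁻¹ * (g * g * (u * u) * (g * g)⁻¹) := by rw [← c]; group
        _ = 1 := by rw [s]; group
    exact sq_fix (c := u⁻¹ * (g * g * u * (g * g)⁻¹)) (by group) (kA _ w) (D.A_sq (D.A0_le_A w))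
  rw [show g ^ 4 = g * g * (g * g) by simp only [pow_succ, pow_zero, one_mul, mul_assoc], mem_centralizer_iff]
  intro v hv
  rcases h.mem_B.1 hv with hv | hv
  · exact (ku v hv).symm
  · have := ku _ hv
    rw [← mul_assoc, kt, mul_assoc, mul_assoc D.t v] at this
    exact (mul_left_cancel this).symm

theorem θa : θ * a * θ⁻¹ = b := h.hb.symm

theorem θb : θ * b * θ⁻¹ = (a * b)⁻¹ := by
  rw [h.hb]; exact h.toTr.θb

theorem fb : D.f * b * D.f⁻¹ = (a * b)⁻¹ := by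
  rw [h.hb, Fr.BaseX.inv_of D.ff]; exact h.toTr.fb

theorem f_norm : D.f ∈ normalizer (D.B a b p : Set G) := by
  have m : ∀ s ∈ ({D.t, D.τ, D.z, D.e, a, b, p} : Set G), s ∈ D.B a b p := fun s hs => subset_closure hs
  refine norm_clos fun s hs => ?_
  change _ ∈ D.B a b p
  rcases hs with rfl | rfl | rfl | rfl | rfl | rfl | rfl
  · rw [fix D.c_tf.symm]; exact m _ (by simp)
  · rw [fix D.c_τf.symm]; exact m _ (by simp)
  · rw [fix D.c_zf.symm]; exact m _ (by simp)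
  · rw [Fr.BaseX.inv_of D.ff, D.fef]; exact mul_mem (m _ (by simp)) (m _ (by simp))
  · rw [fix h.af.symm]; exact m _ (by simp)
  · rw [fb h]; exact inv_mem (mul_mem (m _ (by simp)) (m _ (by simp)))
  · rw [fix h.pf.symm]; exact m _ (by simp)

theorem θ_cube : Ac (D.B a b p) (θ ^ 3) 1 := by
  intro u hu
  rw [one_mul, inv_one, mul_one]
  have e : ∀ v : G, θ ^ 3 * v * (θ ^ 3)⁻¹ = θ * (θ * (θ * v * θ⁻¹) * θ⁻¹) * θ⁻¹ := fun v => by
    rw [pow_succ, pow_two]; group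
  have m : ∀ v w : G, θ * (v * w) * θ⁻¹ = θ * v * θ⁻¹ * (θ * w * θ⁻¹) := fun v w => by group
  have i : ∀ v : G, θ * v⁻¹ * θ⁻¹ = (θ * v * θ⁻¹)⁻¹ := fun v => by group
  have ez : θ * (D.e * D.z) * θ⁻¹ = D.z := by
    rw [m, h.th.θe, h.th.θz, mul_assoc, D.c_ze, ← mul_assoc, D.ee, one_mul]
  have ab : θ * (a * b)⁻¹ * θ⁻¹ = a := by
    rw [i, m, θa h, θb h]; group
  induction hu using closure_induction with
  | mem x hx =>
    rw [e]
    rcases hx with rfl | rfl | rfl | rfl | rfl | rfl | rfl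
    · simp only [fix h.th.θt]
    · simp only [fix h.th.θτ]
    · rw [h.th.θz, h.th.θe, ez]
    · rw [h.th.θe, ez, h.th.θz]
    · rw [θa h, θb h, ab]
    · rw [θb h, ab, θa h]
    · simp only [fix h.pθ.symm]
  | one => simp
  | mul x y _ _ hx hy =>
    calc θ ^ 3 * (x * y) * (θ ^ 3)⁻¹ = θ ^ 3 * x * (θ ^ 3)⁻¹ * (θ ^ 3 * y * (θ ^ 3)⁻¹) := by group
      _ = _ := by rw [hx, hy]
  | inv x _ hx =>
    calc θ ^ 3 * x⁻¹ * (θ ^ 3)⁻¹ = (θ ^ 3 * x * (θ ^ 3)⁻¹)⁻¹ := by group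
      _ = _ := by rw [hx]

theorem θ_pow {m : ℕ} (hm : m % 3 = 1) : Ac (D.B a b p) (θ ^ m) θ := by
  have := ((θ_cube h).pow (one_mem _) (m / 3)).mul (Ac.refl _ θ) h.θ_norm
  rwa [one_pow, one_mul, ← pow_mul, ← pow_succ, show 3 * (m / 3) + 1 = m by omega] at this

end A3

open A3 in
theorem exists_R {D : Fr G} {a b p θ y : G} (h : D.Four a b p θ) (hy : Yr D a b p y) : ∃ φ R, Rr D a b p y φ R := by
  have m : ∀ s ∈ ({D.t, D.τ, D.z, D.e, a, b, p} : Set G), s ∈ D.B a b p := fun s hs => subset_closure hs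
  have mE : ∀ s ∈ ({D.z, D.e} : Set G), s ∈ D.E := fun s hs => subset_closure hs
  set B := D.B a b p with hB
  set N₃ := normalizer (B : Set G) ⊓ centralizer (D.E : Set G) with hN₃
  set N₄ := normalizer (B : Set G) ⊓ normalizer (D.E : Set G) with hN₄
  have n43 : N₄ ≤ normalizer (N₃ : Set G) := fun g hg => mem_normalizer_of_forall fun x hx =>
    ⟨(normalizer (B : Set G)).mul_mem ((normalizer (B : Set G)).mul_mem hg.1 hx.1)
      ((normalizer (B : Set G)).inv_mem hg.1), conj_mem_of_mem_normalizer (norm_cent D.E hg.2) hx.2⟩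
  have l34 : N₃ ≤ N₄ := inf_le_inf_left _ (centralizer_le_normalizer _)
  have θ4 : θ ∈ N₄ := by
    refine ⟨h.θ_norm, norm_clos fun s hs => ?_⟩
    change _ ∈ D.E
    rcases hs with rfl | rfl
    · rw [h.th.θz]; exact mE _ (by simp)
    · rw [h.th.θe]; exact mul_mem (mE _ (by simp)) (mE _ (by simp))
  have f4 : D.f ∈ N₄ := by
    refine ⟨f_norm h, norm_clos fun s hs => ?_⟩
    change _ ∈ D.E
    rcases hs with rfl | rfl
    · rw [fix D.c_zf.symm]; exact mE _ (by simp)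
    · rw [Fr.BaseX.inv_of D.ff, D.fef]; exact mul_mem (mE _ (by simp)) (mE _ (by simp))
  have y3 : y ∈ N₃ := ⟨hy.nB, mem_cE.2 ⟨hy.yz, hy.ye⟩⟩
  have B3 : B ≤ N₃ := le_inf le_normalizer (h.B_cent.trans (centralizer_le D.E_le_A0))
  have EB : D.E ≤ B := D.E_le_A0.trans (h.A0_le.trans Fr.F1.Bh_le)
  have t1 : IsPGroup 2 ↥(B ⊔ zpowers y) :=
    two_sup_two h.two_B (fun k hk => conj_mem_of_mem_normalizer hy.nB hk) (by rw [hy.yy]; exact m _ (by simp))
  have t2 : IsPGroup 2 ↥(B ⊔ zpowers y ⊔ zpowers D.f) := by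
    refine two_sup_two t1 (cj_le_iff.1 ?_) (by rw [D.ff]; exact one_mem _)
    rw [cj_sup, cj_zpowers, mem_normalizer_iff_cj.1 (f_norm h), hy.fy]
    refine sup_le le_sup_left (zpowers_le.2 (mul_mem (mem_sup_left ?_) (mem_sup_right (mem_zpowers _))))
    exact mul_mem (m _ (by simp)) (m _ (by simp))
  obtain ⟨P, hP, lP⟩ := exists_isSylowIn_ge t2
    (sup_le (sup_le (B3.trans l34) (zpowers_le.2 (l34 y3))) (zpowers_le.2 f4))
  have hR : IsSylowIn 2 (P ⊓ N₃) N₃ := by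
    have := hP.inf_of_le_normalizer n43
    rwa [inf_eq_right.2 l34] at this
  set R := P ⊓ N₃ with hRd
  have BR : B ≤ R := le_inf ((le_sup_left.trans le_sup_left).trans lP) B3
  have cτ : ∀ r ∈ R, r * D.τ = D.τ * r → r ∈ B := by
    intro r hr hτ
    have c := mem_cE.1 hr.2.2
    have := h.sylB.eq_of_le (Q := R ⊓ centralizer (D.A0 : Set G)) hR.pgroup.to_inf_left
      (le_inf BR h.B_cent) inf_le_right
    rw [hB, ← this]
    exact ⟨hr, fun v hv => (Fr.Trb.cent_A0 hτ c.1 c.2 v hv).symm⟩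
  have fR : D.f ∈ normalizer (R : Set G) := by
    have fP : D.f ∈ P := lP (mem_sup_right (mem_zpowers _))
    exact mem_normalizer_of_forall fun x hx =>
      ⟨P.mul_mem (P.mul_mem fP hx.1) (P.inv_mem fP), conj_mem_of_mem_normalizer (n43 f4) hx.2⟩
  obtain ⟨n, hn, hnθ⟩ := hR.frattini (n43 θ4)
  obtain ⟨u, hu, hc⟩ := syl_cover (C := centralizer (B : Set G)) hR
    (le_inf (centralizer_le_normalizer _) (centralizer_le EB))
    (fun g hg c hc => conj_mem_of_mem_normalizer (norm_cent B hg.1) hc) (fun g hg => four h hg.1 hg.2) hn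
  set θ₂ := u⁻¹ * n * θ with hθ₂
  have θR : θ₂ ∈ normalizer (R : Set G) := by
    rw [hθ₂, mul_assoc]; exact mul_mem (inv_mem (le_normalizer hu)) hnθ
  have a2 : Ac B θ₂ θ := by
    have : Ac B (u⁻¹ * n) 1 := fun v hv => by rw [fix (hc v hv).symm]; simp
    simpa using this.mul (Ac.refl B θ) h.θ_norm
  set ψ := θ₂ * D.f * θ₂⁻¹ * D.f with hψ
  have aψ : Ac B ψ (θ ^ 2) := by
    have := ((a2.mul (Ac.refl B D.f) f4.1).mul (a2.inv h.θ_norm) (inv_mem h.θ_norm)).mul (Ac.refl B D.f) f4.1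
    have e : θ * D.f * θ⁻¹ * D.f = θ ^ 2 := by
      have e1 := congrArg (·⁻¹) h.th.fθ
      simp only [mul_inv_rev, inv_inv, Fr.BaseX.inv_of D.ff] at e1
      rw [pow_two, mul_assoc, mul_assoc, e1]
    rwa [e] at this
  have fψ : D.f * ψ * D.f⁻¹ = ψ⁻¹ := by
    rw [hψ]
    simp only [mul_inv_rev, inv_inv, Fr.BaseX.inv_of D.ff, mul_assoc, D.ff, mul_one]
  have ψR : ψ ∈ normalizer (R : Set G) := mul_mem (mul_mem (mul_mem θR fR) (inv_mem θR)) fR
  obtain ⟨k, ho, hk⟩ := exists_odd_pow (ψ ^ 2)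
  set φ := (ψ ^ 2) ^ k with hφ
  have aφ : Ac B φ θ := by
    have := ((aψ.pow (pow_mem h.θ_norm 2) 2).pow (pow_mem (pow_mem h.θ_norm 2) 2) k)
    refine this.trans ?_
    rw [← pow_mul, ← pow_mul]
    exact θ_pow h (by omega)
  have φR : φ ∈ normalizer (R : Set G) := pow_mem (pow_mem ψR 2) k
  have com : ∀ v ∈ B, θ * v = v * θ → φ * v = v * φ := fun v hv e =>
    mul_inv_eq_iff_eq_mul.1 ((aφ v hv).trans (fix e))
  refine ⟨φ, R, ⟨⟨com _ (m _ (by simp)) h.th.θt, com _ (m _ (by simp)) h.th.θτ,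
      (aφ _ (m _ (by simp))).trans h.th.θz, (aφ _ (m _ (by simp))).trans h.th.θe⟩, ?_⟩, ho,
    (aφ _ (m _ (by simp))).trans (θa h), (aφ _ (m _ (by simp))).trans (θb h), com _ (m _ (by simp)) h.pθ.symm,
    BR, ⟨lP (mem_sup_left (mem_sup_right (mem_zpowers _))), y3⟩, fun r hr => conj_mem_of_mem_normalizer φR hr,
    fun r hr => ?_, fun r hr => (mem_cE.1 hr.2.2).1, fun r hr => (mem_cE.1 hr.2.2).2, cτ⟩
  · have := congrArg (fun g => (g ^ 2) ^ k) fψ
    simp only [conj_pow, inv_pow] at this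
    rwa [Fr.BaseX.inv_of D.ff] at this
  · have a3 : Ac B (φ ^ 3) 1 := (aφ.pow h.θ_norm 3).trans (θ_cube h)
    set o := φ ^ 3 with ho3
    have cR : r⁻¹ * (o * r * o⁻¹) ∈ R := mul_mem (inv_mem hr) (conj_mem_of_mem_normalizer (pow_mem φR 3) hr)
    have cB : r⁻¹ * (o * r * o⁻¹) ∈ B := by
      refine cτ _ cR ?_
      have τB : D.τ ∈ B := m _ (by simp)
      have e1 := fix (a3.com (conj_mem_of_mem_normalizer hr.2.1 τB))
      have e2 := a3.com τB
      calc r⁻¹ * (o * r * o⁻¹) * D.τ = r⁻¹ * o * r * o⁻¹ * (D.τ * o) * o⁻¹ := by group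
        _ = r⁻¹ * (o * (r * D.τ * r⁻¹) * o⁻¹) * (o * r * o⁻¹) := by rw [← e2]; group
        _ = _ := by rw [e1]; group
    obtain ⟨j, hj⟩ := isPGroup_iff_mem.1 hR.pgroup _ cR
    have := odd_cent (o := o) (u := r) (ho.of_dvd_nat (orderOf_pow_dvd 3)) (by group) (a3.com cB) hj
    rw [inv_mul_eq_one] at this
    exact mul_inv_eq_iff_eq_mul.1 this.symm

end CfsgLib.L3F
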