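import Mathlib
import Cfsg.Agent.Lib.L3F.Defs
import Cfsg.Agent.Lib.L33.F2

/-! Standard `L₃(3)`, the case `PSp₆(3)`, package A4: the three quaternion or dihedral groups.  See `plans/L3F.md`. -/

set_option autoImplicit false
set_option linter.unusedSectionVars false

namespace CfsgLib.L3F

open Subgroup CfsgLib.Tech CfsgLib.L33 CfsgLib.PComp

variable {G : Type*} [Group G] [Finite G]

namespace A4

/-- coordinates on `B̂` -/
abbrev VV := ZMod 4 × ZMod 4 × ZMod 4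

/-- images of `a`, `b`, `p` and the translation part on `t` -/
abbrev Aff := VV × VV × VV × VV

instance decV : DecidableEq VV := inferInstance
instance decA : DecidableEq Aff := inferInstance

def sm (c : ZMod 4) (x : VV) : VV := (c * x.1, c * x.2.1, c * x.2.2)

def lin (A : Aff) (x : VV) : VV := sm x.1 A.1 + sm x.2.1 A.2.1 + sm x.2.2 A.2.2.1

def cmp (A A' : Aff) : Aff := (lin A A'.1, lin A A'.2.1, lin A A'.2.2.1, A.2.2.2 + lin A A'.2.2.2)

def tr (x : VV) : Aff := ((1, 0, 0), (0, 1, 0), (0, 0, 1), -x - x)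
def aT : Aff := ((3, 0, 0), (0, 3, 0), (0, 0, 3), 0)
def aF : Aff := ((1, 0, 0), (3, 3, 0), (0, 0, 1), 0)
def aP : Aff := ((0, 1, 0), (3, 3, 0), (0, 0, 1), 0)
def aP' : Aff := ((3, 3, 0), (1, 0, 0), (0, 0, 1), 0)
def aY (β : VV) : Aff := ((3, 0, 0), β, (1, 0, 1), (3, 2, 0))
def cnj (A : Aff) : Aff := cmp (cmp aP A) aP'

def vv (a b p : G) (x : VV) : G := Fr.F1.v a b p x.1 x.2.1 x.2.2

/-- the action of `g` on `B` -/
def Acts (D : Fr G) (a b p g : G) (A : Aff) : Prop :=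
  g * a * g⁻¹ = vv a b p A.1 ∧ g * b * g⁻¹ = vv a b p A.2.1 ∧ g * p * g⁻¹ = vv a b p A.2.2.1 ∧
    g * D.t * g⁻¹ = D.t * vv a b p A.2.2.2

theorem cj_mul (g u v : G) : g * (u * v) * g⁻¹ = g * u * g⁻¹ * (g * v * g⁻¹) := by group

theorem cj_cj (g g' u : G) : g * g' * u * (g * g')⁻¹ = g * (g' * u * g'⁻¹) * g⁻¹ := by group

theorem cj_comm (g u v : G) :
    g * (u * v * u⁻¹ * v⁻¹) * g⁻¹ = g * u * g⁻¹ * (g * v * g⁻¹) * (g * u * g⁻¹)⁻¹ * (g * v * g⁻¹)⁻¹ := by group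

theorem cj_com {g u : G} (h : g * u = u * g) : g * u * g⁻¹ = u := by rw [h, mul_inv_cancel_right]

theorem com_cj {g u : G} (h : g * u * g⁻¹ = u) : Commute g u := mul_inv_eq_iff_eq_mul.1 h

section calcul

variable {D : Fr G} {a b p θ : G} (h : D.Four a b p θ)
include h

theorem vadd (x y : VV) : vv a b p x * vv a b p y = vv a b p (x + y) := Fr.F1.v_mul h ..

theorem vinj {x y : VV} (e : vv a b p x = vv a b p y) : x = y := by
  obtain ⟨e1, e2, e3⟩ := Fr.F1.v_inj h e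
  exact Prod.ext e1 (Prod.ext e2 e3)

theorem v0 : vv a b p 0 = 1 := by simp [vv, Fr.F1.v]
theorem va : vv a b p (1, 0, 0) = a := by simp [vv, Fr.F1.v, show (1 : ZMod 4).val = 1 from rfl]
theorem vb : vv a b p (0, 1, 0) = b := by simp [vv, Fr.F1.v, show (1 : ZMod 4).val = 1 from rfl]
theorem vp : vv a b p (0, 0, 1) = p := by simp [vv, Fr.F1.v, show (1 : ZMod 4).val = 1 from rfl]

theorem vz : vv a b p (2, 0, 0) = D.z := by
  rw [← h.a2]; nth_rewrite 2 3 [← va h]; rw [vadd h]; rfl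
theorem ve : vv a b p (0, 2, 0) = D.e := by
  rw [← Fr.F1.b2 h]; nth_rewrite 2 3 [← vb h]; rw [vadd h]; rfl
theorem vτ : vv a b p (0, 0, 2) = D.τ := by
  rw [← h.p2]; nth_rewrite 2 3 [← vp h]; rw [vadd h]; rfl

theorem vinv (x : VV) : (vv a b p x)⁻¹ = vv a b p (-x) :=
  inv_eq_of_mul_eq_one_right (by rw [vadd h, add_neg_cancel, v0 h])

theorem vpow (x : VV) (n : ℕ) : vv a b p x ^ n = vv a b p (n • x) := by
  induction n with
  | zero => rw [pow_zero, zero_smul, v0 h]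
  | succ n ih => rw [pow_succ, ih, vadd h, succ_nsmul]

theorem vsm (c : ZMod 4) (x : VV) : vv a b p x ^ c.val = vv a b p (sm c x) := by
  have : ∀ (c : ZMod 4) (x : VV), c.val • x = sm c x := by decide
  rw [vpow h, this]

theorem vmem (x : VV) : vv a b p x ∈ D.Bh a b p := (Fr.F1.mem_v h).2 ⟨_, _, _, rfl⟩

theorem vcom (x y : VV) : Commute (vv a b p x) (vv a b p y) := h.comm (vmem h x) (vmem h y)

theorem vt (x : VV) : vv a b p x * D.t = D.t * vv a b p (-x) := by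
  rw [← vinv h, ← h.t_Bh (vmem h x), ← mul_assoc, ← mul_assoc, D.tt, one_mul]

theorem Acts.v {g : G} {A : Aff} (k : Acts D a b p g A) (x : VV) :
    g * vv a b p x * g⁻¹ = vv a b p (lin A x) := by
  have e : g * vv a b p x * g⁻¹ =
      (g * a * g⁻¹) ^ x.1.val * (g * b * g⁻¹) ^ x.2.1.val * (g * p * g⁻¹) ^ x.2.2.val := by
    simp only [conj_pow, ← cj_mul]; rfl
  rw [e, k.1, k.2.1, k.2.2.1, vsm h, vsm h, vsm h, vadd h, vadd h]; rfl

theorem Acts.mul {g g' : G} {A A' : Aff} (k : Acts D a b p g A) (k' : Acts D a b p g' A') :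
    Acts D a b p (g * g') (cmp A A') := by
  refine ⟨?_, ?_, ?_, ?_⟩
  · rw [cj_cj, k'.1, k.v h]; rfl
  · rw [cj_cj, k'.2.1, k.v h]; rfl
  · rw [cj_cj, k'.2.2.1, k.v h]; rfl
  · rw [cj_cj, k'.2.2.2, cj_mul, k.v h, k.2.2.2, mul_assoc, vadd h]; rfl

theorem Acts.uniq {g : G} {A A' : Aff} (k : Acts D a b p g A) (k' : Acts D a b p g A') : A = A' :=
  Prod.ext (vinj h (k.1.symm.trans k'.1)) (Prod.ext (vinj h (k.2.1.symm.trans k'.2.1))
    (Prod.ext (vinj h (k.2.2.1.symm.trans k'.2.2.1)) (vinj h (mul_left_cancel (k.2.2.2.symm.trans k'.2.2.2)))))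

theorem Acts.inv {g : G} {A A' : Aff} (k : Acts D a b p g A) (e : cmp A A' = tr 0) : Acts D a b p g⁻¹ A' := by
  have key : ∀ u v : G, g * v * g⁻¹ = u → g⁻¹ * u * g⁻¹⁻¹ = v := fun u v e => by rw [← e]; group
  have e1 : lin A A'.1 = (1, 0, 0) := congrArg (·.1) e
  have e2 : lin A A'.2.1 = (0, 1, 0) := congrArg (·.2.1) e
  have e3 : lin A A'.2.2.1 = (0, 0, 1) := congrArg (·.2.2.1) e
  have e4 : A.2.2.2 + lin A A'.2.2.2 = 0 := (congrArg (·.2.2.2) e).trans (by decide)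
  refine ⟨key _ _ ?_, key _ _ ?_, key _ _ ?_, key _ _ ?_⟩
  · rw [k.v h, e1, va h]
  · rw [k.v h, e2, vb h]
  · rw [k.v h, e3, vp h]
  · rw [cj_mul, k.v h, k.2.2.2, mul_assoc, vadd h, e4, v0 h, mul_one]

theorem acts_v (x : VV) : Acts D a b p (vv a b p x) (tr x) := by
  refine ⟨?_, ?_, ?_, ?_⟩
  · nth_rewrite 2 [← va h]; exact cj_com (vcom h _ _)
  · nth_rewrite 2 [← vb h]; exact cj_com (vcom h _ _)
  · nth_rewrite 2 [← vp h]; exact cj_com (vcom h _ _)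
  · rw [vt h, vinv h, mul_assoc, vadd h, ← sub_eq_add_neg]; rfl

theorem tv (x : VV) : D.t * vv a b p x * D.t⁻¹ = vv a b p (-x) := by
  rw [Fr.F1.t_inv, h.t_Bh (vmem h x), vinv h]

theorem acts_t : Acts D a b p D.t aT := by
  refine ⟨?_, ?_, ?_, ?_⟩
  · nth_rewrite 1 [← va h]; exact tv h _
  · nth_rewrite 1 [← vb h]; exact tv h _
  · nth_rewrite 1 [← vp h]; exact tv h _
  · rw [mul_inv_cancel_right]; exact (mul_one _).symm.trans (congrArg _ (v0 h).symm)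

theorem vab : (a * b)⁻¹ = vv a b p (3, 3, 0) := by
  nth_rewrite 1 [← va h]; nth_rewrite 2 [← vb h]; rw [vadd h, vinv h]; rfl

theorem f_inv : D.f⁻¹ = D.f := inv_eq_of_mul_eq_one_right D.ff

theorem acts_f : Acts D a b p D.f aF := by
  refine ⟨?_, ?_, ?_, ?_⟩
  · rw [cj_com h.af.symm]; exact (va h).symm
  · have := h.toTr.fb
    rw [← h.hb] at this
    rw [f_inv h, this]; exact vab h
  · rw [cj_com h.pf.symm]; exact (vp h).symm
  · rw [cj_com D.c_tf.symm]; exact (mul_one _).symm.trans (congrArg _ (v0 h).symm)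

end calcul

variable {D : Fr G} {a b p θ y φ : G} {R : Subgroup G} (h : D.Four a b p θ) (hy : Yr D a b p y)
  (hR : Rr D a b p y φ R)
include h hy hR

theorem φt : φ * D.t * φ⁻¹ = D.t := cj_com hR.th.θt
theorem φτ : φ * D.τ * φ⁻¹ = D.τ := cj_com hR.th.θτ

theorem acts_φ : Acts D a b p φ aP := by
  refine ⟨?_, ?_, ?_, ?_⟩
  · rw [hR.φa]; exact (vb h).symm
  · rw [hR.φb]; exact vab h
  · rw [cj_com hR.φp]; exact (vp h).symm
  · rw [φt h hy hR]; exact (mul_one _).symm.trans (congrArg _ (v0 h).symm)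

theorem acts_cnj {g : G} {A : Aff} (k : Acts D a b p g A) : Acts D a b p (φ * g * φ⁻¹) (cnj A) :=
  ((acts_φ h hy hR).mul h k).mul h ((acts_φ h hy hR).inv h (by decide))

theorem vR (x : VV) : vv a b p x ∈ R := hR.BR (Fr.F1.Bh_le (vmem h x))
theorem tR : D.t ∈ R := hR.BR Fr.F1.t_B

theorem memB {g : G} {A : Aff} (hg : g ∈ R) (k : Acts D a b p g A) (e : lin A (0, 0, 2) = (0, 0, 2)) :
    (∃ x, g = vv a b p x ∧ A = tr x) ∨ ∃ x, cmp aT A = tr x := by
  have hB : g ∈ D.B a b p := by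
    refine hR.cτ g hg (com_cj ?_)
    rw [← vτ h, k.v h, e]
  rcases h.mem_B.1 hB with hh | hh
  · obtain ⟨i, j, l, e⟩ := (Fr.F1.mem_v h).1 hh
    exact .inl ⟨(i, j, l), e, k.uniq h (by rw [e]; exact acts_v h (i, j, l))⟩
  · obtain ⟨i, j, l, e⟩ := (Fr.F1.mem_v h).1 hh
    exact .inr ⟨(i, j, l), ((acts_t h).mul h k).uniq h (by rw [e]; exact acts_v h (i, j, l))⟩

theorem acts_y : Acts D a b p y (aY (2, 3, 0)) := by
  obtain ⟨i, j, l, e⟩ := (Fr.F1.mem_v h).1 ((h.norm_Bh hy.nB).1 b Fr.F1.b_Bh)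
  have k : Acts D a b p y (aY (i, j, l)) := by
    refine ⟨?_, e, ?_, ?_⟩
    · rw [hy.ya]; nth_rewrite 1 [← va h]; exact vinv h _
    · rw [hy.yp]; nth_rewrite 1 [← vp h]; nth_rewrite 2 [← va h]; exact vadd h _ _
    · rw [hy.yt, mul_assoc, ← ve h]; nth_rewrite 1 [← va h]; rw [vinv h, vadd h]; rfl
  generalize ((i, j, l) : VV) = β at k
  have e1 : lin (aY β) (0, 2, 0) = (0, 2, 0) := vinj h (by rw [← k.v h, ve h]; exact cj_com hy.ye)
  have e2 : cmp (aY β) (aY β) = tr (2, 0, 0) := (k.mul h k).uniq h (by rw [hy.yy, ← vz h]; exact acts_v h _)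
  have e3 : cmp (cmp aF (aY β)) aF = cmp (tr (1, 2, 0)) (aY β) := by
    refine (((acts_f h).mul h k).mul h (acts_f h)).uniq h ?_
    have : D.f * y * D.f = vv a b p (1, 2, 0) * y := by
      have := hy.fy
      rw [f_inv h] at this
      rw [this, ← ve h]; nth_rewrite 2 [← va h]; rw [vadd h]; rfl
    rw [this]
    exact (acts_v h _).mul h k
  have key : ∀ β : VV, lin (aY β) (0, 2, 0) = (0, 2, 0) → cmp (aY β) (aY β) = tr (2, 0, 0) →
      cmp (cmp aF (aY β)) aF = cmp (tr (1, 2, 0)) (aY β) → β = (0, 3, 0) ∨ β = (2, 3, 0) := by decide +kernel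
  rcases key β e1 e2 e3 with rfl | rfl
  · exfalso
    have k0 := (k.mul h (acts_t h)).mul h (acts_v h (0, 0, 1))
    have m0 : y * D.t * vv a b p (0, 0, 1) ∈ R := mul_mem (mul_mem hR.yR (tR h hy hR)) (vR h hy hR _)
    have k1 := acts_cnj h hy hR k0
    have k2 := acts_cnj h hy hR k1
    have := memB h hy hR (mul_mem (mul_mem m0 (hR.φR _ m0)) (hR.φR _ (hR.φR _ m0))) ((k0.mul h k1).mul h k2)
      (by decide +kernel)
    rcases this with ⟨x, -, e⟩ | ⟨x, e⟩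
    · revert x; decide +kernel
    · revert x; decide +kernel
  · exact k

theorem yb : y * b * y⁻¹ = b * D.e * D.z := by
  rw [(acts_y h hy hR).2.1, ← ve h, ← vz h]; nth_rewrite 2 [← vb h]; rw [vadd h, vadd h]; rfl

def aK : Aff := ((1, 0, 0), (2, 1, 0), (3, 0, 3), (1, 0, 2))

theorem w3v : a * D.τ = vv a b p (1, 0, 2) := by
  rw [← vτ h]; nth_rewrite 1 [← va h]; exact vadd h _ _
theorem w1v : b * D.τ = vv a b p (0, 1, 2) := by
  rw [← vτ h]; nth_rewrite 1 [← vb h]; exact vadd h _ _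
theorem w2v : (a * b)⁻¹ * D.τ = vv a b p (3, 3, 2) := by
  rw [← vτ h, vab h]; exact vadd h _ _

theorem k_eq : D.t * p * y * b * D.τ * D.e = D.t * vv a b p (0, 1, 3) * y := by
  have e : D.t * p * y * b * D.τ * D.e = D.t * (p * (y * (b * D.τ * D.e) * y⁻¹)) * y := by group
  rw [e, w1v h hy hR, ← ve h, vadd h, (acts_y h hy hR).v h]
  nth_rewrite 1 [← vp h]
  rw [vadd h]; rfl

theorem acts_k : Acts D a b p (D.t * vv a b p (0, 1, 3) * y) aK := by
  have := ((acts_t h).mul h (acts_v h (0, 1, 3))).mul h (acts_y h hy hR)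
  rwa [show cmp (cmp aT (tr (0, 1, 3))) (aY (2, 3, 0)) = aK by decide +kernel] at this

/-- the relations of `k = t p y b τ e` -/
theorem krel {k : G} (hk : k = D.t * p * y * b * D.τ * D.e) :
    k ∈ R ∧ k * k = D.z ∧ k * (a * D.τ) * k⁻¹ = (a * D.τ)⁻¹ ∧ Commute k (b * D.τ) ∧ Commute k ((a * b)⁻¹ * D.τ) ∧
      Commute k D.f ∧ Commute k (D.t * p) ∧ k * D.τ * k⁻¹ = D.τ * D.z ∧ k * p * k⁻¹ = p⁻¹ * a⁻¹ ∧
      k * D.t * k⁻¹ = D.t * (a * D.τ) := by
  have hk' := hk.trans (k_eq h hy hR)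
  have A : Acts D a b p k aK := hk' ▸ acts_k h hy hR
  have Y := acts_y h hy hR
  refine ⟨?_, ?_, ?_, ?_, ?_, ?_, ?_, ?_, ?_, ?_⟩
  · rw [hk']; exact mul_mem (mul_mem (tR h hy hR) (vR h hy hR _)) hR.yR
  · have e : k * k = D.t * vv a b p (0, 1, 3) * (y * D.t * y⁻¹) * (y * vv a b p (0, 1, 3) * y⁻¹) * (y * y) := by
      rw [hk']; group
    rw [e, Y.2.2.2, Y.v h, hy.yy, mul_assoc D.t, ← mul_assoc (vv a b p _), vt h, mul_assoc D.t (vv a b p _), ← mul_assoc D.t D.t, D.tt,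
      one_mul, ← vz h, vadd h, vadd h, vadd h]
    rfl
  · rw [w3v h hy hR, A.v h, vinv h]; rfl
  · exact com_cj (by rw [w1v h hy hR, A.v h]; rfl)
  · exact com_cj (by rw [w2v h hy hR, A.v h]; rfl)
  · refine (com_cj ?_).symm
    rw [hk', cj_mul, cj_mul, hy.fy, (acts_f h).v h, cj_com D.c_tf.symm, ← ve h]
    nth_rewrite 3 [← va h]
    rw [vadd h, mul_assoc D.t, ← mul_assoc (vv a b p _), vadd h, ← mul_assoc]
    rfl
  · refine com_cj ?_
    rw [cj_mul, A.2.2.2, A.2.2.1, mul_assoc, vadd h]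
    exact congrArg _ (vp h)
  · rw [← vz h]; nth_rewrite 1 2 [← vτ h]; rw [A.v h, vadd h]; rfl
  · rw [A.2.2.1]; nth_rewrite 2 [← vp h]; nth_rewrite 3 [← va h]; rw [vinv h, vinv h, vadd h]; rfl
  · rw [A.2.2.2, w3v h hy hR]; rfl

theorem E_cent {c r : G} (hc : c ∈ closure {D.e, D.z}) (hr : r ∈ R) : Commute r c := by
  induction hc using closure_induction with
  | mem x hx =>
    rcases hx with rfl | rfl
    · exact hR.ce r hr
    · exact hR.cz r hr
  | one => exact Commute.one_right _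
  | mul _ _ _ _ h1 h2 => exact h1.mul_right h2
  | inv _ _ h1 => exact h1.inv_right

theorem w3sq : (a * D.τ) ^ 2 = D.z := by rw [w3v h hy hR, sq, vadd h, ← vz h]; rfl
theorem w1sq : (b * D.τ) ^ 2 = D.e := by rw [w1v h hy hR, sq, vadd h, ← ve h]; rfl

theorem build (σ : ZMod 2) {k : G} (hk : k ∈ R) (kk : k * k = D.z ^ σ.val)
    (kw : k * (a * D.τ) * k⁻¹ = (a * D.τ)⁻¹) (c1 : Commute k (b * D.τ)) (c2 : Commute k ((a * b)⁻¹ * D.τ))
    (cf : Commute k D.f) (tk : D.t * k * D.t⁻¹ = a * D.τ * k)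
    (c12 : Commute (φ * k * φ⁻¹) (φ * (φ * k * φ⁻¹) * φ⁻¹))
    (ey : ∃ c ∈ closure {D.e, D.z}, y = φ * k * φ⁻¹ * (b * D.τ) * (φ * (φ * k * φ⁻¹) * φ⁻¹) * D.τ ^ (1 + σ).val * c) :
    ∃ L, Lk D a b y φ L := by
  have P := acts_φ h hy hR
  have p31 : MulAut.conj φ (a * D.τ) = b * D.τ := by
    rw [MulAut.conj_apply, w3v h hy hR, w1v h hy hR, P.v h]; rfl
  have p12 : MulAut.conj φ (b * D.τ) = (a * b)⁻¹ * D.τ := by
    rw [MulAut.conj_apply, w2v h hy hR, w1v h hy hR, P.v h]; rfl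
  have p23 : MulAut.conj φ ((a * b)⁻¹ * D.τ) = a * D.τ := by
    rw [MulAut.conj_apply, w2v h hy hR, w3v h hy hR, P.v h]; rfl
  have pt : MulAut.conj φ D.t = D.t := φt h hy hR
  have q23 : MulAut.conj φ (MulAut.conj φ (MulAut.conj φ k)) = k := by
    simp only [MulAut.conj_apply]
    have := hR.cube k hk
    calc φ * (φ * (φ * k * φ⁻¹) * φ⁻¹) * φ⁻¹ = φ ^ 3 * k * (φ ^ 3)⁻¹ := by
          simp only [pow_succ, pow_zero, one_mul, mul_inv_rev, mul_assoc]
      _ = k := cj_com this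
  have fk : D.f * (φ * k * φ⁻¹) * D.f⁻¹ = φ * (φ * k * φ⁻¹) * φ⁻¹ := by
    have e1 : D.f * φ * D.f⁻¹ = φ⁻¹ := by rw [f_inv h]; exact hR.th.fθ
    have e2 : D.f * (φ * k * φ⁻¹) * D.f⁻¹ = (D.f * φ * D.f⁻¹) * (D.f * k * D.f⁻¹) * (D.f * φ * D.f⁻¹)⁻¹ := by group
    rw [e2, e1, cj_com cf.symm]
    simp only [MulAut.conj_apply] at q23
    nth_rewrite 1 [← q23]
    group
  have tr1 : ∀ {u v : G}, Commute u v → Commute (MulAut.conj φ u) (MulAut.conj φ v) := fun e => e.map _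
  have kk3 : k * k = ((a * D.τ) ^ 2) ^ σ.val := by rw [w3sq h hy hR, kk]
  have hkk : ∀ {k w w' : G}, k * k = (w ^ 2) ^ σ.val → MulAut.conj φ w = w' →
      MulAut.conj φ k * MulAut.conj φ k = (w' ^ 2) ^ σ.val := fun e e' => by
    rw [← e', ← map_pow, ← map_pow, ← e, map_mul]
  have hkw : ∀ {k w w' : G}, k * w * k⁻¹ = w⁻¹ → MulAut.conj φ w = w' →
      MulAut.conj φ k * w' * (MulAut.conj φ k)⁻¹ = w'⁻¹ := fun e e' => by
    rw [← e', ← map_inv, ← map_inv, ← e, map_mul, map_mul]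
  have htk : ∀ {k w w' : G}, D.t * k * D.t⁻¹ = w * k → MulAut.conj φ w = w' →
      D.t * MulAut.conj φ k * D.t⁻¹ = w' * MulAut.conj φ k := fun e e' => by
    rw [← e', ← map_mul, ← e, map_mul, map_mul, map_inv, pt]
  have kk1 := hkk kk3 p31
  have kk2 := hkk kk1 p12
  have kw1 := hkw kw p31
  have kw2 := hkw kw1 p12
  have tk1 := htk tk p31
  have tk2 := htk tk1 p12
  have c11 := tr1 c1
  have c12' := tr1 c11
  have c21 := tr1 c2
  have c22 := tr1 c21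
  have c23 : Commute (MulAut.conj φ (MulAut.conj φ k)) k := by
    have := tr1 (show Commute (MulAut.conj φ k) (MulAut.conj φ (MulAut.conj φ k)) from c12)
    rwa [q23] at this
  have c31 := tr1 c23
  rw [q23] at c31
  rw [p12] at c11
  rw [p12, p23] at c12'
  rw [p23] at c21
  rw [p23, p31] at c22
  have w4 : ∀ x : VV, vv a b p x ^ 4 = 1 := fun x => by
    rw [vpow h, show (4 : ℕ) • x = 0 by revert x; decide, v0 h]
  let L : Lf G :=
    { σ := σ, w1 := b * D.τ, w2 := (a * b)⁻¹ * D.τ, w3 := a * D.τ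
      k1 := MulAut.conj φ k, k2 := MulAut.conj φ (MulAut.conj φ k), k3 := k, f := D.f, t := D.t
      w14 := by rw [w1v h hy hR]; exact w4 _
      w24 := by rw [w2v h hy hR]; exact w4 _
      w34 := by rw [w3v h hy hR]; exact w4 _
      w12 := by
        rw [w1sq h hy hR, ← ve h, ← v0 h]
        exact fun e => absurd (vinj h e) (by decide)
      w32 := by rw [w3sq h hy hR]; exact D.z1
      zzz := by
        rw [w1v h hy hR, w2v h hy hR, w3v h hy hR, vpow h, vpow h, vpow h, vadd h, vadd h, ← v0 h]; rfl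
      kk1 := kk1, kk2 := kk2, kk3 := kk3, kw1 := kw1, kw2 := kw2, kw3 := kw
      w1w2 := by rw [w1v h hy hR, w2v h hy hR]; exact vcom h _ _
      w1k2 := c22.symm
      k1w2 := c11
      k1k2 := c12
      w1w3 := by rw [w1v h hy hR, w3v h hy hR]; exact vcom h _ _
      w1k3 := c1.symm
      k1w3 := c21
      k1k3 := c31.symm
      w2w3 := by rw [w2v h hy hR, w3v h hy hR]; exact vcom h _ _
      w2k3 := c2.symm
      k2w3 := c12'
      k2k3 := c23
      ff := D.ff, tt := D.tt, ft := D.c_tf.symm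
      fw1 := by rw [w1v h hy hR, w2v h hy hR, (acts_f h).v h]; rfl
      fk1 := fk
      fw3 := com_cj (by rw [w3v h hy hR, (acts_f h).v h]; rfl)
      fk3 := cf.symm
      tw1 := by rw [w1v h hy hR, tv h, vinv h]
      tw2 := by rw [w2v h hy hR, tv h, vinv h]
      tw3 := by rw [w3v h hy hR, tv h, vinv h]
      tk1 := tk1, tk2 := tk2, tk3 := tk }
  have Lz : L.z = D.z := w3sq h hy hR
  have Le : L.e = D.e := w1sq h hy hR
  refine ⟨L, rfl, rfl, rfl, rfl, rfl, Lz, Le, rfl, rfl, q23, ?_⟩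
  obtain ⟨c, hc, e⟩ := ey
  refine ⟨c, by rw [Lf.E, Lz, Le]; exact hc, ?_⟩
  have : b * D.τ * ((a * b)⁻¹ * D.τ) * (a * D.τ) = D.τ := by
    rw [w1v h hy hR, w2v h hy hR, w3v h hy hR, vadd h, vadd h, ← vτ h]; rfl
  rw [e]
  change _ = φ * k * φ⁻¹ * (b * D.τ) * (φ * (φ * k * φ⁻¹) * φ⁻¹) *
    (b * D.τ * ((a * b)⁻¹ * D.τ) * (a * D.τ)) ^ (1 + σ).val * c
  rw [this]

theorem exists_lf : ∃ L, Lk D a b y φ L := by
  obtain ⟨k, hk⟩ : ∃ k, k = D.t * p * y * b * D.τ * D.e := ⟨_, rfl⟩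
  obtain ⟨kR, kk, kw, c1, c2, cf, ctp, kτ, -, kt⟩ := krel h hy hR hk
  have A : Acts D a b p k aK := (hk.trans (k_eq h hy hR)) ▸ acts_k h hy hR
  have P := acts_φ h hy hR
  have tk : D.t * k * D.t⁻¹ = a * D.τ * k := by
    rw [Fr.F1.t_inv, mul_assoc, mul_inv_eq_iff_eq_mul.1 kt, ← mul_assoc, ← mul_assoc, D.tt, one_mul]
  obtain ⟨k1, hk1⟩ : ∃ k1, k1 = φ * k * φ⁻¹ := ⟨_, rfl⟩
  obtain ⟨k2, hk2⟩ : ∃ k2, k2 = φ * k1 * φ⁻¹ := ⟨_, rfl⟩
  have k1R : k1 ∈ R := hk1 ▸ hR.φR _ kR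
  have k2R : k2 ∈ R := hk2 ▸ hR.φR _ k1R
  have A1 : Acts D a b p k1 (cnj aK) := hk1 ▸ acts_cnj h hy hR A
  have A2 : Acts D a b p k2 (cnj (cnj aK)) := hk2 ▸ acts_cnj h hy hR A1
  have q23 : φ * k2 * φ⁻¹ = k := by
    calc φ * k2 * φ⁻¹ = φ ^ 3 * k * (φ ^ 3)⁻¹ := by
          simp only [hk2, hk1, pow_succ, pow_zero, one_mul, mul_inv_rev, mul_assoc]
      _ = k := cj_com (hR.cube k kR)
  have fφ : D.f * φ * D.f⁻¹ = φ⁻¹ := by rw [f_inv h]; exact hR.th.fθ
  have fk1 : D.f * k1 * D.f⁻¹ = k2 := by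
    have e2 : D.f * k1 * D.f⁻¹ = (D.f * φ * D.f⁻¹) * (D.f * k * D.f⁻¹) * (D.f * φ * D.f⁻¹)⁻¹ := by rw [hk1]; group
    rw [e2, fφ, cj_com cf.symm, ← q23]; group
  have fk2 : D.f * k2 * D.f⁻¹ = k1 := by
    rw [← fk1, f_inv h, ← mul_assoc, ← mul_assoc, D.ff, one_mul, mul_assoc, D.ff, mul_one]
  have k11 : k1 * k1 = vv a b p (0, 2, 0) := by rw [hk1, ← cj_mul, kk, hR.th.θz, ve h]
  have k22 : k2 * k2 = vv a b p (2, 2, 0) := by rw [hk2, ← cj_mul, k11, P.v h]; rfl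
  have c1tp : Commute k1 (D.t * p) := by
    have := ctp.map (MulAut.conj φ)
    rwa [MulAut.conj_apply, MulAut.conj_apply, ← hk1, cj_mul, φt h hy hR, cj_com hR.φp] at this
  have c2w : Commute k2 (b * D.τ) := com_cj (by rw [w1v h hy hR, A2.v h]; rfl)
  have mE : ∀ x : VV, x = 0 ∨ x = (2, 0, 0) ∨ x = (0, 2, 0) ∨ x = (2, 2, 0) → vv a b p x ∈ closure {D.e, D.z} := by
    have he : D.e ∈ closure {D.e, D.z} := subset_closure (by simp)
    have hz : D.z ∈ closure {D.e, D.z} := subset_closure (by simp)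
    rintro x (rfl | rfl | rfl | rfl)
    · rw [v0 h]; exact one_mem _
    · rw [vz h]; exact hz
    · rw [ve h]; exact he
    · have : D.e * D.z = vv a b p (2, 2, 0) := by rw [← ve h, ← vz h, vadd h]; rfl
      exact this ▸ mul_mem he hz
  -- the commutator
  obtain ⟨g, hg, eg⟩ : ∃ g, k1 * k2 * k1⁻¹ * k2⁻¹ = vv a b p g ∧ tr 0 = tr g := by
    have := memB h hy hR (mul_mem (mul_mem (mul_mem k1R k2R) (inv_mem k1R)) (inv_mem k2R))
      (((A1.mul h A2).mul h (A1.inv h (A' := cnj aK) (by decide +kernel))).mul h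
        (A2.inv h (A' := cnj (cnj aK)) (by decide +kernel))) (by decide +kernel)
    rcases this with ⟨x, e, e'⟩ | ⟨x, e⟩
    · exact ⟨x, e, Eq.trans (by decide +kernel) e'⟩
    · exfalso; revert x; decide +kernel
  have h12 : k1 * k2 * k1⁻¹ = vv a b p g * k2 := by rw [← hg]; group
  have g1 : lin (cnj aK) g + g = 0 := by
    refine vinj h ?_
    have e : k1 * (k1 * k2 * k1⁻¹) * k1⁻¹ = k2 := by
      rw [← cj_cj, k11, ve h]; exact cj_com (hR.ce _ k2R).symm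
    rw [h12, cj_mul, h12, A1.v h, ← mul_assoc, vadd h, mul_eq_right] at e
    rw [e, v0 h]
  have g2 : lin aF g = -g := by
    refine vinj h ?_
    rw [← (acts_f h).v h, ← vinv h, ← hg]
    calc D.f * (k1 * k2 * k1⁻¹ * k2⁻¹) * D.f⁻¹ = D.f * k1 * D.f⁻¹ * (D.f * k2 * D.f⁻¹) * (D.f * k1 * D.f⁻¹)⁻¹ *
          (D.f * k2 * D.f⁻¹)⁻¹ := by group
      _ = _ := by rw [fk1, fk2]; group
  have g3 : g = 0 ∨ g = (2, 0, 0) := by
    revert g1 g2 eg; generalize g = g; revert g; decide +kernel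
  -- the product
  obtain ⟨m, hm, em⟩ : ∃ m, k1 * k2 * k * (D.t * p) = vv a b p m ∧ tr 0 = tr m := by
    have := memB h hy hR (mul_mem (mul_mem (mul_mem k1R k2R) kR) (mul_mem (tR h hy hR) (vR h hy hR (0, 0, 1))))
      (((A1.mul h A2).mul h A).mul h ((acts_t h).mul h (acts_v h _))) (by decide +kernel)
    rw [vp h] at this
    rcases this with ⟨x, e, e'⟩ | ⟨x, e⟩
    · exact ⟨x, e, Eq.trans (by decide +kernel) e'⟩
    · exfalso; revert x; decide +kernel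
  have h31 : k * k1 * k⁻¹ * k1⁻¹ = vv a b p (lin aP (lin aP g)) := by
    rw [← P.v h, ← P.v h, ← hg, cj_comm, ← hk2, q23, cj_comm, q23, ← hk1]
  have gE : vv a b p g ∈ closure {D.e, D.z} := mE _ (by rcases g3 with rfl | rfl <;> decide)
  have g'E : vv a b p (-lin aP (lin aP g)) ∈ closure {D.e, D.z} := mE _ (by rcases g3 with rfl | rfl <;> decide)
  have m1 : lin (cnj aK) m = g + -lin aP (lin aP g) + m := by
    refine vinj h ?_
    have h13 : k1 * k * k1⁻¹ = vv a b p (-lin aP (lin aP g)) * k := by rw [← vinv h, ← h31]; group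
    rw [← A1.v h, ← vadd h, ← vadd h, ← hm, cj_mul, cj_mul, cj_mul, h12, h13, cj_com c1tp, mul_inv_cancel_right]
    simp only [mul_assoc]
    rw [(E_cent h hy hR gE k1R).left_comm, (E_cent h hy hR g'E k2R).left_comm, (E_cent h hy hR g'E k1R).left_comm]
  -- the formula for `y`
  have zE : D.z ∈ closure {D.e, D.z} := subset_closure (by simp)
  have ey : y = k1 * (b * D.τ) * k2 * vv a b p (m + -g + (2, 0, 0)) := by
    have tp : D.t * p * (D.t * p) = 1 := by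
      rw [← mul_assoc, h.t_Bh Fr.F1.p_Bh, inv_mul_cancel]
    have e1 : y = k * (D.t * p) * (b * D.τ * D.e)⁻¹ := by
      rw [ctp.eq, hk]
      calc y = D.t * p * (D.t * p) * y := by rw [tp, one_mul]
        _ = _ := by group
    have e2 : k * (D.t * p) = k2⁻¹ * k1⁻¹ * vv a b p m := by rw [← hm]; group
    have e3 : k2⁻¹ * k1⁻¹ = k1 * k2 * vv a b p (-g + (2, 0, 0)) := by
      have e4 : k2 * k1 = k1 * k2 * vv a b p (-g) := by
        rw [(E_cent h hy hR (c := vv a b p (-g)) (by rw [← vinv h]; exact inv_mem gE) (mul_mem k1R k2R)).eq, ← vinv h,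
          ← hg]
        group
      have e5 : k1⁻¹ = k1 * vv a b p (0, 2, 0) := by
        rw [inv_eq_iff_mul_eq_one, ← mul_assoc, k11, vadd h, ← v0 h]; rfl
      have e6 : k2⁻¹ = k2 * vv a b p (2, 2, 0) := by
        rw [inv_eq_iff_mul_eq_one, ← mul_assoc, k22, vadd h, ← v0 h]; rfl
      rw [e5, e6, mul_assoc k2, ← (E_cent h hy hR (mE (2, 2, 0) (by decide)) k1R).left_comm, ← mul_assoc k2, e4,
        vadd h, mul_assoc, vadd h]
      rfl
    rw [e1, e2, e3, mul_assoc k1 (b * D.τ), ← c2w.eq, w1v h hy hR, ← ve h, vadd h, vinv h]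
    simp only [mul_assoc, vadd h]
    congr 3
    rw [show -((0, 1, 2) + (0, 2, 0) : VV) = (0, 1, 2) by decide]
    abel
  rcases g3 with rfl | rfl
  · refine build h hy hR 1 kR (by rw [kk]; exact (pow_one _).symm) kw c1 c2 cf tk ?_ ⟨vv a b p (m + -0 + (2, 0, 0)), mE _ ?_, ?_⟩
    · rw [← hk1, ← hk2]
      refine com_cj ?_
      rw [h12, v0 h, one_mul]
    · revert em m1; generalize m = m; revert m; decide +kernel
    · rw [← hk1, ← hk2, show ((1 : ZMod 2) + 1).val = 0 from rfl, pow_zero, mul_one]; exact ey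
  · have cτ : ∀ x : VV, Commute D.τ (vv a b p x) := fun x => by nth_rewrite 1 [← vτ h]; exact vcom h _ _
    have τk : ∀ {k : G} {A : Aff}, Acts D a b p k A → cmp A A = tr 0 →
        D.τ * k = k * vv a b p (lin A (0, 0, 2)) := fun {k A} kA e => by
      have := (kA.inv h e).v h (0, 0, 2)
      rw [← this, vτ h]; group
    have τR : D.τ ∈ R := by rw [← vτ h]; exact vR h hy hR _
    have t0 := τk A (by decide +kernel)
    have t1 := τk A1 (by decide +kernel)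
    have t2 := τk A2 (by decide +kernel)
    have f1 : φ * (k * D.τ) * φ⁻¹ = k1 * D.τ := by rw [cj_mul, φτ h hy hR, hk1]
    have f2 : φ * (k1 * D.τ) * φ⁻¹ = k2 * D.τ := by rw [cj_mul, φτ h hy hR, hk2]
    refine build h hy hR 0 (mul_mem kR τR) ?_ ?_ ?_ ?_ ?_ ?_ ?_
      ⟨vv a b p (m + (2, 2, 2)), mE _ ?_, ?_⟩
    · rw [mul_assoc, ← mul_assoc D.τ, t0, ← mul_assoc, ← mul_assoc, kk, ← vz h]
      nth_rewrite 1 [← vτ h]
      rw [vadd h, vadd h]
      exact (v0 h).trans (pow_zero _).symm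
    · rw [cj_cj, cj_com (g := D.τ) (by rw [w3v h hy hR]; exact cτ _), kw]
    · exact c1.mul_left (by rw [w1v h hy hR]; exact cτ _)
    · exact c2.mul_left (by rw [w2v h hy hR]; exact cτ _)
    · exact cf.mul_left D.c_τf
    · rw [cj_mul, tk, cj_com D.c_tτ, mul_assoc (a * D.τ)]
    · rw [f1, f2]
      change k1 * D.τ * (k2 * D.τ) = k2 * D.τ * (k1 * D.τ)
      have e4 : k1 * k2 = k2 * k1 * vv a b p (2, 0, 0) := by
        rw [(E_cent h hy hR gE (mul_mem k2R k1R)).eq, ← hg]; group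
      rw [mul_assoc k1, ← mul_assoc D.τ, t2, mul_assoc k2 D.τ, ← mul_assoc D.τ, t1, ← mul_assoc k1, ← mul_assoc k1, e4]
      simp only [mul_assoc]
      rw [← mul_assoc (vv a b p _), vadd h]
      rfl
    · revert em m1; generalize m = m; revert m; decide +kernel
    · have cb : Commute D.τ (b * D.τ) := by rw [w1v h hy hR]; exact cτ _
      have e : k1 * D.τ * (b * D.τ) * (k2 * D.τ) * D.τ * vv a b p (m + (2, 2, 2)) =
          k1 * (D.τ * (b * D.τ)) * k2 * (D.τ * D.τ) * vv a b p (m + (2, 2, 2)) := by simp only [mul_assoc]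
      rw [f1, f2, show ((1 : ZMod 2) + 0).val = 1 from rfl, pow_one, e, cb.eq, D.ττ, mul_one, ← mul_assoc k1,
        mul_assoc _ D.τ k2, t2, ← mul_assoc _ k2, mul_assoc _ (vv a b p _), vadd h, ey]
      congr 2
      exact (by decide +kernel : ∀ m : VV, m + -(2, 0, 0) + (2, 0, 0) =
        lin (cnj (cnj aK)) (0, 0, 2) + (m + (2, 2, 2))) m

end A4

end CfsgLib.L3F
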