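import Mathlib
import Cfsg.Agent.Lib.L3F.Defs
import Cfsg.Agent.Lib.L33.F2
import Cfsg.Agent.Lib.L33.Gck

/-! Standard `L₃(3)`, the case `PSp₆(3)`, package A6: an element of order 3 centralizing `⟨z, y a⟩`.  See `plans/L3F.md`. -/

set_option autoImplicit false
set_option linter.unusedSectionVars false

namespace CfsgLib.L3F

open Subgroup CfsgLib.Tech CfsgLib.L33 CfsgLib.PComp

variable {G : Type*} [Group G] [Finite G]

open Fr Fr.Nrm Fr.GckP in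
theorem a6_gen {D : Fr G} (hτ : D.τ ≠ 1) {a : G} (ay : a * D.y = D.y * a) (ai : a * D.i = D.i * a)
    (aj : a * (D.τ * D.y) = D.τ * D.y * a) (at' : a * D.t * a⁻¹ = D.t * D.z) (aa : a * a = 1) :
    ∃ ρ, ρ * D.z = D.z * ρ ∧ ρ * a = a * ρ ∧ ρ * D.y * ρ⁻¹ = D.i := by
  haveI : Fact (Nat.Prime 2) := ⟨Nat.prime_two⟩
  have jz : ∀ {g : G}, g * (D.τ * D.y) = D.τ * D.y * g → g * D.z = D.z * g := fun {g} hg => by
    rw [← Rho.gg]; exact (com_mul hg.symm hg.symm).symm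
  have hs := D.sylCQ hτ
  set Q : Subgroup G := closure {D.t, D.τ * D.y} with hQ
  have tQ : D.t ∈ Q := subset_closure (by simp)
  have jQ : D.τ * D.y ∈ Q := subset_closure (by simp)
  let K : Subgroup G := centralizer {D.y, D.i, D.τ * D.y} ⊓ Wz D.t D.z D.zz
  have mK : ∀ {g : G}, g ∈ K ↔ (g * D.y = D.y * g ∧ g * D.i = D.i * g ∧ g * (D.τ * D.y) = D.τ * D.y * g) ∧
      g * D.z = D.z * g ∧ (g * D.t * g⁻¹ = D.t ∨ g * D.t * g⁻¹ = D.t * D.z) := fun {g} => by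
    simp only [K, mem_inf, mem_centralizer_iff, Set.mem_insert_iff, Set.mem_singleton_iff, forall_eq_or_imp,
      forall_eq, mem_Wz, eq_comm (a := g * _) (b := _ * g)]
  have tj : D.t * (D.τ * D.y) = D.τ * D.y * D.t := (com_mul D.c_tτ.symm D.c_ty.symm).symm
  have aK : a ∈ K := mK.2 ⟨⟨ay, ai, aj⟩, jz aj, Or.inr at'⟩
  have QK : Q ≤ K := (closure_le _).2 (by
    rintro g (rfl | rfl)
    · exact mK.2 ⟨⟨D.c_ty, D.c_ti, tj⟩, D.c_tz, Or.inl (by simp)⟩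
    · exact mK.2 ⟨⟨(hs.le jQ _ (by simp)).symm, (hs.le jQ _ (by simp)).symm, rfl⟩, jz rfl, Or.inl (fix tj.symm)⟩)
  have h2 : IsPGroup 2 ↥(Q ⊔ zpowers a) := two_sup_two hs.pgroup (fun k hk => conj_mem_of_mem_normalizer
    (norm_of hQ (by
      rintro v (rfl | rfl)
      · rw [at', ← Rho.gg]; exact mul_mem tQ (mul_mem jQ jQ)
      · rw [fix aj]; exact jQ)) hk) (aa ▸ one_mem _)
  have CK : Q ⊔ zpowers a ≤ K := sup_le QK (zpowers_le.2 aK)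
  have ha : a ∈ Q ⊔ zpowers a := mem_sup_right (mem_zpowers a)
  have mQ : ∀ {R : Subgroup G}, IsPGroup 2 R → Q ⊔ zpowers a ≤ R → R ≤ K → ∀ {u : G}, u ∈ R →
      u * D.t = D.t * u → u ∈ Q := fun {R} hR h1 h2 {u} hu ht => by
    rw [← hs.eq_of_le (Q := R ⊓ centralizer {D.t, D.y, D.i}) (hR.to_le inf_le_left)
      (le_inf (le_sup_left.trans h1) hs.le) inf_le_right]
    refine ⟨hu, ?_⟩
    obtain ⟨⟨hy, hi, -⟩, -⟩ := mK.1 (h2 hu)
    rintro v (rfl | rfl | rfl)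
    exacts [ht.symm, hy.symm, hi.symm]
  have ft : ∀ {u : G}, u * D.t * u⁻¹ = D.t * D.z → a * u * D.t = D.t * (a * u) := fun {u} hu =>
    com (by rw [cj2, hu, cjm, at', fix (jz aj), mul_assoc, D.zz, mul_one])
  have syl : IsSylowIn 2 (Q ⊔ zpowers a) K := isSylowIn_of_maximal h2 CK fun R hR h1 h2 u hu => by
    rcases (mK.1 (h2 hu)).2.2 with ht | ht
    · exact mem_sup_left (mQ hR h1 h2 hu (com ht))
    · exact (mul_mem_cancel_left ha).1 (mem_sup_left (mQ hR h1 h2 (R.mul_mem (h1 ha) hu) (ft ht)))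
  obtain ⟨ρ, hn, ρt, ρj, ρy, ρi⟩ : ∃ ρ ∈ normalizer ((Q ⊔ zpowers a : Subgroup G) : Set G), ρ * D.t = D.t * ρ ∧
      ρ * (D.τ * D.y) = D.τ * D.y * ρ ∧ ρ * D.y * ρ⁻¹ = D.i ∧ ρ * D.i * ρ⁻¹ = D.y * D.i := by
    obtain ⟨ρ, ρt, ρj, ρy, ρi⟩ := D.exists_rho hτ
    have h1 : ρ ∈ normalizer ((centralizer {D.y, D.i, D.τ * D.y} : Subgroup G) : Set G) := by
      refine norm_cent fun c hc => ?_
      have hy := hc D.y (by simp)
      have hi := hc D.i (by simp)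
      rintro v (rfl | rfl | rfl)
      · rw [ρy]; exact hi
      · rw [ρi]; exact com_mul hy hi
      · rw [fix ρj]; exact hc _ (by simp)
    have hW : ρ ∈ Wz D.t D.z D.zz := ⟨jz ρj, Or.inl (fix ρt)⟩
    obtain ⟨n, hnK, hn1⟩ := syl.frattini (g := ρ) (mem_normalizer_of_forall fun k hk =>
      mem_inf.2 ⟨conj_mem_of_mem_normalizer h1 hk.1, mul_mem (mul_mem hW (mem_inf.1 hk).2) (inv_mem hW)⟩)
    obtain ⟨m, hm, mt, h1⟩ : ∃ m ∈ K, m * D.t = D.t * m ∧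
        m * ρ ∈ normalizer ((Q ⊔ zpowers a : Subgroup G) : Set G) := by
      rcases (mK.1 hnK).2.2 with ht | ht
      · exact ⟨n, hnK, com ht, hn1⟩
      · exact ⟨a * n, K.mul_mem aK hnK, ft ht, by rw [mul_assoc]; exact mul_mem (le_normalizer ha) hn1⟩
    obtain ⟨⟨hy, hi, hj⟩, -⟩ := mK.1 hm
    exact ⟨m * ρ, h1, com_mul mt ρt, com_mul hj ρj, by rw [cj2, ρy, fix hi], by rw [cj2, ρi, cjm, fix hy, fix hi]⟩
  obtain ⟨c, hc⟩ : ∃ c, c = a⁻¹ * (ρ * a * ρ⁻¹) := ⟨_, rfl⟩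
  have hcQ : c ∈ Q := mQ h2 le_rfl CK (hc ▸ mul_mem (inv_mem ha) (conj_mem_of_mem_normalizer hn ha)) (by
    rw [hc]
    apply com_of_eq
    rw [at', cj2, cj2, fix (com_inv ρt), at', cjm, fix ρt, fix (jz ρj)])
  obtain ⟨α, k, hk⟩ := (D.mem_CQ hτ).1 hcQ
  have ρc : ρ * c = c * ρ := by
    rw [hk]; exact (com_mul (com_pow ρt.symm _) (com_pow ρj.symm _)).symm
  have c4 : c ^ 4 = 1 := by
    have t4 : D.t ^ 4 = 1 := by rw [show 4 = 2 * 2 from rfl, pow_mul, pow_two D.t, D.tt, one_pow]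
    have g4 : (D.τ * D.y) ^ 4 = 1 := by rw [show 4 = 2 * 2 from rfl, pow_mul, pow_two, pow_two, Rho.gg, D.zz]
    rw [hk, ((show Commute _ _ from tj).pow_pow _ _).mul_pow, ← pow_mul, ← pow_mul, mul_comm _ 4, mul_comm _ 4,
      pow_mul, pow_mul, t4, g4]
    simp
  have st : ∀ n : ℕ, ρ * (a * c ^ n) * ρ⁻¹ = a * c ^ (n + 1) := fun n => by
    rw [cjm, show ρ * a * ρ⁻¹ = a * c by rw [hc]; group, fix (com_pow ρc.symm n).symm, pow_succ', mul_assoc]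
  refine ⟨ρ * (ρ * (ρ * ρ)), com_mul (jz ρj) (com_mul (jz ρj) (com_mul (jz ρj) (jz ρj))), com ?_, ?_⟩
  · have h0 := st 0
    rw [pow_zero, mul_one] at h0
    rw [cj2, cj2, cj2, h0, st, st, st, c4, mul_one]
  · rw [cj2, cj2, cj2, ρy, ρi, cjm ρ D.y, ρy, ρi, Rho.iyi, ρy]

open Fr Fr.Nrm in
theorem exists_rho2 {D : Fr G} {a b p θ : G} (h : D.Four a b p θ) (hx : D.x * a * D.x⁻¹ = a * D.z) :
    ∃ ρ, ρ * D.z = D.z * ρ ∧ ρ * (D.y * a) = D.y * a * ρ ∧ ρ * D.y * ρ⁻¹ = D.i := by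
  have ay : a * D.y = D.y * a := by rw [← D.ef]; exact (com_mul h.ae.symm h.af.symm).symm
  refine a6_gen h.τ1 (com_mul rfl ay) (com ?_).symm
    (com_mul (com_mul D.c_τy rfl).symm (com_mul h.aτ.symm ay.symm).symm) ?_ ?_
  · have h1 : D.i * D.y * D.i⁻¹ = D.y * D.z := by
      calc _ = D.i * (D.y * D.i) * (D.i * D.i)⁻¹ := by group
        _ = _ := by rw [Rho.iyi, D.ii, inv_eq_of_mul_eq_one_right D.zz]
    have h2 : D.i * a * D.i⁻¹ = a * D.z := by rw [Fr.i, cj2, fix h.ae.symm, hx]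
    rw [cjm, h1, h2, h.az, mul_assoc, ← mul_assoc D.z, D.zz, one_mul]
  · rw [cj2, h.at', cjm, fix D.c_ty.symm, fix D.c_zy.symm]
  · rw [mul_assoc, ← mul_assoc a, ay, mul_assoc, h.a2, ← mul_assoc, D.yy, D.zz]

end CfsgLib.L3F
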