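import Mathlib
import Cfsg.Agent.Lib.L3F.Defs

/-! Standard `L₃(3)`, the case `PSp₆(3)`, package Mod: normal forms.  See `plans/L3F.md`. -/

set_option autoImplicit false
set_option linter.unusedSectionVars false
set_option linter.unusedSimpArgs false

namespace CfsgLib.L3F

open Subgroup CfsgLib.Tech CfsgLib.L33 CfsgLib.PComp

variable {G : Type*} [Group G] [Finite G]

namespace Mod

omit [Finite G]

theorem two (j : ZMod 2) : j = 0 ∨ j = 1 := by revert j; decide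

theorem pw {n : ℕ} [NeZero n] {w : G} (h : w ^ n = 1) (i j : ZMod n) :
    w ^ (i + j).val = w ^ i.val * w ^ j.val := by
  rw [ZMod.val_add, ← pow_eq_pow_mod _ h, pow_add]

theorem pn {n : ℕ} [NeZero n] {w : G} (h : w ^ n = 1) (i : ZMod n) : w ^ (-i).val = w⁻¹ ^ i.val :=
  (eq_inv_of_mul_eq_one_left (by rw [← pw h, neg_add_cancel, ZMod.val_zero, pow_zero])).trans
    (inv_pow _ _).symm

def q (w k : G) (a : Qd) : G := w ^ a.1.val * k ^ a.2.val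

theorem v1 : (1 : ZMod 2).val = 1 := rfl
theorem v41 : (1 : ZMod 4).val = 1 := rfl
theorem v42 : (2 : ZMod 4).val = 2 := rfl
theorem a11 : (1 : ZMod 2) + 1 = 0 := rfl

theorem q_mul {w k : G} {σ : ZMod 2} (h4 : w ^ 4 = 1) (kk : k * k = (w ^ 2) ^ σ.val)
    (kw : k * w * k⁻¹ = w⁻¹) (a b : Qd) : q w k (qm σ a b) = q w k a * q w k b := by
  obtain ⟨i, j⟩ := a
  obtain ⟨i', j'⟩ := b
  have key : ∀ (n : ℕ) (x : G), k * (w ^ n * x) = w⁻¹ ^ n * (k * x) := fun n x => by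
    rw [← kw, conj_pow]; group
  have key' : ∀ n : ℕ, k * w ^ n = w⁻¹ ^ n * k := fun n => by simpa using key n 1
  rcases two j with rfl | rfl <;> rcases two j' with rfl | rfl <;> rcases two σ with rfl | rfl <;>
    simp only [q, qm, mul_zero, mul_one, if_true, one_ne_zero, if_false, add_zero, zero_add, pw h4,
      pn h4, a11, v1, v42, ZMod.val_zero, pow_zero, pow_one, mul_assoc, key, key', kk]

theorem q_conj (g w k : G) (a : Qd) : g * q w k a * g⁻¹ = q (g * w * g⁻¹) (g * k * g⁻¹) a := by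
  rw [q, q, conj_pow, conj_pow]; group

theorem q_t {w k t : G} (h4 : w ^ 4 = 1) (tw : t * w * t⁻¹ = w⁻¹) (tk : t * k * t⁻¹ = w * k) (a : Qd) :
    t * q w k a * t⁻¹ = q w k (qt 1 a) := by
  obtain ⟨i, j⟩ := a
  rw [q_conj, tw, tk]
  rcases two j with rfl | rfl <;>
    simp only [q, qt, if_true, one_ne_zero, if_false, add_zero, pw h4, pn h4, v1, v41, ZMod.val_zero, pow_zero,
      pow_one, mul_assoc]

theorem q_comm {w k w' k' : G} (h1 : Commute w w') (h2 : Commute w k') (h3 : Commute k w') (h4 : Commute k k')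
    (a b : Qd) : Commute (q w k a) (q w' k' b) :=
  ((h1.pow_pow _ _).mul_right (h2.pow_pow _ _)).mul_left ((h3.pow_pow _ _).mul_right (h4.pow_pow _ _))

variable (L : Lf G)

def qq (a b c : Qd) : G := q L.w1 L.k1 a * q L.w2 L.k2 b * q L.w3 L.k3 c

theorem qq_mul (a b c a' b' c' : Qd) :
    qq L (qm L.σ a a') (qm L.σ b b') (qm L.σ c c') = qq L a b c * qq L a' b' c' := by
  have h12 := q_comm L.w1w2 L.w1k2 L.k1w2 L.k1k2
  have h13 := q_comm L.w1w3 L.w1k3 L.k1w3 L.k1k3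
  have h23 := q_comm L.w2w3 L.w2k3 L.k2w3 L.k2k3
  rw [qq, q_mul L.w14 L.kk1 L.kw1, q_mul L.w24 L.kk2 L.kw2, q_mul L.w34 L.kk3 L.kw3, qq, qq,
    (h12 a' b).mul_mul_mul_comm, ((h13 a' c).mul_left (h23 b' c)).mul_mul_mul_comm]

theorem t_qq (β : ZMod 2) (a b c : Qd) :
    L.t ^ β.val * qq L a b c = qq L (qt β a) (qt β b) (qt β c) * L.t ^ β.val := by
  rcases two β with rfl | rfl
  · simp [qt]
  · rw [v1, pow_one, qq, qq, ← q_t L.w14 L.tw1 L.tk1, ← q_t L.w24 L.tw2 L.tk2, ← q_t L.w34 L.tw3 L.tk3]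
    group

theorem f_conj {x y : G} (h : L.f * x * L.f⁻¹ = y) : L.f * y * L.f⁻¹ = x := by
  rw [← h, ← mul_assoc, ← mul_assoc, L.ff, one_mul, mul_assoc, ← mul_inv_rev, L.ff, inv_one, mul_one]

theorem f_qq (α : ZMod 2) (a b c : Qd) : L.f ^ α.val * qq L a b c =
    qq L (if α = 0 then a else b) (if α = 0 then b else a) c * L.f ^ α.val := by
  rcases two α with rfl | rfl
  · simp
  · have h1 := q_conj L.f L.w1 L.k1 a
    have h2 := q_conj L.f L.w2 L.k2 b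
    have h3 := q_conj L.f L.w3 L.k3 c
    rw [L.fw1, L.fk1] at h1
    rw [f_conj L L.fw1, f_conj L L.fk1] at h2
    rw [L.fw3.mul_inv_cancel, L.fk3.mul_inv_cancel] at h3
    rw [v1, pow_one, if_neg one_ne_zero, if_neg one_ne_zero, qq, qq,
      (q_comm L.w1w2 L.w1k2 L.k1w2 L.k1k2 b a).eq, ← h1, ← h2]
    nth_rw 2 [← h3]
    group

def cm (σ : ZMod 2) (a b : Mo) : Mo := mm σ (mm σ a b) (mi σ (mm σ b a))

theorem mi_mm : ∀ (σ : ZMod 2) (a b c : Qd) (α β : ZMod 2),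
    mm σ (mi σ (a, b, c, α, β)) (a, b, c, α, β) = 0 := fun σ a b c α β => by
  have h : ∀ (σ β : ZMod 2) (x : Qd), qm σ (qt β (qi σ x)) (qt β x) = 0 := by decide +kernel
  have h' : ∀ α : ZMod 2, α + α = 0 := by decide
  simp only [mm, mi, h, h']
  rfl

theorem ng_mm : ∀ (σ : ZMod 2) (a b c : Qd) (α β : ZMod 2),
    mm σ (ng 0) (a, b, c, α, β) = ng (a, b, c, α, β) := fun σ a b c α β => by
  have h : ∀ (σ : ZMod 2) (x : Qd), qm σ (2, 0) (qt 0 x) = (x.1 + 2, x.2) := by decide +kernel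
  simp [mm, ng, h]

theorem c1 (σ : ZMod 2) (a b c : Qd) (α : ZMod 2) : mm σ (cm σ (0, 0, (0, 1), 0, 0) (a, b, c, α, 1))
    (cm σ (0, 0, (0, 1), 0, 0) (a, b, c, α, 1)) = (0, 0, (2, 0), 0, 0) := by
  rcases two α with rfl | rfl <;>
    simp only [cm, mm, mi, zero_add, add_zero, a11, one_ne_zero, if_true, if_false, Prod.mk.injEq,
      and_true] <;>
    exact ⟨by revert σ a; decide, by revert σ b; decide, by revert σ c; decide⟩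

theorem c2 (σ : ZMod 2) (a b c : Qd) : cm σ ((0, 1), 0, 0, 0, 0)
    (cm σ ((1, 0), 0, 0, 0, 0) (a, b, c, 1, 0)) = ((2, 0), 0, 0, 0, 0) := by
  simp only [cm, mm, mi, zero_add, add_zero, a11, one_ne_zero, if_true, if_false, Prod.mk.injEq, and_true]
  exact ⟨by revert σ a; decide, by revert σ b; decide, by revert σ c; decide⟩

def qc (σ : ZMod 2) (g a : Qd) : Qd := qm σ (qm σ g a) (qi σ (qm σ a g))

theorem cm_q (σ : ZMod 2) (a b c a' b' c' : Qd) :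
    cm σ (a, b, c, 0, 0) (a', b', c', 0, 0) = (qc σ a a', qc σ b b', qc σ c c', 0, 0) := rfl

theorem qc0 : ∀ σ a, qc σ 0 a = 0 := by decide

theorem qc1 : ∀ σ a, (a = 0 ∨ a = (2, 0)) ∨ ∃ g, qc σ g a = (2, 0) := by decide +kernel

def Zs (a : Mo) : Prop :=
  eqv a ((2, 0), 0, 0, 0, 0) ∨ eqv a (0, (2, 0), 0, 0, 0) ∨ eqv a (0, 0, (2, 0), 0, 0)

instance (a : Mo) : Decidable (Zs a) := inferInstanceAs (Decidable (_ ∨ _ ∨ _))

theorem c3 (σ : ZMod 2) (a b c : Qd) : eqv (a, b, c, 0, 0) 0 ∨ Zs (a, b, c, 0, 0) ∨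
    ∃ g, Zs (cm σ g (a, b, c, 0, 0)) := by
  rcases qc1 σ a with ha | ⟨g, e⟩; swap
  · exact Or.inr (Or.inr ⟨(g, 0, 0, 0, 0), by rw [cm_q, e, qc0, qc0]; decide⟩)
  rcases qc1 σ b with hb | ⟨g, e⟩; swap
  · exact Or.inr (Or.inr ⟨(0, g, 0, 0, 0), by rw [cm_q, e, qc0, qc0]; decide⟩)
  rcases qc1 σ c with hc | ⟨g, e⟩; swap
  · exact Or.inr (Or.inr ⟨(0, 0, g, 0, 0), by rw [cm_q, e, qc0, qc0]; decide⟩)
  refine or_assoc.1 (Or.inl ?_)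
  rcases ha with rfl | rfl <;> rcases hb with rfl | rfl <;> rcases hc with rfl | rfl <;> decide

theorem k4 : ∀ (σ β : ZMod 2) (x y : Qd), (qm σ x (qt β (qt β (qi σ y))) = 0 → x = y) ∧
    (qm σ x (qt β (qt β (qi σ y))) = (0 + 2, 0) → x = (y.1 + 2, y.2)) := by decide +kernel

theorem k5 : ∀ α β : ZMod 2, α + β = 0 → α = β := by decide

theorem eqv_of (σ : ZMod 2) (a b : Mo) (h : eqv (mm σ a (mi σ b)) 0) : eqv a b := by
  obtain ⟨a1, a2, a3, α, β⟩ := a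
  obtain ⟨b1, b2, b3, α', β'⟩ := b
  obtain ⟨rfl, rfl⟩ : α = α' ∧ β = β' := by
    rcases h with h | h <;>
      exact ⟨k5 _ _ (congrArg (fun x : Mo => x.2.2.2.1) h), k5 _ _ (congrArg (fun x : Mo => x.2.2.2.2) h)⟩
  refine h.imp (fun h => ?_) fun h => ?_ <;> have h1 := congrArg (fun x : Mo => x.1) h <;>
    have h2 := congrArg (fun x : Mo => x.2.1) h <;> have h3 := congrArg (fun x : Mo => x.2.2.1) h
  · rcases two α with rfl | rfl <;>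
      rw [(k4 σ β a1 b1).1 h1, (k4 σ β a2 b2).1 h2, (k4 σ β a3 b3).1 h3]
  · rcases two α with rfl | rfl <;>
      rw [(k4 σ β a1 b1).2 h1, (k4 σ β a2 b2).2 h2, (k4 σ β a3 b3).2 h3, ng]

theorem qt0 (a : Qd) : qt 0 a = a := rfl
theorem qt_zero : ∀ β, qt β 0 = 0 := by decide
theorem qm_zero : ∀ σ, qm σ 0 0 = 0 := by decide
theorem qm_w : ∀ (σ : ZMod 2) (i j : ZMod 4), qm σ (i, 0) (j, 0) = (i + j, 0) := by decide
theorem val_two : ∀ i : ZMod 4, (2 * i).val = 2 * (i.val % 2) := by decide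

theorem mem_gen [Finite G] {s : Set G} {p : G → Prop} (h1 : p 1) (hm : ∀ x y, p x → p y → p (x * y))
    (hs : ∀ x ∈ s, p x) (hv : ∀ x, p x → x ∈ closure s) {u : G} : u ∈ closure s ↔ p u := by
  refine ⟨fun hu => closure_induction hs h1 (fun x y _ _ => hm x y) (fun x _ hx => ?_) hu, hv u⟩
  have : ∀ n, p (x ^ n) := fun n => by
    induction n with
    | zero => rwa [pow_zero]
    | succ n ih => rw [pow_succ]; exact hm _ _ ih hx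
  rw [inv_eq_of_mul_eq_one_left (b := x) (a := x ^ (orderOf x - 1))
    (by rw [← pow_succ, Nat.sub_add_cancel (orderOf_pos x), pow_orderOf_eq_one])]
  exact this _

end Mod

open CfsgLib.L3F.Mod

namespace Lf

variable (L : Lf G)

theorem ev_mul (a b : Mo) : L.ev (mm L.σ a b) = L.ev a * L.ev b := by
  have e : ∀ a : Mo, L.ev a = qq L a.1 a.2.1 a.2.2.1 * L.f ^ a.2.2.2.1.val * L.t ^ a.2.2.2.2.val :=
    fun _ => rfl
  simp only [e, mm, qq_mul, apply_ite (qt _), pw ((sq _).trans L.ff), pw ((sq _).trans L.tt)]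
  rw [mul_assoc (qq L a.1 _ _), mul_assoc (qq L a.1 _ _), ← mul_assoc (qq L _ _ _) (L.f ^ _), ← f_qq]
  simp only [mul_assoc]
  rw [← mul_assoc (L.t ^ _) (qq L _ _ _), t_qq, mul_assoc, (L.ft.pow_pow _ _).left_comm]
theorem mod_zero : L.ev 0 = 1 := by simp [ev]
theorem ev_inv (a : Mo) : L.ev (mi L.σ a) = (L.ev a)⁻¹ :=
  eq_inv_of_mul_eq_one_left (by rw [← ev_mul, mi_mm, mod_zero])
theorem mod_ng (a : Mo) : L.ev (ng a) = L.ev a := by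
  rw [← ng_mm L.σ, ev_mul, mul_eq_right, ← L.zzz]
  simp [ev, ng, v42]
theorem mod_eqv {a b : Mo} (h : eqv a b) : L.ev a = L.ev b := by
  rcases h with rfl | rfl
  exacts [rfl, L.mod_ng b]
theorem mod_cm (g : Mo) {a : Mo} (h : L.ev a = 1) : L.ev (cm L.σ g a) = 1 := by
  simp [cm, ev_mul, ev_inv, h]
theorem mod_Zs {a : Mo} (h : Zs a) : L.ev a ≠ 1 := by
  rcases h with h | h | h <;> rw [L.mod_eqv h]
  · simpa [ev, v42] using L.w12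
  · simpa [ev, v42, ← L.fw1] using L.w12
  · simpa [ev, v42] using L.w32
theorem mod_one {a : Mo} (h : L.ev a = 1) : eqv a 0 := by
  obtain ⟨a, b, c, α, β⟩ := a
  rcases two β with rfl | rfl
  · rcases two α with rfl | rfl
    · rcases c3 L.σ a b c with e | e | ⟨g, e⟩
      exacts [e, absurd h (L.mod_Zs e), absurd (L.mod_cm g h) (L.mod_Zs e)]
    · exact absurd (c2 L.σ a b c ▸ L.mod_cm _ (L.mod_cm _ h)) (L.mod_Zs (Or.inl (Or.inl rfl)))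
  · refine absurd ?_ (L.mod_Zs (Or.inr (Or.inr (Or.inl rfl))))
    rw [← c1 L.σ a b c α, ev_mul, L.mod_cm _ h, mul_one]
theorem ev_eq {a b : Mo} : L.ev a = L.ev b ↔ eqv a b :=
  ⟨fun h => eqv_of L.σ a b (L.mod_one (by rw [ev_mul, ev_inv, h, mul_inv_cancel])), L.mod_eqv⟩
theorem ev_zero : L.ev 0 = 1 := L.mod_zero
theorem ev_w1 : L.ev ((1, 0), 0, 0, 0, 0) = L.w1 := by simp [ev, v41]
theorem ev_k1 : L.ev ((0, 1), 0, 0, 0, 0) = L.k1 := by simp [ev, v1]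
theorem ev_w2 : L.ev (0, (1, 0), 0, 0, 0) = L.w2 := by simp [ev, v41]
theorem ev_k2 : L.ev (0, (0, 1), 0, 0, 0) = L.k2 := by simp [ev, v1]
theorem ev_w3 : L.ev (0, 0, (1, 0), 0, 0) = L.w3 := by simp [ev, v41]
theorem ev_k3 : L.ev (0, 0, (0, 1), 0, 0) = L.k3 := by simp [ev, v1]
theorem ev_f : L.ev (0, 0, 0, 1, 0) = L.f := by simp [ev, v1]
theorem ev_t : L.ev (0, 0, 0, 0, 1) = L.t := by simp [ev, v1]
theorem ev_e : L.ev ((2, 0), 0, 0, 0, 0) = L.e := by simp [ev, v42, e]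
theorem ev_z : L.ev (0, 0, (2, 0), 0, 0) = L.z := by simp [ev, v42, z]
theorem mem_P {u : G} : u ∈ L.P ↔ ∃ a, u = L.ev a := by
  refine mem_gen (p := fun u => ∃ a, u = L.ev a) ⟨0, L.ev_zero.symm⟩ ?_ ?_ ?_
  · rintro _ _ ⟨a, rfl⟩ ⟨b, rfl⟩
    exact ⟨_, (L.ev_mul a b).symm⟩
  · rintro _ (rfl | rfl | rfl | rfl | rfl | rfl | rfl | rfl)
    exacts [⟨_, L.ev_w1.symm⟩, ⟨_, L.ev_k1.symm⟩, ⟨_, L.ev_w2.symm⟩, ⟨_, L.ev_k2.symm⟩, ⟨_, L.ev_w3.symm⟩, ⟨_, L.ev_k3.symm⟩, ⟨_, L.ev_f.symm⟩, ⟨_, L.ev_t.symm⟩]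
  · rintro _ ⟨a, rfl⟩
    rw [ev]
    repeat' first | (refine subset_closure ?_; simp; done) | apply mul_mem | apply pow_mem
theorem mem_R {u : G} : u ∈ L.R ↔ ∃ q₁ q₂ q₃ β, u = L.ev (q₁, q₂, q₃, 0, β) := by
  refine mem_gen (p := fun u => ∃ (q₁ : Qd) (q₂ : Qd) (q₃ : Qd) (β : ZMod 2), u = L.ev (q₁, q₂, q₃, 0, β)) ⟨0, 0, 0, 0, L.ev_zero.symm⟩ ?_ ?_ ?_
  · rintro _ _ ⟨q₁, q₂, q₃, β, rfl⟩ ⟨q₁', q₂', q₃', β', rfl⟩
    have h := (L.ev_mul (q₁, q₂, q₃, 0, β) (q₁', q₂', q₃', 0, β')).symm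
    simp only [mm, qt0, qt_zero, qm_zero, qm_w, add_zero, if_true, ← mul_add] at h
    exact ⟨_, _, _, _, h⟩
  · rintro _ (rfl | rfl | rfl | rfl | rfl | rfl | rfl)
    exacts [⟨_, _, _, _, L.ev_w1.symm⟩, ⟨_, _, _, _, L.ev_k1.symm⟩, ⟨_, _, _, _, L.ev_w2.symm⟩, ⟨_, _, _, _, L.ev_k2.symm⟩, ⟨_, _, _, _, L.ev_w3.symm⟩, ⟨_, _, _, _, L.ev_k3.symm⟩, ⟨_, _, _, _, L.ev_t.symm⟩]
  · rintro _ ⟨q₁, q₂, q₃, β, rfl⟩
    simp only [ev, Prod.fst_zero, Prod.snd_zero, ZMod.val_zero, pow_zero, mul_one, one_mul, val_two, pow_mul]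
    repeat' first | (refine subset_closure ?_; simp [e, z]; done) | apply mul_mem | apply pow_mem
theorem mem_T0 {u : G} : u ∈ L.T0 ↔ ∃ q₁ q₂ q₃ α, u = L.ev (q₁, q₂, q₃, α, 0) := by
  refine mem_gen (p := fun u => ∃ (q₁ : Qd) (q₂ : Qd) (q₃ : Qd) (α : ZMod 2), u = L.ev (q₁, q₂, q₃, α, 0)) ⟨0, 0, 0, 0, L.ev_zero.symm⟩ ?_ ?_ ?_
  · rintro _ _ ⟨q₁, q₂, q₃, α, rfl⟩ ⟨q₁', q₂', q₃', α', rfl⟩
    have h := (L.ev_mul (q₁, q₂, q₃, α, 0) (q₁', q₂', q₃', α', 0)).symm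
    simp only [mm, qt0, qt_zero, qm_zero, qm_w, add_zero, if_true, ← mul_add] at h
    exact ⟨_, _, _, _, h⟩
  · rintro _ (rfl | rfl | rfl | rfl | rfl | rfl | rfl)
    exacts [⟨_, _, _, _, L.ev_w1.symm⟩, ⟨_, _, _, _, L.ev_k1.symm⟩, ⟨_, _, _, _, L.ev_w2.symm⟩, ⟨_, _, _, _, L.ev_k2.symm⟩, ⟨_, _, _, _, L.ev_w3.symm⟩, ⟨_, _, _, _, L.ev_k3.symm⟩, ⟨_, _, _, _, L.ev_f.symm⟩]
  · rintro _ ⟨q₁, q₂, q₃, α, rfl⟩
    simp only [ev, Prod.fst_zero, Prod.snd_zero, ZMod.val_zero, pow_zero, mul_one, one_mul, val_two, pow_mul]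
    repeat' first | (refine subset_closure ?_; simp [e, z]; done) | apply mul_mem | apply pow_mem
theorem mem_Q {u : G} : u ∈ L.Q ↔ ∃ q₁ q₂ q₃, u = L.ev (q₁, q₂, q₃, 0, 0) := by
  refine mem_gen (p := fun u => ∃ (q₁ : Qd) (q₂ : Qd) (q₃ : Qd), u = L.ev (q₁, q₂, q₃, 0, 0)) ⟨0, 0, 0, L.ev_zero.symm⟩ ?_ ?_ ?_
  · rintro _ _ ⟨q₁, q₂, q₃, rfl⟩ ⟨q₁', q₂', q₃', rfl⟩
    have h := (L.ev_mul (q₁, q₂, q₃, 0, 0) (q₁', q₂', q₃', 0, 0)).symm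
    simp only [mm, qt0, qt_zero, qm_zero, qm_w, add_zero, if_true, ← mul_add] at h
    exact ⟨_, _, _, h⟩
  · rintro _ (rfl | rfl | rfl | rfl | rfl | rfl)
    exacts [⟨_, _, _, L.ev_w1.symm⟩, ⟨_, _, _, L.ev_k1.symm⟩, ⟨_, _, _, L.ev_w2.symm⟩, ⟨_, _, _, L.ev_k2.symm⟩, ⟨_, _, _, L.ev_w3.symm⟩, ⟨_, _, _, L.ev_k3.symm⟩]
  · rintro _ ⟨q₁, q₂, q₃, rfl⟩
    simp only [ev, Prod.fst_zero, Prod.snd_zero, ZMod.val_zero, pow_zero, mul_one, one_mul, val_two, pow_mul]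
    repeat' first | (refine subset_closure ?_; simp [e, z]; done) | apply mul_mem | apply pow_mem
theorem mem_T1 {u : G} : u ∈ L.T1 ↔ ∃ q₁ q₂ α, u = L.ev (q₁, q₂, 0, α, 0) := by
  refine mem_gen (p := fun u => ∃ (q₁ : Qd) (q₂ : Qd) (α : ZMod 2), u = L.ev (q₁, q₂, 0, α, 0)) ⟨0, 0, 0, L.ev_zero.symm⟩ ?_ ?_ ?_
  · rintro _ _ ⟨q₁, q₂, α, rfl⟩ ⟨q₁', q₂', α', rfl⟩
    have h := (L.ev_mul (q₁, q₂, 0, α, 0) (q₁', q₂', 0, α', 0)).symm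
    simp only [mm, qt0, qt_zero, qm_zero, qm_w, add_zero, if_true, ← mul_add] at h
    exact ⟨_, _, _, h⟩
  · rintro _ (rfl | rfl | rfl | rfl | rfl)
    exacts [⟨_, _, _, L.ev_w1.symm⟩, ⟨_, _, _, L.ev_k1.symm⟩, ⟨_, _, _, L.ev_w2.symm⟩, ⟨_, _, _, L.ev_k2.symm⟩, ⟨_, _, _, L.ev_f.symm⟩]
  · rintro _ ⟨q₁, q₂, α, rfl⟩
    simp only [ev, Prod.fst_zero, Prod.snd_zero, ZMod.val_zero, pow_zero, mul_one, one_mul, val_two, pow_mul]
    repeat' first | (refine subset_closure ?_; simp [e, z]; done) | apply mul_mem | apply pow_mem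
theorem mem_Q1 {u : G} : u ∈ L.Q1 ↔ ∃ q, u = L.ev (q, 0, 0, 0, 0) := by
  refine mem_gen (p := fun u => ∃ (q : Qd), u = L.ev (q, 0, 0, 0, 0)) ⟨0, L.ev_zero.symm⟩ ?_ ?_ ?_
  · rintro _ _ ⟨q, rfl⟩ ⟨q', rfl⟩
    have h := (L.ev_mul (q, 0, 0, 0, 0) (q', 0, 0, 0, 0)).symm
    simp only [mm, qt0, qt_zero, qm_zero, qm_w, add_zero, if_true, ← mul_add] at h
    exact ⟨_, h⟩
  · rintro _ (rfl | rfl)
    exacts [⟨_, L.ev_w1.symm⟩, ⟨_, L.ev_k1.symm⟩]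
  · rintro _ ⟨q, rfl⟩
    simp only [ev, Prod.fst_zero, Prod.snd_zero, ZMod.val_zero, pow_zero, mul_one, one_mul, val_two, pow_mul]
    repeat' first | (refine subset_closure ?_; simp [e, z]; done) | apply mul_mem | apply pow_mem
theorem mem_Q2 {u : G} : u ∈ L.Q2 ↔ ∃ q, u = L.ev (0, q, 0, 0, 0) := by
  refine mem_gen (p := fun u => ∃ (q : Qd), u = L.ev (0, q, 0, 0, 0)) ⟨0, L.ev_zero.symm⟩ ?_ ?_ ?_
  · rintro _ _ ⟨q, rfl⟩ ⟨q', rfl⟩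
    have h := (L.ev_mul (0, q, 0, 0, 0) (0, q', 0, 0, 0)).symm
    simp only [mm, qt0, qt_zero, qm_zero, qm_w, add_zero, if_true, ← mul_add] at h
    exact ⟨_, h⟩
  · rintro _ (rfl | rfl)
    exacts [⟨_, L.ev_w2.symm⟩, ⟨_, L.ev_k2.symm⟩]
  · rintro _ ⟨q, rfl⟩
    simp only [ev, Prod.fst_zero, Prod.snd_zero, ZMod.val_zero, pow_zero, mul_one, one_mul, val_two, pow_mul]
    repeat' first | (refine subset_closure ?_; simp [e, z]; done) | apply mul_mem | apply pow_mem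
theorem mem_Q3 {u : G} : u ∈ L.Q3 ↔ ∃ q, u = L.ev (0, 0, q, 0, 0) := by
  refine mem_gen (p := fun u => ∃ (q : Qd), u = L.ev (0, 0, q, 0, 0)) ⟨0, L.ev_zero.symm⟩ ?_ ?_ ?_
  · rintro _ _ ⟨q, rfl⟩ ⟨q', rfl⟩
    have h := (L.ev_mul (0, 0, q, 0, 0) (0, 0, q', 0, 0)).symm
    simp only [mm, qt0, qt_zero, qm_zero, qm_w, add_zero, if_true, ← mul_add] at h
    exact ⟨_, h⟩
  · rintro _ (rfl | rfl)
    exacts [⟨_, L.ev_w3.symm⟩, ⟨_, L.ev_k3.symm⟩]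
  · rintro _ ⟨q, rfl⟩
    simp only [ev, Prod.fst_zero, Prod.snd_zero, ZMod.val_zero, pow_zero, mul_one, one_mul, val_two, pow_mul]
    repeat' first | (refine subset_closure ?_; simp [e, z]; done) | apply mul_mem | apply pow_mem
theorem mem_Q12 {u : G} : u ∈ L.Q1 ⊔ L.Q2 ↔ ∃ q q', u = L.ev (q, q', 0, 0, 0) := by
  rw [Q1, Q2, ← Subgroup.closure_union]
  refine mem_gen (p := fun u => ∃ (q₁ : Qd) (q₂ : Qd), u = L.ev (q₁, q₂, 0, 0, 0)) ⟨0, 0, L.ev_zero.symm⟩ ?_ ?_ ?_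
  · rintro _ _ ⟨q₁, q₂, rfl⟩ ⟨q₁', q₂', rfl⟩
    have h := (L.ev_mul (q₁, q₂, 0, 0, 0) (q₁', q₂', 0, 0, 0)).symm
    simp only [mm, qt0, qt_zero, qm_zero, qm_w, add_zero, if_true, ← mul_add] at h
    exact ⟨_, _, h⟩
  · rintro _ ((rfl | rfl) | (rfl | rfl))
    exacts [⟨_, _, L.ev_w1.symm⟩, ⟨_, _, L.ev_k1.symm⟩, ⟨_, _, L.ev_w2.symm⟩, ⟨_, _, L.ev_k2.symm⟩]
  · rintro _ ⟨q₁, q₂, rfl⟩
    simp only [ev, Prod.fst_zero, Prod.snd_zero, ZMod.val_zero, pow_zero, mul_one, one_mul, val_two, pow_mul]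
    repeat' first | (refine subset_closure ?_; simp [e, z]; done) | apply mul_mem | apply pow_mem
theorem mem_Q23 {u : G} : u ∈ L.Q2 ⊔ L.Q3 ↔ ∃ q q', u = L.ev (0, q, q', 0, 0) := by
  rw [Q2, Q3, ← Subgroup.closure_union]
  refine mem_gen (p := fun u => ∃ (q₁ : Qd) (q₂ : Qd), u = L.ev (0, q₁, q₂, 0, 0)) ⟨0, 0, L.ev_zero.symm⟩ ?_ ?_ ?_
  · rintro _ _ ⟨q₁, q₂, rfl⟩ ⟨q₁', q₂', rfl⟩
    have h := (L.ev_mul (0, q₁, q₂, 0, 0) (0, q₁', q₂', 0, 0)).symm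
    simp only [mm, qt0, qt_zero, qm_zero, qm_w, add_zero, if_true, ← mul_add] at h
    exact ⟨_, _, h⟩
  · rintro _ ((rfl | rfl) | (rfl | rfl))
    exacts [⟨_, _, L.ev_w2.symm⟩, ⟨_, _, L.ev_k2.symm⟩, ⟨_, _, L.ev_w3.symm⟩, ⟨_, _, L.ev_k3.symm⟩]
  · rintro _ ⟨q₁, q₂, rfl⟩
    simp only [ev, Prod.fst_zero, Prod.snd_zero, ZMod.val_zero, pow_zero, mul_one, one_mul, val_two, pow_mul]
    repeat' first | (refine subset_closure ?_; simp [e, z]; done) | apply mul_mem | apply pow_mem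
theorem mem_Q13 {u : G} : u ∈ L.Q1 ⊔ L.Q3 ↔ ∃ q q', u = L.ev (q, 0, q', 0, 0) := by
  rw [Q1, Q3, ← Subgroup.closure_union]
  refine mem_gen (p := fun u => ∃ (q₁ : Qd) (q₂ : Qd), u = L.ev (q₁, 0, q₂, 0, 0)) ⟨0, 0, L.ev_zero.symm⟩ ?_ ?_ ?_
  · rintro _ _ ⟨q₁, q₂, rfl⟩ ⟨q₁', q₂', rfl⟩
    have h := (L.ev_mul (q₁, 0, q₂, 0, 0) (q₁', 0, q₂', 0, 0)).symm
    simp only [mm, qt0, qt_zero, qm_zero, qm_w, add_zero, if_true, ← mul_add] at h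
    exact ⟨_, _, h⟩
  · rintro _ ((rfl | rfl) | (rfl | rfl))
    exacts [⟨_, _, L.ev_w1.symm⟩, ⟨_, _, L.ev_k1.symm⟩, ⟨_, _, L.ev_w3.symm⟩, ⟨_, _, L.ev_k3.symm⟩]
  · rintro _ ⟨q₁, q₂, rfl⟩
    simp only [ev, Prod.fst_zero, Prod.snd_zero, ZMod.val_zero, pow_zero, mul_one, one_mul, val_two, pow_mul]
    repeat' first | (refine subset_closure ?_; simp [e, z]; done) | apply mul_mem | apply pow_mem
theorem mem_Q1E {u : G} : u ∈ L.Q1 ⊔ L.E ↔ ∃ q, ∃ i : ZMod 4, u = L.ev (q, 0, (2 * i, 0), 0, 0) := by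
  rw [Q1, E, ← Subgroup.closure_union]
  refine mem_gen (p := fun u => ∃ (q : Qd) (i : ZMod 4), u = L.ev (q, 0, (2 * i, 0), 0, 0)) ⟨0, 0, L.ev_zero.symm⟩ ?_ ?_ ?_
  · rintro _ _ ⟨q, i, rfl⟩ ⟨q', i', rfl⟩
    have h := (L.ev_mul (q, 0, (2 * i, 0), 0, 0) (q', 0, (2 * i', 0), 0, 0)).symm
    simp only [mm, qt0, qt_zero, qm_zero, qm_w, add_zero, if_true, ← mul_add] at h
    exact ⟨_, _, h⟩
  · rintro _ ((rfl | rfl) | (rfl | rfl))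
    exacts [⟨_, 0, L.ev_w1.symm⟩, ⟨_, 0, L.ev_k1.symm⟩, ⟨_, 0, L.ev_e.symm⟩, ⟨_, 1, L.ev_z.symm⟩]
  · rintro _ ⟨q, i, rfl⟩
    simp only [ev, Prod.fst_zero, Prod.snd_zero, ZMod.val_zero, pow_zero, mul_one, one_mul, val_two, pow_mul]
    repeat' first | (refine subset_closure ?_; simp [e, z]; done) | apply mul_mem | apply pow_mem
theorem mem_Q2E {u : G} : u ∈ L.Q2 ⊔ L.E ↔ ∃ q, ∃ i : ZMod 4, u = L.ev (0, q, (2 * i, 0), 0, 0) := by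
  rw [Q2, E, ← Subgroup.closure_union]
  refine mem_gen (p := fun u => ∃ (q : Qd) (i : ZMod 4), u = L.ev (0, q, (2 * i, 0), 0, 0)) ⟨0, 0, L.ev_zero.symm⟩ ?_ ?_ ?_
  · rintro _ _ ⟨q, i, rfl⟩ ⟨q', i', rfl⟩
    have h := (L.ev_mul (0, q, (2 * i, 0), 0, 0) (0, q', (2 * i', 0), 0, 0)).symm
    simp only [mm, qt0, qt_zero, qm_zero, qm_w, add_zero, if_true, ← mul_add] at h
    exact ⟨_, _, h⟩
  · rintro _ ((rfl | rfl) | (rfl | rfl))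
    exacts [⟨_, 0, L.ev_w2.symm⟩, ⟨_, 0, L.ev_k2.symm⟩, ⟨(2, 0), 1, L.ev_e.symm.trans (L.mod_eqv (by decide))⟩, ⟨_, 1, L.ev_z.symm⟩]
  · rintro _ ⟨q, i, rfl⟩
    simp only [ev, Prod.fst_zero, Prod.snd_zero, ZMod.val_zero, pow_zero, mul_one, one_mul, val_two, pow_mul]
    repeat' first | (refine subset_closure ?_; simp [e, z]; done) | apply mul_mem | apply pow_mem
theorem mem_Q3E {u : G} : u ∈ L.Q3 ⊔ L.E ↔ ∃ q, ∃ i : ZMod 4, u = L.ev ((2 * i, 0), 0, q, 0, 0) := by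
  rw [Q3, E, ← Subgroup.closure_union]
  refine mem_gen (p := fun u => ∃ (q : Qd) (i : ZMod 4), u = L.ev ((2 * i, 0), 0, q, 0, 0)) ⟨0, 0, L.ev_zero.symm⟩ ?_ ?_ ?_
  · rintro _ _ ⟨q, i, rfl⟩ ⟨q', i', rfl⟩
    have h := (L.ev_mul ((2 * i, 0), 0, q, 0, 0) ((2 * i', 0), 0, q', 0, 0)).symm
    simp only [mm, qt0, qt_zero, qm_zero, qm_w, add_zero, if_true, ← mul_add] at h
    exact ⟨_, _, h⟩
  · rintro _ ((rfl | rfl) | (rfl | rfl))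
    exacts [⟨_, 0, L.ev_w3.symm⟩, ⟨_, 0, L.ev_k3.symm⟩, ⟨_, 1, L.ev_e.symm⟩, ⟨_, 0, L.ev_z.symm⟩]
  · rintro _ ⟨q, i, rfl⟩
    simp only [ev, Prod.fst_zero, Prod.snd_zero, ZMod.val_zero, pow_zero, mul_one, one_mul, val_two, pow_mul]
    repeat' first | (refine subset_closure ?_; simp [e, z]; done) | apply mul_mem | apply pow_mem
theorem mem_A3 {u : G} : u ∈ L.A3 ↔ ∃ i j k : ZMod 4, u = L.ev ((i, 0), (j, 0), (k, 0), 0, 0) := by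
  refine mem_gen (p := fun u => ∃ (i : ZMod 4) (j : ZMod 4) (k : ZMod 4), u = L.ev ((i, 0), (j, 0), (k, 0), 0, 0)) ⟨0, 0, 0, L.ev_zero.symm⟩ ?_ ?_ ?_
  · rintro _ _ ⟨i, j, k, rfl⟩ ⟨i', j', k', rfl⟩
    have h := (L.ev_mul ((i, 0), (j, 0), (k, 0), 0, 0) ((i', 0), (j', 0), (k', 0), 0, 0)).symm
    simp only [mm, qt0, qt_zero, qm_zero, qm_w, add_zero, if_true, ← mul_add] at h
    exact ⟨_, _, _, h⟩
  · rintro _ (rfl | rfl | rfl)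
    exacts [⟨_, _, _, L.ev_w1.symm⟩, ⟨_, _, _, L.ev_w2.symm⟩, ⟨_, _, _, L.ev_w3.symm⟩]
  · rintro _ ⟨i, j, k, rfl⟩
    simp only [ev, Prod.fst_zero, Prod.snd_zero, ZMod.val_zero, pow_zero, mul_one, one_mul, val_two, pow_mul]
    repeat' first | (refine subset_closure ?_; simp [e, z]; done) | apply mul_mem | apply pow_mem
theorem mem_E {u : G} : u ∈ L.E ↔ u = 1 ∨ u = L.z ∨ u = L.e ∨ u = L.e * L.z := by
  have ee : L.e * L.e = 1 := by rw [e, ← pow_add, L.w14]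
  have zz : L.z * L.z = 1 := by rw [z, ← pow_add, L.w34]
  have ze : L.z * L.e = L.e * L.z := (L.w1w3.pow_pow 2 2).symm
  have ee' : ∀ x, L.e * (L.e * x) = x := fun x => by rw [← mul_assoc, ee, one_mul]
  have ze' : ∀ x, L.z * (L.e * x) = L.e * (L.z * x) := fun x => by rw [← mul_assoc, ze, mul_assoc]
  refine mem_gen (p := fun u => u = 1 ∨ u = L.z ∨ u = L.e ∨ u = L.e * L.z) (Or.inl rfl) ?_ ?_ ?_
  · rintro _ _ (rfl | rfl | rfl | rfl) (rfl | rfl | rfl | rfl) <;> simp [mul_assoc, ee, zz, ze, ee', ze']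
  · rintro _ (rfl | rfl) <;> simp
  · rintro _ (rfl | rfl | rfl | rfl)
    exacts [one_mem _, subset_closure (by simp), subset_closure (by simp),
      mul_mem (subset_closure (by simp)) (subset_closure (by simp))]
theorem mem_zz {u : G} : u ∈ zpowers L.z ↔ u = 1 ∨ u = L.z := by
  have zz : L.z * L.z = 1 := by rw [z, ← pow_add, L.w34]
  rw [zpowers_eq_closure]
  refine mem_gen (p := fun u => u = 1 ∨ u = L.z) (Or.inl rfl) ?_ (fun _ => Or.inr) ?_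
  · rintro _ _ (rfl | rfl) (rfl | rfl) <;> simp [zz]
  · rintro _ (rfl | rfl)
    exacts [one_mem _, subset_closure rfl]
theorem mod_card {H : Subgroup G} (p : Mo → Prop) [DecidablePred p] (hp : ∀ a, p a → p (ng a))
    (hH : ∀ u, u ∈ H ↔ ∃ a, p a ∧ u = L.ev a) :
    Nat.card H = (Finset.univ.filter fun a => p a ∧ a.2.2.1.1.val < 2).card := by
  have h2 : ∀ i : ZMod 4, i.val < 2 ↔ ¬ (i + 2).val < 2 := by decide
  rw [← Set.ncard_coe_finset, ← Set.InjOn.ncard_image (f := L.ev) fun a ha b hb h => ?_]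
  · refine congrArg Set.ncard (Set.ext fun u => (hH u).trans ⟨?_, ?_⟩ : (H : Set G) = _)
    · rintro ⟨a, ha, rfl⟩
      by_cases h : a.2.2.1.1.val < 2
      · exact ⟨a, Finset.mem_filter.2 ⟨Finset.mem_univ _, ha, h⟩, rfl⟩
      · exact ⟨ng a, Finset.mem_filter.2 ⟨Finset.mem_univ _, hp a ha, not_not.1 (mt (h2 _).2 h)⟩, L.mod_ng a⟩
    · rintro ⟨a, ha, rfl⟩
      exact ⟨a, (Finset.mem_filter.1 ha).2.1, rfl⟩
  · rcases L.ev_eq.1 h with e | rfl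
    · exact e
    · exact absurd (Finset.mem_filter.1 ha).2.2 ((h2 _).1 (Finset.mem_filter.1 hb).2.2)
theorem card_P : Nat.card L.P = 1024 := by
  rw [L.mod_card (fun _ => True) (fun _ => id) fun u => L.mem_P.trans (by simp)]
  decide +kernel
theorem card_T0 : Nat.card L.T0 = 512 := by
  rw [L.mod_card (fun a => a.2.2.2.2 = 0) (fun _ => id) fun u => L.mem_T0.trans (by simp)]
  decide +kernel
theorem card_Q : Nat.card L.Q = 256 := by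
  rw [L.mod_card (fun a => a.2.2.2.1 = 0 ∧ a.2.2.2.2 = 0) (fun _ => id) fun u => L.mem_Q.trans (by simp [and_assoc])]
  decide +kernel
theorem card_A3 : Nat.card L.A3 = 32 := by
  rw [L.mod_card (fun a => a.1.2 = 0 ∧ a.2.1.2 = 0 ∧ a.2.2.1.2 = 0 ∧ a.2.2.2.1 = 0 ∧ a.2.2.2.2 = 0)
    (fun _ => id) fun u => L.mem_A3.trans (by simp [and_assoc])]
  decide +kernel
theorem two_P : IsPGroup 2 L.P := IsPGroup.of_card (n := 10) L.card_P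

end Lf

end CfsgLib.L3F
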