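import Mathlib
import Cfsg.Agent.Lib.L3F.Defs
import Cfsg.Agent.Lib.L3F.Mod

/-! Standard `L₃(3)`, the case `PSp₆(3)`, package FacA: facts on the model, both values of `σ`.  See `plans/L3F.md`. -/

set_option autoImplicit false
set_option linter.unusedSectionVars false
set_option linter.unusedSimpArgs false

namespace CfsgLib.L3F

open Subgroup CfsgLib.Tech CfsgLib.L33 CfsgLib.PComp

variable {G : Type*} [Group G] [Finite G]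

/-- central in `⟨w, k⟩` -/
def cE (q : Qd) : Prop := q = 0 ∨ q = (2, 0)

instance (q : Qd) : Decidable (cE q) := inferInstanceAs (Decidable (_ ∨ _))

/-- the commutator in `⟨w, k⟩` -/
def cm (σ : ZMod 2) (q r : Qd) : Qd := qm σ (qm σ (qm σ q r) (qi σ q)) (qi σ r)

theorem qt_zero (a : Qd) : qt 0 a = a := by simp [qt]

theorem mmQ (σ β γ : ZMod 2) (q₁ q₂ q₃ r₁ r₂ r₃ : Qd) : mm σ (q₁, q₂, q₃, 0, β) (r₁, r₂, r₃, 0, γ) =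
    (qm σ q₁ (qt β r₁), qm σ q₂ (qt β r₂), qm σ q₃ (qt β r₃), 0, β + γ) := by simp [mm]

theorem miQ (σ β : ZMod 2) (q₁ q₂ q₃ : Qd) : mi σ (q₁, q₂, q₃, 0, β) =
    (qt β (qi σ q₁), qt β (qi σ q₂), qt β (qi σ q₃), 0, β) := by simp [mi]

theorem cm_cE : ∀ (σ : ZMod 2) (q r : Qd), cE (cm σ q r) := by decide +kernel

theorem cm_zero : ∀ (σ : ZMod 2) (q r : Qd), cE q → cm σ q r = 0 := by decide +kernel

/-- the image modulo the centre -/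
def pr (q : Qd) : ZMod 2 × ZMod 2 := (if q.1 = 0 ∨ q.1 = 2 then 0 else 1, q.2)

theorem pr_qm : ∀ (σ : ZMod 2) (a b : Qd), pr (qm σ a b) = pr a + pr b := by decide +kernel

theorem pr_qi : ∀ (σ : ZMod 2) (a : Qd), pr (qi σ a) = pr a := by decide +kernel

theorem cE_iff : ∀ q : Qd, cE q ↔ pr q = 0 := by decide +kernel

theorem pr_two : ∀ i : ZMod 4, pr (2 * i, 0) = 0 := by decide +kernel

theorem pr_zero : pr 0 = 0 := by decide +kernel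

theorem qm_qt_zero : ∀ (σ β : ZMod 2) (q : Qd), qm σ q (qt β 0) = q := by decide +kernel

namespace Lf

variable (L : Lf G)

theorem memE {a : Mo} : L.ev a ∈ L.E ↔ cE a.1 ∧ cE a.2.1 ∧ cE a.2.2.1 ∧ a.2.2.2.1 = 0 ∧ a.2.2.2.2 = 0 := by
  simp only [L.mem_E, ← L.ev_zero, ← L.ev_e, ← L.ev_z, ← L.ev_mul, L.ev_eq]
  generalize L.σ = σ
  constructor
  · rintro ((rfl | rfl) | (rfl | rfl) | (rfl | rfl) | (rfl | rfl)) <;> revert σ <;> decide +kernel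
  · obtain ⟨q1, q2, q3, α, β⟩ := a
    dsimp only
    rintro ⟨rfl | rfl, rfl | rfl, rfl | rfl, rfl, rfl⟩ <;> revert σ <;> decide +kernel

theorem memQ {a : Mo} : L.ev a ∈ L.Q ↔ a.2.2.2.1 = 0 ∧ a.2.2.2.2 = 0 := by
  rw [mem_Q]
  constructor
  · rintro ⟨q1, q2, q3, h⟩
    rcases L.ev_eq.1 h with rfl | rfl <;> exact ⟨rfl, rfl⟩
  · obtain ⟨q1, q2, q3, α, β⟩ := a
    rintro ⟨rfl, rfl⟩
    exact ⟨_, _, _, rfl⟩

theorem memR {a : Mo} : L.ev a ∈ L.R ↔ a.2.2.2.1 = 0 := by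
  rw [mem_R]
  constructor
  · rintro ⟨q1, q2, q3, β, h⟩
    rcases L.ev_eq.1 h with rfl | rfl <;> rfl
  · obtain ⟨q1, q2, q3, α, β⟩ := a
    rintro rfl
    exact ⟨_, _, _, _, rfl⟩

theorem memT0 {a : Mo} : L.ev a ∈ L.T0 ↔ a.2.2.2.2 = 0 := by
  rw [mem_T0]
  constructor
  · rintro ⟨q1, q2, q3, β, h⟩
    rcases L.ev_eq.1 h with rfl | rfl <;> rfl
  · obtain ⟨q1, q2, q3, α, β⟩ := a
    rintro rfl
    exact ⟨_, _, _, _, rfl⟩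

theorem memT1 {a : Mo} : L.ev a ∈ L.T1 ↔ cE a.2.2.1 ∧ a.2.2.2.2 = 0 := by
  simp only [L.mem_T1, L.ev_eq]
  constructor
  · rintro ⟨q1, q2, α, rfl | rfl⟩
    · exact ⟨.inl rfl, rfl⟩
    · exact ⟨.inr rfl, rfl⟩
  · obtain ⟨q1, q2, q3, α, β⟩ := a
    rintro ⟨rfl | rfl, rfl⟩
    · exact ⟨_, _, _, .inl rfl⟩
    · have k : ∀ i : ZMod 4, i + 2 + 2 = i := by decide
      refine ⟨(q1.1 + 2, q1.2), (q2.1 + 2, q2.2), α, .inr ?_⟩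
      simp only [ng, k, Prod.fst_zero, Prod.snd_zero, zero_add]

theorem memQ3 {a : Mo} : L.ev a ∈ L.Q3 ↔ cE a.1 ∧ a.2.1 = a.1 ∧ a.2.2.2.1 = 0 ∧ a.2.2.2.2 = 0 := by
  simp only [L.mem_Q3, L.ev_eq]
  constructor
  · rintro ⟨q, rfl | rfl⟩
    · exact ⟨.inl rfl, rfl, rfl, rfl⟩
    · exact ⟨.inr rfl, rfl, rfl, rfl⟩
  · obtain ⟨q1, q2, q3, α, β⟩ := a
    dsimp only
    rintro ⟨rfl | rfl, rfl, rfl, rfl⟩
    · exact ⟨_, .inl rfl⟩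
    · revert q3
      decide +kernel

theorem memQ1E {q₁ q₂ q₃ : Qd} : L.ev (q₁, q₂, q₃, 0, 0) ∈ L.Q1 ⊔ L.E ↔ cE q₂ ∧ cE q₃ := by
  simp only [L.mem_Q1E, L.ev_eq]
  constructor
  · rintro ⟨q, i, h⟩
    rcases h with h | h <;> simp only [ng, Prod.mk.injEq] at h <;> obtain ⟨-, rfl, rfl, -⟩ := h <;>
      revert i <;> decide
  · rintro ⟨rfl | rfl, rfl | rfl⟩ <;> revert q₁ <;> decide +kernel

theorem memQ2E {q₁ q₂ q₃ : Qd} : L.ev (q₁, q₂, q₃, 0, 0) ∈ L.Q2 ⊔ L.E ↔ cE q₁ ∧ cE q₃ := by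
  simp only [L.mem_Q2E, L.ev_eq]
  constructor
  · rintro ⟨q, i, h⟩
    rcases h with h | h <;> simp only [ng, Prod.mk.injEq] at h <;> obtain ⟨rfl, -, rfl, -⟩ := h <;>
      revert i <;> decide
  · rintro ⟨rfl | rfl, rfl | rfl⟩ <;> revert q₂ <;> decide +kernel

theorem memQ3E {q₁ q₂ q₃ : Qd} : L.ev (q₁, q₂, q₃, 0, 0) ∈ L.Q3 ⊔ L.E ↔ cE q₁ ∧ cE q₂ := by
  simp only [L.mem_Q3E, L.ev_eq]
  constructor
  · rintro ⟨q, i, h⟩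
    rcases h with h | h <;> simp only [ng, Prod.mk.injEq] at h <;> obtain ⟨rfl, rfl, -⟩ := h <;>
      revert i <;> decide
  · rintro ⟨rfl | rfl, rfl | rfl⟩ <;> revert q₃ <;> decide +kernel

theorem comQ (q₁ q₂ q₃ r₁ r₂ r₃ : Qd) : L.ev (q₁, q₂, q₃, 0, 0) * L.ev (r₁, r₂, r₃, 0, 0) *
    (L.ev (q₁, q₂, q₃, 0, 0))⁻¹ * (L.ev (r₁, r₂, r₃, 0, 0))⁻¹ =
      L.ev (cm L.σ q₁ r₁, cm L.σ q₂ r₂, cm L.σ q₃ r₃, 0, 0) := by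
  simp only [← L.ev_inv, ← L.ev_mul, mmQ, miQ, qt_zero, add_zero, cm]

theorem Eq_iff {u v : G} : L.Eq u v ↔ v⁻¹ * u ∈ L.E :=
  ⟨by rintro ⟨c, hc, rfl⟩; rwa [inv_mul_cancel_left], fun h => ⟨_, h, by group⟩⟩

theorem comm_E {g c : G} (he : g * L.e = L.e * g) (hz : g * L.z = L.z * g) (hc : c ∈ L.E) : g * c = c * g := by
  rcases L.mem_E.1 hc with rfl | rfl | rfl | rfl
  · simp
  · exact hz
  · exact he
  · rw [← mul_assoc, he, mul_assoc, hz, mul_assoc]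

theorem zz : L.z * L.z = 1 := by
  rw [z, ← pow_add]; exact L.w34
theorem ee : L.e * L.e = 1 := by
  rw [e, ← pow_add]; exact L.w14
theorem z1 : L.z ≠ 1 := L.w32
theorem e1 : L.e ≠ 1 := L.w12
theorem ez : L.e ≠ L.z := by
  rw [← L.ev_e, ← L.ev_z, Ne, L.ev_eq]
  decide
theorem w22 : L.w2 ^ 2 = L.e * L.z := by
  rw [pow_two]
  simp only [← L.ev_w1, ← L.ev_k1, ← L.ev_w2, ← L.ev_k2, ← L.ev_w3, ← L.ev_k3, ← L.ev_f, ← L.ev_t, ← L.ev_e, ← L.ev_z,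
    ← L.ev_inv, ← L.ev_mul, L.ev_eq, Ne]
  generalize L.σ = σ
  revert σ 
  decide +kernel
theorem fe : L.f * L.e * L.f⁻¹ = L.e * L.z := by
  simp only [← L.ev_w1, ← L.ev_k1, ← L.ev_w2, ← L.ev_k2, ← L.ev_w3, ← L.ev_k3, ← L.ev_f, ← L.ev_t, ← L.ev_e, ← L.ev_z,
    ← L.ev_inv, ← L.ev_mul, L.ev_eq, Ne]
  generalize L.σ = σ
  revert σ 
  decide +kernel
theorem ef : L.e * L.f * L.e⁻¹ = L.f * L.z := by
  simp only [← L.ev_w1, ← L.ev_k1, ← L.ev_w2, ← L.ev_k2, ← L.ev_w3, ← L.ev_k3, ← L.ev_f, ← L.ev_t, ← L.ev_e, ← L.ev_z,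
    ← L.ev_inv, ← L.ev_mul, L.ev_eq, Ne]
  generalize L.σ = σ
  revert σ 
  decide +kernel
theorem w1t : L.w1 * L.t * L.w1⁻¹ = L.t * L.e := by
  simp only [← L.ev_w1, ← L.ev_k1, ← L.ev_w2, ← L.ev_k2, ← L.ev_w3, ← L.ev_k3, ← L.ev_f, ← L.ev_t, ← L.ev_e, ← L.ev_z,
    ← L.ev_inv, ← L.ev_mul, L.ev_eq, Ne]
  generalize L.σ = σ
  revert σ 
  decide +kernel
theorem E_le_Q : L.E ≤ L.Q := by
  rw [E, closure_le]
  rintro x (rfl | rfl)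
  · rw [SetLike.mem_coe, ← L.ev_e]; exact L.memQ.2 ⟨rfl, rfl⟩
  · rw [SetLike.mem_coe, ← L.ev_z]; exact L.memQ.2 ⟨rfl, rfl⟩
theorem E_le_T1 : L.E ≤ L.T1 := by
  rw [E, closure_le]
  rintro x (rfl | rfl)
  · rw [SetLike.mem_coe, ← L.ev_e]; exact L.memT1.2 ⟨.inl rfl, rfl⟩
  · rw [SetLike.mem_coe, ← L.ev_z]; exact L.memT1.2 ⟨.inr rfl, rfl⟩
theorem z_Q3 : L.z ∈ L.Q3 := L.mem_Q3.2 ⟨_, L.ev_z.symm⟩
theorem Q1_le : L.Q1 ≤ L.Q := fun u h => by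
  obtain ⟨q, rfl⟩ := L.mem_Q1.1 h
  exact L.memQ.2 ⟨rfl, rfl⟩
theorem Q2_le : L.Q2 ≤ L.Q := fun u h => by
  obtain ⟨q, rfl⟩ := L.mem_Q2.1 h
  exact L.memQ.2 ⟨rfl, rfl⟩
theorem Q3_le : L.Q3 ≤ L.Q := fun u h => by
  obtain ⟨q, rfl⟩ := L.mem_Q3.1 h
  exact L.memQ.2 ⟨rfl, rfl⟩
theorem Q_le_T0 : L.Q ≤ L.T0 := fun u h => by
  obtain ⟨q₁, q₂, q₃, rfl⟩ := L.mem_Q.1 h
  exact L.memT0.2 rfl
theorem Q_le_R : L.Q ≤ L.R := fun u h => by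
  obtain ⟨q₁, q₂, q₃, rfl⟩ := L.mem_Q.1 h
  exact L.memR.2 rfl
theorem T1_le : L.T1 ≤ L.T0 := fun u h => by
  obtain ⟨q₁, q₂, α, rfl⟩ := L.mem_T1.1 h
  exact L.memT0.2 rfl
theorem Q12_le : L.Q1 ⊔ L.Q2 ≤ L.T1 := fun u h => by
  obtain ⟨q₁, q₂, rfl⟩ := L.mem_Q12.1 h
  exact L.mem_T1.2 ⟨_, _, _, rfl⟩
theorem T0_le : L.T0 ≤ L.P := fun u h => by
  obtain ⟨q₁, q₂, q₃, α, rfl⟩ := L.mem_T0.1 h
  exact L.mem_P.2 ⟨_, rfl⟩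
theorem R_le : L.R ≤ L.P := fun u h => by
  obtain ⟨q₁, q₂, q₃, α, rfl⟩ := L.mem_R.1 h
  exact L.mem_P.2 ⟨_, rfl⟩
theorem cz {u : G} (h : u ∈ L.P) : u * L.z = L.z * u := by
  refine mem_centralizer_singleton_iff.1 (?_ : u ∈ centralizer {L.z})
  revert u
  change L.P ≤ _
  rw [P, closure_le]
  rintro x (rfl | rfl | rfl | rfl | rfl | rfl | rfl | rfl)
  all_goals
    simp only [SetLike.mem_coe, mem_centralizer_singleton_iff, ← L.ev_w1, ← L.ev_k1, ← L.ev_w2, ← L.ev_k2, ← L.ev_w3, ← L.ev_k3, ← L.ev_f, ← L.ev_t, ← L.ev_e, ← L.ev_z,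
    ← L.ev_inv, ← L.ev_mul, L.ev_eq]
    generalize L.σ = σ
    revert σ
    decide +kernel
theorem ce {u : G} (h : u ∈ L.R) : u * L.e = L.e * u := by
  refine mem_centralizer_singleton_iff.1 (?_ : u ∈ centralizer {L.e})
  revert u
  change L.R ≤ _
  rw [R, closure_le]
  rintro x (rfl | rfl | rfl | rfl | rfl | rfl | rfl)
  all_goals
    simp only [SetLike.mem_coe, mem_centralizer_singleton_iff, ← L.ev_w1, ← L.ev_k1, ← L.ev_w2, ← L.ev_k2, ← L.ev_w3, ← L.ev_k3, ← L.ev_f, ← L.ev_t, ← L.ev_e, ← L.ev_z,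
    ← L.ev_inv, ← L.ev_mul, L.ev_eq]
    generalize L.σ = σ
    revert σ
    decide +kernel
theorem P_dec {u : G} (h : u ∈ L.P) : u ∈ L.R ∨ u * L.e * u⁻¹ = L.e * L.z := by
  obtain ⟨⟨q₁, q₂, q₃, α, β⟩, rfl⟩ := L.mem_P.1 h
  rcases (by decide : ∀ α : ZMod 2, α = 0 ∨ α = 1) α with rfl | rfl
  · exact .inl (L.memR.2 rfl)
  · have hr : L.ev (q₁, q₂, q₃, 0, β) ∈ L.R := L.memR.2 rfl
    have e : L.ev (q₁, q₂, q₃, 1, β) = L.ev (q₁, q₂, q₃, 0, β) * L.f := by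
      rw [← L.ev_f, ← L.ev_mul]
      simp [mm, qm_qt_zero]
    rw [e]
    generalize L.ev (q₁, q₂, q₃, 0, β) = r at hr
    refine .inr ?_
    rw [show r * L.f * L.e * (r * L.f)⁻¹ = r * (L.f * L.e * L.f⁻¹) * r⁻¹ by group, L.fe, ← mul_assoc,
      L.ce hr, mul_assoc L.e, L.cz (L.R_le hr), mul_assoc, mul_inv_cancel_right]
theorem conj_e {u : G} (h : u ∈ L.P) : u * L.e * u⁻¹ = L.e ∨ u * L.e * u⁻¹ = L.e * L.z := by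
  rcases L.P_dec h with e | e
  · exact .inl (by rw [L.ce e, mul_inv_cancel_right])
  · exact .inr e
theorem mem_R_of {u : G} (h : u ∈ L.P) (he : u * L.e = L.e * u) : u ∈ L.R := by
  refine (L.P_dec h).resolve_right fun e => L.z1 ?_
  rw [he, mul_inv_cancel_right] at e
  simpa using e
theorem mem_Q_of {u : G} (h : u ∈ L.T0) (he : u * L.e = L.e * u) : u ∈ L.Q := by
  obtain ⟨q₁, q₂, q₃, α, rfl⟩ := L.mem_T0.1 h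
  exact L.memQ.2 ⟨L.memR.1 (L.mem_R_of (L.T0_le h) he), rfl⟩
theorem R_cases {u : G} (h : u ∈ L.R) : u ∈ L.Q ∨ L.t * u ∈ L.Q := by
  obtain ⟨q₁, q₂, q₃, β, rfl⟩ := L.mem_R.1 h
  rw [← L.ev_t, ← L.ev_mul, L.memQ, L.memQ]
  change ((0 : ZMod 2) = 0 ∧ β = 0) ∨ ((0 : ZMod 2) + 0 = 0 ∧ 1 + β = 0)
  clear h
  revert β
  decide
theorem P_cases {u : G} (h : u ∈ L.P) : u ∈ L.T0 ∨ L.t * u ∈ L.T0 := by
  obtain ⟨⟨q₁, q₂, q₃, α, β⟩, rfl⟩ := L.mem_P.1 h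
  rw [← L.ev_t, ← L.ev_mul, L.memT0, L.memT0]
  change β = 0 ∨ 1 + β = 0
  clear h
  revert β
  decide
theorem norm_Q {u : G} (h : u ∈ L.P) : u ∈ normalizer (L.Q : Set G) := by
  obtain ⟨⟨q₁, q₂, q₃, α, β⟩, rfl⟩ := L.mem_P.1 h
  refine mem_normalizer_of_forall fun v hv => ?_
  obtain ⟨r₁, r₂, r₃, rfl⟩ := L.mem_Q.1 hv
  rw [← L.ev_inv, ← L.ev_mul, ← L.ev_mul, L.memQ]
  change α + 0 + α = 0 ∧ β + 0 + β = 0
  clear h hv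
  revert α β
  decide
theorem norm_Q3 {u : G} (h : u ∈ L.P) : u ∈ normalizer (L.Q3 : Set G) := by
  revert u
  change L.P ≤ _
  rw [P, closure_le]
  rintro x (rfl | rfl | rfl | rfl | rfl | rfl | rfl | rfl)
  all_goals
    refine mem_normalizer_of_forall fun v hv => ?_
    obtain ⟨r, rfl⟩ := L.mem_Q3.1 hv
    clear hv
    simp only [← L.ev_w1, ← L.ev_k1, ← L.ev_w2, ← L.ev_k2, ← L.ev_w3, ← L.ev_k3, ← L.ev_f, ← L.ev_t, ← L.ev_e, ← L.ev_z,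
    ← L.ev_inv, ← L.ev_mul, L.memQ3]
    generalize L.σ = σ
    revert σ r
    decide +kernel
theorem norm_E {u : G} (h : u ∈ L.P) : u ∈ normalizer (L.E : Set G) := by
  refine mem_normalizer_of_forall fun v hv => ?_
  have hz : u * L.z * u⁻¹ = L.z := by rw [L.cz h, mul_inv_cancel_right]
  have mz : L.z ∈ L.E := L.mem_E.2 (.inr (.inl rfl))
  have me : u * L.e * u⁻¹ ∈ L.E := L.mem_E.2 (.inr (.inr (L.conj_e h)))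
  rcases L.mem_E.1 hv with rfl | rfl | rfl | rfl
  · simp
  · rwa [hz]
  · exact me
  · rw [show u * (L.e * L.z) * u⁻¹ = u * L.e * u⁻¹ * (u * L.z * u⁻¹) by group, hz]
    exact mul_mem me mz
theorem c13 {u q : G} (h : u ∈ L.T1) (hq : q ∈ L.Q3) : u * q = q * u := by
  refine mem_centralizer_singleton_iff.1 (?_ : u ∈ centralizer {q})
  revert u
  change L.T1 ≤ _
  rw [T1, closure_le]
  obtain ⟨r, rfl⟩ := L.mem_Q3.1 hq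
  clear hq
  rintro x (rfl | rfl | rfl | rfl | rfl)
  all_goals
    simp only [SetLike.mem_coe, mem_centralizer_singleton_iff, ← L.ev_w1, ← L.ev_k1, ← L.ev_w2, ← L.ev_k2, ← L.ev_w3, ← L.ev_k3, ← L.ev_f, ← L.ev_t, ← L.ev_e, ← L.ev_z,
    ← L.ev_inv, ← L.ev_mul, L.ev_eq]
    generalize L.σ = σ
    revert σ r
    decide +kernel
theorem com_Q {u v : G} (hu : u ∈ L.Q) (hv : v ∈ L.Q) : u * v * u⁻¹ * v⁻¹ ∈ L.E := by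
  obtain ⟨q₁, q₂, q₃, rfl⟩ := L.mem_Q.1 hu
  obtain ⟨r₁, r₂, r₃, rfl⟩ := L.mem_Q.1 hv
  rw [L.comQ, L.memE]
  exact ⟨cm_cE _ _ _, cm_cE _ _ _, cm_cE _ _ _, rfl, rfl⟩
theorem sq_Q {u : G} (hu : u ∈ L.Q) : u * u ∈ L.E := by
  obtain ⟨q₁, q₂, q₃, rfl⟩ := L.mem_Q.1 hu
  have k : ∀ (σ : ZMod 2) (q : Qd), cE (qm σ q (qt 0 q)) := by decide +kernel
  rw [← L.ev_mul, mmQ, L.memE]
  exact ⟨k _ _, k _ _, k _ _, rfl, rfl⟩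
theorem mem_A3_of {u v : G} (hu : u ∈ L.Q) (hv : v ∈ L.Q) (h : L.t * u * v * (L.t * u)⁻¹ * v⁻¹ ∈ L.E) : v ∈ L.A3 := by
  obtain ⟨q₁, q₂, q₃, rfl⟩ := L.mem_Q.1 hu
  obtain ⟨⟨i, a⟩, ⟨j, b⟩, ⟨k, c⟩, rfl⟩ := L.mem_Q.1 hv
  have key : ∀ (σ : ZMod 2) (q r : Qd), cE (qm σ (qm σ (qm σ (qm σ 0 (qt 1 q)) (qt (1 + 0) r))
      (qt (1 + 0 + 0) (qt (1 + 0) (qi σ (qm σ 0 (qt 1 q)))))) (qt (1 + 0 + 0 + (1 + 0)) (qt 0 (qi σ r)))) →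
      r.2 = 0 := by decide +kernel
  simp only [← L.ev_t, ← L.ev_inv, ← L.ev_mul, mmQ, miQ, L.memE] at h
  obtain ⟨h1, h2, h3, -⟩ := h
  obtain rfl : a = 0 := key _ _ _ h1
  obtain rfl : b = 0 := key _ _ _ h2
  obtain rfl : c = 0 := key _ _ _ h3
  exact L.mem_A3.2 ⟨i, j, k, rfl⟩
theorem qe_aux {g c : G} (hg : g ∈ normalizer (L.Q : Set G)) (hc : g * c = c * g) {X : Subgroup G} (hX : X ≤ L.Q)
    (chr : ∀ q₁ q₂ q₃, L.ev (q₁, q₂, q₃, 0, 0) ∈ X ↔ ∀ r₁ r₂ r₃,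
      L.ev (cm L.σ q₁ r₁, cm L.σ q₂ r₂, cm L.σ q₃ r₃, 0, 0) = 1 ∨
        L.ev (cm L.σ q₁ r₁, cm L.σ q₂ r₂, cm L.σ q₃ r₃, 0, 0) = c) : ∀ u ∈ X, g * u * g⁻¹ ∈ X := by
  intro u hu
  obtain ⟨q₁, q₂, q₃, rfl⟩ := L.mem_Q.1 (hX hu)
  obtain ⟨s₁, s₂, s₃, e⟩ := L.mem_Q.1 ((mem_normalizer_iff.1 hg _).1 (hX hu))
  rw [e, chr]
  intro r₁ r₂ r₃
  obtain ⟨t₁, t₂, t₃, e'⟩ := L.mem_Q.1 ((mem_normalizer_iff.1 (inv_mem hg) _).1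
    (L.mem_Q.2 ⟨r₁, r₂, r₃, rfl⟩))
  have k := (chr _ _ _).1 hu t₁ t₂ t₃
  rw [← L.comQ, ← e'] at k
  rw [← L.comQ, ← e]
  generalize L.ev (q₁, q₂, q₃, 0, 0) = u at k ⊢
  generalize L.ev (r₁, r₂, r₃, 0, 0) = v at k ⊢
  rw [show g * u * g⁻¹ * v * (g * u * g⁻¹)⁻¹ * v⁻¹ =
    g * (u * (g⁻¹ * v * g⁻¹⁻¹) * u⁻¹ * (g⁻¹ * v * g⁻¹⁻¹)⁻¹) * g⁻¹ by group]
  rcases k with k | k <;> rw [k]
  · exact .inl (by simp)
  · exact .inr (by rw [hc, mul_inv_cancel_right])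
/-- the subgroups `Qᵢ E` are canonical -/
theorem norm_QE {g : G} (hg : g ∈ normalizer (L.Q : Set G)) (hz : g * L.z = L.z * g) (he : g * L.e = L.e * g) :
    (∀ u ∈ L.Q1 ⊔ L.E, g * u * g⁻¹ ∈ L.Q1 ⊔ L.E) ∧ (∀ u ∈ L.Q2 ⊔ L.E, g * u * g⁻¹ ∈ L.Q2 ⊔ L.E) ∧
      ∀ u ∈ L.Q3 ⊔ L.E, g * u * g⁻¹ ∈ L.Q3 ⊔ L.E := by
  have k1 : ∀ (σ : ZMod 2) (q : Qd), (∀ r, cm σ q r = 0) → cE q := by decide +kernel
  have k0 : ∀ σ : ZMod 2, ∀ q, cm σ q 0 = 0 := by decide +kernel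
  refine ⟨L.qe_aux hg he (sup_le L.Q1_le L.E_le_Q) fun q₁ q₂ q₃ => ?_,
    L.qe_aux (c := L.e * L.z) hg (by rw [← mul_assoc, he, mul_assoc, hz, mul_assoc])
      (sup_le L.Q2_le L.E_le_Q) fun q₁ q₂ q₃ => ?_,
    L.qe_aux hg hz (sup_le L.Q3_le L.E_le_Q) fun q₁ q₂ q₃ => ?_⟩
  · simp only [L.memQ1E, ← L.ev_zero, ← L.ev_e, L.ev_eq]
    generalize L.σ = σ
    refine ⟨fun h r₁ r₂ r₃ => ?_, fun h => ⟨k1 σ _ fun r => ?_, k1 σ _ fun r => ?_⟩⟩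
    · rw [cm_zero σ q₂ r₂ h.1, cm_zero σ q₃ r₃ h.2]
      rcases cm_cE σ q₁ r₁ with e | e <;> rw [e] <;> decide
    · have := h 0 r 0
      rw [k0, k0] at this
      revert this
      generalize cm σ q₂ r = a
      revert a
      decide +kernel
    · have := h 0 0 r
      rw [k0, k0] at this
      revert this
      generalize cm σ q₃ r = a
      revert a
      decide +kernel
  · simp only [L.memQ2E, ← L.ev_zero, ← L.ev_e, ← L.ev_z, ← L.ev_mul, L.ev_eq]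
    generalize L.σ = σ
    refine ⟨fun h r₁ r₂ r₃ => ?_, fun h => ⟨k1 σ _ fun r => ?_, k1 σ _ fun r => ?_⟩⟩
    · rw [cm_zero σ q₁ r₁ h.1, cm_zero σ q₃ r₃ h.2]
      rcases cm_cE σ q₂ r₂ with e | e <;> rw [e] <;> clear * - σ <;> revert σ <;> decide
    · have := h r 0 0
      rw [k0, k0] at this
      revert this
      generalize cm σ q₁ r = a
      clear * - σ a
      revert σ a
      decide +kernel
    · have := h 0 0 r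
      rw [k0, k0] at this
      revert this
      generalize cm σ q₃ r = a
      clear * - σ a
      revert σ a
      decide +kernel
  · simp only [L.memQ3E, ← L.ev_zero, ← L.ev_z, L.ev_eq]
    generalize L.σ = σ
    refine ⟨fun h r₁ r₂ r₃ => ?_, fun h => ⟨k1 σ _ fun r => ?_, k1 σ _ fun r => ?_⟩⟩
    · rw [cm_zero σ q₁ r₁ h.1, cm_zero σ q₂ r₂ h.2]
      rcases cm_cE σ q₃ r₃ with e | e <;> rw [e] <;> decide
    · have := h r 0 0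
      rw [k0, k0] at this
      revert this
      generalize cm σ q₁ r = a
      revert a
      decide +kernel
    · have := h 0 r 0
      rw [k0, k0] at this
      revert this
      generalize cm σ q₂ r = a
      revert a
      decide +kernel
theorem Q1E_cases {u : G} (h : u ∈ L.Q1 ⊔ L.E) : u ∈ L.E ∨ L.Eq u L.w1 ∨ L.Eq u L.k1 ∨ L.Eq u (L.w1 * L.k1) := by
  obtain ⟨q, i, rfl⟩ := L.mem_Q1E.1 h
  clear h
  simp only [L.Eq_iff, ← L.ev_w1, ← L.ev_k1, ← L.ev_w2, ← L.ev_k2, ← L.ev_w3, ← L.ev_k3, ← L.ev_f, ← L.ev_t, ← L.ev_e, ← L.ev_z,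
    ← L.ev_inv, ← L.ev_mul, L.memE]
  generalize L.σ = σ
  revert σ q i
  decide +kernel
theorem Q2E_cases {u : G} (h : u ∈ L.Q2 ⊔ L.E) : u ∈ L.E ∨ L.Eq u L.w2 ∨ L.Eq u L.k2 ∨ L.Eq u (L.w2 * L.k2) := by
  obtain ⟨q, i, rfl⟩ := L.mem_Q2E.1 h
  clear h
  simp only [L.Eq_iff, ← L.ev_w1, ← L.ev_k1, ← L.ev_w2, ← L.ev_k2, ← L.ev_w3, ← L.ev_k3, ← L.ev_f, ← L.ev_t, ← L.ev_e, ← L.ev_z,
    ← L.ev_inv, ← L.ev_mul, L.memE]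
  generalize L.σ = σ
  revert σ q i
  decide +kernel
/-- `Q / E` is the direct product of the `Qᵢ E / E` -/
theorem indep {u₁ u₂ u₃ v₁ v₂ v₃ : G} (h1 : u₁ ∈ L.Q1 ⊔ L.E) (h2 : u₂ ∈ L.Q2 ⊔ L.E) (h3 : u₃ ∈ L.Q3 ⊔ L.E)
    (k1 : v₁ ∈ L.Q1 ⊔ L.E) (k2 : v₂ ∈ L.Q2 ⊔ L.E) (k3 : v₃ ∈ L.Q3 ⊔ L.E) (h : L.Eq (u₁ * u₂ * u₃) (v₁ * v₂ * v₃)) :
    L.Eq u₁ v₁ ∧ L.Eq u₂ v₂ ∧ L.Eq u₃ v₃ := by
  obtain ⟨a, i, rfl⟩ := L.mem_Q1E.1 h1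
  obtain ⟨b, j, rfl⟩ := L.mem_Q2E.1 h2
  obtain ⟨c, k, rfl⟩ := L.mem_Q3E.1 h3
  obtain ⟨a', i', rfl⟩ := L.mem_Q1E.1 k1
  obtain ⟨b', j', rfl⟩ := L.mem_Q2E.1 k2
  obtain ⟨c', k', rfl⟩ := L.mem_Q3E.1 k3
  simpa only [L.Eq_iff, ← L.ev_inv, ← L.ev_mul, L.memE, mmQ, miQ, qt_zero, add_zero, and_true, cE_iff, pr_qm,
    pr_qi, pr_two, pr_zero, zero_add, true_and] using h
theorem w1_nE : L.w1 ∉ L.E ∧ L.k1 ∉ L.E ∧ L.w1 * L.k1 ∉ L.E := by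
  simp only [L.Eq_iff, ← L.ev_w1, ← L.ev_k1, ← L.ev_w2, ← L.ev_k2, ← L.ev_w3, ← L.ev_k3, ← L.ev_f, ← L.ev_t, ← L.ev_e, ← L.ev_z,
    ← L.ev_inv, ← L.ev_mul, L.memE]
  generalize L.σ = σ
  revert σ 
  decide +kernel
theorem w2_nE : L.w2 ∉ L.E ∧ L.k2 ∉ L.E ∧ L.w2 * L.k2 ∉ L.E := by
  simp only [L.Eq_iff, ← L.ev_w1, ← L.ev_k1, ← L.ev_w2, ← L.ev_k2, ← L.ev_w3, ← L.ev_k3, ← L.ev_f, ← L.ev_t, ← L.ev_e, ← L.ev_z,
    ← L.ev_inv, ← L.ev_mul, L.memE]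
  generalize L.σ = σ
  revert σ 
  decide +kernel
theorem w3_nE : L.w3 ∉ L.E := by
  rw [← L.ev_w3, L.memE]
  decide
theorem Eq.refl (u : G) : L.Eq u u := ⟨1, one_mem _, (mul_one u).symm⟩
theorem Eq.symm {u v : G} (h : L.Eq u v) : L.Eq v u := by
  obtain ⟨c, hc, rfl⟩ := h
  exact ⟨c⁻¹, inv_mem hc, by group⟩
theorem Eq.trans {u v w : G} (h : L.Eq u v) (h' : L.Eq v w) : L.Eq u w := by
  obtain ⟨c, hc, rfl⟩ := h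
  obtain ⟨d, hd, rfl⟩ := h'
  exact ⟨d * c, mul_mem hd hc, mul_assoc _ _ _⟩
theorem Eq.mul {u v u' v' : G} (h : L.Eq u v) (h' : L.Eq u' v') (he : v' * L.e = L.e * v') (hz : v' * L.z = L.z * v') :
    L.Eq (u * u') (v * v') := by
  obtain ⟨c, hc, rfl⟩ := h
  obtain ⟨d, hd, rfl⟩ := h'
  refine ⟨c * d, mul_mem hc hd, ?_⟩
  rw [mul_assoc v v', ← mul_assoc v', L.comm_E he hz hc]
  group
theorem Eq.conj {u v g : G} (h : L.Eq u v) (he : g * L.e = L.e * g) (hz : g * L.z = L.z * g) :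
    L.Eq (g * u * g⁻¹) (g * v * g⁻¹) := by
  obtain ⟨c, hc, rfl⟩ := h
  refine ⟨c, hc, ?_⟩
  rw [show g * (v * c) * g⁻¹ = g * v * g⁻¹ * (g * c * g⁻¹) by group, L.comm_E he hz hc, mul_inv_cancel_right]
theorem Eq.comm {u v : G} (hu : u ∈ L.Q) (hv : v ∈ L.Q) : L.Eq (u * v) (v * u) := ⟨_, L.com_Q (inv_mem hu) (inv_mem hv), by group⟩

end Lf

end CfsgLib.L3F
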