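import Mathlib
import Cfsg.Agent.Lib.L3F.Defs
import Cfsg.Agent.Lib.L3F.FacA
import Cfsg.Agent.Lib.L33.Tool

/-! Standard `L₃(3)`, the case `PSp₆(3)`, package A7: Burnside's argument in `C(E)`.  See `plans/L3F.md`. -/

set_option autoImplicit false
set_option linter.unusedSectionVars false

namespace CfsgLib.L3F

open Subgroup CfsgLib.Tech CfsgLib.L33 CfsgLib.PComp

variable {G : Type*} [Group G] [Finite G]

namespace Lf

namespace A7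

variable {L : Lf G} {u v w u' v' g k : G}

theorem sy (h : L.Eq u v) : L.Eq v u := Eq.symm L h

theorem tr (h : L.Eq u v) (h' : L.Eq v w) : L.Eq u w := Eq.trans L h h'

theorem of_eq (h : u = v) : L.Eq u v := h ▸ Eq.refl L u

theorem ml (h : L.Eq u v) (h' : L.Eq u' v') (hv : v' ∈ L.Q) : L.Eq (u * u') (v * v') :=
  Eq.mul L h h' (L.ce (L.Q_le_R hv)) (L.cz (L.R_le (L.Q_le_R hv)))

theorem mE (h : v ∈ L.E) : L.Eq (u * v) u := ⟨v, h, rfl⟩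

theorem sq (h : v ∈ L.Q) : L.Eq (u * v * v) u := mul_assoc u v v ▸ mE (L.sq_Q h)

theorem cjE7 (he : g * L.e = L.e * g) (hz : g * L.z = L.z * g) (h : u ∈ L.E) : g * u * g⁻¹ = u := by
  rw [mul_inv_eq_iff_eq_mul]
  rcases L.mem_E.1 h with rfl | rfl | rfl | rfl
  exacts [by simp, hz, he, (Commute.mul_right he hz : Commute _ _)]

theorem ci (he : g * u = u * g) : g⁻¹ * u = u * g⁻¹ := (Commute.inv_left he : Commute _ _)

theorem cQ (hu : u ∈ L.Q) (hv : v ∈ L.Q) : L.Eq (u * v * u⁻¹) v :=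
  tr (ml (Eq.comm L hu hv) (Eq.refl L _) (inv_mem hu)) (of_eq (mul_inv_cancel_right _ _))

theorem tR : L.t ∈ L.R := subset_closure (by simp)

theorem te : L.t * L.e = L.e * L.t := L.ce tR

theorem tz : L.t * L.z = L.z * L.t := L.cz (L.R_le tR)

theorem inv (h : u ∈ L.Q) : L.Eq u⁻¹ u := sy ⟨u * u, L.sq_Q h, by group⟩

theorem aux {A : Subgroup G} (he : g * L.e = L.e * g) (hz : g * L.z = L.z * g) (hw : w ∈ L.Q) (hk : k ∈ L.Q)
    (hc : ∀ u ∈ A, u ∈ L.E ∨ L.Eq u w ∨ L.Eq u k ∨ L.Eq u (w * k)) (tw : L.t * w * L.t⁻¹ = w⁻¹)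
    (tk : L.t * k * L.t⁻¹ = w * k) (hu : g⁻¹ * u * g⁻¹⁻¹ ∈ A) (h1 : u ∉ L.E) (h2 : ¬ L.Eq u (g * w * g⁻¹)) :
    L.Eq (g * L.t * g⁻¹ * u * (g * L.t * g⁻¹)⁻¹) (u * (g * w * g⁻¹)) := by
  obtain ⟨a, rfl⟩ : ∃ a, u = g * a * g⁻¹ := ⟨g⁻¹ * u * g, by group⟩
  rw [show g⁻¹ * (g * a * g⁻¹) * g⁻¹⁻¹ = a by group] at hu
  rw [show g * L.t * g⁻¹ * (g * a * g⁻¹) * (g * L.t * g⁻¹)⁻¹ = g * (L.t * a * L.t⁻¹) * g⁻¹ by group, conj_mul]
  refine Eq.conj L ?_ he hz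
  rcases hc a hu with h | h | h | h
  · exact absurd ((cjE7 he hz h).symm ▸ h) h1
  · exact absurd (Eq.conj L h he hz) h2
  · exact tr (Eq.conj L h te tz) (tk ▸ tr (Eq.comm L hw hk) (ml (sy h) (Eq.refl L _) hw))
  · refine tr (Eq.conj L h te tz) (tr (of_eq ?_) (sy (tr (ml (tr h (Eq.comm L hw hk)) (Eq.refl L _) hw) (sq hw))))
    rw [← conj_mul, tw, tk, inv_mul_cancel_left]

end A7

open A7

variable (L : Lf G) (hP : IsSylowIn 2 L.P ⊤)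
include hP

theorem weak {g : G} (he : g * L.e = L.e * g) (hz : g * L.z = L.z * g) (h : ∀ u ∈ L.Q, g * u * g⁻¹ ∈ L.R) :
    g ∈ normalizer (L.Q : Set G) := by
  by_contra hn
  have k : ∀ u ∈ cj g L.Q, u ∉ L.Q → L.t * u ∈ L.Q := fun u hu hq => (L.R_cases (cj_le_iff.2 h hu)).resolve_left hq
  obtain ⟨u, hu, hq⟩ : ∃ u ∈ cj g L.Q, u ∉ L.Q := by
    by_contra! hc
    exact hn (mem_normalizer_of_cj_le hc)
  have h1 := card_le_two_mul (K := L.Q) (Y := cj g L.Q) fun a ha b hb h1 h2 => by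
    have := mul_mem (inv_mem (k a ha h1)) (k b hb h2)
    rwa [show (L.t * a)⁻¹ * (L.t * b) = a⁻¹ * b by group] at this
  have h2 : cj g L.Q ⊓ L.Q ≤ L.A3 := fun v hv => L.mem_A3_of (k u hu hq) hv.2 (by
    have := L.com_Q (mem_cj.1 hu) (mem_cj.1 hv.1)
    rw [← cjE7 he hz this] at this
    rw [← mul_assoc L.t, L.tt, one_mul]
    convert this using 1
    group)
  have := card_le_of_le h2
  rw [card_cj, L.card_Q] at h1
  rw [L.card_A3] at this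
  omega

theorem burnside {ρ u : G} (he : ρ * L.e = L.e * ρ) (hz : ρ * L.z = L.z * ρ) (hu : u ∈ L.Q) (hv : ρ * u * ρ⁻¹ ∈ L.Q) :
    ∃ g ∈ normalizer (L.Q : Set G), g * L.e = L.e * g ∧ g * L.z = L.z * g ∧ L.Eq (g * u * g⁻¹) (ρ * u * ρ⁻¹) := by
  have mC : ∀ {g : G}, g ∈ centralizer (L.E : Set G) ↔ g * L.e = L.e * g ∧ g * L.z = L.z * g := fun {g} =>
    ⟨fun h => ⟨(h _ (L.mem_E.2 (by simp))).symm, (h _ (L.mem_E.2 (by simp))).symm⟩,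
      fun h c hc => (mul_inv_eq_iff_eq_mul.1 (cjE7 h.1 h.2 hc)).symm⟩
  have sR : IsSylowIn 2 L.R (centralizer (L.E : Set G)) := by
    have := (hP.of_le (fun _ h => L.norm_E h) le_top).inf_of_le_normalizer (N := centralizer (L.E : Set G))
      fun g hg => mem_normalizer_of_forall fun x hx c hc => by
        calc _ = g * (g⁻¹ * c * g * x) * g⁻¹ := by group
          _ = _ := by rw [hx _ (conj_mem_of_mem_normalizer' hg hc)]; group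
    rwa [inf_eq_right.2 (centralizer_le_normalizer _), show L.P ⊓ centralizer (L.E : Set G) = L.R from
      le_antisymm (fun x hx => L.mem_R_of hx.1 (mC.1 hx.2).1)
        fun x hx => ⟨L.R_le hx, mC.2 ⟨L.ce hx, L.cz (L.R_le hx)⟩⟩] at this
  set v := ρ * u * ρ⁻¹ with hvv
  let H : Subgroup G :=
    { carrier := {h | h ∈ centralizer (L.E : Set G) ∧ L.Eq (h * v * h⁻¹) v}
      mul_mem' := fun {a b} ha hb => ⟨mul_mem ha.1 hb.1,
        tr (tr (of_eq (by group)) (Eq.conj L hb.2 (mC.1 ha.1).1 (mC.1 ha.1).2)) ha.2⟩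
      one_mem' := ⟨one_mem _, of_eq (by group)⟩
      inv_mem' := fun {a} ha => ⟨inv_mem ha.1,
        sy (tr (of_eq (by group)) (Eq.conj L ha.2 (ci (mC.1 ha.1).1) (ci (mC.1 ha.1).2)))⟩ }
  have QC : L.Q ≤ centralizer (L.E : Set G) := L.Q_le_R.trans sR.le
  have Q2 : IsPGroup 2 L.Q := sR.pgroup.to_le L.Q_le_R
  obtain ⟨T, hT, QT⟩ := exists_isSylowIn_ge (H := H) Q2 fun q hq => ⟨QC hq, cQ hq hv⟩
  obtain ⟨h, hH, h1⟩ := hT.exists_cj_le (isPGroup_cj ρ Q2) (cj_le_iff.2 fun q hq =>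
    ⟨mul_mem (mul_mem (mC.2 ⟨he, hz⟩) (QC hq)) (inv_mem (mC.2 ⟨he, hz⟩)),
      tr (of_eq (by rw [hvv]; group)) (Eq.conj L (cQ hq hu) he hz)⟩)
  obtain ⟨x, hx, h2⟩ := sR.exists_cj_le hT.pgroup fun a ha => (hT.le ha).1
  have k := mul_mem hH.1 (mC.2 ⟨he, hz⟩)
  have n1 := L.weak hP (mC.1 hx).1 (mC.1 hx).2 (cj_le_iff.1 ((cj_mono x QT).trans h2))
  have n2 := L.weak hP (mC.1 (mul_mem hx k)).1 (mC.1 (mul_mem hx k)).2
    (cj_le_iff.1 (by rw [cj_mul, cj_mul]; exact (cj_mono x h1).trans h2))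
  exact ⟨h * ρ, (mul_mem_cancel_left n1).1 n2, (mC.1 k).1, (mC.1 k).2, tr (of_eq (by rw [hvv]; group)) hH.2⟩

theorem exists_lam {g : G} (hg : g ∈ normalizer (L.Q : Set G)) (he : g * L.e = L.e * g) (hz : g * L.z = L.z * g)
    (h : L.Eq (g * (L.w1 * L.w2) * g⁻¹)
      (L.k1 * L.w1 * L.k2 * (L.w1 * L.w2 * L.w3) ^ (1 + L.σ).val * (L.w1 * L.w2))) :
    L.σ = 1 ∧ Lam L (g * L.t * g⁻¹ * L.t) := by
  have w1 : L.w1 ∈ L.Q1 ⊔ L.E := mem_sup_left (subset_closure (by simp))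
  have k1 : L.k1 ∈ L.Q1 ⊔ L.E := mem_sup_left (subset_closure (by simp))
  have w2 : L.w2 ∈ L.Q2 ⊔ L.E := mem_sup_left (subset_closure (by simp))
  have k2 : L.k2 ∈ L.Q2 ⊔ L.E := mem_sup_left (subset_closure (by simp))
  have w3 : L.w3 ∈ L.Q3 ⊔ L.E := mem_sup_left (subset_closure (by simp))
  have q1 : L.Q1 ⊔ L.E ≤ L.Q := sup_le L.Q1_le L.E_le_Q
  have q2 : L.Q2 ⊔ L.E ≤ L.Q := sup_le L.Q2_le L.E_le_Q
  obtain ⟨n1, n2, -⟩ := L.norm_QE hg hz he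
  obtain ⟨m1, m2, -⟩ := L.norm_QE (inv_mem hg) (ci hz) (ci he)
  rw [← conj_mul, ← mul_one (g * L.w1 * g⁻¹ * _)] at h
  have a := L.w1w2.eq
  have b := L.w1k2.eq
  have c := L.w1w3.eq
  have d := L.w2w3.eq
  have hσ : L.σ = 1 := by
    by_contra hs
    have h0 : L.σ = 0 := by revert hs; generalize L.σ = s; revert s; decide
    rw [h0, add_zero, ZMod.val_one, pow_one, show L.k1 * L.w1 * L.k2 * (L.w1 * L.w2 * L.w3) * (L.w1 * L.w2) =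
      L.k1 * L.w1 * L.w1 * L.w1 * (L.k2 * L.w2 * L.w2) * L.w3 by
        calc _ = L.k1 * L.w1 * (L.k2 * L.w1) * L.w2 * (L.w3 * L.w1) * L.w2 := by group
          _ = L.k1 * L.w1 * L.w1 * L.k2 * (L.w2 * L.w1) * (L.w3 * L.w2) := by rw [← b, ← c]; group
          _ = L.k1 * L.w1 * L.w1 * (L.k2 * L.w1) * L.w2 * L.w2 * L.w3 := by rw [← a, ← d]; group
          _ = _ := by rw [← b]; group] at h
    obtain ⟨x, hx, ex⟩ := sy (L.indep (n1 _ w1) (n2 _ w2) (one_mem _) (mul_mem (mul_mem (mul_mem k1 w1) w1) w1)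
      (mul_mem (mul_mem k2 w2) w2) w3 h).2.2
    exact L.w3_nE (by rwa [ex, one_mul])
  rw [hσ, show ((1 : ZMod 2) + 1).val = 0 from rfl, pow_zero, show L.k1 * L.w1 * L.k2 * 1 * (L.w1 * L.w2) =
      L.k1 * L.w1 * L.w1 * (L.k2 * L.w2) * 1 by
        calc _ = L.k1 * L.w1 * (L.k2 * L.w1) * L.w2 := by group
          _ = _ := by rw [← b]; group] at h
  obtain ⟨e1, e2, -⟩ := L.indep (n1 _ w1) (n2 _ w2) (one_mem _) (mul_mem (mul_mem k1 w1) w1) (mul_mem k2 w2) (one_mem _) h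
  replace e1 := tr e1 (sq (q1 w1))
  replace e2 := tr e2 (Eq.comm L (q2 k2) (q2 w2))
  set s := g * L.t * g⁻¹ with hs
  have se : s * L.e = L.e * s := (Commute.mul_left (Commute.mul_left he te) (ci he) : Commute _ _)
  have sz : s * L.z = L.z * s := (Commute.mul_left (Commute.mul_left hz tz) (ci hz) : Commute _ _)
  have nE : ∀ {u v : G}, v ∈ L.Q → u * v ∉ L.E → ¬ L.Eq u v := fun {u v} hv h1 h2 => by
    obtain ⟨x, hx, ex⟩ := ml h2 (Eq.refl L v) hv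
    exact h1 (ex ▸ mul_mem (L.sq_Q hv) hx)
  have fx : ∀ {w v : G}, w ∈ L.Q → L.t * w * L.t⁻¹ = w⁻¹ → L.Eq (g * w * g⁻¹) v → L.Eq (s * v * s⁻¹) v :=
    fun {w v} hw tw h1 => tr (Eq.conj L (sy h1) se sz) (tr (tr (of_eq (by rw [← tw, hs]; group))
      (Eq.conj L (inv hw) he hz)) h1)
  have s1 : L.Eq (s * L.w1 * s⁻¹) (L.w1 * L.k1) :=
    tr (aux he hz (q1 w1) (q1 k1) (fun _ => L.Q1E_cases) L.tw1 L.tk1 (m1 _ w1) L.w1_nE.1
      fun h => nE (q1 k1) L.w1_nE.2.2 (tr h e1)) (ml (Eq.refl L _) e1 (q1 k1))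
  have e3 : L.Eq (L.w2 * (L.w2 * L.k2)) L.k2 :=
    tr (Eq.comm L (q2 w2) (mul_mem (q2 w2) (q2 k2))) (tr (ml (Eq.comm L (q2 w2) (q2 k2)) (Eq.refl L _) (q2 w2)) (sq (q2 w2)))
  have s2 : L.Eq (s * L.w2 * s⁻¹) L.k2 :=
    tr (aux he hz (q2 w2) (q2 k2) (fun _ => L.Q2E_cases) L.tw2 L.tk2 (m2 _ w2) L.w2_nE.1
      fun h => nE (mul_mem (q2 w2) (q2 k2)) (fun h' => by
        obtain ⟨x, hx, ex⟩ := sy e3
        exact L.w2_nE.2.1 (ex ▸ mul_mem h' hx)) (tr h e2)) (tr (ml (Eq.refl L _) e2 (mul_mem (q2 w2) (q2 k2))) e3)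
  have cj' : ∀ u, s * L.t * u * (s * L.t)⁻¹ = s * (L.t * u * L.t⁻¹) * s⁻¹ := fun u => by group
  have tQ := L.norm_Q (L.R_le tR)
  refine ⟨hσ, (Commute.mul_left se te : Commute _ _), (Commute.mul_left sz tz : Commute _ _),
    mul_mem (mul_mem (mul_mem hg tQ) (inv_mem hg)) tQ, ?_, ?_, ?_, ?_⟩ <;> rw [cj']
  · exact L.tw1 ▸ tr (Eq.conj L (inv (q1 w1)) se sz) s1
  · rw [L.tk1, ← conj_mul]
    exact tr (ml s1 (fx (q1 w1) L.tw1 e1) (q1 k1)) (sq (q1 k1))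
  · exact L.tw2 ▸ tr (Eq.conj L (inv (q2 w2)) se sz) s2
  · rw [L.tk2]
    exact fx (q2 w2) L.tw2 e2

end Lf

end CfsgLib.L3F
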