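import Mathlib
import Cfsg.Agent.Lib.L3F.Defs
import Cfsg.Agent.Lib.AltAut.Basic

/-! Standard `L₃(3)`, the case `PSp₆(3)`, package An: pure four-groups in `A₈`, `A₉`.  See `plans/L3F.md`. -/

set_option autoImplicit false
set_option linter.unusedSectionVars false

namespace CfsgLib.L3F

open Subgroup CfsgLib.Tech CfsgLib.L33 CfsgLib.PComp

variable {G : Type*} [Group G] [Finite G]

namespace An

open Equiv Equiv.Perm

variable {n : ℕ}

theorem ty {a : alternatingGroup (Fin n)} (h2 : a * a = 1) (h1 : a ≠ 1) : ∃ k,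
    (a : Perm (Fin n)).cycleType = Multiset.replicate (k + 1) 2 ∧
      (a : Perm (Fin n)).support.card = 2 * (k + 1) := by
  have o : orderOf (a : Perm (Fin n)) = 2 := by
    rw [orderOf_coe]; exact orderOf_eq_prime (by rw [pow_two, h2]) h1
  obtain ⟨k, hk⟩ := cycleType_prime_order (σ := (a : Perm (Fin n))) (by rw [o]; norm_num)
  rw [o] at hk
  exact ⟨k, hk, by rw [← sum_cycleType, hk, Multiset.sum_replicate, smul_eq_mul, mul_comm]⟩

theorem cj {a b : alternatingGroup (Fin n)} {w : Perm (Fin n)} (hw : sign w ≠ 1) (hc : w * a = a * w)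
    (h2 : a * a = 1) (h1 : a ≠ 1) (k2 : b * b = 1) (k1 : b ≠ 1)
    (h : (a : Perm (Fin n)).support.card = (b : Perm (Fin n)).support.card) : IsConj a b := by
  obtain ⟨k, e1, e2⟩ := ty h2 h1
  obtain ⟨k', e3, e4⟩ := ty k2 k1
  exact AltAut.isConj_of_odd_commute (isConj_iff_cycleType_eq.2 (by
    rw [e1, e3, show k = k' by omega])) (mt mem_alternatingGroup.1 hw) hc

theorem key {a b s : alternatingGroup (Fin n)} {w : Perm (Fin n)} (h : sign w ≠ 1 ∧ w * a = a * w ∧
    a * a = 1 ∧ a ≠ 1 ∧ b * b = 1 ∧ b ≠ 1 ∧ a * b = b * a ∧ a * b ≠ 1 ∧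
    (a : Perm (Fin n)).support.card = (b : Perm (Fin n)).support.card ∧
    (a : Perm (Fin n)).support.card = (a * b : Perm (Fin n)).support.card) (h2 : s * s = 1) (h1 : s ≠ 1)
    (hs : (a : Perm (Fin n)).support.card = (s : Perm (Fin n)).support.card) :
    ∃ s', IsConj s s' ∧ s * s' = s' * s ∧ IsConj s (s * s') := by
  obtain ⟨hw, hc, a2, a1, b2, b1, ab, ab1, c1, c2⟩ := h
  have e := cj hw hc a2 a1 h2 h1 hs
  obtain ⟨g, hg⟩ := isConj_iff.1 e
  refine ⟨g * b * g⁻¹, e.symm.trans ((cj hw hc a2 a1 b2 b1 c1).trans (isConj_iff.2 ⟨g, rfl⟩)),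
    by rw [← hg, conj_mul, conj_mul, ab], e.symm.trans ((cj hw hc a2 a1 ?_ ab1 c2).trans
      (isConj_iff.2 ⟨g, by rw [← hg, conj_mul]⟩))⟩
  rw [mul_assoc, ← mul_assoc b, ← ab, mul_assoc, b2, mul_one, a2]

theorem supp (hn : n ≤ 9) {s : alternatingGroup (Fin n)} (h2 : s * s = 1) (h1 : s ≠ 1) :
    4 = (s : Perm (Fin n)).support.card ∨ 8 = (s : Perm (Fin n)).support.card := by
  obtain ⟨k, e1, e2⟩ := ty h2 h1
  have h3 := (s : Perm (Fin n)).sign_of_cycleType
  have h4 := (s : Perm (Fin n)).support.card_le_univ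
  rw [e1, mem_alternatingGroup.1 s.2] at h3
  rw [Fintype.card_fin] at h4
  rcases k with _ | _ | _ | _ | k
  · exact absurd h3 (by decide)
  · omega
  · exact absurd h3 (by decide)
  · omega
  · omega

theorem alt (hn : n = 8 ∨ n = 9) {s : alternatingGroup (Fin n)} (h2 : s * s = 1) (h1 : s ≠ 1) :
    ∃ s', IsConj s s' ∧ s * s' = s' * s ∧ IsConj s (s * s') := by
  rcases hn with rfl | rfl <;> rcases supp (by norm_num) h2 h1 with e | e
  all_goals first
    | exact key (w := swap 0 1) (a := ⟨swap 0 1 * swap 2 3, mem_alternatingGroup.2 (by decide)⟩)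
        (b := ⟨swap 0 2 * swap 1 3, mem_alternatingGroup.2 (by decide)⟩) (by decide +kernel) h2 h1
        (Eq.trans (by decide +kernel) e)
    | exact key (w := swap 0 1)
        (a := ⟨swap 0 1 * swap 2 3 * (swap 4 5 * swap 6 7), mem_alternatingGroup.2 (by decide +kernel)⟩)
        (b := ⟨swap 0 2 * swap 1 3 * (swap 4 6 * swap 5 7), mem_alternatingGroup.2 (by decide +kernel)⟩)
        (by decide +kernel) h2 h1 (Eq.trans (by decide +kernel) e)

end An

theorem pure_four {n : ℕ} (hn : n = 8 ∨ n = 9) {X : Type*} [Group X] (φ : X ≃* alternatingGroup (Fin n)) {s : X}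
    (h2 : s * s = 1) (h1 : s ≠ 1) : ∃ s', IsConj s s' ∧ s * s' = s' * s ∧ IsConj s (s * s') := by
  obtain ⟨s', c1, c2, c3⟩ := An.alt hn (s := φ s) (by rw [← map_mul, h2, map_one]) (by simpa using h1)
  refine ⟨φ.symm s', by simpa using φ.symm.toMonoidHom.map_isConj c1, φ.injective (by simpa using c2),
    by simpa using φ.symm.toMonoidHom.map_isConj c3⟩

end CfsgLib.L3F
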