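import Mathlib
import Cfsg.Agent.Lib.L3F.Defs
import Cfsg.Agent.Lib.L3F.FacA

/-! Standard `L₃(3)`, the case `PSp₆(3)`, package FacB: facts on the model, `σ = 1`.  See `plans/L3F.md`. -/

set_option autoImplicit false
set_option linter.unusedSectionVars false

namespace CfsgLib.L3F

open Subgroup CfsgLib.Tech CfsgLib.L33 CfsgLib.PComp

variable {G : Type*} [Group G] [Finite G]

namespace FacB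

/-- the central elements of a factor -/
def zq (q : Qd) : Prop := q = 0 ∨ q = (2, 0)

instance (q : Qd) : Decidable (zq q) := inferInstanceAs (Decidable (_ ∨ _))

def pE (a : Mo) : Prop := a.2.2.2.2 = 0 ∧ a.2.2.2.1 = 0 ∧ zq a.1 ∧ zq a.2.1 ∧ zq a.2.2.1

instance (a : Mo) : Decidable (pE a) := inferInstanceAs (Decidable (_ ∧ _))

def A1 (i : ZMod 3) : Mo :=
  if i = 0 then ((1, 0), 0, 0, 0, 0) else if i = 1 then ((1, 1), 0, 0, 0, 0) else ((0, 1), 0, 0, 0, 0)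

def A2 (j : ZMod 3) : Mo :=
  if j = 0 then (0, (1, 0), 0, 0, 0) else if j = 1 then (0, (0, 1), 0, 0, 0) else (0, (1, 1), 0, 0, 0)

def cm (a b : Mo) : Mo := mm 1 (mm 1 (mm 1 a b) (mi 1 a)) (mi 1 b)

def lam (c : ZMod 2) (q : Qd) : ZMod 2 := if c = 0 then q.2 else (q.1.val : ZMod 2)

theorem zq_ng {q : Qd} (h : zq q) : q = 0 ∨ (q.1 + 2, q.2) = 0 := by revert q; decide

theorem zq_0 : zq 0 := Or.inl rfl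

theorem zq_2 : zq ((0 : Qd).1 + 2, (0 : Qd).2) := Or.inr rfl

theorem ng_ng (a : Mo) : a = ng (ng a) := by
  have : ∀ x : ZMod 4, x + 2 + 2 = x := by decide
  simp only [ng, this]

variable (L : Lf G)

theorem iQ {a : Mo} : L.ev a ∈ L.Q ↔ a.2.2.2.2 = 0 ∧ a.2.2.2.1 = 0 := by
  simp only [L.mem_Q, L.ev_eq]
  obtain ⟨q₁, q₂, q₃, α, β⟩ := a
  refine ⟨?_, ?_⟩
  · rintro ⟨_, _, _, h | h⟩ <;> cases h <;> exact ⟨rfl, rfl⟩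
  · rintro ⟨rfl, rfl⟩
    exact ⟨_, _, _, Or.inl rfl⟩

theorem iT1 {a : Mo} : L.ev a ∈ L.T1 ↔ a.2.2.2.2 = 0 ∧ zq a.2.2.1 := by
  simp only [L.mem_T1, L.ev_eq]
  obtain ⟨q₁, q₂, q₃, α, β⟩ := a
  refine ⟨?_, ?_⟩
  · rintro ⟨_, _, _, h | h⟩ <;> cases h
    exacts [⟨rfl, zq_0⟩, ⟨rfl, zq_2⟩]
  · rintro ⟨rfl, rfl | rfl⟩
    exacts [⟨_, _, _, Or.inl rfl⟩, ⟨_, _, _, Or.inr (ng_ng _)⟩]

theorem iQ12 {a : Mo} : L.ev a ∈ L.Q1 ⊔ L.Q2 ↔ a.2.2.2.2 = 0 ∧ a.2.2.2.1 = 0 ∧ zq a.2.2.1 := by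
  simp only [L.mem_Q12, L.ev_eq]
  obtain ⟨q₁, q₂, q₃, α, β⟩ := a
  refine ⟨?_, ?_⟩
  · rintro ⟨_, _, h | h⟩ <;> cases h
    exacts [⟨rfl, rfl, zq_0⟩, ⟨rfl, rfl, zq_2⟩]
  · rintro ⟨rfl, rfl, rfl | rfl⟩
    exacts [⟨_, _, Or.inl rfl⟩, ⟨_, _, Or.inr (ng_ng _)⟩]

theorem iQ23 {a : Mo} : L.ev a ∈ L.Q2 ⊔ L.Q3 ↔ a.2.2.2.2 = 0 ∧ a.2.2.2.1 = 0 ∧ zq a.1 := by
  simp only [L.mem_Q23, L.ev_eq]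
  obtain ⟨q₁, q₂, q₃, α, β⟩ := a
  refine ⟨?_, ?_⟩
  · rintro ⟨_, _, h | h⟩ <;> cases h
    exacts [⟨rfl, rfl, zq_0⟩, ⟨rfl, rfl, zq_2⟩]
  · rintro ⟨rfl, rfl, rfl | rfl⟩
    exacts [⟨_, _, Or.inl rfl⟩, ⟨_, _, Or.inr (ng_ng _)⟩]

theorem iQ13 {a : Mo} : L.ev a ∈ L.Q1 ⊔ L.Q3 ↔ a.2.2.2.2 = 0 ∧ a.2.2.2.1 = 0 ∧ zq a.2.1 := by
  simp only [L.mem_Q13, L.ev_eq]
  obtain ⟨q₁, q₂, q₃, α, β⟩ := a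
  refine ⟨?_, ?_⟩
  · rintro ⟨_, _, h | h⟩ <;> cases h
    exacts [⟨rfl, rfl, zq_0⟩, ⟨rfl, rfl, zq_2⟩]
  · rintro ⟨rfl, rfl, rfl | rfl⟩
    exacts [⟨_, _, Or.inl rfl⟩, ⟨_, _, Or.inr (ng_ng _)⟩]

theorem iQ1E {a : Mo} : L.ev a ∈ L.Q1 ⊔ L.E ↔ a.2.2.2.2 = 0 ∧ a.2.2.2.1 = 0 ∧ zq a.2.1 ∧ zq a.2.2.1 := by
  simp only [L.mem_Q1E, L.ev_eq]
  obtain ⟨q₁, q₂, q₃, α, β⟩ := a
  refine ⟨?_, ?_⟩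
  · rintro ⟨_, i, h | h⟩ <;> cases h <;> refine ⟨rfl, rfl, ?_⟩ <;> dsimp only [ng] <;> revert i <;> decide
  · rintro ⟨rfl, rfl, rfl | rfl, rfl | rfl⟩
    exacts [⟨_, 0, Or.inl rfl⟩, ⟨_, 1, Or.inl rfl⟩, ⟨_, 1, Or.inr (ng_ng _)⟩, ⟨_, 0, Or.inr (ng_ng _)⟩]

theorem iQ2E {a : Mo} : L.ev a ∈ L.Q2 ⊔ L.E ↔ a.2.2.2.2 = 0 ∧ a.2.2.2.1 = 0 ∧ zq a.1 ∧ zq a.2.2.1 := by
  simp only [L.mem_Q2E, L.ev_eq]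
  obtain ⟨q₁, q₂, q₃, α, β⟩ := a
  refine ⟨?_, ?_⟩
  · rintro ⟨_, i, h | h⟩ <;> cases h <;> refine ⟨rfl, rfl, ?_⟩ <;> dsimp only [ng] <;> revert i <;> decide
  · rintro ⟨rfl, rfl, rfl | rfl, rfl | rfl⟩
    exacts [⟨_, 0, Or.inl rfl⟩, ⟨_, 1, Or.inl rfl⟩, ⟨_, 1, Or.inr (ng_ng _)⟩, ⟨_, 0, Or.inr (ng_ng _)⟩]

theorem iQ3E {a : Mo} : L.ev a ∈ L.Q3 ⊔ L.E ↔ a.2.2.2.2 = 0 ∧ a.2.2.2.1 = 0 ∧ zq a.1 ∧ zq a.2.1 := by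
  simp only [L.mem_Q3E, L.ev_eq]
  obtain ⟨q₁, q₂, q₃, α, β⟩ := a
  refine ⟨?_, ?_⟩
  · rintro ⟨_, i, h | h⟩ <;> cases h <;> refine ⟨rfl, rfl, ?_⟩ <;> dsimp only [ng] <;> revert i <;> decide
  · rintro ⟨rfl, rfl, rfl | rfl, rfl | rfl⟩
    exacts [⟨_, 0, Or.inl rfl⟩, ⟨_, 1, Or.inr (ng_ng _)⟩, ⟨_, 1, Or.inl rfl⟩, ⟨_, 0, Or.inr (ng_ng _)⟩]

theorem iQ3 {a : Mo} : L.ev a ∈ L.Q3 ↔ eqv a (0, 0, a.2.2.1, 0, 0) ∨ eqv a (0, 0, (ng a).2.2.1, 0, 0) := by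
  simp only [L.mem_Q3, L.ev_eq]
  refine ⟨?_, fun h => h.elim (fun h => ⟨_, h⟩) fun h => ⟨_, h⟩⟩
  rintro ⟨q, h | h⟩
  · exact Or.inl (Or.inl (by rw [h]))
  · exact Or.inr (Or.inr (by rw [h, ← ng_ng]))

theorem gT1 : L.w1 ∈ L.T1 ∧ L.k1 ∈ L.T1 ∧ L.w2 ∈ L.T1 ∧ L.k2 ∈ L.T1 ∧ L.f ∈ L.T1 := by
  refine ⟨?_, ?_, ?_, ?_, ?_⟩ <;> exact subset_closure (by simp)

theorem gQ : L.w1 ∈ L.Q ∧ L.k1 ∈ L.Q ∧ L.w2 ∈ L.Q ∧ L.k2 ∈ L.Q := by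
  refine ⟨?_, ?_, ?_, ?_⟩ <;> exact subset_closure (by simp)

variable (hσ : L.σ = 1)
include hσ

theorem mul' (a b : Mo) : L.ev a * L.ev b = L.ev (mm 1 a b) := by rw [← hσ, L.ev_mul]

theorem inv' (a : Mo) : (L.ev a)⁻¹ = L.ev (mi 1 a) := by rw [← hσ, L.ev_inv]

theorem iE {a : Mo} : L.ev a ∈ L.E ↔ pE a := by
  simp only [L.mem_E, ← L.ev_zero, ← L.ev_e, ← L.ev_z, mul' L hσ, L.ev_eq]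
  obtain ⟨q₁, q₂, q₃, α, β⟩ := a
  refine ⟨?_, ?_⟩
  · rintro ((h | h) | (h | h) | (h | h) | (h | h)) <;> rw [h] <;> decide
  · rintro ⟨rfl, rfl, rfl | rfl, rfl | rfl, rfl | rfl⟩ <;> decide

theorem iEq {a b : Mo} : L.Eq (L.ev a) (L.ev b) ↔ pE (mm 1 (mi 1 b) a) := by
  rw [← iE L hσ, ← mul' L hσ, ← inv' L hσ]
  refine ⟨?_, fun h => ⟨_, h, by group⟩⟩
  rintro ⟨c, hc, e⟩
  rwa [e, inv_mul_cancel_left]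

theorem a1_eq (i : ZMod 3) : L.a1 i = L.ev (A1 i) := by
  unfold Lf.a1 A1
  split_ifs
  · exact L.ev_w1.symm
  · rw [← L.ev_w1, ← L.ev_k1, mul' L hσ, L.ev_eq]; decide
  · exact L.ev_k1.symm

theorem a2_eq (j : ZMod 3) : L.a2 j = L.ev (A2 j) := by
  unfold Lf.a2 A2
  split_ifs
  · exact L.ev_w2.symm
  · exact L.ev_k2.symm
  · rw [← L.ev_w2, ← L.ev_k2, mul' L hσ, L.ev_eq]; decide

omit hσ in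
theorem exQ1 {p : G → Prop} : (∃ r ∈ L.Q1, p r) ↔ ∃ q, p (L.ev (q, 0, 0, 0, 0)) :=
  ⟨fun ⟨_, hr, h⟩ => by obtain ⟨q, rfl⟩ := L.mem_Q1.1 hr; exact ⟨q, h⟩, fun ⟨q, h⟩ => ⟨_, L.mem_Q1.2 ⟨q, rfl⟩, h⟩⟩

theorem exE {c : G} (h : c ∈ L.E) : ∃ i j : ZMod 4, c = L.ev ((2 * i, 0), 0, (2 * j, 0), 0, 0) := by
  rcases L.mem_E.1 h with rfl | rfl | rfl | rfl
  · exact ⟨0, 0, L.ev_zero.symm⟩
  · exact ⟨0, 1, L.ev_z.symm⟩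
  · exact ⟨1, 0, L.ev_e.symm⟩
  · exact ⟨1, 1, by rw [← L.ev_e, ← L.ev_z, mul' L hσ, L.ev_eq]; decide⟩

/-- the subgroups of index two in `T₀` -/
def mx (c : ZMod 2) : Subgroup G where
  carrier := {u | ∃ a : Mo, a.2.2.2.2 = 0 ∧ lam c a.2.2.1 = 0 ∧ u = L.ev a}
  one_mem' := ⟨0, rfl, by revert c; decide, L.ev_zero.symm⟩
  mul_mem' := by
    rintro _ _ ⟨⟨_, _, x, _, _⟩, rfl, h1, rfl⟩ ⟨⟨_, _, y, _, _⟩, rfl, h2, rfl⟩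
    refine ⟨_, rfl, ?_, mul' L hσ _ _⟩
    exact (by decide : ∀ c x y, lam c x = 0 → lam c y = 0 → lam c (qm 1 x (qt 0 y)) = 0) c x y h1 h2
  inv_mem' := by
    rintro _ ⟨⟨_, _, x, _, _⟩, rfl, h1, rfl⟩
    refine ⟨_, rfl, ?_, inv' L hσ _⟩
    exact (by decide : ∀ c x, lam c x = 0 → lam c (qt 0 (qi 1 x)) = 0) c x h1

theorem imx {c : ZMod 2} {a : Mo} : L.ev a ∈ mx L hσ c ↔ a.2.2.2.2 = 0 ∧ lam c a.2.2.1 = 0 := by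
  refine ⟨?_, fun h => ⟨a, h.1, h.2, rfl⟩⟩
  rintro ⟨b, h1, h2, e⟩
  rcases L.ev_eq.1 e with rfl | rfl
  · exact ⟨h1, h2⟩
  · exact ⟨h1, (by decide : ∀ c (x : Qd), lam c x = 0 → lam c (x.1 + 2, x.2) = 0) c _ h2⟩

end FacB

open FacB

namespace Lf

variable (L : Lf G) (hσ : L.σ = 1)
include hσ

set_option synthInstance.maxSize 2000 in
/-- the involutions of `T₀` -/
theorem inv_T0 {d : G} (h : d ∈ L.T0) (h2 : d * d = 1) :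
    d ∈ L.E ∨ (d ∈ L.Q ∧ d ∉ L.E ∧ ∃ u ∈ L.Q, u * d = d * u ∧ u * u = L.e) ∨ (∃ r ∈ L.Q1, d = r * L.f * r⁻¹) ∨
      (d ∉ L.Q ∧ ∃ r ∈ L.Q1, r * L.f * r⁻¹ * d = d * (r * L.f * r⁻¹) ∧ r * L.f * r⁻¹ ≠ d ∧ r * L.f * r⁻¹ ≠ d * L.z) := by
  suffices k : d ∈ L.E ∨ (d ∈ L.Q ∧ d ∉ L.E ∧ ∃ u ∈ L.Q1, u * d = d * u ∧ u * u = L.e) ∨
      (∃ r ∈ L.Q1, d = r * L.f * r⁻¹) ∨ (d ∉ L.Q ∧ ∃ r ∈ L.Q1, r * L.f * r⁻¹ * d = d * (r * L.f * r⁻¹) ∧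
        r * L.f * r⁻¹ ≠ d ∧ r * L.f * r⁻¹ ≠ d * L.z) from
    k.imp_right (Or.imp_left fun ⟨a, b, u, hu, c⟩ => ⟨a, b, u, L.Q1_le hu, c⟩)
  obtain ⟨q₁, q₂, q₃, α, rfl⟩ := L.mem_T0.1 h
  clear h
  simp only [exQ1, a1_eq L hσ, a2_eq L hσ, ← L.ev_zero, ← L.ev_e, ← L.ev_z, ← L.ev_f, ← L.ev_w1, ← L.ev_k1,
      ← L.ev_w2, ← L.ev_k2, mul' L hσ, inv' L hσ, L.ev_eq, ne_eq, iE L hσ, iEq L hσ, iQ, iQ3E, iQ3, iT1] at h2 ⊢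
  revert q₁ q₂ q₃ α
  decide +kernel

theorem root_z {d : G} (h : d ∈ L.T0) (h2 : d * d = 1) : ∃ u ∈ L.T0, u * d = d * u ∧ u * u = L.z := by
  obtain ⟨q₁, q₂, q₃, α, rfl⟩ := L.mem_T0.1 h
  suffices k : ∃ q, L.ev (0, 0, q, 0, 0) * L.ev (q₁, q₂, q₃, α, 0) = L.ev (q₁, q₂, q₃, α, 0) * L.ev (0, 0, q, 0, 0) ∧
      L.ev (0, 0, q, 0, 0) * L.ev (0, 0, q, 0, 0) = L.z from
    k.elim fun q k => ⟨_, L.mem_T0.2 ⟨_, _, _, _, rfl⟩, k⟩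
  clear h
  simp only [exQ1, a1_eq L hσ, a2_eq L hσ, ← L.ev_zero, ← L.ev_e, ← L.ev_z, ← L.ev_f, ← L.ev_w1, ← L.ev_k1,
      ← L.ev_w2, ← L.ev_k2, mul' L hσ, inv' L hσ, L.ev_eq, ne_eq, iE L hσ, iEq L hσ, iQ, iQ3E, iQ3, iT1] at h2 ⊢
  revert q₁ q₂ q₃ α
  decide +kernel

theorem sq_T0 {u : G} (h : u ∈ L.T0) (h4 : u * u * (u * u) = 1) : u * u ∈ L.E := by
  obtain ⟨q₁, q₂, q₃, α, rfl⟩ := L.mem_T0.1 h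
  clear h
  simp only [exQ1, a1_eq L hσ, a2_eq L hσ, ← L.ev_zero, ← L.ev_e, ← L.ev_z, ← L.ev_f, ← L.ev_w1, ← L.ev_k1,
      ← L.ev_w2, ← L.ev_k2, mul' L hσ, inv' L hσ, L.ev_eq, ne_eq, iE L hσ, iEq L hσ, iQ, iQ3E, iQ3, iT1] at h4 ⊢
  revert q₁ q₂ q₃ α
  decide +kernel

/-- the square roots of `z` -/
theorem sqrt_z {s : G} (h : s ∈ L.T0) (h2 : s * s = L.z) :
    s ∈ L.Q3 ∨ L.e * s * L.e⁻¹ = s * L.z ∨ (∃ r ∈ L.Q1, r * L.f * r⁻¹ * s * (r * L.f * r⁻¹)⁻¹ = s * L.z) ∨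
      ∃ i j, L.Eq s (L.a1 i * L.a2 j) := by
  obtain ⟨q₁, q₂, q₃, α, rfl⟩ := L.mem_T0.1 h
  clear h
  simp only [exQ1, a1_eq L hσ, a2_eq L hσ, ← L.ev_zero, ← L.ev_e, ← L.ev_z, ← L.ev_f, ← L.ev_w1, ← L.ev_k1,
      ← L.ev_w2, ← L.ev_k2, mul' L hσ, inv' L hσ, L.ev_eq, ne_eq, iE L hσ, iEq L hσ, iQ, iQ3E, iQ3, iT1] at h2 ⊢
  revert q₁ q₂ q₃ α
  decide +kernel

theorem diag {s : G} {i j : ZMod 3} (hij : i + j = 0) (h : L.Eq s (L.a1 i * L.a2 j)) :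
    ∃ r ∈ L.Q1, r * L.f * r⁻¹ * s * (r * L.f * r⁻¹)⁻¹ = s * L.z := by
  obtain ⟨c, hc, rfl⟩ := h
  obtain ⟨x, y, rfl⟩ := exE L hσ hc
  clear hc
  simp only [exQ1, a1_eq L hσ, a2_eq L hσ, ← L.ev_zero, ← L.ev_e, ← L.ev_z, ← L.ev_f, ← L.ev_w1, ← L.ev_k1,
      ← L.ev_w2, ← L.ev_k2, mul' L hσ, inv' L hσ, L.ev_eq, ne_eq, iE L hσ, iEq L hσ, iQ, iQ3E, iQ3, iT1]
  revert i j x y
  decide +kernel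

theorem sq_Q3 {q : G} (h : q ∈ L.Q3) : q = 1 ∨ q = L.z ∨ q * q = L.z := by
  obtain ⟨q, rfl⟩ := L.mem_Q3.1 h
  clear h
  simp only [exQ1, a1_eq L hσ, a2_eq L hσ, ← L.ev_zero, ← L.ev_e, ← L.ev_z, ← L.ev_f, ← L.ev_w1, ← L.ev_k1,
      ← L.ev_w2, ← L.ev_k2, mul' L hσ, inv' L hσ, L.ev_eq, ne_eq, iE L hσ, iEq L hσ, iQ, iQ3E, iQ3, iT1]
  revert q
  decide +kernel

theorem mem_e {M : Subgroup G} (hn : ∀ g ∈ L.T0, ∀ m ∈ M, g * m * g⁻¹ ∈ M) (hz : L.z ∈ M) {u : G} (hu : u ∈ M)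
    (h0 : u ∈ L.T0) (h3 : u ∉ L.Q3 ⊔ L.E) : L.e ∈ M := by
  have c : ∀ g ∈ L.T1, ∀ m ∈ M, g * m * g⁻¹ * m⁻¹ ∈ M := fun g hg m hm =>
    mul_mem (hn g (L.T1_le hg) m hm) (inv_mem hm)
  obtain ⟨g1, g2, g3, g4, -⟩ := gT1 L
  have k : L.k1 * (L.w1 * u * L.w1⁻¹ * u⁻¹) * L.k1⁻¹ * (L.w1 * u * L.w1⁻¹ * u⁻¹)⁻¹ = L.e ∨
      L.w1 * u * L.w1⁻¹ * u⁻¹ = L.e ∨ L.k1 * u * L.k1⁻¹ * u⁻¹ = L.e ∨
      L.w2 * u * L.w2⁻¹ * u⁻¹ * L.z = L.e ∨ L.k2 * u * L.k2⁻¹ * u⁻¹ * L.z = L.e := by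
    obtain ⟨q₁, q₂, q₃, α, rfl⟩ := L.mem_T0.1 h0
    clear h0 hu c hn hz g1 g2 g3 g4
    simp only [exQ1, a1_eq L hσ, a2_eq L hσ, ← L.ev_zero, ← L.ev_e, ← L.ev_z, ← L.ev_f, ← L.ev_w1, ← L.ev_k1,
        ← L.ev_w2, ← L.ev_k2, mul' L hσ, inv' L hσ, L.ev_eq, ne_eq, iE L hσ, iEq L hσ, iQ, iQ3E, iQ3, iT1] at h3 ⊢
    revert q₁ q₂ q₃ α
    decide +kernel
  rcases k with k | k | k | k | k <;> rw [← k]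
  exacts [c _ g2 _ (c _ g1 _ hu), c _ g1 _ hu, c _ g2 _ hu, mul_mem (c _ g3 _ hu) hz, mul_mem (c _ g4 _ hu) hz]

theorem Y_mem {d : G} (h : L.Y d) : d ∈ L.T1 := by
  rcases h with rfl | rfl | ⟨r, hr, rfl⟩
  · simp only [exQ1, a1_eq L hσ, a2_eq L hσ, ← L.ev_zero, ← L.ev_e, ← L.ev_z, ← L.ev_f, ← L.ev_w1, ← L.ev_k1,
      ← L.ev_w2, ← L.ev_k2, mul' L hσ, inv' L hσ, L.ev_eq, ne_eq, iE L hσ, iEq L hσ, iQ, iQ3E, iQ3, iT1]; decide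
  · simp only [exQ1, a1_eq L hσ, a2_eq L hσ, ← L.ev_zero, ← L.ev_e, ← L.ev_z, ← L.ev_f, ← L.ev_w1, ← L.ev_k1,
      ← L.ev_w2, ← L.ev_k2, mul' L hσ, inv' L hσ, L.ev_eq, ne_eq, iE L hσ, iEq L hσ, iQ, iQ3E, iQ3, iT1]; decide
  · have := L.Q12_le (mem_sup_left hr)
    exact mul_mem (mul_mem this (gT1 L).2.2.2.2) (inv_mem this)

theorem Y_mul {d d' : G} (h : L.Y d) (h' : L.Y d') : ¬ L.Y (d * d') := by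
  rw [Y, exQ1] at h h'
  rw [Y]
  rcases h with rfl | rfl | ⟨q, rfl⟩ <;> rcases h' with rfl | rfl | ⟨q', rfl⟩ <;> simp only [exQ1, a1_eq L hσ, a2_eq L hσ, ← L.ev_zero, ← L.ev_e, ← L.ev_z, ← L.ev_f, ← L.ev_w1, ← L.ev_k1,
      ← L.ev_w2, ← L.ev_k2, mul' L hσ, inv' L hσ, L.ev_eq, ne_eq, iE L hσ, iEq L hσ, iQ, iQ3E, iQ3, iT1] <;> (try revert q') <;>
    (try revert q) <;> decide +kernel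

theorem Y_z {d : G} (h : L.Y d) : L.Y (d * L.z) := by
  rw [Y, exQ1] at h
  rw [Y]
  rcases h with rfl | rfl | ⟨q, rfl⟩ <;> simp only [exQ1, a1_eq L hσ, a2_eq L hσ, ← L.ev_zero, ← L.ev_e, ← L.ev_z, ← L.ev_f, ← L.ev_w1, ← L.ev_k1,
      ← L.ev_w2, ← L.ev_k2, mul' L hσ, inv' L hσ, L.ev_eq, ne_eq, iE L hσ, iEq L hσ, iQ, iQ3E, iQ3, iT1] <;> (try revert q) <;> decide +kernel

theorem T1_inf_Q {u : G} (h : u ∈ L.T1) (h' : u ∈ L.Q) : u ∈ L.Q1 ⊔ L.Q2 := by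
  obtain ⟨q₁, q₂, q₃, rfl⟩ := L.mem_Q.1 h'
  exact (iQ12 L).2 ⟨rfl, rfl, ((iT1 L).1 h).2⟩

theorem inf_2 {u : G} (h : u ∈ L.Q1 ⊔ L.Q2) (h' : u ∈ L.Q2 ⊔ L.Q3) : u ∈ L.Q2 ⊔ L.E := by
  obtain ⟨q₁, q₂, rfl⟩ := L.mem_Q12.1 h
  exact (iQ2E L).2 ⟨rfl, rfl, ((iQ23 L).1 h').2.2, zq_0⟩

theorem inf_1 {u : G} (h : u ∈ L.Q1 ⊔ L.Q2) (h' : u ∈ L.Q1 ⊔ L.Q3) : u ∈ L.Q1 ⊔ L.E := by
  obtain ⟨q₁, q₂, rfl⟩ := L.mem_Q12.1 h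
  exact (iQ1E L).2 ⟨rfl, rfl, ((iQ13 L).1 h').2.2, zq_0⟩

theorem inf_E {u : G} (h : u ∈ L.Q1 ⊔ L.E) (h' : u ∈ L.Q2 ⊔ L.E) : u ∈ L.E := by
  obtain ⟨q, i, rfl⟩ := L.mem_Q1E.1 h
  exact (iE L hσ).2 ⟨rfl, rfl, ((iQ2E L).1 h').2.2.1, ((iQ1E L).1 h).2.2⟩

theorem inf_E' {u : G} (h : u ∈ L.T1) (h' : u ∈ L.Q3 ⊔ L.E) : u ∈ L.E := by
  obtain ⟨q, i, rfl⟩ := L.mem_Q3E.1 h'
  exact (iE L hσ).2 ⟨rfl, rfl, ((iQ3E L).1 h').2.2.1, zq_0, ((iT1 L).1 h).2⟩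

theorem T0_dec {u : G} (h : u ∈ L.T0) : ∃ s ∈ L.T1, ∃ q ∈ L.Q3, u = s * q := by
  obtain ⟨q₁, q₂, q₃, α, rfl⟩ := L.mem_T0.1 h
  refine ⟨_, L.mem_T1.2 ⟨q₁, q₂, α, rfl⟩, _, L.mem_Q3.2 ⟨q₃, rfl⟩, ?_⟩
  clear h
  simp only [exQ1, a1_eq L hσ, a2_eq L hσ, ← L.ev_zero, ← L.ev_e, ← L.ev_z, ← L.ev_f, ← L.ev_w1, ← L.ev_k1,
      ← L.ev_w2, ← L.ev_k2, mul' L hσ, inv' L hσ, L.ev_eq, ne_eq, iE L hσ, iEq L hσ, iQ, iQ3E, iQ3, iT1]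
  revert q₁ q₂ q₃ α
  decide +kernel

theorem cent_T1 {u : G} (h : u ∈ L.T1) (hc : ∀ v ∈ L.T1, u * v = v * u) : u = 1 ∨ u = L.z := by
  obtain ⟨g1, g2, g3, g4, g5⟩ := gT1 L
  have c1 := hc _ g1
  have c2 := hc _ g2
  have c3 := hc _ g3
  have c4 := hc _ g4
  have c5 := hc _ g5
  obtain ⟨q₁, q₂, α, rfl⟩ := L.mem_T1.1 h
  clear h hc g1 g2 g3 g4 g5
  simp only [exQ1, a1_eq L hσ, a2_eq L hσ, ← L.ev_zero, ← L.ev_e, ← L.ev_z, ← L.ev_f, ← L.ev_w1, ← L.ev_k1,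
      ← L.ev_w2, ← L.ev_k2, mul' L hσ, inv' L hσ, L.ev_eq, ne_eq, iE L hσ, iEq L hσ, iQ, iQ3E, iQ3, iT1] at c1 c2 c3 c4 c5 ⊢
  revert q₁ q₂ α
  decide +kernel

theorem cent2_T1 {u : G} (h : u ∈ L.T1) (hc : ∀ v ∈ L.T1, u * v * u⁻¹ * v⁻¹ = 1 ∨ u * v * u⁻¹ * v⁻¹ = L.z) :
    u ∈ L.E := by
  obtain ⟨g1, g2, g3, g4, -⟩ := gT1 L
  have c1 := hc _ g1
  have c2 := hc _ g2
  have c3 := hc _ g3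
  have c4 := hc _ g4
  obtain ⟨q₁, q₂, α, rfl⟩ := L.mem_T1.1 h
  clear h hc g1 g2 g3 g4
  simp only [exQ1, a1_eq L hσ, a2_eq L hσ, ← L.ev_zero, ← L.ev_e, ← L.ev_z, ← L.ev_f, ← L.ev_w1, ← L.ev_k1,
      ← L.ev_w2, ← L.ev_k2, mul' L hσ, inv' L hσ, L.ev_eq, ne_eq, iE L hσ, iEq L hσ, iQ, iQ3E, iQ3, iT1] at c1 c2 c3 c4 ⊢
  revert q₁ q₂ α
  decide +kernel

theorem fw1_not : L.f * L.w1 * L.f⁻¹ * L.w1⁻¹ ∉ L.Q3 ⊔ L.E := by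
  simp only [exQ1, a1_eq L hσ, a2_eq L hσ, ← L.ev_zero, ← L.ev_e, ← L.ev_z, ← L.ev_f, ← L.ev_w1, ← L.ev_k1,
      ← L.ev_w2, ← L.ev_k2, mul' L hσ, inv' L hσ, L.ev_eq, ne_eq, iE L hσ, iEq L hσ, iQ, iQ3E, iQ3, iT1]
  decide +kernel

theorem e_not : L.e ∉ L.Q3 := by
  simp only [exQ1, a1_eq L hσ, a2_eq L hσ, ← L.ev_zero, ← L.ev_e, ← L.ev_z, ← L.ev_f, ← L.ev_w1, ← L.ev_k1,
      ← L.ev_w2, ← L.ev_k2, mul' L hσ, inv' L hσ, L.ev_eq, ne_eq, iE L hσ, iEq L hσ, iQ, iQ3E, iQ3, iT1]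
  decide +kernel

/-- a subgroup of index 2 in `T₀` missing `q` -/
theorem exists_max {q : G} (h : q ∈ L.Q3) (hq : q * q = L.z) : ∃ M ≤ L.T0, L.z ∈ M ∧ q ∉ M ∧
    ∀ u ∈ L.T0, ∀ v ∈ L.T0, u ∉ M → v ∉ M → u * v ∈ M := by
  obtain ⟨x, rfl⟩ := L.mem_Q3.1 h
  obtain ⟨c, hc⟩ : ∃ c, lam c x ≠ 0 := by
    clear h
    simp only [exQ1, a1_eq L hσ, a2_eq L hσ, ← L.ev_zero, ← L.ev_e, ← L.ev_z, ← L.ev_f, ← L.ev_w1, ← L.ev_k1,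
        ← L.ev_w2, ← L.ev_k2, mul' L hσ, inv' L hσ, L.ev_eq, ne_eq, iE L hσ, iEq L hσ, iQ, iQ3E, iQ3, iT1] at hq
    revert x
    decide +kernel
  refine ⟨mx L hσ c, ?_, ?_, fun k => hc ((imx L hσ).1 k).2, fun u hu v hv h1 h2 => ?_⟩
  · rintro _ ⟨⟨_, _, _, _, _⟩, rfl, -, rfl⟩
    exact L.mem_T0.2 ⟨_, _, _, _, rfl⟩
  · rw [← L.ev_z, imx]
    exact ⟨rfl, (by decide : ∀ c, lam c (2, 0) = 0) c⟩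
  · obtain ⟨_, _, y, _, rfl⟩ := L.mem_T0.1 hu
    obtain ⟨_, _, y', _, rfl⟩ := L.mem_T0.1 hv
    rw [mul' L hσ]
    rw [imx] at h1 h2 ⊢
    exact ⟨rfl, (by decide : ∀ c x y, lam c x ≠ 0 → lam c y ≠ 0 → lam c (qm 1 x (qt 0 y)) = 0) c y y'
      (fun k => h1 ⟨rfl, k⟩) fun k => h2 ⟨rfl, k⟩⟩

end Lf

/-- the action of `l` on the types -/
theorem Lam.ty {L : Lf G} {l : G} (h : Lam L l) {s : G} {i j : ZMod 3} (hs : L.Eq s (L.a1 i * L.a2 j)) :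
    L.Eq (l * s * l⁻¹) (L.a1 (i + 1) * L.a2 (j + 1)) := by
  obtain ⟨g1, g2, g3, g4⟩ := gQ L
  have m : ∀ {u v u' v' : G}, L.Eq u v → L.Eq u' v' → v' ∈ L.Q → L.Eq (u * u') (v * v') := fun h1 h2 h3 =>
    Lf.Eq.mul L h1 h2 (L.ce (L.Q_le_R h3)) (L.cz (L.T0_le (L.Q_le_T0 h3)))
  have z3 : ∀ i : ZMod 3, i = 0 ∨ i = 1 ∨ i = 2 := by decide
  have t1 : L.Eq (l * L.a1 i * l⁻¹) (L.a1 (i + 1)) := by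
    rcases z3 i with rfl | rfl | rfl
    · exact h.w1
    · change L.Eq (l * (L.w1 * L.k1) * l⁻¹) L.k1
      have := m h.w1 h.k1 g1
      rwa [conj_mul, show L.w1 * L.k1 * L.w1 = L.k1 by
        rw [mul_assoc, mul_inv_eq_iff_eq_mul.1 L.kw1, mul_inv_cancel_left]] at this
    · exact h.k1
  have t2 : L.Eq (l * L.a2 j * l⁻¹) (L.a2 (j + 1)) := by
    rcases z3 j with rfl | rfl | rfl
    · exact h.w2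
    · exact h.k2
    · change L.Eq (l * (L.w2 * L.k2) * l⁻¹) L.w2
      have := m h.w2 h.k2 (mul_mem g3 g4)
      rw [conj_mul] at this
      exact Lf.Eq.trans L this (Lf.Eq.trans L (Lf.Eq.comm L g4 (mul_mem g3 g4)) ⟨_, L.sq_Q g4, mul_assoc _ _ _⟩)
  have a2Q : L.a2 (j + 1) ∈ L.Q := by
    unfold Lf.a2
    split_ifs
    exacts [g3, g4, mul_mem g3 g4]
  have := m t1 t2 a2Q
  rw [conj_mul] at this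
  exact Lf.Eq.trans L (Lf.Eq.conj L hs h.le h.lz) this

end CfsgLib.L3F
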