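import Mathlib
import Cfsg.Agent.Lib.L3F.Defs
import Cfsg.Agent.Lib.L3F.FacB

/-! Standard `L₃(3)`, the case `PSp₆(3)`, package Nb: Sylow subgroups and the groups `N v`.  See `plans/L3F.md`. -/

set_option autoImplicit false
set_option linter.unusedSectionVars false

namespace CfsgLib.L3F

open Subgroup CfsgLib.Tech CfsgLib.L33 CfsgLib.PComp

variable {G : Type*} [Group G] [Finite G]

namespace Bf

variable (B : Bf G)

theorem mem_C {g : G} : g ∈ B.C ↔ g ∈ B.K ∧ g * B.z = B.z * g := by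
  rw [C, mem_inf, mem_centralizer_singleton_iff]

theorem mem_X {g : G} : g ∈ B.X ↔ g ∈ B.K ∧ g * B.e = B.e * g ∧ g * B.z = B.z * g := by
  rw [X, mem_inf, mem_centralizer_iff]
  simp only [Set.mem_insert_iff, Set.mem_singleton_iff, forall_eq_or_imp, forall_eq]
  exact and_congr Iff.rfl (and_congr eq_comm eq_comm)

theorem X_le_C : B.X ≤ B.C := fun _ h => B.mem_C.2 ⟨(B.mem_X.1 h).1, (B.mem_X.1 h).2.2⟩

theorem T0_le_C : B.T0 ≤ B.C := fun _ h => B.mem_C.2 ⟨B.T0K h, B.cz (B.T0_le h)⟩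

theorem Q_le_X : B.Q ≤ B.X := fun _ h =>
  B.mem_X.2 ⟨B.T0K (B.Q_le_T0 h), B.ce (B.Q_le_R h), B.cz (B.T0_le (B.Q_le_T0 h))⟩

theorem x_C : B.x ∈ B.C :=
  B.mem_C.2 ⟨B.xK, B.xz⟩

theorem l_C : B.l ∈ B.C :=
  B.mem_C.2 ⟨B.lK, B.lam.lz⟩

theorem sylK : IsSylowIn 2 B.T0 B.K := by
  have := B.Kn
  have h := B.syl.inf_of_le_normalizer (N := B.K) le_normalizer_of_normal
  rwa [top_inf_eq, show B.P ⊓ B.K = B.T0 from le_antisymm (fun u hu => (B.P_cases hu.1).resolve_right fun k =>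
    B.tK ((mul_mem_cancel_right hu.2).1 (B.T0K k))) (le_inf B.T0_le B.T0K)] at h

theorem sylC : IsSylowIn 2 B.T0 B.C :=
  B.sylK.of_le B.T0_le_C inf_le_left

theorem sylQ : IsSylowIn 2 B.Q B.X := by
  have := B.Kn
  have e1 : B.X = B.K ⊓ centralizer (B.E : Set G) := by rw [X, Lf.E, centralizer_closure]
  have h := (B.sylK.of_le (K := B.K ⊓ normalizer (B.E : Set G)) (le_inf B.T0K fun _ h => B.norm_E (B.T0_le h))
    inf_le_left).inf_of_le_normalizer (N := B.X) fun g hg => by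
      rw [mem_normalizer_iff_cj, e1, cj_inf, cj_eq_of_normal, cj_centralizer, mem_normalizer_iff_cj.1 hg.2]
  rwa [show B.T0 ⊓ B.X = B.Q from le_antisymm (fun u hu => B.mem_Q_of hu.1 (B.mem_X.1 hu.2).2.1)
    (le_inf B.Q_le_T0 B.Q_le_X), inf_eq_right.2 (e1.le.trans (inf_le_inf_left _ (centralizer_le_normalizer _)))] at h

theorem θz : B.θ * B.z * B.θ⁻¹ = B.e := by rw [Lf.z, Lf.e, ← conj_pow, B.θw3]

theorem θe : B.θ * B.e * B.θ⁻¹ = B.e * B.z := by rw [← B.w22, Lf.e, ← conj_pow, B.θw1]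

theorem θez : B.θ * (B.e * B.z) * B.θ⁻¹ = B.z := by rw [← B.w22, Lf.z, ← conj_pow, B.θw2]

theorem θE : B.θ ∈ normalizer (B.E : Set G) :=
  mem_normalizer_of_forall fun u hu => by
  rcases B.mem_E.1 hu with rfl | rfl | rfl | rfl
  · simp
  · rw [B.θz]; exact B.mem_E.2 (by simp)
  · rw [B.θe]; exact B.mem_E.2 (by simp)
  · rw [B.θez]; exact B.mem_E.2 (by simp)

theorem θQ : B.θ ∈ normalizer (B.Q : Set G) :=
  mem_normalizer_of_cj_le (by
  rw [Lf.Q, cj, MonoidHom.map_closure, closure_le]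
  rintro _ ⟨u, hu, rfl⟩
  refine subset_closure ?_
  change B.θ * u * B.θ⁻¹ ∈ _
  rcases hu with rfl | rfl | rfl | rfl | rfl | rfl <;>
    simp [B.θw1, B.θw2, B.θw3, B.θk1, B.θk2, B.θk3])

theorem θQ1 : cj B.θ B.Q1 = B.Q2 := by
  rw [Lf.Q1, Lf.Q2, cj, MonoidHom.map_closure, Set.image_pair, ← B.θw1, ← B.θk1]; rfl

theorem θQ2 : cj B.θ B.Q2 = B.Q3 := by
  rw [Lf.Q2, Lf.Q3, cj, MonoidHom.map_closure, Set.image_pair, ← B.θw2, ← B.θk2]; rfl

theorem θQ3 : cj B.θ B.Q3 = B.Q1 := by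
  rw [Lf.Q3, Lf.Q1, cj, MonoidHom.map_closure, Set.image_pair, ← B.θw3, ← B.θk3]; rfl

/-- elements centralizing `z` normalize `C` and `W` -/
theorem norm_C {g : G} (h : g * B.z = B.z * g) : g ∈ normalizer (B.C : Set G) := by
  have := B.Kn
  rw [mem_normalizer_iff_cj, C, cj_inf, cj_eq_of_normal, cj_centralizer_singleton, h, mul_inv_cancel_right]

theorem norm_W {g : G} (h : g * B.z = B.z * g) : g ∈ normalizer (B.W : Set G) :=
  normalizer_le_normalizer_opOf _ (B.norm_C h)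

theorem W_le : B.W ≤ B.C :=
  opOf_le _

theorem odd_W : Odd (Nat.card B.W) :=
  Nat.coprime_two_right.1 (coprime_card_opOf _)

/-- a 2-element of `W ⟨z⟩` lies in `⟨z⟩` -/
theorem two_Wz {u : G} (h : u ∈ B.W ⊔ zpowers B.z) {k : ℕ} (h2 : u ^ 2 ^ k = 1) : u = 1 ∨ u = B.z := by
  have key : ∀ v ∈ B.W, ∀ k : ℕ, v ^ 2 ^ k = 1 → v = 1 := fun v hv k e =>
    orderOf_eq_one_iff.1 (Nat.eq_one_of_dvd_coprimes ((Nat.coprime_two_right.2 B.odd_W).pow_right k)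
      (orderOf_dvd_natCard _ hv) (orderOf_dvd_of_pow_eq_one e))
  have hz : B.z ∈ B.C := B.T0_le_C (B.Q_le_T0 (B.Q3_le B.z_Q3))
  have hc : Commute u B.z := (B.mem_C.1 (sup_le B.W_le (zpowers_le.2 hz) h)).2
  have zi : B.z⁻¹ = B.z := inv_eq_of_mul_eq_one_right B.zz
  have k2 : ∀ v : G, Commute v B.z → v ^ 2 ^ k = 1 → (v * B.z) ^ 2 ^ (k + 1) = 1 := fun v c e => by
    rw [c.mul_pow, pow_succ, pow_mul, e, one_pow, one_mul, mul_comm, pow_mul, sq, B.zz, one_pow]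
  obtain ⟨w, hw, y, hy, rfl⟩ := (Core.mem_sup_of_le_normalizer_left
    (zpowers_le.2 (B.norm_W rfl))).1 h
  rcases B.mem_zz.1 hy with rfl | rfl
  · exact Or.inl (key _ (by rwa [mul_one]) k h2)
  · have := k2 _ hc h2
    rw [mul_assoc, B.zz, mul_one] at this
    rw [key w hw _ this, one_mul]
    exact Or.inr rfl

theorem cj_N {g : G} (hg : g ∈ normalizer (B.E : Set G)) (v : G) : cj g (B.N v) = B.N (g * v * g⁻¹) := by
  have := B.Kn
  have key : ∀ g ∈ normalizer (B.E : Set G), ∀ v, cj g (B.N v) ≤ B.N (g * v * g⁻¹) := fun g hg v => by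
    rw [N, cj, MonoidHom.map_closure, closure_le]
    rintro _ ⟨_, ⟨h, hK, hv, s, hs, rfl⟩, rfl⟩
    refine subset_closure ⟨g * h * g⁻¹, B.Kn.conj_mem h hK g, by rw [conj_mul, conj_mul, hv], g * s * g⁻¹,
      conj_mem_of_mem_normalizer hg hs, ?_⟩
    change g * _ * g⁻¹ = _
    group
  refine le_antisymm (key g hg v) ?_
  have h := cj_mono g (key g⁻¹ (inv_mem hg) (g * v * g⁻¹))
  rwa [cj_cj_inv, show g⁻¹ * (g * v * g⁻¹) * g⁻¹⁻¹ = v by group] at h

theorem N_le {v : G} (hv : v ∈ B.E) : B.N v ≤ B.K ⊓ centralizer {v} := by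
  rw [N, closure_le]
  rintro _ ⟨h, hK, hc, s, hs, rfl⟩
  have hQ := B.E_le_Q hs
  have k : s * v = v * s := by
    have c1 : Commute s B.e := B.ce (B.Q_le_R hQ)
    have c2 : Commute s B.z := B.cz (B.T0_le (B.Q_le_T0 hQ))
    rcases B.mem_E.1 hv with rfl | rfl | rfl | rfl
    exacts [by simp, c2, c1, c1.mul_right c2]
  have c3 : Commute h v := hc
  exact mem_inf.2 ⟨mul_mem (mul_mem hK (B.T0K (B.Q_le_T0 hQ))) (inv_mem hK),
    mem_centralizer_singleton_iff.2 ((c3.mul_left k).mul_left c3.inv_left)⟩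

theorem E_le_N (v : G) : B.E ≤ B.N v := fun s hs =>
  subset_closure ⟨1, one_mem _, by simp, s, hs, by simp⟩

theorem norm_N {g v : G} (hK : g ∈ B.K) (h : g * v = v * g) : g ∈ normalizer (B.N v : Set G) :=
  mem_normalizer_of_cj_le (by
  rw [N, cj, MonoidHom.map_closure, closure_le]
  rintro _ ⟨_, ⟨k, hk, hv, s, hs, rfl⟩, rfl⟩
  refine subset_closure ⟨g * k, mul_mem hK hk, Commute.mul_left h hv, s, hs, ?_⟩
  change g * _ * g⁻¹ = _
  group)

/-- also elements outside `K` -/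
theorem norm_Nz {g : G} (h : g * B.z = B.z * g) : g ∈ normalizer (B.N B.z : Set G) := by
  rcases B.hG g with hg | hg
  · exact B.norm_N hg h
  have hP : B.t ∈ B.P := subset_closure (by simp)
  have ht : B.t ∈ normalizer (B.N B.z : Set G) := by
    rw [mem_normalizer_iff_cj, B.cj_N (B.norm_E hP), B.cz hP, mul_inv_cancel_right]
  exact (mul_mem_cancel_left ht).1 (B.norm_N hg (Commute.mul_left (B.cz hP) h))

theorem N_le_of {M : Subgroup G} (hn : ∀ g ∈ B.C, ∀ m ∈ M, g * m * g⁻¹ ∈ M) (he : B.e ∈ M) : B.N B.z ≤ M := by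
  have h1 : B.e * B.z ∈ M := B.fe ▸ hn _ (B.T0_le_C (subset_closure (by simp))) _ he
  rw [N, closure_le]
  rintro _ ⟨g, hK, hc, s, hs, rfl⟩
  refine hn g (B.mem_C.2 ⟨hK, hc⟩) s ?_
  rcases B.mem_E.1 hs with rfl | rfl | rfl | rfl
  exacts [one_mem _, (mul_mem_cancel_left he).1 h1, he, h1]

theorem f_N : B.f ∈ B.N B.z :=
  subset_closure ⟨B.x, B.xK, B.xz, B.e, B.mem_E.2 (by simp), B.xe.symm⟩

theorem x_N : B.x ∈ B.N B.z := by
  have he : B.e ∈ B.N B.z := B.E_le_N _ (B.mem_E.2 (by simp))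
  have h := conj_mem_of_mem_normalizer (B.norm_Nz B.ρz) (mul_mem he B.f_N)
  rw [B.ρy] at h
  exact (mul_mem_cancel_right he).1 h


end Bf

end CfsgLib.L3F
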