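import Mathlib
import Cfsg.Agent.Lib.L3F.Defs
import Cfsg.Agent.Lib.L3F.Nb

/-! Standard `L₃(3)`, the case `PSp₆(3)`, package Cls: the class of `z` in `T₀`, strong closure of `Q₃`.  See `plans/L3F.md`. -/

set_option autoImplicit false
set_option linter.unusedSectionVars false

namespace CfsgLib.L3F

open Subgroup CfsgLib.Tech CfsgLib.L33 CfsgLib.PComp

variable {G : Type*} [Group G] [Finite G]

namespace Bf

variable (B : Bf G)

theorem cls_N {d : G} (h : B.Y d) : ∃ m ∈ B.N B.z, d = m * B.e * m⁻¹ := by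
  rcases h with rfl | rfl | ⟨r, hr, rfl⟩
  · exact ⟨1, one_mem _, by group⟩
  · exact ⟨_, B.f_N, B.fe.symm⟩
  · obtain ⟨-, h1, h2⟩ := B.mem_X.1 (B.Q_le_X (B.Q1_le hr))
    refine ⟨_, (mem_normalizer_iff.1 (B.norm_Nz h2) _).1 B.x_N, ?_⟩
    rw [← B.xe]
    calc _ = r * B.x * r⁻¹ * (r * B.e) * B.x⁻¹ * r⁻¹ := by group
      _ = _ := by rw [h1]; group

theorem cls_NC : B.N B.z ≤ B.C := B.N_le (B.mem_E.2 (.inr (.inl rfl)))

theorem cls_cj {d h : G} (hd : B.D d) (hh : h ∈ B.C) : B.D (h * d * h⁻¹) := by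
  obtain ⟨g, hg, rfl⟩ := hd
  exact ⟨h * g, mul_mem hh hg, by group⟩

theorem cls_sq {d : G} (hd : B.D d) : d * d = 1 := by
  obtain ⟨g, -, rfl⟩ := hd
  rw [conj_mul, B.ee]; group

theorem cls_E {d : G} (hd : B.D d) (h : d ∈ B.E) : d = B.e ∨ d = B.e * B.z := by
  obtain ⟨g, hg, rfl⟩ := hd
  rcases B.mem_E.1 h with e | e | e
  · exact absurd (conj_eq_one_iff.1 e) B.e1
  · rw [mul_inv_eq_iff_eq_mul, ← (B.mem_C.1 hg).2] at e
    exact absurd (mul_left_cancel e) B.ez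
  · exact e

theorem cls_ext {d : G} (hd : B.D d) :
    ∃ h ∈ B.C, h * d * h⁻¹ = B.e ∧ ∀ u ∈ B.T0, u * d = d * u → h * u * h⁻¹ ∈ B.Q := by
  obtain ⟨g, hg, rfl⟩ := hd
  obtain ⟨n, hn, h⟩ := B.sylQ.exists_cj_le (isPGroup_cj g⁻¹ (B.sylK.pgroup.to_inf_left (K := centralizer {g * B.e * g⁻¹})))
    (cj_le_iff.2 fun u hu => by
      obtain ⟨h1, h2⟩ := B.mem_C.1 (mul_mem (mul_mem (inv_mem hg) (B.T0_le_C hu.1)) (inv_mem (inv_mem hg)))
      refine B.mem_X.2 ⟨h1, ?_, h2⟩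
      calc _ = g⁻¹ * (u * (g * B.e * g⁻¹)) * g := by group
        _ = _ := by rw [mem_centralizer_singleton_iff.1 hu.2]; group)
  rw [← cj_mul, cj_le_iff] at h
  refine ⟨n * g⁻¹, mul_mem (B.X_le_C hn) (inv_mem hg), ?_, fun u h1 h2 => h u ⟨h1, mem_centralizer_singleton_iff.2 h2⟩⟩
  calc _ = n * B.e * n⁻¹ := by group
    _ = _ := by rw [(B.mem_X.1 hn).2.1, mul_inv_cancel_right]

theorem cls_back {d h v : G} (hh : h ∈ B.C) (e : h * d * h⁻¹ = B.e) (hv : B.D v) (hE : h * v * h⁻¹ ∈ B.E) :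
    v = d ∨ v = d * B.z := by
  refine (B.cls_E (B.cls_cj hv hh) hE).imp (fun k => ?_) fun k => ?_
  · simpa using k.trans e.symm
  · rw [← e, mul_assoc (h * d), ← mul_inv_eq_iff_eq_mul.2 (B.mem_C.1 hh).2] at k
    calc v = h⁻¹ * (h * v * h⁻¹) * h := by group
      _ = _ := by rw [k]; group

theorem cls_two {d u : G} (hd : B.D d) (hu : u ∈ B.Q) (h1 : u * d = d * u) (h2 : u * u = B.e) : d ∈ B.E := by
  obtain ⟨h, hh, e, k⟩ := B.cls_ext hd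
  have := B.sq_Q (k u (B.Q_le_T0 hu) h1)
  rw [conj_mul, h2] at this
  rcases B.cls_back hh e ⟨1, one_mem _, by group⟩ this with k | k
  · exact B.mem_E.2 (.inr (.inr (.inl k.symm)))
  · exact B.mem_E.2 (.inr (.inr (.inr (by rw [k, mul_assoc, B.zz, mul_one]))))

theorem cls_Q {d : G} (hd : B.D d) (h : d ∈ B.Q) : d ∈ B.E := by
  rcases B.inv_T0 B.σ1 (B.Q_le_T0 h) (B.cls_sq hd) with k | ⟨-, -, u, hu, h1, h2⟩ | ⟨r, hr, rfl⟩ | k
  · exact k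
  · exact B.cls_two hd hu h1 h2
  · have hf : B.f ∈ B.Q := by
      simpa [mul_assoc] using mul_mem (mul_mem (inv_mem (B.Q1_le hr)) h) (B.Q1_le hr)
    have := B.fe
    rw [B.ce (B.Q_le_R hf), mul_inv_cancel_right] at this
    exact absurd (mul_eq_left.1 this.symm) B.z1
  · exact absurd h k.1

theorem D_of_Y {d : G} (h : B.Y d) : B.D d := by
  obtain ⟨m, hm, e⟩ := B.cls_N h
  exact ⟨m, B.cls_NC hm, e⟩
theorem Y_of_D {d : G} (h0 : d ∈ B.T0) (h : B.D d) : B.Y d := by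
  have k : d ∈ B.E → B.Y d := fun hE => (B.cls_E h hE).imp_right .inl
  rcases B.inv_T0 B.σ1 h0 (B.cls_sq h) with e | ⟨-, -, u, hu, h1, h2⟩ | e | ⟨-, r, hr, h1, h2, h3⟩
  · exact k e
  · exact k (B.cls_two h hu h1 h2)
  · exact .inr (.inr e)
  · obtain ⟨g, hg, e, k⟩ := B.cls_ext h
    have y : B.Y (r * B.f * r⁻¹) := .inr (.inr ⟨r, hr, rfl⟩)
    have hD := B.D_of_Y y
    exact ((B.cls_back hg e hD (B.cls_Q (B.cls_cj hD hg) (k _ (B.T1_le (B.Y_mem B.σ1 y)) h1))).elim h2 h3).elim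
/-- the conjugates of `z` in `T₀` -/
theorem Y_of_conj {d g : G} (h0 : d ∈ B.T0) (hg : g ∈ B.K) (h : d = g * B.z * g⁻¹) : d = B.z ∨ B.Y d := by
  subst h
  obtain ⟨n, hn, h⟩ := B.sylC.exists_cj_le (isPGroup_cj g⁻¹ (B.sylK.pgroup.to_inf_left (K := centralizer {g * B.z * g⁻¹})))
    (cj_le_iff.2 fun u hu => by
      refine B.mem_C.2 ⟨B.Kn.conj_mem _ (B.T0K hu.1) _, ?_⟩
      calc _ = g⁻¹ * (u * (g * B.z * g⁻¹)) * g := by group
        _ = _ := by rw [mem_centralizer_singleton_iff.1 hu.2]; group)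
  rw [← cj_mul, cj_le_iff] at h
  have e : n * g⁻¹ * (g * B.z * g⁻¹) * (n * g⁻¹)⁻¹ = B.z := by
    calc _ = n * B.z * n⁻¹ := by group
      _ = _ := by rw [(B.mem_C.1 hn).2, mul_inv_cancel_right]
  have hK : n * g⁻¹ ∈ B.K := mul_mem (B.mem_C.1 hn).1 (inv_mem hg)
  obtain ⟨u, hu, h1, h2⟩ := B.root_z B.σ1 h0 (by rw [conj_mul, B.zz]; group)
  have h3 := B.sq_T0 B.σ1 (h u ⟨hu, mem_centralizer_singleton_iff.2 h1⟩) (by
    rw [conj_mul, conj_mul, h2, B.zz]; group)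
  rw [conj_mul, h2] at h3
  generalize n * g⁻¹ = k at e hK h3
  generalize g * B.z * g⁻¹ = d at h0 e
  have fin : ∀ m ∈ B.K, m * (k * B.z * k⁻¹) * m⁻¹ = B.z → B.D (m * B.z * m⁻¹) → B.Y d := fun m hm e1 e2 => by
    have hC : m * k ∈ B.C := B.mem_C.2 ⟨mul_mem hm hK, by
      rw [← mul_inv_eq_iff_eq_mul]
      exact Eq.trans (by group) e1⟩
    have := B.cls_cj e2 (inv_mem hC)
    nth_rewrite 1 [← e] at this
    exact B.Y_of_D h0 (by convert this using 1; group)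
  rcases B.mem_E.1 h3 with k1 | k1 | k1 | k1
  · exact absurd (conj_eq_one_iff.1 k1) B.z1
  · exact .inl (by simpa using e.trans k1.symm)
  · refine .inr (fin _ (inv_mem B.θK) (by rw [k1, ← B.θz]; group) ?_)
    have : B.θ⁻¹ * B.z * B.θ⁻¹⁻¹ = B.e * B.z := by
      nth_rewrite 1 [← B.θez]; group
    exact this ▸ B.D_of_Y (.inr (.inl rfl))
  · exact .inr (fin _ B.θK (by rw [k1, B.θez]) (B.θz ▸ B.D_of_Y (.inl rfl)))
/-- `C = N(z) X` -/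
theorem C_dec {g : G} (hg : g ∈ B.C) : ∃ n ∈ B.N B.z, ∃ u ∈ B.X, g = n * u := by
  have h1 : g * B.e * g⁻¹ ∈ B.N B.z := (mem_normalizer_iff.1 (B.norm_Nz (B.mem_C.1 hg).2) _).1
    (B.E_le_N _ (B.mem_E.2 (.inr (.inr (.inl rfl)))))
  have hD : B.D (g * B.e * g⁻¹) := ⟨g, hg, rfl⟩
  obtain ⟨n, hn, h2⟩ := (B.sylC.inf_of_le_normalizer (N := B.N B.z) fun c hc => B.norm_Nz (B.mem_C.1 hc).2).exists_conj_mem
    ⟨B.cls_NC h1, h1⟩ (isPGroup_zpowers_of_pow (k := 1) (by rw [pow_one, sq, B.cls_sq hD]))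
  obtain ⟨m, hm, e⟩ := B.cls_N (B.Y_of_D h2.1 (B.cls_cj hD hn.1))
  obtain ⟨k1, k2⟩ := B.mem_C.1 (mul_mem (mul_mem (inv_mem (B.cls_NC hm)) hn.1) hg)
  refine ⟨n⁻¹ * m, mul_mem (inv_mem hn.2) hm, m⁻¹ * n * g, B.mem_X.2 ⟨k1, ?_, k2⟩, by group⟩
  calc _ = m⁻¹ * (n * (g * B.e * g⁻¹) * n⁻¹) * n * g := by group
    _ = _ := by rw [e]; group

end Bf

end CfsgLib.L3F
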