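import Mathlib
import Cfsg.Agent.Lib.L3F.Defs
import Cfsg.Agent.Lib.Symp.Basic
import Cfsg.Agent.S0814

/-! Standard `L₃(3)`, the case `PSp₆(3)`, package SpB: the subgroup `SL₂(3) × SL₂(3)` of `Sp₄(3)`.  See `plans/L3F.md`. -/

set_option autoImplicit false
set_option linter.unusedSectionVars false

namespace CfsgLib.L3F

open Subgroup CfsgLib.Tech CfsgLib.L33 CfsgLib.PComp

variable {G : Type*} [Group G] [Finite G]

namespace SpB

open Matrix

abbrev M2 := Matrix (Fin 2) (Fin 2) (ZMod 3)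
abbrev M4 := Matrix (Fin 2 ⊕ Fin 2) (Fin 2 ⊕ Fin 2) (ZMod 3)

/-- `A` on the first hyperbolic plane, `B` on the second -/
def blk (A B : M2) : M4 :=
  fromBlocks !![A 0 0, 0; 0, B 0 0] !![A 0 1, 0; 0, B 0 1] !![A 1 0, 0; 0, B 1 0] !![A 1 1, 0; 0, B 1 1]

theorem blk_mul (A B C D : M2) : blk A B * blk C D = blk (A * C) (B * D) := by
  ext i j
  rcases i with i | i <;> rcases j with j | j <;> fin_cases i <;> fin_cases j <;>
    simp [blk, Matrix.mul_apply, Fintype.sum_sum_type, Fin.sum_univ_two]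

theorem blk_inj {A B C D : M2} (h : blk A B = blk C D) : A = C ∧ B = D := by
  have e := fun i j => congrFun (congrFun h i) j
  constructor
  · ext i j
    fin_cases i <;> fin_cases j
    · simpa [blk] using e (.inl 0) (.inl 0)
    · simpa [blk] using e (.inl 0) (.inr 0)
    · simpa [blk] using e (.inr 0) (.inl 0)
    · simpa [blk] using e (.inr 0) (.inr 0)
  · ext i j
    fin_cases i <;> fin_cases j
    · simpa [blk] using e (.inl 1) (.inl 1)
    · simpa [blk] using e (.inl 1) (.inr 1)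
    · simpa [blk] using e (.inr 1) (.inl 1)
    · simpa [blk] using e (.inr 1) (.inr 1)

theorem blk_one : blk 1 1 = 1 := by decide +kernel

theorem blk_tr (A B : M2) : (blk A B)ᵀ = blk Aᵀ Bᵀ := by
  ext i j
  rcases i with i | i <;> rcases j with j | j <;> fin_cases i <;> fin_cases j <;> simp [blk]

theorem J_eq : Matrix.J (Fin 2) (ZMod 3) = blk !![0, -1; 1, 0] !![0, -1; 1, 0] := by decide +kernel

theorem j_iff (A : M2) : A * !![0, -1; 1, 0] * Aᵀ = !![0, -1; 1, 0] ↔ A.det = 1 := by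
  have : ∀ a b c d : ZMod 3, ((!![a, b; c, d] : M2) * !![0, -1; 1, 0] * (!![a, b; c, d] : M2)ᵀ = !![0, -1; 1, 0] ↔
      a * d - b * c = 1) := by decide +kernel
  rw [Matrix.det_fin_two, ← this, ← Matrix.eta_fin_two]

theorem blk_mem {A B : M2} : blk A B ∈ Matrix.symplecticGroup (Fin 2) (ZMod 3) ↔ A.det = 1 ∧ B.det = 1 := by
  rw [SymplecticGroup.mem_iff, J_eq, blk_tr, blk_mul, blk_mul, ← j_iff, ← j_iff]
  exact ⟨blk_inj, fun h => by rw [h.1, h.2]⟩

theorem ε0_eq : (ε0 : Sp4).1 = blk (-1) 1 := by decide +kernel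
theorem ε1_eq : (ε1 : Sp4).1 = blk 1 (-1) := by decide +kernel

theorem z3 : ∀ a : ZMod 3, a = -a → a = 0 := by decide
theorem z3' : ∀ a : ZMod 3, -a = a → a = 0 := by decide

theorem eq_blk {g : M4} (h1 : g (.inl 0) (.inl 1) = 0) (h2 : g (.inl 0) (.inr 1) = 0) (h3 : g (.inr 0) (.inl 1) = 0)
    (h4 : g (.inr 0) (.inr 1) = 0) (h5 : g (.inl 1) (.inl 0) = 0) (h6 : g (.inl 1) (.inr 0) = 0)
    (h7 : g (.inr 1) (.inl 0) = 0) (h8 : g (.inr 1) (.inr 0) = 0) :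
    g = blk !![g (.inl 0) (.inl 0), g (.inl 0) (.inr 0); g (.inr 0) (.inl 0), g (.inr 0) (.inr 0)]
      !![g (.inl 1) (.inl 1), g (.inl 1) (.inr 1); g (.inr 1) (.inl 1), g (.inr 1) (.inr 1)] := by
  ext i j
  rcases i with i | i <;> rcases j with j | j <;> fin_cases i <;> fin_cases j <;> simp [blk, *]

theorem blk_of_com0 {g : Sp4} (h : g * ε0 = ε0 * g) : ∃ A B, g.1 = blk A B ∧ A.det = 1 ∧ B.det = 1 := by
  have h' : g.1 * blk (-1) 1 = blk (-1) 1 * g.1 := by rw [← ε0_eq]; exact congrArg Subtype.val h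
  have e := fun i j => congrFun (congrFun h' i) j
  have key : ∃ A B, g.1 = blk A B := by
    refine ⟨_, _, eq_blk (z3 _ ?_) (z3 _ ?_) (z3 _ ?_) (z3 _ ?_) (z3' _ ?_) (z3' _ ?_) (z3' _ ?_) (z3' _ ?_)⟩
    · simpa [blk, Matrix.mul_apply, Fintype.sum_sum_type, Fin.sum_univ_two] using e (.inl 0) (.inl 1)
    · simpa [blk, Matrix.mul_apply, Fintype.sum_sum_type, Fin.sum_univ_two] using e (.inl 0) (.inr 1)
    · simpa [blk, Matrix.mul_apply, Fintype.sum_sum_type, Fin.sum_univ_two] using e (.inr 0) (.inl 1)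
    · simpa [blk, Matrix.mul_apply, Fintype.sum_sum_type, Fin.sum_univ_two] using e (.inr 0) (.inr 1)
    · simpa [blk, Matrix.mul_apply, Fintype.sum_sum_type, Fin.sum_univ_two] using e (.inl 1) (.inl 0)
    · simpa [blk, Matrix.mul_apply, Fintype.sum_sum_type, Fin.sum_univ_two] using e (.inl 1) (.inr 0)
    · simpa [blk, Matrix.mul_apply, Fintype.sum_sum_type, Fin.sum_univ_two] using e (.inr 1) (.inl 0)
    · simpa [blk, Matrix.mul_apply, Fintype.sum_sum_type, Fin.sum_univ_two] using e (.inr 1) (.inr 0)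
  obtain ⟨A, B, hg⟩ := key
  exact ⟨A, B, hg, blk_mem.1 (hg ▸ g.2)⟩

theorem neg_central (g : Sp4) : g * (ε0 * ε1) = ε0 * ε1 * g := by
  apply Subtype.ext
  have : (ε0 * ε1 : Sp4).1 = -1 := by decide +kernel
  change g.1 * (ε0 * ε1 : Sp4).1 = (ε0 * ε1 : Sp4).1 * g.1
  rw [this]; simp

theorem ε11 : ε1 * ε1 = 1 := Subtype.ext (by decide +kernel)

theorem blk_of_com1 {g : Sp4} (h : g * ε1 = ε1 * g) : ∃ A B, g.1 = blk A B ∧ A.det = 1 ∧ B.det = 1 := by
  refine blk_of_com0 ?_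
  have e : ε0 = ε0 * ε1 * ε1 := by rw [mul_assoc, ε11, mul_one]
  rw [e, ← mul_assoc, neg_central, mul_assoc, h, ← mul_assoc]

theorem fx_col {j : Fin 2} {u : Sp4} (hu : Fx j u) {k : Fin 2} (hk : k ≠ j) (i : Fin 2 ⊕ Fin 2) :
    u.1 i (.inl k) = (Pi.single (Sum.inl k) 1 : Fin 2 ⊕ Fin 2 → ZMod 3) i ∧
      u.1 i (.inr k) = (Pi.single (Sum.inr k) 1 : Fin 2 ⊕ Fin 2 → ZMod 3) i := by
  obtain ⟨h1, h2⟩ := hu k hk
  constructor
  · simpa [Matrix.mulVec_single] using congrFun h1 i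
  · simpa [Matrix.mulVec_single] using congrFun h2 i

theorem blk_of_fx1 {u : Sp4} (hu : Fx 1 u) : ∃ B, u.1 = blk 1 B ∧ B.det = 1 := by
  have c := fx_col hu (k := 0) (by decide)
  have c1 := c (.inl 0); have c2 := c (.inr 0); have c3 := c (.inl 1); have c4 := c (.inr 1)
  simp at c1 c2 c3 c4
  have hs := SymplecticGroup.mem_iff'.1 u.2
  have e := fun i j => congrFun (congrFun hs i) j
  have e1 := e (.inl 0) (.inl 1); have e2 := e (.inl 0) (.inr 1)
  have e3 := e (.inr 0) (.inl 1); have e4 := e (.inr 0) (.inr 1)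
  simp [Matrix.J, Matrix.mul_apply, Fintype.sum_sum_type, Fin.sum_univ_two, c1, c2, c3, c4] at e1 e2 e3 e4
  have hg := eq_blk e3 e4 e1 e2 c3.1 c3.2 c4.1 c4.2
  rw [c1.1, c1.2, c2.1, c2.2, ← Matrix.one_fin_two] at hg
  exact ⟨_, hg, (blk_mem.1 (hg ▸ u.2)).2⟩

theorem blk_of_fx0 {u : Sp4} (hu : Fx 0 u) : ∃ A, u.1 = blk A 1 ∧ A.det = 1 := by
  have c := fx_col hu (k := 1) (by decide)
  have c1 := c (.inl 0); have c2 := c (.inr 0); have c3 := c (.inl 1); have c4 := c (.inr 1)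
  simp at c1 c2 c3 c4
  have hs := SymplecticGroup.mem_iff'.1 u.2
  have e := fun i j => congrFun (congrFun hs i) j
  have e1 := e (.inl 1) (.inl 0); have e2 := e (.inl 1) (.inr 0)
  have e3 := e (.inr 1) (.inl 0); have e4 := e (.inr 1) (.inr 0)
  simp [Matrix.J, Matrix.mul_apply, Fintype.sum_sum_type, Fin.sum_univ_two, c1, c2, c3, c4] at e1 e2 e3 e4
  have hg := eq_blk c1.1 c1.2 c2.1 c2.2 e3 e4 e1 e2
  rw [c3.1, c3.2, c4.1, c4.2, ← Matrix.one_fin_two] at hg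
  exact ⟨_, hg, (blk_mem.1 (hg ▸ u.2)).1⟩

theorem fx1_of {u : Sp4} {B : M2} (h : u.1 = blk 1 B) : Fx 1 u := by
  intro k hk
  fin_cases k
  · rw [h]
    constructor <;> ext i <;> rcases i with i | i <;> fin_cases i <;> simp [blk, Matrix.mulVec_single]
  · exact absurd rfl hk

theorem fx0_of {u : Sp4} {A : M2} (h : u.1 = blk A 1) : Fx 0 u := by
  intro k hk
  fin_cases k
  · exact absurd rfl hk
  · rw [h]
    constructor <;> ext i <;> rcases i with i | i <;> fin_cases i <;> simp [blk, Matrix.mulVec_single]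

theorem sw_inv : (sw : Sp4)⁻¹ = sw := inv_eq_of_mul_eq_one_right (Subtype.ext (by decide +kernel))

theorem sw_blk {g : Sp4} {A B : M2} (h : g.1 = blk A B) : (sw * g * sw⁻¹).1 = blk B A := by
  rw [sw_inv]
  change sw.1 * g.1 * sw.1 = _
  rw [h]
  ext i j
  rcases i with i | i <;> rcases j with j | j <;> fin_cases i <;> fin_cases j <;>
    simp [sw, blk, Matrix.mul_apply, Fintype.sum_sum_type, Fin.sum_univ_two]

theorem pm_of_sq {A : M2} (hd : A.det = 1) (h : A * A = 1) : A = 1 ∨ A = -1 := by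
  have : ∀ a b c d : ZMod 3, a * d - b * c = 1 → (!![a, b; c, d] : M2) * !![a, b; c, d] = 1 →
      (!![a, b; c, d] : M2) = 1 ∨ (!![a, b; c, d] : M2) = -1 := by decide +kernel
  rw [Matrix.det_fin_two] at hd
  rw [Matrix.eta_fin_two A] at h ⊢
  exact this _ _ _ _ hd h

theorem com_pm {A : M2} (h : A = 1 ∨ A = -1) (B : M2) : A * B = B * A := by
  rcases h with rfl | rfl <;> simp

set_option synthInstance.maxSize 2000 in
set_option synthInstance.maxHeartbeats 200000 in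
theorem sq_of_com2 {A B N : M2} (hA : A * A = -1) (hB : B * B = -1) (hAB : A * B ≠ B * A) (hN : N.det = 1)
    (h1 : N * A = A * N) (h2 : N * B = B * N) : N * N = 1 := by
  have : ∀ a b c d : ZMod 3, (!![a, b; c, d] : M2) * !![a, b; c, d] = -1 → ∀ a' b' c' d' : ZMod 3,
      (!![a', b'; c', d'] : M2) * !![a', b'; c', d'] = -1 →
      (!![a, b; c, d] : M2) * !![a', b'; c', d'] ≠ !![a', b'; c', d'] * !![a, b; c, d] →
      ∀ x y z w : ZMod 3, x * w - y * z = 1 →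
      (!![x, y; z, w] : M2) * !![a, b; c, d] = !![a, b; c, d] * !![x, y; z, w] →
      (!![x, y; z, w] : M2) * !![a', b'; c', d'] = !![a', b'; c', d'] * !![x, y; z, w] →
      (!![x, y; z, w] : M2) * !![x, y; z, w] = 1 := by decide +kernel
  rw [Matrix.det_fin_two] at hN
  rw [Matrix.eta_fin_two A] at hA hAB h1
  rw [Matrix.eta_fin_two B] at hB hAB h2
  rw [Matrix.eta_fin_two N] at h1 h2 ⊢
  exact this _ _ _ _ hA _ _ _ _ hB hAB _ _ _ _ hN h1 h2

theorem gen2 {A : M2} (hd : A.det = 1) : ∃ i j k l : ZMod 3,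
    A = !![1, i; 0, 1] * !![1, 0; j, 1] * !![1, k; 0, 1] * !![1, 0; l, 1] := by
  have : ∀ a b c d : ZMod 3, a * d - b * c = 1 → ∃ i j k l : ZMod 3,
      (!![a, b; c, d] : M2) = !![1, i; 0, 1] * !![1, 0; j, 1] * !![1, k; 0, 1] * !![1, 0; l, 1] := by
    decide +kernel
  rw [Matrix.det_fin_two] at hd
  rw [Matrix.eta_fin_two A]
  exact this _ _ _ _ hd

theorem cu1 : ∀ i : ZMod 3, (!![1, i; 0, 1] : M2).det = 1 ∧ (!![1, i; 0, 1] : M2) * !![1, i; 0, 1] * !![1, i; 0, 1] = 1 := by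
  decide +kernel
theorem cu2 : ∀ i : ZMod 3, (!![1, 0; i, 1] : M2).det = 1 ∧ (!![1, 0; i, 1] : M2) * !![1, 0; i, 1] * !![1, 0; i, 1] = 1 := by
  decide +kernel

/-- the embeddings of `SL₂(3)` -/
def mk0 (A : M2) (h : A.det = 1) : Sp4 := ⟨blk A 1, blk_mem.2 ⟨h, det_one⟩⟩
def mk1 (A : M2) (h : A.det = 1) : Sp4 := ⟨blk 1 A, blk_mem.2 ⟨det_one, h⟩⟩

theorem mk0_mem {A : M2} (h : A.det = 1 ∧ A * A * A = 1) :
    mk0 A h.1 ∈ Subgroup.closure {v : Sp4 | Fx 0 v ∧ v ^ 3 = 1} := by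
  refine subset_closure ⟨fx0_of rfl, Subtype.ext ?_⟩
  rw [pow_three']
  change blk A 1 * blk A 1 * blk A 1 = 1
  rw [blk_mul, blk_mul, h.2, mul_one, mul_one, blk_one]

theorem mk1_mem {A : M2} (h : A.det = 1 ∧ A * A * A = 1) :
    mk1 A h.1 ∈ Subgroup.closure {v : Sp4 | Fx 1 v ∧ v ^ 3 = 1} := by
  refine subset_closure ⟨fx1_of rfl, Subtype.ext ?_⟩
  rw [pow_three']
  change blk 1 A * blk 1 A * blk 1 A = 1
  rw [blk_mul, blk_mul, h.2, mul_one, mul_one, blk_one]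

theorem sq0 {g : Sp4} (h : g * g = ε0) : ∃ A B, g.1 = blk A B ∧ A * A = -1 ∧ (B = 1 ∨ B = -1) := by
  obtain ⟨A, B, hg, -, hB⟩ := blk_of_com0 (g := g) (by rw [← h, mul_assoc])
  have h' : g.1 * g.1 = ε0.1 := congrArg Subtype.val h
  rw [hg, blk_mul, ε0_eq] at h'
  exact ⟨A, B, hg, (blk_inj h').1, pm_of_sq hB (blk_inj h').2⟩

theorem sq1 {g : Sp4} (h : g * g = ε1) : ∃ A B, g.1 = blk A B ∧ (A = 1 ∨ A = -1) ∧ B * B = -1 := by
  obtain ⟨A, B, hg, hA, -⟩ := blk_of_com1 (g := g) (by rw [← h, mul_assoc])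
  have h' : g.1 * g.1 = ε1.1 := congrArg Subtype.val h
  rw [hg, blk_mul, ε1_eq] at h'
  exact ⟨A, B, hg, pm_of_sq hA (blk_inj h').1, (blk_inj h').2⟩

theorem com_iff {g u : Sp4} {A B C D : M2} (hg : g.1 = blk A B) (hu : u.1 = blk C D) :
    g * u = u * g ↔ A * C = C * A ∧ B * D = D * B := by
  rw [Subtype.ext_iff]
  change g.1 * u.1 = u.1 * g.1 ↔ _
  rw [hg, hu, blk_mul, blk_mul]
  exact ⟨blk_inj, fun h => by rw [h.1, h.2]⟩

open scoped commutatorElement in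
theorem eq_of_central {H : Type*} [Group H] (hp : commutator H = ⊤) (φ ψ : H →* H)
    (h : ∀ u, (φ u)⁻¹ * ψ u ∈ center H) (u : H) : φ u = ψ u := by
  have : commutator H ≤ φ.eqLocus ψ := by
    rw [commutator_def, commutator_le]
    intro a _ b _
    change φ ⁅a, b⁆ = ψ ⁅a, b⁆
    have ea : ψ a = φ a * ((φ a)⁻¹ * ψ a) := by group
    have eb : ψ b = φ b * ((φ b)⁻¹ * ψ b) := by group
    rw [map_commutatorElement, map_commutatorElement, ea, eb]
    have ha := mem_center_iff.1 (h a)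
    have hb := mem_center_iff.1 (h b)
    generalize (φ a)⁻¹ * ψ a = c at ha
    generalize (φ b)⁻¹ * ψ b = d at hb
    have ha' : ∀ g, c * g * c⁻¹ = g := fun g => by rw [← ha, mul_inv_cancel_right]
    have hb' : ∀ g, d * g * d⁻¹ = g := fun g => by rw [← hb, mul_inv_cancel_right]
    calc ⁅φ a, φ b⁆ = φ a * φ b * (φ a)⁻¹ * (φ b)⁻¹ := commutatorElement_def _ _
      _ = φ a * φ b * (d * (φ a)⁻¹ * d⁻¹) * (φ b)⁻¹ := by rw [hb']
      _ = φ a * (φ b * d) * (φ a)⁻¹ * (φ b * d)⁻¹ := by group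
      _ = φ a * (c * (φ b * d) * c⁻¹) * (φ a)⁻¹ * (φ b * d)⁻¹ := by rw [ha']
      _ = _ := by rw [commutatorElement_def]; group
  exact this (hp ▸ mem_top u)

theorem inner_of_index {H : Type*} [Group H] [Finite H] (hp : commutator H = ⊤)
    (hz : center (H ⧸ center H) = ⊥) (hc : Nat.card (MulAut (H ⧸ center H)) = 2 * Nat.card (H ⧸ center H))
    (φ : MulAut H) (h : φ ^ 3 = 1) : ∃ n : H, ∀ u, φ u = n * u * n⁻¹ := by
  have hm : (center H).map (φ : H →* H) = center H := by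
    apply le_antisymm
    · rintro _ ⟨c, hc, rfl⟩
      rw [mem_center_iff]
      intro g
      obtain ⟨g, rfl⟩ := φ.surjective g
      change φ g * φ c = φ c * φ g
      rw [← map_mul, ← map_mul, mem_center_iff.1 hc]
    · intro c hc
      refine ⟨φ.symm c, ?_, φ.apply_symm_apply c⟩
      change φ.symm c ∈ center H
      rw [mem_center_iff]
      intro g
      obtain ⟨g, rfl⟩ := φ.symm.surjective g
      rw [← map_mul, ← map_mul, mem_center_iff.1 hc]
  let χ : MulAut (H ⧸ center H) := QuotientGroup.congr (center H) (center H) φ hm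
  have hχ : ∀ u : H, χ (u : H ⧸ center H) = (φ u : H) := fun u => rfl
  have h3 : ∀ u, φ (φ (φ u)) = u := fun u => by
    have := congrArg (fun ψ : MulAut H => ψ u) h
    simpa [pow_three'] using this
  have χ4 : (χ ^ 2) ^ 2 = χ := by
    ext u
    obtain ⟨u, rfl⟩ := QuotientGroup.mk_surjective u
    simp only [pow_two, MulAut.mul_apply, hχ, h3]
  have hinj : Function.Injective (MulAut.conj : H ⧸ center H →* MulAut (H ⧸ center H)) := by
    rw [injective_iff_map_eq_one]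
    intro a ha
    rw [← mem_bot, ← hz, mem_center_iff]
    intro g
    have := congrArg (fun ψ : MulAut (H ⧸ center H) => ψ g) ha
    simp only [MulAut.conj_apply, MulAut.one_apply] at this
    rw [← this, inv_mul_cancel_right, this]
  have hidx : (MulAut.conj : H ⧸ center H →* MulAut (H ⧸ center H)).range.index = 2 := by
    have e1 := (MulAut.conj : H ⧸ center H →* MulAut (H ⧸ center H)).range.card_mul_index
    rw [← Nat.card_congr (MonoidHom.ofInjective hinj).toEquiv, hc, mul_comm] at e1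
    exact Nat.eq_of_mul_eq_mul_right Nat.card_pos e1
  obtain ⟨n, hn⟩ := sq_mem_of_index_two hidx (χ ^ 2)
  obtain ⟨n, rfl⟩ := QuotientGroup.mk_surjective n
  rw [χ4] at hn
  refine ⟨n, fun u => eq_of_central hp (φ : H →* H) (MulAut.conj n : H →* H) (fun u => ?_) u⟩
  rw [← QuotientGroup.eq]
  change ((φ u : H) : H ⧸ center H) = ((n * u * n⁻¹ : H) : H ⧸ center H)
  rw [← hχ, ← hn]
  rfl

end SpB

open SpB

theorem ε_rel : ε0 * ε0 = 1 ∧ ε1 * ε1 = 1 ∧ ε0 * ε1 = ε1 * ε0 ∧ sw * ε1 * sw⁻¹ = ε0 ∧ sw * xr * sw⁻¹ = xr ∧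
    sw * sw = 1 := by
  rw [sw_inv]
  refine ⟨?_, ?_, ?_, ?_, ?_, ?_⟩ <;> exact Subtype.ext (by decide +kernel)
theorem fx_sw0 {g : Sp4} (h : Fx 0 g) : Fx 1 (sw * g * sw⁻¹) := by
  obtain ⟨A, hA, -⟩ := blk_of_fx0 h
  exact fx1_of (sw_blk hA)
theorem fx_sw1 {g : Sp4} (h : Fx 1 g) : Fx 0 (sw * g * sw⁻¹) := by
  obtain ⟨A, hA, -⟩ := blk_of_fx1 h
  exact fx0_of (sw_blk hA)
theorem com_of_sq0 {g u : Sp4} (h : g * g = ε0) (hu : Fx 1 u) : g * u = u * g := by
  obtain ⟨A, B, hg, -, hB⟩ := sq0 h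
  obtain ⟨D, hD, -⟩ := blk_of_fx1 hu
  exact (com_iff hg hD).2 ⟨by simp, com_pm hB D⟩
theorem com_of_sq1 {g u : Sp4} (h : g * g = ε1) (hu : Fx 0 u) : g * u = u * g := by
  obtain ⟨A, B, hg, hA, -⟩ := sq1 h
  obtain ⟨D, hD, -⟩ := blk_of_fx0 hu
  exact (com_iff hg hD).2 ⟨com_pm hA D, by simp⟩
/-- `SL₂(3)` is generated by elements of order 3 -/
theorem fx_gen {j : Fin 2} {u : Sp4} (hu : Fx j u) : u ∈ Subgroup.closure {v : Sp4 | Fx j v ∧ v ^ 3 = 1} := by
  fin_cases j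
  · obtain ⟨A, hA, hd⟩ := blk_of_fx0 hu
    obtain ⟨i, j, k, l, h⟩ := gen2 hd
    have : u = mk0 _ (cu1 i).1 * mk0 _ (cu2 j).1 * mk0 _ (cu1 k).1 * mk0 _ (cu2 l).1 := by
      apply Subtype.ext
      change u.1 = blk _ 1 * blk _ 1 * blk _ 1 * blk _ 1
      rw [blk_mul, blk_mul, blk_mul, ← h, hA, mul_one, mul_one, mul_one]
    rw [this]
    exact mul_mem (mul_mem (mul_mem (mk0_mem (cu1 i)) (mk0_mem (cu2 j))) (mk0_mem (cu1 k))) (mk0_mem (cu2 l))
  · obtain ⟨A, hA, hd⟩ := blk_of_fx1 hu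
    obtain ⟨i, j, k, l, h⟩ := gen2 hd
    have : u = mk1 _ (cu1 i).1 * mk1 _ (cu2 j).1 * mk1 _ (cu1 k).1 * mk1 _ (cu2 l).1 := by
      apply Subtype.ext
      change u.1 = blk 1 _ * blk 1 _ * blk 1 _ * blk 1 _
      rw [blk_mul, blk_mul, blk_mul, ← h, hA, mul_one, mul_one, mul_one]
    rw [this]
    exact mul_mem (mul_mem (mul_mem (mk1_mem (cu1 i)) (mk1_mem (cu2 j))) (mk1_mem (cu1 k))) (mk1_mem (cu2 l))
theorem sq_of_com {a b c d n : Sp4} (ha : a * a = ε1) (hb : b * b = ε1) (hab : a * b ≠ b * a) (hc : c * c = ε0)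
    (hd : d * d = ε0) (hcd : c * d ≠ d * c) (h1 : n * a = a * n) (h2 : n * b = b * n) (h3 : n * c = c * n)
    (h4 : n * d = d * n) : n * n = 1 := by
  obtain ⟨N0, N1, hn, d0, d1⟩ := blk_of_com1 (g := n) (by rw [← ha, ← mul_assoc, h1, mul_assoc, h1, mul_assoc])
  obtain ⟨A0, A1, hA, pA, qA⟩ := sq1 ha
  obtain ⟨B0, B1, hB, pB, qB⟩ := sq1 hb
  obtain ⟨C0, C1, hC, qC, pC⟩ := sq0 hc
  obtain ⟨D0, D1, hD, qD, pD⟩ := sq0 hd
  have e1 := sq_of_com2 qA qB (fun h => hab ((com_iff hA hB).2 ⟨com_pm pA _, h⟩)) d1 ((com_iff hn hA).1 h1).2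
    ((com_iff hn hB).1 h2).2
  have e0 := sq_of_com2 qC qD (fun h => hcd ((com_iff hC hD).2 ⟨h, com_pm pC _⟩)) d0 ((com_iff hn hC).1 h3).1
    ((com_iff hn hD).1 h4).1
  apply Subtype.ext
  change n.1 * n.1 = 1
  rw [hn, blk_mul, e0, e1, blk_one]
/-- automorphisms of order 3 are inner -/
theorem inner3 (φ : MulAut Sp4) (h : φ ^ 3 = 1) : ∃ n : Sp4, ∀ u, φ u = n * u * n⁻¹ := by
  have hp : commutator Sp4 = ⊤ := CfsgLib.Symp.commutator_eq_top_of_two_ne_zero le_rfl (by decide)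
  have hc := Cfsg.Agent.S0814.result (F := ZMod 3) 3 1 le_rfl (by simp) 2 le_rfl (by simp)
  have hs : IsSimpleGroup (Cfsg.PSp 2 (ZMod 3)) := CfsgLib.Symp.isSimpleGroup_PSp le_rfl (by simp)
  refine inner_of_index hp ?_ (by simpa using hc) φ h
  rcases hs.eq_bot_or_eq_top_of_normal (center (Cfsg.PSp 2 (ZMod 3))) inferInstance with h0 | h0
  · exact h0
  · exfalso
    have h1 : commutator (Cfsg.PSp 2 (ZMod 3)) = ⊤ := by
      have := map_commutator (⊤ : Subgroup Sp4) ⊤ (QuotientGroup.mk' (center Sp4))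
      rw [← commutator_def, hp, map_top_of_surjective _ (QuotientGroup.mk'_surjective _)] at this
      exact this.symm
    have h2 : commutator (Cfsg.PSp 2 (ZMod 3)) = ⊥ := by
      rw [commutator_def, commutator_eq_bot_iff_le_centralizer, coe_top, centralizer_univ, h0]
    exact absurd (h1.symm.trans h2) top_ne_bot

end CfsgLib.L3F
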