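import Mathlib
import Cfsg.Agent.Lib.L3F.Defs
import Cfsg.Agent.Lib.L3F.SpB
import Cfsg.Agent.Lib.Symp.Basic

/-! Standard `L₃(3)`, the case `PSp₆(3)`, package Emb: two embeddings of `Sp₄(3)` in `Sp₆(3)`.  See `plans/L3F.md`. -/

set_option autoImplicit false
set_option linter.unusedSectionVars false

namespace CfsgLib.L3F

open Subgroup CfsgLib.Tech CfsgLib.L33 CfsgLib.PComp

variable {G : Type*} [Group G] [Finite G]

/-- the condition defining the subgroup `M i` of S3713 -/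
def Mx {n : ℕ} (i : Fin n) (A : Matrix.symplecticGroup (Fin n) (ZMod 3)) : Prop :=
  (∀ k : Fin n, (A : Matrix (Fin n ⊕ Fin n) (Fin n ⊕ Fin n) (ZMod 3)).mulVec (Pi.single (Sum.inl k) 1) =
    Pi.single (Sum.inl k) 1) ∧
  ∀ k : Fin n, (k : ℕ) ≠ i → (k : ℕ) ≠ (i : ℕ) + 1 →
    (A : Matrix (Fin n ⊕ Fin n) (Fin n ⊕ Fin n) (ZMod 3)).mulVec (Pi.single (Sum.inr k) 1) = Pi.single (Sum.inr k) 1

/-- `ι₀` acts on the planes `0, 1` and `ι₁` on the planes `1, 2` -/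
structure Emb (ι₀ ι₁ : Sp4 →* Sp6) : Prop where
  inj0 : Function.Injective ι₀
  inj1 : Function.Injective ι₁
  s0 : ∀ A, Fx 0 A ↔ ∃ g, Fx 0 g ∧ ι₀ g = A
  s1 : ∀ A, Fx 1 A ↔ ∃ g, Fx 1 g ∧ ι₀ g = A
  s2 : ∀ A, Fx 2 A ↔ ∃ g, Fx 1 g ∧ ι₁ g = A
  m0 : ∀ A, Mx 0 A ↔ ∃ g, Mx 0 g ∧ ι₀ g = A
  m1 : ∀ A, Mx 1 A ↔ ∃ g, Mx 0 g ∧ ι₁ g = A
  sw1 : ∀ g, Fx 1 g → ι₁ (sw * g * sw⁻¹) = ι₀ g
  c0 : ∀ g u, Fx 0 g → Commute (ι₀ g) (ι₁ u)
  c2 : ∀ g u, Fx 1 g → Commute (ι₁ g) (ι₀ u)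
  cm : ∀ g u, Mx 0 g → Mx 0 u → Commute (ι₀ g) (ι₁ u)
  inter : ∀ g u, ι₀ g = ι₁ u → Fx 1 g
  cen : ∀ A ∈ center Sp6, A = 1 ∨ A = ι₀ (ε0 * ε1) * ι₁ ε1

namespace EmbA

open Matrix

variable {n : ℕ}

abbrev Sp (n : ℕ) := Matrix.symplecticGroup (Fin n) (ZMod 3)
abbrev Mt (n : ℕ) := Matrix (Fin n ⊕ Fin n) (Fin n ⊕ Fin n) (ZMod 3)

/-- the column `x` is that of the identity -/
def Cf (A : Sp n) (x : Fin n ⊕ Fin n) : Prop := (A : Mt n).mulVec (Pi.single x 1) = Pi.single x 1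

/-- the row `x` is that of the identity -/
def Rf (A : Sp n) (x : Fin n ⊕ Fin n) : Prop := ∀ j, A.1 x j = (1 : Mt n) x j

theorem cf_iff {A : Sp n} {x : Fin n ⊕ Fin n} : Cf A x ↔ ∀ i, A.1 i x = (1 : Mt n) i x := by
  rw [Cf, mulVec_single_one, funext_iff]
  exact forall_congr' fun i => by rw [Pi.single_apply, one_apply]; rfl

theorem Cf.mul {A B : Sp n} {x : Fin n ⊕ Fin n} (h : Cf A x) (h' : Cf B x) : Cf (A * B) x := by
  rw [Cf, Submonoid.coe_mul, ← mulVec_mulVec, h', h]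

theorem Cf.one {x : Fin n ⊕ Fin n} : Cf (1 : Sp n) x := one_mulVec _

theorem Cf.inv {A : Sp n} {x : Fin n ⊕ Fin n} (h : Cf A x) : Cf A⁻¹ x := by
  rw [Cf]
  conv_lhs => rw [← h, mulVec_mulVec, ← Submonoid.coe_mul, inv_mul_cancel]
  exact one_mulVec _

theorem Cf.row {A : Sp n} {x : Fin n ⊕ Fin n} (h : Cf A x) : Rf A x.swap := fun j => by
  have h1 := congrArg (vecMul (Pi.single x 1)) (SymplecticGroup.mem_iff'.1 A.2)
  rw [← vecMul_vecMul, ← vecMul_vecMul, vecMul_transpose, h] at h1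
  have h2 : ∃ c : ZMod 3, c * c = 1 ∧ vecMul (Pi.single x 1) (J (Fin n) (ZMod 3)) = c • Pi.single x.swap 1 := by
    rcases x with k | k
    · refine ⟨-1, by decide, funext fun y => ?_⟩
      rcases y with y | y <;> simp [J, Pi.single_apply, one_apply, eq_comm, neg_ite]
    · refine ⟨1, by decide, funext fun y => ?_⟩
      rcases y with y | y <;> simp [J, Pi.single_apply, one_apply, eq_comm]
  obtain ⟨c, h2, h3⟩ := h2
  rw [h3, smul_vecMul] at h1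
  have h4 := congrFun (congrArg (c • ·) h1) j
  simp only [smul_smul, h2, one_smul, single_one_vecMul] at h4
  rw [one_apply, if_congr eq_comm rfl rfl, ← Pi.single_apply, ← h4]; rfl

theorem uni {A : Sp n} (h : ∀ k, Cf A (.inl k)) : A.1 = fromBlocks 1 A.1.toBlocks₁₂ 0 1 := by
  ext (i | i) (j | j)
  · rw [cf_iff.1 (h j)]; simp [one_apply]
  · rfl
  · rw [cf_iff.1 (h j)]; simp
  · exact ((h i).row _).trans (by simp [one_apply])

theorem uni_comm {A B : Sp n} (h : ∀ k, Cf A (.inl k)) (h' : ∀ k, Cf B (.inl k)) : Commute A B := by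
  refine Subtype.ext ?_
  rw [Submonoid.coe_mul, Submonoid.coe_mul, uni h, uni h']
  simp [fromBlocks_multiply, add_comm]

abbrev I4 := Fin 2 ⊕ Fin 2
abbrev I6 := Fin 3 ⊕ Fin 3

/-- a splitting of the indices -/
structure Spl where
  e : I4 ⊕ Fin 2 ≃ I6
  hJ : (J (Fin 3) (ZMod 3)).submatrix e e = fromBlocks (J (Fin 2) (ZMod 3)) 0 0 !![0, -1; 1, 0]
  s1 : ∀ a, ∃ b, e (.inl a) = (e (.inl b)).swap
  s2 : ∀ a, ∃ b, e (.inr a) = (e (.inr b)).swap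

variable (S : Spl)

theorem sub_inj {A B : Mt 3} (h : A.submatrix S.e S.e = B.submatrix S.e S.e) : A = B := (reindex S.e.symm S.e.symm).injective h

theorem sub_mul (A B : Mt 3) : (A * B).submatrix S.e S.e = A.submatrix S.e S.e * B.submatrix S.e S.e :=
  (submatrix_mul_equiv A B _ S.e _).symm

theorem mem_iff {A : Mt 3} {g : Mt 2} (h : A.submatrix S.e S.e = fromBlocks g 0 0 1) : A ∈ symplecticGroup (Fin 3) (ZMod 3) ↔
    g ∈ symplecticGroup (Fin 2) (ZMod 3) := by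
  rw [SymplecticGroup.mem_iff, SymplecticGroup.mem_iff, ← (reindex S.e.symm S.e.symm).injective.eq_iff]
  show (A * _ * _).submatrix S.e S.e = (J _ _).submatrix S.e S.e ↔ _
  rw [sub_mul, sub_mul, ← transpose_submatrix, h, S.hJ]
  simp [fromBlocks_multiply, fromBlocks_transpose]

/-- the embedding -/
def io : Sp4 →* Sp6 where
  toFun g := ⟨(fromBlocks g.1 0 0 1).submatrix S.e.symm S.e.symm, (mem_iff S (g := g.1) (by simp)).2 g.2⟩
  map_one' := Subtype.ext (by simp)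
  map_mul' a b := Subtype.ext (sub_inj S (by simp [sub_mul, fromBlocks_multiply]))

theorem io_sub (g : Sp4) : (io S g).1.submatrix S.e S.e = fromBlocks g.1 0 0 1 := by simp [io]

theorem io_ap (g : Sp4) (x y) : (io S g).1 (S.e x) (S.e y) = fromBlocks g.1 0 0 1 x y := congrFun (congrFun (io_sub S g) x) y

theorem one_ap (x y) : (1 : Mt 3) (S.e x) (S.e y) = fromBlocks (1 : Mt 2) 0 0 (1 : Matrix (Fin 2) (Fin 2) (ZMod 3)) x y :=
  io_ap S 1 x y ▸ (congrArg (fun A : Sp6 => A.1 (S.e x) (S.e y)) (map_one (io S))).symm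

theorem io_inj : Function.Injective (io S) := fun a b h => Subtype.ext (by
  have := io_sub S a
  rw [h, io_sub] at this
  exact (fromBlocks_inj.1 this).1.symm)

theorem cf_l (g : Sp4) (a : I4) : Cf (io S g) (S.e (.inl a)) ↔ Cf g a := by
  rw [cf_iff, cf_iff, S.e.surjective.forall]
  simp only [io_ap, one_ap]
  simp [-fromBlocks_one]

theorem cf_r (g : Sp4) (a : Fin 2) : Cf (io S g) (S.e (.inr a)) := by
  rw [cf_iff, S.e.surjective.forall]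
  simp only [io_ap, one_ap]
  simp [-fromBlocks_one]

theorem io_surj {A : Sp6} (h : ∀ a, Cf A (S.e (.inr a))) : ∃ g, io S g = A := by
  have h1 : A.1.submatrix S.e S.e = fromBlocks (A.1.submatrix S.e S.e).toBlocks₁₁ 0 0 1 := by
    have hr : ∀ a, Rf A (S.e (.inr a)) := fun a => by
      obtain ⟨b, e⟩ := S.s2 a
      exact e ▸ (h b).row
    ext (i | i) (j | j)
    · rfl
    · rw [submatrix_apply, cf_iff.1 (h j), one_ap]; rfl
    · rw [submatrix_apply, hr, one_ap]; rfl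
    · rw [submatrix_apply, hr, one_ap]; rfl
  exact ⟨⟨_, (mem_iff S h1).1 A.2⟩, Subtype.ext (sub_inj S ((io_sub S _).trans h1.symm))⟩

theorem io_comm {A : Sp6} (h : ∀ a, Cf A (S.e (.inl a))) (u : Sp4) : Commute A (io S u) := by
  have h1 : A.1.submatrix S.e S.e = fromBlocks 1 0 0 (A.1.submatrix S.e S.e).toBlocks₂₂ := by
    have hr : ∀ a, Rf A (S.e (.inl a)) := fun a => by
      obtain ⟨b, e⟩ := S.s1 a
      exact e ▸ (h b).row
    ext (i | i) (j | j)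
    · rw [submatrix_apply, hr, one_ap]; rfl
    · rw [submatrix_apply, hr, one_ap]; rfl
    · rw [submatrix_apply, cf_iff.1 (h j), one_ap]; rfl
    · rfl
  refine Subtype.ext (sub_inj S ?_)
  rw [Submonoid.coe_mul, Submonoid.coe_mul, sub_mul, sub_mul, io_sub, h1]
  simp [fromBlocks_multiply]

/-- the planes `0, 1` -/
def S0 : Spl where
  e := ⟨Sum.elim (Sum.map Fin.castSucc Fin.castSucc) ![.inl 2, .inr 2],
    Sum.elim ![.inl (.inl 0), .inl (.inl 1), .inr 0] ![.inl (.inr 0), .inl (.inr 1), .inr 1], by decide, by decide⟩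
  hJ := by decide +kernel
  s1 := by decide
  s2 := by decide

/-- the planes `1, 2` -/
def S1 : Spl where
  e := ⟨Sum.elim (Sum.map Fin.succ Fin.succ) ![.inl 0, .inr 0],
    Sum.elim ![.inr 0, .inl (.inl 0), .inl (.inl 1)] ![.inr 1, .inl (.inr 0), .inl (.inr 1)], by decide, by decide⟩
  hJ := by decide +kernel
  s1 := by decide
  s2 := by decide

theorem cf0 (g : Sp4) : (Cf (io S0 g) (.inl 0) ↔ Cf g (.inl 0)) ∧ (Cf (io S0 g) (.inl 1) ↔ Cf g (.inl 1)) ∧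
    (Cf (io S0 g) (.inr 0) ↔ Cf g (.inr 0)) ∧ (Cf (io S0 g) (.inr 1) ↔ Cf g (.inr 1)) ∧
    Cf (io S0 g) (.inl 2) ∧ Cf (io S0 g) (.inr 2) :=
  ⟨cf_l S0 g (.inl 0), cf_l S0 g (.inl 1), cf_l S0 g (.inr 0), cf_l S0 g (.inr 1), cf_r S0 g 0, cf_r S0 g 1⟩

theorem cf1 (g : Sp4) : (Cf (io S1 g) (.inl 1) ↔ Cf g (.inl 0)) ∧ (Cf (io S1 g) (.inl 2) ↔ Cf g (.inl 1)) ∧
    (Cf (io S1 g) (.inr 1) ↔ Cf g (.inr 0)) ∧ (Cf (io S1 g) (.inr 2) ↔ Cf g (.inr 1)) ∧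
    Cf (io S1 g) (.inl 0) ∧ Cf (io S1 g) (.inr 0) :=
  ⟨cf_l S1 g (.inl 0), cf_l S1 g (.inl 1), cf_l S1 g (.inr 0), cf_l S1 g (.inr 1), cf_r S1 g 0, cf_r S1 g 1⟩

theorem fx_iff {j : Fin n} {A : Sp n} : Fx j A ↔ ∀ k, k ≠ j → Cf A (.inl k) ∧ Cf A (.inr k) := Iff.rfl

theorem mx_iff {j : Fin n} {A : Sp n} :
    Mx j A ↔ (∀ k, Cf A (.inl k)) ∧ ∀ k : Fin n, (k : ℕ) ≠ j → (k : ℕ) ≠ (j : ℕ) + 1 → Cf A (.inr k) := Iff.rfl

theorem f00 (g : Sp4) : Fx 0 (io S0 g) ↔ Fx 0 g := by simp [fx_iff, Fin.forall_fin_succ, cf0]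
theorem f01 (g : Sp4) : Fx 1 (io S0 g) ↔ Fx 1 g := by simp [fx_iff, Fin.forall_fin_succ, cf0]
theorem f11 (g : Sp4) : Fx 2 (io S1 g) ↔ Fx 1 g := by simp [fx_iff, Fin.forall_fin_succ, cf1]
theorem m00 (g : Sp4) : Mx 0 (io S0 g) ↔ Mx 0 g := by simp [mx_iff, Fin.forall_fin_succ, cf0]
theorem m10 (g : Sp4) : Mx 1 (io S1 g) ↔ Mx 0 g := by simp [mx_iff, Fin.forall_fin_succ, cf1]

theorem surj0 {A : Sp6} (h : Cf A (.inl 2)) (h' : Cf A (.inr 2)) : ∃ g, io S0 g = A :=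
  io_surj S0 (Fin.forall_fin_two.2 ⟨h, h'⟩)

theorem surj1 {A : Sp6} (h : Cf A (.inl 0)) (h' : Cf A (.inr 0)) : ∃ g, io S1 g = A :=
  io_surj S1 (Fin.forall_fin_two.2 ⟨h, h'⟩)

theorem fx1_form {g : Sp4} (h : Fx 1 g) : ∃ a b c d : ZMod 3, g.1 = fromBlocks !![1, 0; 0, a] !![0, 0; 0, b] !![0, 0; 0, c] !![1, 0; 0, d] := by
  obtain ⟨h1, h2⟩ := fx_iff.1 h 0 (by decide)
  have h3 : Rf g (.inr 0) := h1.row
  have h4 : Rf g (.inl 0) := h2.row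
  refine ⟨g.1 (.inl 1) (.inl 1), g.1 (.inl 1) (.inr 1), g.1 (.inr 1) (.inl 1), g.1 (.inr 1) (.inr 1), ?_⟩
  ext (i | i) (j | j) <;> fin_cases i <;> fin_cases j <;> simp [h3 _, h4 _, cf_iff.1 h1, cf_iff.1 h2]

instance (j : Fin n) (A : Sp n) : Decidable (Fx j A) := by unfold Fx; infer_instance

instance (j : Fin n) (A : Sp n) : Decidable (Mx j A) := by unfold Mx; infer_instance

/-- the unipotent elements -/
def un (a b d : ZMod 3) : Sp4 := ⟨fromBlocks 1 !![a, b; b, d] 0 1, by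
  rw [SymplecticGroup.mem_iff]; revert a b d; decide +kernel⟩

theorem mx_form {g : Sp4} (h : Mx 0 g) : ∃ a b d, g = un a b d := by
  have h1 := uni h.1
  rw [eta_fin_two g.1.toBlocks₁₂] at h1
  have h2 := SymplecticGroup.mem_iff.1 g.2
  rw [h1] at h2
  have : ∀ a b c d : ZMod 3, fromBlocks 1 !![a, b; c, d] 0 1 * J (Fin 2) (ZMod 3) * (fromBlocks 1 !![a, b; c, d] 0 1)ᵀ =
    J (Fin 2) (ZMod 3) → c = b := by decide +kernel
  rw [this _ _ _ _ h2] at h1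
  exact ⟨_, _, _, Subtype.ext h1⟩

end EmbA

open EmbA

theorem exists_emb : ∃ ι₀ ι₁, Emb ι₀ ι₁ := by
  refine ⟨io S0, io S1, io_inj _, io_inj _, fun A => ⟨fun h => ?_, ?_⟩, fun A => ⟨fun h => ?_, ?_⟩, fun A => ⟨fun h => ?_, ?_⟩,
    fun A => ⟨fun h => ?_, ?_⟩, fun A => ⟨fun h => ?_, ?_⟩, fun g h => ?_, fun g u h => io_comm S1 ?_ u,
    fun g u h => io_comm S0 ?_ u, fun g u h h' => uni_comm ((m00 g).2 h).1 ((m10 u).2 h').1, fun g u e => ?_, fun A hA => ?_⟩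
  · obtain ⟨g, rfl⟩ := surj0 (h 2 (by decide)).1 (h 2 (by decide)).2
    exact ⟨g, (f00 g).1 h, rfl⟩
  · rintro ⟨g, h, rfl⟩; exact (f00 g).2 h
  · obtain ⟨g, rfl⟩ := surj0 (h 2 (by decide)).1 (h 2 (by decide)).2
    exact ⟨g, (f01 g).1 h, rfl⟩
  · rintro ⟨g, h, rfl⟩; exact (f01 g).2 h
  · obtain ⟨g, rfl⟩ := surj1 (h 0 (by decide)).1 (h 0 (by decide)).2
    exact ⟨g, (f11 g).1 h, rfl⟩
  · rintro ⟨g, h, rfl⟩; exact (f11 g).2 h
  · obtain ⟨g, rfl⟩ := surj0 (h.1 2) (h.2 2 (by decide) (by decide))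
    exact ⟨g, (m00 g).1 h, rfl⟩
  · rintro ⟨g, h, rfl⟩; exact (m00 g).2 h
  · obtain ⟨g, rfl⟩ := surj1 (h.1 0) (h.2 0 (by decide) (by decide))
    exact ⟨g, (m10 g).1 h, rfl⟩
  · rintro ⟨g, h, rfl⟩; exact (m10 g).2 h
  · obtain ⟨a, b, c, d, e⟩ := fx1_form h
    refine Subtype.ext ?_
    show (Matrix.fromBlocks (sw.1 * g.1 * (sw⁻¹).1) 0 0 1).submatrix S1.e.symm S1.e.symm =
      (Matrix.fromBlocks g.1 0 0 1).submatrix S0.e.symm S0.e.symm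
    rw [e, inv_eq_of_mul_eq_one_right ε_rel.2.2.2.2.2]
    clear e
    revert a b c d
    decide +kernel
  · have := fx_iff.1 ((f00 g).2 h)
    rintro (a | a)
    exacts [(this a.succ a.succ_ne_zero).1, (this a.succ a.succ_ne_zero).2]
  · have := fx_iff.1 ((f11 g).2 h)
    rintro (a | a)
    exacts [(this a.castSucc a.castSucc_ne_last).1, (this a.castSucc a.castSucc_ne_last).2]
  · have h1 := cf1 u
    rw [← e] at h1
    rw [fx_iff, Fin.forall_fin_two]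
    exact ⟨fun _ => ⟨(cf0 g).1.1 h1.2.2.2.2.1, (cf0 g).2.2.1.1 h1.2.2.2.2.2⟩, fun h => absurd rfl h⟩
  · refine (Symp.mem_center_iff.1 hA).imp_right fun e => e.trans (Subtype.ext ?_)
    decide +kernel
theorem fx_clo {n : ℕ} {j : Fin n} {A : Matrix.symplecticGroup (Fin n) (ZMod 3)} : A ∈ Subgroup.closure {A | Fx j A} ↔ Fx j A :=
  ⟨fun h => closure_induction (p := fun A _ => Fx j A) (fun _ h => h) (fun _ _ => ⟨Cf.one, Cf.one⟩)
    (fun _ _ _ _ h h' k hk => ⟨Cf.mul (h k hk).1 (h' k hk).1, Cf.mul (h k hk).2 (h' k hk).2⟩)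
    (fun _ _ h k hk => ⟨Cf.inv (h k hk).1, Cf.inv (h k hk).2⟩) h, fun h => subset_closure h⟩
theorem mx_clo {n : ℕ} {j : Fin n} {A : Matrix.symplecticGroup (Fin n) (ZMod 3)} : A ∈ Subgroup.closure {A | Mx j A} ↔ Mx j A :=
  ⟨fun h => closure_induction (p := fun A _ => Mx j A) (fun _ h => h) ⟨fun _ => Cf.one, fun _ _ _ => Cf.one⟩
    (fun _ _ _ _ h h' => ⟨fun k => Cf.mul (h.1 k) (h'.1 k), fun k a b => Cf.mul (h.2 k a b) (h'.2 k a b)⟩)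
    (fun _ _ h => ⟨fun k => Cf.inv (h.1 k), fun k a b => Cf.inv (h.2 k a b)⟩) h, fun h => subset_closure h⟩
theorem mx_dec {g : Sp4} (h : Mx 0 g) :
    ∃ g₀ g₁ : Sp4, ∃ n : ℕ, Fx 0 g₀ ∧ Fx 1 g₁ ∧ Mx 0 g₀ ∧ Mx 0 g₁ ∧ g = g₀ * xr ^ n * g₁ := by
  obtain ⟨a, b, d, rfl⟩ := mx_form h
  refine ⟨un a 0 0, un 0 0 d, b.val, ?_⟩
  clear h
  revert a b d
  decide +kernel
theorem mx_comm {g u : Sp4} (h : Mx 0 g) (h' : Mx 0 u) : Commute g u := uni_comm h.1 h'.1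
theorem mx_xr : Mx 0 xr := by decide +kernel
theorem fx01 {g : Sp4} (h : Fx 0 g) (h' : Fx 1 g) : g = 1 := by
  refine Subtype.ext (Matrix.ext fun i j => cf_iff.1 ?_ i)
  rcases j with j | j <;> fin_cases j
  exacts [(h' 0 (by decide)).1, (h 1 (by decide)).1, (h' 0 (by decide)).2, (h 1 (by decide)).2]

end CfsgLib.L3F
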