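import Mathlib
import Cfsg.Agent.Lib.L3F.Defs
import Cfsg.Agent.Lib.L33.Red2
import Cfsg.Agent.Lib.Char.Burnside

/-! Standard `L₃(3)`, the case `PSp₆(3)`, package Kla: facts in `L₃(3)`.  See `plans/L3F.md`. -/

set_option autoImplicit false
set_option linter.unusedSectionVars false

namespace CfsgLib.L3F

open Subgroup CfsgLib.Tech CfsgLib.L33 CfsgLib.PComp

variable {G : Type*} [Group G] [Finite G]

namespace Kla

open Red1

theorem syl {K : Type*} [Group K] [Finite K] {x e : K} (x8 : x ^ 8 = 1) (x4 : x ^ 4 ≠ 1) (ee : e * e = 1)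
    (ex : e * x * e = x ^ 3) (hc : ¬ 32 ∣ Nat.card K) : IsSylowIn 2 (zpowers x ⊔ zpowers e) ⊤ := by
  have h8 : orderOf x = 2 ^ 3 := orderOf_eq_prime_pow (p := 2) (n := 2) x4 x8
  have hn : ∀ k ∈ zpowers x, e * k * e⁻¹ ∈ zpowers x := by
    rintro _ ⟨n, rfl⟩
    rw [← conj_zpow, inv_eq_of_mul_eq_one_right ee, ex]
    exact zpow_mem (pow_mem (mem_zpowers _) _) _
  have he : e ∉ zpowers x := by
    rintro ⟨n, hn⟩
    have h1 : e * x = x * e := by rw [← hn]; exact (Commute.self_zpow _ n).symm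
    rw [h1, mul_assoc, ee, mul_one] at ex
    have h3 : x ^ 2 = 1 := mul_left_cancel (a := x) (by rw [← pow_succ', ← ex, mul_one])
    exact x4 (by rw [show 4 = 2 * 2 from rfl, pow_mul, h3, one_pow])
  have c : Nat.card ↥(zpowers x ⊔ zpowers e) = 2 ^ 4 := by
    rw [card_sup_two hn (ee ▸ one_mem _) he, Nat.card_zpowers, h8]; rfl
  refine ⟨le_top, IsPGroup.of_card c, fun h => hc ?_⟩
  rw [relIndex_top_right] at h
  rw [← card_mul_index (zpowers x ⊔ zpowers e), c]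
  exact Nat.mul_dvd_mul_left 16 h

theorem four {K : Type*} [Group K] [Finite K] {x e u : K} (x8 : x ^ 8 = 1) (ee : e * e = 1)
    (ex : e * x * e = x ^ 3) (hu : u ∈ zpowers x ⊔ zpowers e) (u4 : u ^ 4 ≠ 1) : u ^ 4 = x ^ 4 := by
  have ei := inv_eq_of_mul_eq_one_right ee
  have hn : ∀ k ∈ zpowers x, e * k * e⁻¹ ∈ zpowers x := by
    rintro _ ⟨n, rfl⟩
    rw [← conj_zpow, ei, ex]
    exact zpow_mem (pow_mem (mem_zpowers _) _) _
  rcases (mem_sup_two hn (ee ▸ one_mem _)).1 hu with h | h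
  · obtain ⟨n, rfl⟩ := mem_powers_iff_mem_zpowers.2 h
    change (x ^ n) ^ 4 ≠ 1 at u4
    change (x ^ n) ^ 4 = _
    rcases Nat.even_or_odd' n with ⟨k, rfl | rfl⟩
    · exact absurd (by rw [← pow_mul, show 2 * k * 4 = 8 * k by ring, pow_mul, x8, one_pow]) u4
    · rw [← pow_mul, show (2 * k + 1) * 4 = 8 * k + 4 by ring, pow_add, pow_mul, x8, one_pow, one_mul]
  · obtain ⟨n, hn⟩ := mem_powers_iff_mem_zpowers.2 h
    have e1 : u = e * x ^ n := by rw [show x ^ n = e * u from hn, ← mul_assoc, ee, one_mul]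
    have e2 : u ^ 2 = x ^ (4 * n) := by
      rw [e1, pow_two, ← mul_assoc, show e * x ^ n * e = (x ^ 3) ^ n by
        have := conj_pow (a := e) (b := x) (i := n); rw [ei, ex] at this; exact this.symm,
        ← pow_mul, ← pow_add]
      congr 1; ring
    exact absurd (by rw [show 4 = 2 * 2 from rfl, pow_mul, e2, ← pow_mul, show 4 * n * 2 = 8 * n by ring,
      pow_mul, x8, one_pow]) u4

abbrev T := ZMod 3 × ZMod 3 × ZMod 3 × ZMod 3 × ZMod 3

def ev (s : T) : Matrix (Fin 3) (Fin 3) (ZMod 3) :=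
  !![s.1, s.2.1, 0; s.2.2.1, s.2.2.2.1, 0; 0, 0, s.2.2.2.2]

def tm (s t : T) : T := (s.1 * t.1 + s.2.1 * t.2.2.1, s.1 * t.2.1 + s.2.1 * t.2.2.2.1,
  s.2.2.1 * t.1 + s.2.2.2.1 * t.2.2.1, s.2.2.1 * t.2.1 + s.2.2.2.1 * t.2.2.2.1, s.2.2.2.2 * t.2.2.2.2)

def dt (s : T) : ZMod 3 := (s.1 * s.2.2.2.1 - s.2.1 * s.2.2.1) * s.2.2.2.2

def t1 : T := (1, 0, 0, 1, 1)

def zt : T := (2, 0, 0, 2, 1)

def ac (s : T) (v : ZMod 3 × ZMod 3) : ZMod 3 × ZMod 3 :=
  (s.2.2.2.2 * (s.1 * v.1 + s.2.1 * v.2), s.2.2.2.2 * (s.2.2.1 * v.1 + s.2.2.2.1 * v.2))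

def xi (v : ZMod 3 × ZMod 3) : S3 := ⟨!![1, 0, v.1; 0, 1, v.2; 0, 0, 1], by simp [Matrix.det_fin_three]⟩

theorem ev_mul (s t : T) : ev s * ev t = ev (tm s t) := by
  simp [ev, tm]

theorem ev_inj {s t : T} (h : ev s = ev t) : s = t :=
  Prod.ext (congrFun (congrFun h 0) 0) (Prod.ext (congrFun (congrFun h 0) 1) (Prod.ext (congrFun (congrFun h 1) 0)
    (Prod.ext (congrFun (congrFun h 1) 1) (congrFun (congrFun h 2) 2))))

theorem blk (u : S3) (h : u.1 * ev zt = ev zt * u.1) : ∃ s, u.1 = ev s ∧ dt s = 1 := by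
  have k : ∀ a : ZMod 3, (a = 2 * a → a = 0) ∧ (a * 2 = a → a = 0) := by decide
  have e := fun i j => congrFun (congrFun h i) j
  have e1 := e 0 2
  have e2 := e 1 2
  have e3 := e 2 0
  have e4 := e 2 1
  simp [ev, zt, Matrix.mul_apply, Fin.sum_univ_three] at e1 e2 e3 e4
  have e5 : u.1 = ev (u.1 0 0, u.1 0 1, u.1 1 0, u.1 1 1, u.1 2 2) := by
    rw [Matrix.eta_fin_three u.1, (k _).1 e1, (k _).1 e2, (k _).2 e3, (k _).2 e4]
    rfl
  refine ⟨_, e5, ?_⟩
  have := u.2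
  rw [e5, Matrix.det_fin_three] at this
  refine Eq.trans ?_ this
  simp [ev, dt]
  ring

theorem xi_mul (v w : ZMod 3 × ZMod 3) : xi v * xi w = xi (v + w) := Subtype.ext (by
  rw [Matrix.SpecialLinearGroup.coe_mul]
  simp [xi, add_comm])

theorem xi_zero : xi 0 = 1 := Subtype.ext (by decide)

theorem xi_three (v : ZMod 3 × ZMod 3) : xi v ^ 3 = 1 := by
  rw [pow_three, xi_mul, xi_mul, (by decide : ∀ v : ZMod 3 × ZMod 3, v + (v + v) = 0), xi_zero]

theorem xi_conj {u : S3} {s : T} (h : u.1 = ev s) (d : dt s = 1) (w : ZMod 3 × ZMod 3) :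
    u * xi w * u⁻¹ = xi (ac s w) := by
  have k : s.2.2.2.2 * s.2.2.2.2 = 1 := (by decide : ∀ a b : ZMod 3, a * b = 1 → b * b = 1) _ _ d
  rw [mul_inv_eq_iff_eq_mul]
  refine Subtype.ext ?_
  rw [Matrix.SpecialLinearGroup.coe_mul, Matrix.SpecialLinearGroup.coe_mul, h]
  simp [xi, ev, ac, mul_right_comm s.2.2.2.2, k]

set_option synthInstance.maxSize 4096 in
set_option synthInstance.maxHeartbeats 400000 in
theorem f1 : ∀ s, dt s = 1 → tm (tm (tm s s) s) (tm (tm s s) s) = t1 ∨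
    tm (tm (tm s s) (tm s s)) (tm (tm s s) (tm s s)) = t1 := by decide +kernel

set_option synthInstance.maxSize 4096 in
set_option synthInstance.maxHeartbeats 400000 in
theorem f2 : ∀ y, tm (tm y y) (tm y y) = zt → ∀ s, dt s = 1 → tm (tm s s) s = t1 →
    tm (tm (tm (tm (tm s y) s) (tm zt (tm (tm y y) y))) (tm (tm (tm s y) s) (tm zt (tm (tm y y) y))))
      (tm (tm (tm (tm s y) s) (tm zt (tm (tm y y) y))) (tm (tm (tm s y) s) (tm zt (tm (tm y y) y)))) = t1 ∧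
    (tm (tm (tm s y) s) (tm zt (tm (tm y y) y)) = t1 → s = t1) := by decide +kernel

theorem f3 : ∀ s, dt s = 1 → tm s s = t1 → s ≠ zt → ∃ v, v ≠ 0 ∧ ac s v = v := by decide +kernel

theorem dt_zt : dt zt = 1 := by decide

theorem f4 : ∀ v, ac zt v + v = 0 := by decide

end Kla

open Kla Red1 in
theorem kla {K F : Type*} [Group K] [Field F] [Fintype F] (hF : Fintype.card F = 3)
    (φ : K ≃* Matrix.ProjectiveSpecialLinearGroup (Fin 3) F) {x e : K} (x8 : x ^ 8 = 1) (x4 : x ^ 4 ≠ 1)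
    (ee : e * e = 1) (ex : e * x * e = x ^ 3) :
    Group.IsSolvable (centralizer {x ^ 4} : Subgroup K) ∧
      (∀ U : Subgroup K, Odd (Nat.card U) → (∀ u ∈ U, u * x ^ 4 = x ^ 4 * u) → (∀ u ∈ U, x * u * x⁻¹ ∈ U) →
        (∀ u ∈ U, e * u * e⁻¹ ∈ U) → U = ⊥) ∧
      ∃ ξ : K, ξ ^ 3 = 1 ∧ ξ ≠ 1 ∧ ξ * e = e * ξ ∧ x ^ 4 * ξ * (x ^ 4)⁻¹ = ξ⁻¹ ∧
        Commute ξ (e * x ^ 2 * ξ * (e * x ^ 2)⁻¹) := by
  have : Fact (Nat.Prime 3) := ⟨Nat.prime_three⟩
  have : Finite K := Finite.of_equiv _ φ.toEquiv.symm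
  obtain ⟨M⟩ := exists_mod hF φ
  obtain ⟨ψ, hψ⟩ : ∃ ψ : K ≃* S3, ψ (x ^ 4) = mx ^ 4 := by
    have ψ : K ≃* S3 := (φ.trans (CfsgLib.Classical.pslMapEquiv
      (FiniteField.ringEquivOfCardEq (K' := ZMod 3) (by rw [hF, ZMod.card])))).trans
      ((QuotientGroup.quotientMulEquivOfEq (eq_bot_iff.2 fun _ h => cen_eq h)).trans QuotientGroup.quotientBot)
    have h8 : mx ^ 8 = 1 := Subtype.ext (by decide)
    have hee : me * me = 1 := Subtype.ext (by decide)
    have hex : me * mx * me = mx ^ 3 := Subtype.ext (by decide)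
    obtain ⟨g, -, hg⟩ := (syl h8 (fun h => absurd (congrArg Subtype.val h) (by decide)) hee hex
      (Nat.card_congr ψ.toEquiv ▸ M.card)).exists_conj_mem (mem_top (ψ x))
      (isPGroup_zpowers_of_pow (k := 3) (by rw [← map_pow]; exact (congrArg ψ x8).trans (map_one ψ)))
    refine ⟨ψ.trans (MulAut.conj g), ?_⟩
    rw [map_pow]
    exact four h8 hee hex hg fun h => x4 ((ψ.trans (MulAut.conj g)).injective (by rw [map_pow, map_one]; exact h))
  let R : K → T → Prop := fun u s => (ψ u).1 = ev s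
  have mul : ∀ {u u' s s'}, R u s → R u' s' → R (u * u') (tm s s') := fun h h' => by
    simp only [R] at h h' ⊢
    rw [map_mul, Matrix.SpecialLinearGroup.coe_mul, h, h', ev_mul]
  have rz : R (x ^ 4) zt := (congrArg Subtype.val hψ).trans (by decide)
  have r1 : R 1 t1 := (congrArg Subtype.val (map_one ψ)).trans (by decide)
  have eq : ∀ {u u' s s'}, R u s → R u' s' → (u = u' ↔ s = s') := fun h h' =>
    ⟨fun k => ev_inj (h.symm.trans (k ▸ h')), fun k => ψ.injective (Subtype.ext (h.trans (k ▸ h'.symm)))⟩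
  have bl : ∀ u, u * x ^ 4 = x ^ 4 * u → ∃ s, R u s ∧ dt s = 1 := fun u hu =>
    blk (ψ u) (by rw [← rz, ← Matrix.SpecialLinearGroup.coe_mul, ← Matrix.SpecialLinearGroup.coe_mul,
      ← map_mul, ← map_mul, hu])
  have ord : ∀ u, u * x ^ 4 = x ^ 4 * u → u ^ 6 = 1 ∨ u ^ 8 = 1 := fun u hu => by
    obtain ⟨s, h, d⟩ := bl u hu
    have h2 := mul h h
    refine (f1 s d).imp (fun k => ?_) fun k => ?_
    · rw [← (eq (mul (mul h2 h) (mul h2 h)) r1).2 k]
      simp only [pow_succ, pow_zero, one_mul, mul_assoc]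
    · rw [← (eq (mul (mul h2 h2) (mul h2 h2)) r1).2 k]
      simp only [pow_succ, pow_zero, one_mul, mul_assoc]
  have ei : e⁻¹ = e := inv_eq_of_mul_eq_one_right ee
  have ez : e * x ^ 4 = x ^ 4 * e := by
    rw [← mul_inv_eq_iff_eq_mul, ← conj_pow, ei, ex, ← pow_mul, show 3 * 4 = 8 + 4 from rfl, pow_add, x8, one_mul]
  refine ⟨?_, fun U hU h1 h2 _ => eq_bot_iff.2 fun u hu => ?_, ?_⟩
  · refine Char.isSolvable_of_card_primeFactors_le_two ((Finset.card_le_card (t := {2, 3}) fun p hp => ?_).trans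
      (by simp))
    have pp := Nat.prime_of_mem_primeFactors hp
    have := Fact.mk pp
    obtain ⟨u, hu⟩ := exists_prime_orderOf_dvd_card' p (Nat.dvd_of_mem_primeFactors hp)
    rw [← orderOf_coe] at hu
    have d : p ∣ 2 ^ 3 * 3 := by
      rcases ord u (mem_centralizer_singleton_iff.1 u.2) with k | k
      · exact (hu ▸ orderOf_dvd_of_pow_eq_one k).trans (by norm_num)
      · exact (hu ▸ orderOf_dvd_of_pow_eq_one k).trans (by norm_num)
    rcases pp.dvd_mul.1 d with d | d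
    · simp [(Nat.prime_dvd_prime_iff_eq pp Nat.prime_two).1 (pp.dvd_of_dvd_pow d)]
    · simp [(Nat.prime_dvd_prime_iff_eq pp Nat.prime_three).1 d]
  · have od : ∀ v ∈ U, ∀ k, v ^ 2 ^ k = 1 → v = 1 := fun v hv k h =>
      RED2.eq_one h hU (congrArg Subtype.val (pow_card_eq_one' (x := (⟨v, hv⟩ : U))))
    have u3 : u ^ 3 = 1 := by
      rcases ord u (h1 u hu) with k | k
      · exact od _ (pow_mem hu 3) 1 (by rw [← pow_mul]; exact k)
      · rw [od u hu 3 k, one_pow]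
    obtain ⟨s, hs, d⟩ := bl u (h1 u hu)
    obtain ⟨y, hy, -⟩ := bl x (Commute.self_pow x 4)
    have y2 := mul hy hy
    have hv := mul (mul (mul hs hy) hs) (mul rz (mul y2 hy))
    rw [show u * x * u * (x ^ 4 * (x * x * x)) = u * (x * u * x⁻¹) by
      rw [inv_eq_of_mul_eq_one_right (show x * x ^ 7 = 1 by rw [← pow_succ', x8])]
      simp only [pow_succ, pow_zero, one_mul, mul_assoc]] at hv
    obtain ⟨k1, k2⟩ := f2 y ((eq (mul y2 y2) rz).1 (by simp only [pow_succ, pow_zero, one_mul, mul_assoc])) s d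
      ((eq (mul (mul hs hs) hs) r1).1 (by simpa only [pow_succ, pow_zero, one_mul] using u3))
    refine (eq hs r1).2 (k2 ((eq hv r1).1 (od _ (mul_mem hu (h2 u hu)) 2 ?_)))
    rw [← (eq (mul (mul hv hv) (mul hv hv)) r1).2 k1]
    simp only [pow_succ, pow_zero, one_mul, mul_assoc, show 2 ^ 2 = 4 from rfl]
  · obtain ⟨s, hs, d⟩ := bl e ez
    obtain ⟨v, v0, hv⟩ := f3 s d ((eq (mul hs hs) r1).1 ee) fun k => by
      have e1 := (eq hs rz).2 k
      rw [e1, ← pow_succ, ← pow_add, show 4 + 1 + 4 = 8 + 1 from rfl, pow_add, x8, one_mul, pow_one] at ex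
      have h3 : x ^ 2 = 1 := mul_left_cancel (a := x) (by rw [← pow_succ', ← ex, mul_one])
      exact x4 (by rw [show 4 = 2 * 2 from rfl, pow_mul, h3, one_pow])
    have cj : ∀ {u s}, R u s → dt s = 1 → ∀ w, u * ψ.symm (xi w) * u⁻¹ = ψ.symm (xi (ac s w)) := fun h d w =>
      ψ.injective (by simpa only [map_mul, map_inv, MulEquiv.apply_symm_apply] using xi_conj h d w)
    refine ⟨ψ.symm (xi v), ?_, fun k => v0 ?_, ?_, ?_, ?_⟩
    · rw [← map_pow, xi_three, map_one]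
    · have := congrArg Subtype.val ((ψ.symm.map_eq_one_iff).1 k)
      exact Prod.ext (congrFun (congrFun this 0) 2) (congrFun (congrFun this 1) 2)
    · exact (mul_inv_eq_iff_eq_mul.1 ((cj hs d v).trans (by rw [hv]))).symm
    · rw [cj rz dt_zt, eq_inv_iff_mul_eq_one, ← map_mul, xi_mul, f4, xi_zero, map_one]
    · obtain ⟨s', hs', d'⟩ := bl (e * x ^ 2) (by
        rw [mul_assoc, (Commute.pow_pow_self x 2 4).eq, ← mul_assoc, ez, mul_assoc])
      rw [cj hs' d', Commute, SemiconjBy, ← map_mul, ← map_mul, xi_mul, xi_mul, add_comm]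

end CfsgLib.L3F
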