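import Mathlib
import Cfsg.Agent.Lib.L3F.Defs
import Cfsg.Agent.Lib.L3F.Kla
import Cfsg.Agent.Lib.L33.SF
import Cfsg.Agent.Lib.FT.OddOrder

/-! Standard `L₃(3)`, the case `PSp₆(3)`, package Kl3: the facts on `L₃(3)`.  See `plans/L3F.md`. -/

set_option autoImplicit false
set_option linter.unusedSectionVars false

namespace CfsgLib.L3F

open Subgroup CfsgLib.Tech CfsgLib.L33 CfsgLib.PComp

variable {G : Type*} [Group G] [Finite G]

namespace Kl3

theorem odd_card {H : Type*} [Group H] [Finite H] (h : ∀ u : H, u * u = 1 → u = 1) : Odd (Nat.card H) := by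
  rw [← Nat.not_even_iff_odd, even_iff_two_dvd]
  intro h2
  have : Fact (Nat.Prime 2) := ⟨Nat.prime_two⟩
  obtain ⟨u, hu⟩ := exists_prime_orderOf_dvd_card' 2 h2
  have := h u (by rw [← pow_two, ← hu, pow_orderOf_eq_one])
  rw [this, orderOf_one] at hu
  exact absurd hu (by decide)

theorem sq_inner {K : Type*} [Group K] (M : L33.Mod K) (β : MulAut K) : ∃ g : K, MulAut.conj g = β * β := by
  obtain ⟨g, rfl | rfl⟩ := M.aut β
  · exact ⟨g * g, map_mul _ _ _⟩
  · refine ⟨g * M.τ g, MulEquiv.ext fun k => ?_⟩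
    have : ∀ k, M.τ (M.τ k) = k := fun k => congrArg (fun β : MulAut K => β k) M.ττ
    simp [MulAut.conj_apply, MulAut.mul_apply, map_mul, map_inv, this, mul_assoc]

theorem inn_normal {K : Type*} [Group K] : (MulAut.conj : K →* MulAut K).range.Normal :=
  ⟨by
    rintro _ ⟨g, rfl⟩ β
    exact ⟨β g, MulEquiv.ext fun k => by simp [MulAut.conj_apply, MulAut.mul_apply, map_mul, map_inv]⟩⟩

/-- a group in which all 2-elements lie in `{1, t}`, `t` central -/
theorem solv_of {H : Type*} [Group H] [Finite H] {t : H} (tt : t * t = 1) (ht : ∀ h, h * t = t * h)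
    (hc : ∀ c : H, c ^ 2 ^ 2 = 1 → c = 1 ∨ c = t) : Group.IsSolvable H := by
  have : (zpowers t).Normal := ⟨fun n hn g => by
    obtain ⟨k, rfl⟩ := hn
    have : Commute g t := ht g
    rw [(this.zpow_right k).eq, mul_inv_cancel_right]
    exact zpow_mem_zpowers t k⟩
  have : Group.IsSolvable (zpowers t) := Group.isSolvable_of_comm fun a b => mul_comm' a b
  have : Group.IsSolvable (H ⧸ zpowers t) := FT.odd_order_solvable (odd_card fun u hu => by
    obtain ⟨c, rfl⟩ := QuotientGroup.mk_surjective u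
    rw [← QuotientGroup.mk_mul, QuotientGroup.eq_one_iff] at hu
    rw [QuotientGroup.eq_one_iff]
    obtain ⟨k, hk⟩ := hu
    rcases hc c (by
      rw [show 2 ^ 2 = 2 * 2 from rfl, pow_mul, pow_two c, ← hk, ← zpow_natCast, ← zpow_mul, mul_comm, zpow_mul,
        zpow_natCast, pow_two, tt, one_zpow]) with rfl | rfl
    exacts [one_mem _, mem_zpowers _])
  exact (Group.isSolvable_iff_subgroup_quotient (zpowers t)).2 ⟨inferInstance, inferInstance⟩

theorem solv_aut {H K : Type*} [Group H] [Group K] (M : L33.Mod K) (ψ : H →* MulAut K) {z : K}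
    (hz : ∀ h, ψ h z = z) (h1 : Group.IsSolvable (centralizer {z} : Subgroup K)) (h2 : Group.IsSolvable ψ.ker) :
    Group.IsSolvable H := by
  have := inn_normal (K := K)
  let g₁ := (QuotientGroup.mk' (MulAut.conj : K →* MulAut K).range).comp ψ
  have sq : ∀ a : MulAut K ⧸ (MulAut.conj : K →* MulAut K).range, a * a = 1 := fun a => by
    obtain ⟨β, rfl⟩ := QuotientGroup.mk_surjective a
    rw [← QuotientGroup.mk_mul, QuotientGroup.eq_one_iff]
    exact sq_inner M β
  have : Group.IsSolvable (MulAut K ⧸ (MulAut.conj : K →* MulAut K).range) := Group.isSolvable_of_comm fun a b => by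
    calc a * b = a * (a * b * (a * b)) * b := by rw [sq, mul_one]
      _ = a * a * (b * a) * (b * b) := by simp only [mul_assoc]
      _ = b * a := by rw [sq a, sq b, one_mul, mul_one]
  have : Group.IsSolvable ((centralizer {z} : Subgroup K).map MulAut.conj) :=
    Group.isSolvable_of_surjective (MonoidHom.subgroupMap_surjective _ _)
  have m : ∀ h : g₁.ker, ψ.comp g₁.ker.subtype h ∈ (centralizer {z} : Subgroup K).map MulAut.conj := fun h => by
    obtain ⟨l, hl⟩ := (QuotientGroup.eq_one_iff (ψ h)).1 h.2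
    refine ⟨l, mem_centralizer_singleton_iff.2 ?_, hl⟩
    have := hz h
    rw [← hl, MulAut.conj_apply] at this
    exact mul_inv_eq_iff_eq_mul.1 this
  have le : ψ.ker ≤ g₁.ker := fun h hh => by
    rw [MonoidHom.mem_ker] at hh ⊢
    simp only [g₁, MonoidHom.comp_apply, hh, map_one]
  have : Group.IsSolvable g₁.ker := Group.isSolvable_of_ker_le_range (inclusion le)
    ((ψ.comp g₁.ker.subtype).codRestrict _ m) fun h hh => ⟨⟨h, congrArg Subtype.val hh⟩, rfl⟩
  exact Group.isSolvable_of_ker_le_range g₁.ker.subtype g₁ (by rw [range_subtype])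

end Kl3

theorem kf_of (D : Fr G) {K L₀ : Subgroup G} (hK : L₀ ≤ K) {F : Type*} [Field F] [Fintype F] (hF : Fintype.card F = 3)
    (φ : L₀ ≃* Matrix.ProjectiveSpecialLinearGroup (Fin 3) F) (ht : ∀ l ∈ L₀, l * D.t = D.t * l)
    (hn : ∀ h, h * D.t = D.t * h → ∀ l ∈ L₀, h * l * h⁻¹ ∈ L₀) (hx : D.x ∈ L₀) (he : D.e ∈ L₀)
    (hc : ∀ c, c * D.t = D.t * c → (∀ l ∈ L₀, c * l = l * c) → ∀ k, c ^ 2 ^ k = 1 → c = 1 ∨ c = D.t) :
    KF K D.t D.x D.e D.z D.f := by
  obtain ⟨M⟩ := exists_mod hF φ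
  obtain ⟨k1, k2, ξ, x1, x2, x3, x4, x5⟩ := kla hF φ (x := ⟨D.x, hx⟩) (e := ⟨D.e, he⟩) (Subtype.ext D.rel.x8)
    (fun h => D.rel.x4 (congrArg Subtype.val h)) (Subtype.ext D.rel.ee) (Subtype.ext D.rel.ex)
  have nn : ∀ h, h * D.t = D.t * h → h ∈ normalizer (L₀ : Set G) := fun h hh => mem_normalizer_of_forall (hn h hh)
  refine ⟨fun U ho ut uz ux ue u hu => ?_, ?_, ξ, hK ξ.2, congrArg Subtype.val x1, fun h => x2 (Subtype.ext h),
    congrArg Subtype.val x3, congrArg Subtype.val x4, congrArg Subtype.val x5⟩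
  · let W : Subgroup L₀ :=
      { carrier := {l | ∃ u ∈ U, ∀ k : L₀, u * k * u⁻¹ = (l : G) * k * (l : G)⁻¹}
        mul_mem' := by
          rintro a b ⟨u, hu, e1⟩ ⟨v, hv, e2⟩
          refine ⟨u * v, mul_mem hu hv, fun k => ?_⟩
          have := e1 (b * k * b⁻¹)
          push_cast at this ⊢
          calc _ = u * (v * k * v⁻¹) * u⁻¹ := by group
            _ = _ := by rw [e2, this]; group
        one_mem' := ⟨1, one_mem _, fun k => by simp⟩
        inv_mem' := by
          rintro a ⟨u, hu, e1⟩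
          refine ⟨u⁻¹, inv_mem hu, fun k => ?_⟩
          have := e1 (a⁻¹ * k * a)
          push_cast at this ⊢
          calc _ = u⁻¹ * (a * ((a : G)⁻¹ * k * a) * (a : G)⁻¹) * u := by group
            _ = _ := by rw [← this]; group }
    have cw : ∀ g : L₀, (∀ u ∈ U, g * u * (g : G)⁻¹ ∈ U) → ∀ l ∈ W, g * l * g⁻¹ ∈ W := by
      rintro g hg l ⟨u, hu, e1⟩
      refine ⟨_, hg u hu, fun k => ?_⟩
      have := e1 (g⁻¹ * k * g)
      push_cast at this ⊢
      calc _ = g * (u * ((g : G)⁻¹ * k * g) * u⁻¹) * (g : G)⁻¹ := by group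
        _ = _ := by rw [this]; group
    obtain ⟨n, hn'⟩ := ho
    have pw : ∀ u ∈ U, u ^ (2 * n + 1) = 1 := fun u hu => by
      rw [← hn']
      exact congrArg Subtype.val (pow_card_eq_one' (x := (⟨u, hu⟩ : U)))
    have W0 : W = ⊥ := k2 W (Kl3.odd_card fun ⟨l, u, hu, e1⟩ hl => by
        have ll : (l : G) * l = 1 := congrArg (fun a : W => ((a : L₀) : G)) hl
        refine Subtype.ext (M.cen l fun k => Subtype.ext ?_)
        have c : Commute (u * u) k := mul_inv_eq_iff_eq_mul.1 (by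
          have := e1 (l * k * l⁻¹)
          push_cast at this
          calc _ = u * (u * k * u⁻¹) * u⁻¹ := by group
            _ = l * l * k * ((l : G) * l)⁻¹ := by rw [e1, this]; group
            _ = _ := by rw [ll]; group)
        have c' : Commute u k := by
          have := c.pow_left (n + 1)
          rwa [← pow_two, ← pow_mul, show 2 * (n + 1) = 2 * n + 1 + 1 by ring, pow_succ, pw u hu, one_mul] at this
        have := e1 k
        rw [c'.eq, mul_inv_cancel_right] at this
        exact mul_inv_eq_iff_eq_mul.1 this.symm)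
      (by
        rintro l ⟨u, hu, e1⟩
        have := e1 (⟨D.x, hx⟩ ^ 4)
        have e2 : u * D.x ^ 4 = D.x ^ 4 * u := uz u hu
        push_cast at this
        rw [e2, mul_inv_cancel_right] at this
        exact Subtype.ext (mul_inv_eq_iff_eq_mul.1 this.symm))
      (cw _ ux) (cw _ ue)
    have hv := pow_mem hu (n + 1)
    obtain ⟨l, hl⟩ := Kl3.sq_inner M (L₀.normalizerMonoidHom ⟨_, nn _ (ut _ hv)⟩)
    have uu : u ^ (n + 1) * u ^ (n + 1) = u := by
      rw [← pow_add, show n + 1 + (n + 1) = 2 * n + 1 + 1 by ring, pow_succ, pw u hu, one_mul]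
    have e1 : ∀ k : L₀, u * k * u⁻¹ = (l : G) * k * (l : G)⁻¹ := fun k => by
      have : (l : G) * k * (l : G)⁻¹ = u ^ (n + 1) * (u ^ (n + 1) * k * (u ^ (n + 1))⁻¹) * (u ^ (n + 1))⁻¹ :=
        congrArg (fun β : MulAut L₀ => (β k : G)) hl
      rw [this]
      conv_lhs => rw [← uu]
      group
    have l1 : l = 1 := by
      have : l ∈ W := ⟨u, hu, e1⟩
      rwa [W0, mem_bot] at this
    have := e1 ⟨D.e, he⟩
    rw [l1] at this
    exact mul_inv_eq_iff_eq_mul.1 (by simpa using this)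
  · have ct : ∀ h : (centralizer {D.t, D.z} : Subgroup G), (h : G) * D.t = D.t * h := fun h => (h.2 _ (by simp)).symm
    have le : (centralizer {D.t, D.z} : Subgroup G) ≤ normalizer (L₀ : Set G) := fun h hh => nn h (ct ⟨h, hh⟩)
    have ap : ∀ (h : (centralizer {D.t, D.z} : Subgroup G)) (k : L₀),
        ((L₀.normalizerMonoidHom.comp (inclusion le) h k : L₀) : G) = h * k * (h : G)⁻¹ := fun _ _ => rfl
    refine Kl3.solv_aut M (L₀.normalizerMonoidHom.comp (inclusion le)) (fun h => Subtype.ext ?_) k1 ?_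
    · rw [ap]
      exact mul_inv_eq_iff_eq_mul.2 (h.2 D.z (by simp)).symm
    · have t1 : D.t ∈ (centralizer {D.t, D.z} : Subgroup G) := by
        rintro _ (rfl | rfl)
        exacts [rfl, ht _ (pow_mem hx 4)]
      have t2 : (⟨D.t, t1⟩ : (centralizer {D.t, D.z} : Subgroup G)) ∈ (L₀.normalizerMonoidHom.comp (inclusion le)).ker :=
        MulEquiv.ext fun k => Subtype.ext (by
          rw [ap]
          exact mul_inv_eq_iff_eq_mul.2 (ht k k.2).symm)
      refine Kl3.solv_of (t := ⟨_, t2⟩) (Subtype.ext (Subtype.ext D.rel.tt)) (fun h => Subtype.ext (Subtype.ext (ct h)))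
        fun c h4 => ?_
      rcases hc c (ct c) (fun l hl => mul_inv_eq_iff_eq_mul.1 ((ap c ⟨l, hl⟩).symm.trans (by rw [c.2]; rfl))) 2
        (by exact_mod_cast congrArg (fun a : (L₀.normalizerMonoidHom.comp (inclusion le)).ker => ((a : (centralizer {D.t, D.z} : Subgroup G)) : G)) h4) with e1 | e1
      exacts [Or.inl (Subtype.ext (Subtype.ext e1)), Or.inr (Subtype.ext (Subtype.ext e1))]

end CfsgLib.L3F
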