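import Mathlib
import Cfsg.Agent.Lib.L3F.Defs
import Cfsg.Agent.Lib.L33.Main

/-! Standard `L₃(3)`, the case `PSp₆(3)`, package Link: reduction to the case `Four`.  See `plans/L3F.md`. -/

set_option autoImplicit false
set_option linter.unusedSectionVars false

namespace CfsgLib.L3F

open Subgroup CfsgLib.Tech CfsgLib.L33 CfsgLib.PComp

variable {G : Type*} [Group G] [Finite G]

namespace Link

open CfsgLib.L33.Fr CfsgLib.L33.Fr.Nrm

theorem th0 (D : Fr G) (hm : ¬ D.Sm) :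
    ∃ D' : Fr G, ∃ θ, D'.t = D.t ∧ D'.x = D.x ∧ D'.e = D.e ∧ ¬ D'.Sm ∧ D'.Th0 θ := by
  obtain ⟨θ, hL, (h1 : θ * D.z * θ⁻¹ = D.e), (h2 : θ * D.e * θ⁻¹ = D.e * D.z)⟩ := D.θ0
  have h0 : θ * D.t = D.t * θ := mem_centralizer_singleton_iff.1 (D.LH hL)
  obtain ⟨n, hn, hA⟩ := D.sylA.frattini (g := θ) (norm_cent fun c hc => by
    have a1 := hc D.z (by simp)
    have a2 := hc D.e (by simp)
    rintro _ (rfl | rfl | rfl)
    · rw [fix h0]; exact hc _ (by simp)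
    · rwa [h1]
    · rw [h2]; exact com_mul a2 a1)
  have nz := (hn D.z (by simp)).symm
  have ne := (hn D.e (by simp)).symm
  have g0 : n * θ * D.t = D.t * (n * θ) := com_mul (hn D.t (by simp)).symm h0
  have g1 : n * θ * D.z * (n * θ)⁻¹ = D.e := by rw [cj2, h1, fix ne]
  have g2 : n * θ * D.e * (n * θ)⁻¹ = D.e * D.z := by rw [cj2, h2, cjm, fix ne, fix nz]
  generalize n * θ = φ at hA g0 g1 g2
  have g3 := θ_ez g1 g2
  obtain ⟨v, hv, e⟩ := conj_τ_eq hA g0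
  by_cases hτ : D.τ = 1
  · exact ⟨D, φ, rfl, rfl, rfl, hm, g0, by simp [hτ], g1, g2⟩
  have key := fix (D.cent_of_norm (mul_mem (mul_mem (mul_mem hA (f_norm D)) hA) (f_norm D))
    (com_mul (com_mul (com_mul g0 D.c_tf.symm) g0) D.c_tf.symm)
    (com (by rw [cj2, cj2, cj2, f_z, g1, f_e, g3])) (com (by rw [cj2, cj2, cj2, f_e, g3, f_z, g1])))
  rw [cj2, cj2, cj2, fix D.c_τf.symm, e, cjm D.f, fix D.c_τf.symm, cjm, e, mul_assoc D.τ, mul_eq_left] at key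
  rcases D.mem_E.1 hv with rfl | rfl | rfl | rfl
  · exact ⟨D, φ, rfl, rfl, rfl, hm, g0, com (by rw [e, mul_one]), g1, g2⟩
  · rw [f_z, g1, D.c_ze] at key
    exact absurd key (ez1 D)
  · rw [f_e, g3] at key
    exact absurd key (ez1 D)
  · obtain ⟨D', a1, a2, a3, a4, -⟩ := D.exists_ch hτ (k := D.z) (D.mem_V.2 (by simp))
    have a5 : D'.z = D.z := by rw [Fr.z, a2]; rfl
    have a6 : D'.τ = D.x * D.τ * D.x⁻¹ := by rw [a4, D.xτ hτ, D.c_τz]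
    refine ⟨D', φ, a1, a2, a3, fun ⟨k1, k2⟩ => hm ⟨fun k => k1 ?_, fun _ k => k2 ?_ ?_⟩, by rwa [a1], com ?_,
      by rwa [a5, a3], by rwa [a5, a3]⟩
    · rw [a1, a6]
      exact k.trans (isConj_iff.2 ⟨_, rfl⟩)
    · rw [a6]
      exact Nrm.conj_ne_one hτ
    · rw [a1, a6]
      exact k.trans (isConj_iff.2 ⟨D.x, by rw [cjm, fix D.c_tx.symm]⟩)
    · rw [a4, cjm, g1, e, ← mul_assoc, ← mul_assoc, ← D.c_τe, mul_assoc D.τ, D.ee, mul_one, D.c_τz]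

theorem act (D : Fr G) (hm : ¬ D.Sm) :
    ∃ D' : Fr G, ∃ θ n p, D'.t = D.t ∧ D'.x = D.x ∧ D'.e = D.e ∧ ¬ D'.Sm ∧ D'.Act θ n p := by
  obtain ⟨D₁, θ, e1, e2, e3, hm, hθ⟩ := th0 D hm
  rw [← e1, ← e2, ← e3]
  clear e1 e2 e3
  have hτ : D₁.τ ≠ 1 := fun e => hm ⟨fun h => D₁.conj_ne h e, fun h => absurd e h⟩
  by_cases h1 : IsConj D₁.t D₁.τ
  · obtain ⟨D', a1, a2, a3, a4, -⟩ := D₁.exists_ch hτ (k := D₁.t) (D₁.mem_V.2 (by simp))
    have a5 : D'.z = D₁.z := by rw [Fr.z, a2]; rfl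
    have a6 : D'.τ ≠ 1 := fun e => (D₁.τL hτ).2 (by rw [← a4, e]; exact one_mem _)
    have a7 : D'.Th0 θ := ⟨by rw [a1, hθ.θt], by rw [a4]; exact (com_mul hθ.θt.symm hθ.θτ.symm).symm,
      by rw [a5, a3, hθ.θz], by rw [a5, a3, hθ.θe]⟩
    have a8 : IsConj D'.t (D'.t * D'.τ) := by rwa [a4, a1, ← mul_assoc, D₁.tt, one_mul]
    obtain ⟨n, p, h⟩ := Al1.caseOne a7 a6 (by rw [a1, a4]; exact Al1.caseBoth hθ hτ h1) a8
    exact ⟨D', θ, n, p, a1, a2, a3, fun k => k.2 a6 a8, h⟩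
  · obtain ⟨n, p, h⟩ := Al1.caseOne hθ hτ h1 (by by_contra h; exact hm ⟨h1, fun _ => h⟩)
    exact ⟨D₁, θ, n, p, rfl, rfl, rfl, hm, h⟩

theorem sup_sq {K : Subgroup G} {g : G} (hK : ∀ v ∈ K, v * v = 1) (hg : g * g = 1) (hc : ∀ v ∈ K, g * v = v * g) :
    (∀ u, u ∈ K ⊔ zpowers g ↔ u ∈ K ∨ g * u ∈ K) ∧ (∀ v ∈ K ⊔ zpowers g, v * v = 1) ∧
      (g ∉ K → Nat.card ↥(K ⊔ zpowers g) = 2 * Nat.card K) := by
  have hn : ∀ k ∈ K, g * k * g⁻¹ ∈ K := fun k hk => by rwa [fix (hc k hk)]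
  have h2 : g * g ∈ K := hg ▸ one_mem K
  refine ⟨fun _ => mem_sup_two hn h2, fun v hv => ?_, card_sup_two hn h2⟩
  rcases (mem_sup_two hn h2).1 hv with k | k
  · exact hK v k
  · have k1 := hK _ k
    have k2 : g * v = v * g := by
      have := hc _ k
      rw [mul_assoc] at this
      exact mul_left_cancel this
    rwa [mul_assoc, ← mul_assoc v, ← k2, mul_assoc g, ← mul_assoc g g, hg, one_mul] at k1

theorem jf {D : Fr G} {a b p θ : G} {ε β : ZMod 2} (h : D.Jf a b p θ ε β) (hm : ¬ D.Sm) :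
    ∃ X : Subgroup G, (∀ v ∈ X, v * v = 1) ∧ Nat.card X = 64 := by
  have c0 := h.card_Z0.resolve_left fun k => hm k.1
  obtain ⟨m1, s1, c1⟩ := sup_sq (fun v hv => h.Z0_sq hv) D.ee fun v hv => h.ce hv
  obtain ⟨-, s2, c2⟩ := sup_sq s1 h.b1 fun v hv => by
    rcases (m1 v).1 hv with k | k
    · exact h.cb k
    · have := h.cb k
      rw [← mul_assoc, h.be, mul_assoc, mul_assoc] at this
      exact mul_left_cancel this
  refine ⟨_, s2, ?_⟩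
  rw [c2 fun k => ?_, c1 fun k => ?_, c0]
  · exact absurd (h.w_zero (v := (1, 0, 0, 0)) (by simpa [Fr.wJ, ZMod.val_one] using k)) (by decide)
  · rcases (m1 b).1 k with k | k
    · exact absurd (h.w_zero (v := (0, 1, 0, 0)) (by simpa [Fr.wJ, ZMod.val_one] using k)) (by decide)
    · exact absurd (h.w_zero (v := (1, 1, 0, 0)) (by simpa [Fr.wJ, ZMod.val_one] using k)) (by decide)

end Link

theorem exists_four (D : Fr G) (hm : ¬ D.Sm) (h64 : ∀ X : Subgroup G, (∀ v ∈ X, v * v = 1) → Nat.card X ≠ 64) :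
    ∃ D' : Fr G, ∃ a b p θ, D'.t = D.t ∧ D'.x = D.x ∧ D'.e = D.e ∧ D'.Four a b p θ := by
  obtain ⟨D', θ, n, p, e1, e2, e3, hm, h⟩ := Link.act D hm
  have key : n * D'.e * n⁻¹ = D'.e → ∃ a b p θ, D'.Four a b p θ := fun hn => by
    obtain ⟨a, p', θ', T⟩ := h.exists_tr hn
    rcases T.cases with ha | ⟨-, T⟩ | T
    · obtain ⟨b, θ'', ε, β, J⟩ := T.exists_jf ha
      obtain ⟨X, x1, x2⟩ := Link.jf J hm
      exact absurd x2 (h64 X x1)
    · exact absurd T.sm hm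
    · exact ⟨_, _, _, _, T⟩
  obtain ⟨a, b, p', θ', T⟩ : ∃ a b p θ, D'.Four a b p θ := by
    rcases h.hp with ⟨-, -, hn⟩ | ⟨hτ, hp, hn | hn⟩
    · exact key hn
    · exact key hn
    · obtain ⟨a, p', C⟩ := h.exists_gc hτ hp hn
      exact C.false.elim
  exact ⟨D', a, b, p', θ', e1, e2, e3, T⟩

end CfsgLib.L3F
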