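import Mathlib
import Cfsg.Agent.Lib.L3F.Defs
import Cfsg.Agent.Lib.L3F.Nb

/-! Standard `L₃(3)`, the case `PSp₆(3)`, package Ns: normal subgroups of overgroups of `T₀`.  See `plans/L3F.md`. -/

set_option autoImplicit false
set_option linter.unusedSectionVars false

namespace CfsgLib.L3F

open Subgroup CfsgLib.Tech CfsgLib.L33 CfsgLib.PComp

variable {G : Type*} [Group G] [Finite G]

namespace NS

theorem cover {T N C : Subgroup G} (hT : IsSylowIn 2 T N)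
    (hn : ∀ g ∈ N, ∀ c ∈ C, g * c * g⁻¹ ∈ C) (h4 : ∀ g ∈ N, ∃ k, g ^ 2 ^ k ∈ C) {g : G} (hg : g ∈ N) :
    ∃ u ∈ T, u⁻¹ * g ∈ C := by
  haveI : Fact (Nat.Prime 2) := ⟨Nat.prime_two⟩
  haveI : (C.subgroupOf N).Normal := ⟨fun c hc g => mem_subgroupOf.2 (hn g g.2 c (mem_subgroupOf.1 hc))⟩
  have hQ : IsPGroup 2 (N ⧸ C.subgroupOf N) := by
    intro q
    obtain ⟨n, rfl⟩ := QuotientGroup.mk_surjective q
    obtain ⟨k, hk⟩ := h4 n n.2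
    refine ⟨k, ?_⟩
    rw [← QuotientGroup.mk_pow, QuotientGroup.eq_one_iff]
    exact mem_subgroupOf.2 hk
  have hs : Function.Surjective (QuotientGroup.mk' (C.subgroupOf N)) := QuotientGroup.mk'_surjective _
  have h1 := (hT.toSylow.mapSurjective hs).is_maximal' (hQ.to_subgroup ⊤) le_top
  have h2 : QuotientGroup.mk' (C.subgroupOf N) ⟨g, hg⟩ ∈ (hT.toSylow.mapSurjective hs : Subgroup _) := by
    rw [← h1]; exact mem_top _
  rw [Sylow.coe_mapSurjective] at h2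
  obtain ⟨u, hu, hug⟩ := h2
  exact ⟨u, hT.mem_toSylow.1 hu, mem_subgroupOf.1 (QuotientGroup.eq.1 hug)⟩

variable (L : Lf G)

theorem w1_T1 : L.w1 ∈ L.T1 := subset_closure (by simp)
theorem k1_T1 : L.k1 ∈ L.T1 := subset_closure (by simp)
theorem w2_T1 : L.w2 ∈ L.T1 := subset_closure (by simp)
theorem k2_T1 : L.k2 ∈ L.T1 := subset_closure (by simp)
theorem f_T1 : L.f ∈ L.T1 := subset_closure (by simp)
theorem e_E : L.e ∈ L.E := subset_closure (by simp)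
theorem z_E : L.z ∈ L.E := subset_closure (by simp)

end NS

open NS

namespace Bf

variable (B : Bf G) {H M : Subgroup G} {g : G}

theorem T1_le (h0 : B.T0 ≤ H) (hl : B.l ∈ H) (hg : g ∈ H) (ge : g * B.e * g⁻¹ = B.f)
    (hn : ∀ h ∈ H, ∀ m ∈ M, h * m * h⁻¹ ∈ M) (he : B.e ∈ M) : B.T1 ≤ M := by
  have hT : B.T1 ≤ H := (B.toLf.T1_le).trans h0
  have hf : B.f ∈ H := hT (f_T1 _)
  have hw1 : B.w1 ∈ H := hT (w1_T1 _)
  have hk1 : B.k1 ∈ H := hT (k1_T1 _)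
  have hk2 : B.k2 ∈ H := hT (k2_T1 _)
  have hez : B.e * B.z ∈ M := B.toLf.fe ▸ hn _ hf _ he
  have hz : B.z ∈ M := (M.mul_mem_cancel_left he).1 hez
  have hE : B.E ≤ M := by
    intro u hu
    rcases B.toLf.mem_E.1 hu with rfl | rfl | rfl | rfl
    exacts [M.one_mem, hz, he, hez]
  have fM : B.f ∈ M := ge ▸ hn _ hg _ he
  have c1 : B.w2 * B.w1⁻¹ ∈ M := by
    have := M.mul_mem fM (hn _ hw1 _ (M.inv_mem fM))
    rw [← B.fw1]
    convert this using 1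
    group
  have c2 : B.k2 * B.k1⁻¹ ∈ M := by
    have := M.mul_mem fM (hn _ hk1 _ (M.inv_mem fM))
    rw [← B.fk1]
    convert this using 1
    group
  obtain ⟨c, hc, e1⟩ := B.lam.w2
  obtain ⟨c', hc', e2⟩ := B.lam.w1
  have w1M : B.w1 ∈ M := by
    have h1 := hn _ hl _ c1
    have h2 : B.l * (B.w2 * B.w1⁻¹) * B.l⁻¹ =
        B.k2 * (c * c'⁻¹) * B.k2⁻¹ * (B.k2 * B.k1⁻¹ * B.w1⁻¹) := by
      calc _ = B.l * B.w2 * B.l⁻¹ * (B.l * B.w1 * B.l⁻¹)⁻¹ := by group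
        _ = _ := by rw [e1, e2]; group
    rw [h2, M.mul_mem_cancel_left (hn _ hk2 _ (hE (B.E.mul_mem hc (B.E.inv_mem hc')))),
      M.mul_mem_cancel_left c2] at h1
    exact (M.inv_mem_iff).1 h1
  have k1M : B.k1 ∈ M := by
    have h1 := hn _ hl _ w1M
    rwa [e2, M.mul_mem_cancel_right (hE hc'), M.mul_mem_cancel_left w1M] at h1
  refine (closure_le _).2 ?_
  intro u hu
  simp only [Set.mem_insert_iff, Set.mem_singleton_iff] at hu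
  rcases hu with rfl | rfl | rfl | rfl | rfl
  · exact w1M
  · exact k1M
  · exact B.fw1 ▸ hn _ hf _ w1M
  · exact B.fk1 ▸ hn _ hf _ k1M
  · exact fM

theorem T1_le_N : B.T1 ≤ B.N B.z := by
  exact B.T1_le B.T0_le_C B.l_C B.x_C B.xe
    (fun h hh m hm => conj_mem_of_mem_normalizer (B.norm_Nz (B.mem_C.1 hh).2) hm) (B.E_le_N _ (e_E _))

theorem ns2 (h0 : B.T0 ≤ H) (hC : H ≤ B.C) (hl : B.l ∈ H) (hg : g ∈ H) (ge : g * B.e * g⁻¹ = B.f)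
    (hn : ∀ h ∈ H, ∀ m ∈ M, h * m * h⁻¹ ∈ M) (hz : B.z ∈ M) {M₂ : Subgroup G} (h1 : M ≤ M₂) (h2 : M₂ ≤ H)
    (hn2 : ∀ h ∈ H, ∀ m ∈ M₂, h * m * h⁻¹ ∈ M₂) (hp : ∀ u ∈ M₂, ∃ k, u ^ 2 ^ k ∈ M) (he : B.e ∈ M₂) : B.e ∈ M := by
  haveI : Fact (Nat.Prime 2) := ⟨Nat.prime_two⟩
  have hT := B.T1_le h0 hl hg ge hn2 he
  have hS : IsSylowIn 2 (B.T0 ⊓ M₂) M₂ := by
    have := (B.sylC.of_le h0 hC).inf_of_le_normalizer (N := M₂)
      fun h hh => mem_normalizer_of_forall (hn2 h hh)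
    rwa [inf_eq_right.2 h2] at this
  have hu : g⁻¹ * B.w1 * g⁻¹⁻¹ ∈ M₂ := hn2 _ (H.inv_mem hg) _ (hT (w1_T1 _))
  obtain ⟨s, hs, hm⟩ := cover hS (fun a ha => hn a (h2 ha)) hp hu
  set m := s⁻¹ * (g⁻¹ * B.w1 * g⁻¹⁻¹) with hmd
  have eH : B.e ∈ H := h2 he
  have a1 : s * B.e * s⁻¹ * B.e⁻¹ ∈ M := by
    rcases B.toLf.conj_e (B.toLf.T0_le hs.1) with h | h
    · rw [h, mul_inv_cancel]; exact M.one_mem
    · rw [h]; exact hn _ eH _ hz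
  have a2 := hn _ hg _ (M.mul_mem (hn _ (h0 hs.1) _ (M.mul_mem hm (hn _ eH _ (M.inv_mem hm)))) a1)
  have a3 : g * (s * (m * (B.e * m⁻¹ * B.e⁻¹)) * s⁻¹ * (s * B.e * s⁻¹ * B.e⁻¹)) * g⁻¹ =
      (B.f * B.w1 * B.f⁻¹ * B.w1⁻¹)⁻¹ := by
    rw [← ge, hmd]; group
  rw [a3, M.inv_mem_iff] at a2
  have w0 : B.w1 ∈ B.T0 := B.toLf.T1_le (w1_T1 _)
  have f0 : B.f ∈ B.T0 := B.toLf.T1_le (f_T1 _)
  exact B.toLf.mem_e B.σ1 (fun a ha => hn a (h0 ha)) hz a2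
    (mul_mem (mul_mem (mul_mem f0 w0) (inv_mem f0)) (inv_mem w0)) (B.toLf.fw1_not B.σ1)

theorem ns_ab (h0 : B.T0 ≤ H) (hC : H ≤ B.C) (hl : B.l ∈ H) (hg : g ∈ H) (ge : g * B.e * g⁻¹ = B.f)
    (hn : ∀ h ∈ H, ∀ m ∈ M, h * m * h⁻¹ ∈ M) (hz : B.z ∈ M) {A : Subgroup G} (h1 : M ≤ A) (h2 : A ≤ H)
    (hn2 : ∀ h ∈ H, ∀ m ∈ A, h * m * h⁻¹ ∈ A) (hc : ∀ a ∈ A, ∀ b ∈ A, a * b * a⁻¹ * b⁻¹ ∈ M)
    (he : B.e ∈ A) : B.e ∈ M := by
  let M₂ : Subgroup G :=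
    { carrier := {a | a ∈ A ∧ a * a ∈ M}
      one_mem' := ⟨A.one_mem, by simp⟩
      mul_mem' := fun {a b} ha hb => ⟨A.mul_mem ha.1 hb.1, by
        have := M.mul_mem (M.mul_mem ha.2 (hc _ (A.inv_mem ha.1) _ hb.1)) hb.2
        convert this using 1
        group⟩
      inv_mem' := fun {a} ha => ⟨A.inv_mem ha.1, by
        have := M.inv_mem ha.2
        convert this using 1
        group⟩ }
  refine B.ns2 h0 hC hl hg ge hn hz (M₂ := M₂) (fun m hm => ⟨h1 hm, M.mul_mem hm hm⟩)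
    (fun a ha => h2 ha.1) (fun h hh a ha => ⟨hn2 h hh a ha.1, ?_⟩)
    (fun u hu => ⟨1, by simpa [sq] using hu.2⟩) ⟨he, by rw [B.toLf.ee]; exact M.one_mem⟩
  have := hn h hh _ ha.2
  convert this using 1
  group

theorem ns3 (h0 : B.T0 ≤ H) (hC : H ≤ B.C) (hl : B.l ∈ H) (hg : g ∈ H) (ge : g * B.e * g⁻¹ = B.f)
    (hn : ∀ h ∈ H, ∀ m ∈ M, h * m * h⁻¹ ∈ M) (hz : B.z ∈ M) (hM : M ≤ H)
    (hs : ∃ n, (derivedSeries H n).map H.subtype ≤ M) : B.e ∈ M := by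
  obtain ⟨n, hs⟩ := hs
  induction n generalizing M with
  | zero =>
    exact hs ⟨⟨B.e, h0 (B.toLf.T1_le (B.toLf.E_le_T1 (e_E _)))⟩, mem_top _, rfl⟩
  | succ n ih =>
    haveI : (M.subgroupOf H).Normal :=
      ⟨fun c hc a => mem_subgroupOf.2 (hn a a.2 c (mem_subgroupOf.1 hc))⟩
    let A : Subgroup G := (derivedSeries H n ⊔ M.subgroupOf H).map H.subtype
    have hA : A ≤ H := map_subtype_le _
    have hMA : M ≤ A := fun m hm => ⟨⟨m, hM hm⟩, mem_sup_right (mem_subgroupOf.2 hm), rfl⟩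
    have hnA : ∀ h ∈ H, ∀ m ∈ A, h * m * h⁻¹ ∈ A := by
      rintro h hh _ ⟨m, hm, rfl⟩
      exact ⟨⟨h, hh⟩ * m * ⟨h, hh⟩⁻¹, Normal.conj_mem inferInstance m hm _, rfl⟩
    refine B.ns_ab h0 hC hl hg ge hn hz hMA hA hnA ?_
      (ih hnA (hMA hz) hA (map_mono le_sup_left))
    rintro _ ⟨a, ha, rfl⟩ _ ⟨b, hb, rfl⟩
    have key : ∀ a ∈ derivedSeries H n ⊔ M.subgroupOf H, ∃ d ∈ derivedSeries H n,
        QuotientGroup.mk' (M.subgroupOf H) a = QuotientGroup.mk' (M.subgroupOf H) d := by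
      intro a ha
      have := mem_map_of_mem (QuotientGroup.mk' (M.subgroupOf H)) ha
      rw [Subgroup.map_sup, (map_eq_bot_iff (H := M.subgroupOf H)).2 (by rw [QuotientGroup.ker_mk']),
        sup_bot_eq] at this
      obtain ⟨d, hd, h⟩ := this
      exact ⟨d, hd, h.symm⟩
    obtain ⟨a', ha', ea⟩ := key a ha
    obtain ⟨b', hb', eb⟩ := key b hb
    have h3 : a' * b' * a'⁻¹ * b'⁻¹ ∈ M.subgroupOf H :=
      mem_subgroupOf.2 (hs ⟨_, commutator_mem_commutator ha' hb', rfl⟩)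
    have h4 : a * b * a⁻¹ * b⁻¹ ∈ M.subgroupOf H := by
      rw [← QuotientGroup.ker_mk' (M.subgroupOf H), MonoidHom.mem_ker] at h3 ⊢
      simp only [map_mul, map_inv] at h3 ⊢
      rw [ea, eb, h3]
    exact mem_subgroupOf.1 h4

theorem N_perfect : ⁅B.N B.z, B.N B.z⁆ = B.N B.z := by
  have hN : ∀ h ∈ B.C, ∀ m ∈ B.N B.z, h * m * h⁻¹ ∈ B.N B.z := fun h hh m hm =>
    conj_mem_of_mem_normalizer (B.norm_Nz (B.mem_C.1 hh).2) hm
  have hn : ∀ h ∈ B.C, ∀ m ∈ ⁅B.N B.z, B.N B.z⁆, h * m * h⁻¹ ∈ ⁅B.N B.z, B.N B.z⁆ := fun h hh m hm => by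
    have h1 := mem_normalizer_iff_cj.1 (B.norm_Nz (B.mem_C.1 hh).2)
    have h2 := (conj_mem_cj (g := h)).2 hm
    rwa [cj_commutator, h1] at h2
  have hle : ⁅B.N B.z, B.N B.z⁆ ≤ B.N B.z := commutator_le.2 fun a ha b hb =>
    mul_mem (mul_mem (mul_mem ha hb) (inv_mem ha)) (inv_mem hb)
  have eN : B.e ∈ B.N B.z := B.E_le_N _ (e_E _)
  refine le_antisymm hle (B.N_le_of hn ?_)
  refine B.ns_ab B.T0_le_C le_rfl B.l_C B.x_C B.xe hn ?_ hle (B.N_le (z_E _)) hN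
    (fun a ha b hb => commutator_mem_commutator ha hb) eN
  have := commutator_mem_commutator (inv_mem B.f_N) eN
  rw [commutatorElement_def] at this
  convert this using 1
  calc B.z = B.f⁻¹ * (B.e * B.f * B.e⁻¹) := by rw [B.toLf.ef]; group
    _ = _ := by group


end Bf

end CfsgLib.L3F
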