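import Mathlib
import Cfsg.Agent.Lib.L3F.Defs
import Cfsg.Agent.Lib.L3F.Cls

/-! Standard `L₃(3)`, the case `PSp₆(3)`, package Sc: strong closure of `Q₃`.  See `plans/L3F.md`. -/

set_option autoImplicit false
set_option Elab.async false
set_option linter.unusedSectionVars false

namespace CfsgLib.L3F

open Subgroup CfsgLib.Tech CfsgLib.L33 CfsgLib.PComp

variable {G : Type*} [Group G] [Finite G]

namespace Bf

variable (B : Bf G)

theorem sc_nrm {u q : G} (h : u * q * u⁻¹ ∈ zpowers q) : u ∈ normalizer ((zpowers q : Subgroup G) : Set G) :=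
  mem_normalizer_of_cj_le (by rw [cj_zpowers]; exact zpowers_le.2 h)

theorem sc_D {d g : G} (hd : B.D d) (hg : g ∈ B.C) : B.D (g * d * g⁻¹) := by
  obtain ⟨c, hc, rfl⟩ := hd
  exact ⟨g * c, mul_mem hg hc, by group⟩

theorem sc_star {q d : G} (hq : q ∈ B.Q3) (h2 : q * q = B.z) (hd : B.D d) : d * q * d⁻¹ ≠ q * B.z := by
  intro h
  have hz : q * B.z ∈ zpowers q := by
    rw [← h2]
    exact mul_mem (mem_zpowers q) (mul_mem (mem_zpowers q) (mem_zpowers q))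
  have hT : B.T0 ≤ B.C ⊓ normalizer ((zpowers q : Subgroup G) : Set G) := fun u hu => by
    refine ⟨B.T0_le_C hu, ?_⟩
    obtain ⟨s, hs, r, hr, rfl⟩ := B.T0_dec B.σ1 hu
    refine mul_mem (sc_nrm ?_) (sc_nrm ?_)
    · rw [B.c13 hs hq, mul_inv_cancel_right]
      exact mem_zpowers q
    · have m : r * q * r⁻¹ * q⁻¹ ∈ B.Q3 := mul_mem (mul_mem (mul_mem hr hq) (inv_mem hr)) (inv_mem hq)
      rcases B.mem_E.1 (B.com_Q (B.Q3_le hr) (B.Q3_le hq)) with e | e | e | e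
      · rw [mul_inv_eq_one.1 e]
        exact mem_zpowers q
      · rw [mul_inv_eq_iff_eq_mul.1 e, ← h2]
        exact mul_mem (mul_mem (mem_zpowers q) (mem_zpowers q)) (mem_zpowers q)
      · exact absurd (e ▸ m) (B.e_not B.σ1)
      · rw [e] at m
        exact absurd ((mul_mem_cancel_right B.z_Q3).1 m) (B.e_not B.σ1)
  have he : B.e ∈ B.C := B.T0_le_C (B.Q_le_T0 (B.E_le_Q (B.mem_E.2 (Or.inr (Or.inr (Or.inl rfl))))))
  have hdd : d ∈ B.C ∧ d ^ 2 ^ 1 = 1 := by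
    obtain ⟨c, hc, rfl⟩ := hd
    refine ⟨mul_mem (mul_mem hc he) (inv_mem hc), ?_⟩
    rw [conj_pow, pow_one, pow_two, B.ee, mul_one, mul_inv_cancel]
  obtain ⟨n, ⟨hn, hn'⟩, hm⟩ := (B.sylC.of_le hT inf_le_left).exists_conj_mem
    (x := d) ⟨hdd.1, sc_nrm (h ▸ hz)⟩ (isPGroup_zpowers_of_pow hdd.2)
  have c1 : Commute (n * d * n⁻¹) q := B.c13 (B.Y_mem B.σ1 (B.Y_of_D hm (B.sc_D hd hn))) hq
  obtain ⟨k, hk⟩ := mem_zpowers_iff.1 (conj_mem_of_mem_normalizer hn' (mem_zpowers q))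
  have c2 := (c1.zpow_right k).eq
  rw [hk] at c2
  have c3 : d * q = q * d := by
    calc d * q = n⁻¹ * (n * d * n⁻¹ * (n * q * n⁻¹)) * n := by group
      _ = q * d := by rw [c2]; group
  rw [c3, mul_inv_cancel_right, left_eq_mul] at h
  exact B.z1 h

theorem sc_star' {q d g : G} (hq : q ∈ B.Q3) (h2 : q * q = B.z) (hd : B.D d) (hg : g ∈ B.C) :
    d * (g * q * g⁻¹) * d⁻¹ ≠ g * q * g⁻¹ * B.z := by
  intro h
  refine B.sc_star hq h2 (B.sc_D hd (inv_mem hg)) ?_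
  calc _ = g⁻¹ * (d * (g * q * g⁻¹) * d⁻¹) * g := by group
    _ = q * (g⁻¹ * (B.z * g)) := by rw [h]; group
    _ = _ := by rw [← (B.mem_C.1 hg).2, inv_mul_cancel_left]

theorem sc {q g : G} (hq : q ∈ B.Q3) (hg : g ∈ B.C) (h0 : g * q * g⁻¹ ∈ B.T0) : g * q * g⁻¹ ∈ B.Q3 := by
  have hz : g * B.z * g⁻¹ = B.z := by rw [(B.mem_C.1 hg).2, mul_inv_cancel_right]
  rcases B.sq_Q3 B.σ1 hq with rfl | rfl | h2
  · rw [mul_one, mul_inv_cancel]
    exact one_mem _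
  · rw [hz]
    exact hq
  have h3 : g * q * g⁻¹ * (g * q * g⁻¹) = B.z := by
    rw [← hz, ← h2]
    group
  have key : ∀ c ∈ B.C, ∀ i j : ZMod 3, i + j = 0 → ¬ B.Eq (c * q * c⁻¹) (B.a1 i * B.a2 j) := by
    intro c hc i j hij h
    obtain ⟨r, hr, e⟩ := B.diag B.σ1 hij h
    exact B.sc_star' hq h2 (B.D_of_Y (Or.inr (Or.inr ⟨r, hr, rfl⟩))) hc e
  rcases B.sqrt_z B.σ1 h0 h3 with h | h | ⟨r, hr, h⟩ | ⟨i, j, h⟩
  · exact h
  · exact absurd h (B.sc_star' hq h2 (B.D_of_Y (Or.inl rfl)) hg)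
  · exact absurd h (B.sc_star' hq h2 (B.D_of_Y (Or.inr (Or.inr ⟨r, hr, rfl⟩))) hg)
  · have t : ∀ i j : ZMod 3, i + j = 0 ∨ (i + 1) + (j + 1) = 0 ∨ (i + 1 + 1) + (j + 1 + 1) = 0 := by
      decide
    have h1 := B.lam.ty h
    have h4 := B.lam.ty h1
    have e1 : ∀ c : G, B.l * (c * q * c⁻¹) * B.l⁻¹ = B.l * c * q * (B.l * c)⁻¹ := fun c => by group
    rw [e1] at h1
    rw [e1, e1] at h4
    rcases t i j with e | e | e
    · exact absurd h (key _ hg _ _ e)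
    · exact absurd h1 (key _ (mul_mem B.l_C hg) _ _ e)
    · exact absurd h4 (key _ (mul_mem B.l_C (mul_mem B.l_C hg)) _ _ e)
theorem l_norm : B.l ∈ normalizer (B.Q3 : Set G) := by
  exact mem_normalizer_of_forall fun q hq =>
    B.sc hq B.l_C (B.Q_le_T0 (conj_mem_of_mem_normalizer B.lam.lQ (B.Q3_le hq)))
theorem exists_g0 : ∃ g ∈ B.C ⊓ normalizer (B.Q3 : Set G), g * B.e * g⁻¹ = B.f := by
  have hf : B.f ∈ B.T1 := subset_closure (by simp)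
  have h1 : cj B.x⁻¹ B.Q3 ≤ B.X := cj_le_iff.2 fun q hq => by
    have m := B.mem_C.1 (mul_mem (mul_mem (inv_mem B.x_C) (B.T0_le_C (B.Q_le_T0 (B.Q3_le hq))))
      (inv_mem (inv_mem B.x_C)))
    refine B.mem_X.2 ⟨m.1, ?_, m.2⟩
    calc _ = B.x⁻¹ * (q * (B.x * B.e * B.x⁻¹)) * B.x := by group
      _ = B.x⁻¹ * (B.x * B.e * B.x⁻¹ * q) * B.x := by rw [B.xe, B.c13 hf hq]
      _ = _ := by group
  obtain ⟨h, hh, h2⟩ := B.sylQ.exists_cj_le
    (isPGroup_cj _ (B.two_P.to_le (B.Q3_le.trans (B.Q_le_T0.trans B.T0_le)))) h1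
  rw [← cj_mul] at h2
  have hc : h * B.x⁻¹ ∈ B.C := mul_mem (B.X_le_C hh) (inv_mem B.x_C)
  refine ⟨(h * B.x⁻¹)⁻¹, inv_mem ⟨hc, mem_normalizer_of_forall fun q hq =>
    B.sc hq hc (B.Q_le_T0 (cj_le_iff.1 h2 q hq))⟩, ?_⟩
  calc _ = B.x * (h⁻¹ * (B.e * h)) * B.x⁻¹ := by group
    _ = _ := by rw [← (B.mem_X.1 hh).2.1, inv_mul_cancel_left, B.xe]

end Bf

end CfsgLib.L3F
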