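import Mathlib
import Cfsg.Agent.Lib.L3F.Defs
import Cfsg.Agent.Lib.Symp.Basic

/-! Standard `L₃(3)`, the case `PSp₆(3)`, package SpA: involutions and inverted elements of order 3 in `Sp₄(3)`.  See `plans/L3F.md`. -/

set_option autoImplicit false
set_option linter.unusedSectionVars false

namespace CfsgLib.L3F

open Subgroup CfsgLib.Tech CfsgLib.L33 CfsgLib.PComp

variable {G : Type*} [Group G] [Finite G]

namespace SpA

abbrev Ix := Fin 2 ⊕ Fin 2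
abbrev Z3 := ZMod 3
abbrev M4 := Matrix Ix Ix Z3

def um (α δ p q r s : Z3) : M4 := Matrix.fromBlocks !![α, p; -s, δ] !![0, q; q, 0] !![0, r; r, 0] !![α, s; -p, δ]
def gm (w : Z3 × Z3 × Z3 × Z3 × Z3 × Z3 × Z3 × Z3) : M4 :=
  Matrix.fromBlocks !![w.1, 0; 0, w.2.2.2.2.1] !![w.2.1, 0; 0, w.2.2.2.2.2.1]
    !![w.2.2.1, 0; 0, w.2.2.2.2.2.2.1] !![w.2.2.2.1, 0; 0, w.2.2.2.2.2.2.2]
def wl : List (Z3 × Z3 × Z3 × Z3 × Z3 × Z3 × Z3 × Z3) :=
  [(0,1,2,0,1,0,0,1), (0,1,2,0,2,0,0,2), (0,1,2,0,0,2,1,0), (0,1,2,0,0,2,1,1), (0,1,2,0,0,2,1,2),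
  (0,1,2,0,0,1,2,0), (0,1,2,0,0,1,2,1), (0,1,2,0,0,1,2,2), (1,0,0,1,1,0,0,1), (0,1,2,1,1,0,0,1),
  (0,1,2,2,2,0,0,2), (1,0,0,1,2,0,0,2), (0,1,2,2,1,0,0,1), (0,1,2,1,2,0,0,2), (1,0,0,1,0,2,1,0),
  (0,1,2,1,0,2,1,0), (0,1,2,2,0,1,2,0), (1,0,0,1,0,2,1,1), (0,1,2,1,0,2,1,1), (0,1,2,2,0,1,2,2),
  (1,0,0,1,0,2,1,2), (0,1,2,1,0,2,1,2), (0,1,2,2,0,1,2,1), (1,0,0,1,0,1,2,0), (0,1,2,2,0,2,1,0),
  (0,1,2,1,0,1,2,0), (1,0,0,1,0,1,2,1), (0,1,2,2,0,2,1,2), (0,1,2,1,0,1,2,1), (1,0,0,1,0,1,2,2),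
  (0,1,2,2,0,2,1,1), (0,1,2,1,0,1,2,2)]

theorem ee : ε1 * ε1 = 1 := Subtype.ext (by decide +kernel)
theorem einv : ε1⁻¹ = ε1 := inv_eq_of_mul_eq_one_right ee
theorem neg : (ε0 * ε1).1 = -1 := by decide +kernel

theorem par : ∀ α δ p q r s : Z3, ε1.1 * um α δ p q r s * ε1.1 * um α δ p q r s = 1 →
    um α δ p q r s * um α δ p q r s * um α δ p q r s = 1 → α = 1 ∧ δ = 1 ∧ p * s = q * r := by
  decide +kernel

set_option synthInstance.maxSize 2048 in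
theorem fin : ∀ p q r s : Z3, p * s = q * r → um 1 1 p q r s = 1 ∨ ∃ w ∈ wl, gm w * um 1 1 p q r s = xr.1 * gm w ∧
    gm w * Matrix.J (Fin 2) Z3 * (gm w).transpose = Matrix.J (Fin 2) Z3 ∧ gm w * ε1.1 = ε1.1 * gm w := by
  decide +kernel

theorem half : ∀ b : Z3, -b = b → b = 0 := by decide

theorem shape {u : Sp4} (h : ε1 * u * ε1⁻¹ = u⁻¹) : ∃ α δ p q r s, u.1 = um α δ p q r s := by
  have H : ε1.1 * u.1 * ε1.1 = -Matrix.J (Fin 2) Z3 * u.1.transpose * Matrix.J (Fin 2) Z3 := by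
    rw [← SymplecticGroup.coe_inv, ← h, einv]; rfl
  have E : ∀ i j, (ε1.1 * u.1 * ε1.1) i j =
      (-Matrix.J (Fin 2) Z3 * u.1.transpose * Matrix.J (Fin 2) Z3) i j := fun i j => by rw [H]
  refine ⟨u.1 (.inl 0) (.inl 0), u.1 (.inl 1) (.inl 1), u.1 (.inl 0) (.inl 1), u.1 (.inl 0) (.inr 1),
    u.1 (.inr 0) (.inl 1), u.1 (.inr 0) (.inr 1), ?_⟩
  have e1 := E (.inl 0) (.inr 0)
  have e2 := E (.inl 1) (.inl 0)
  have e3 := E (.inl 1) (.inr 0)
  have e4 := E (.inl 1) (.inr 1)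
  have e5 := E (.inr 0) (.inl 0)
  have e6 := E (.inr 0) (.inr 0)
  have e7 := E (.inr 1) (.inl 0)
  have e8 := E (.inr 1) (.inl 1)
  have e9 := E (.inr 1) (.inr 0)
  have e10 := E (.inr 1) (.inr 1)
  simp [ε1, Matrix.J, Matrix.mul_apply, Fintype.sum_sum_type, Fin.sum_univ_two, Matrix.one_apply]
    at e1 e2 e3 e4 e5 e6 e7 e8 e9 e10
  have f1 := half _ e1.symm
  have f4 := half _ e4.symm
  have f5 := half _ e5.symm
  have f8 := half _ e8.symm
  ext i j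
  rcases i with i | i <;> rcases j with j | j <;> fin_cases i <;> fin_cases j <;>
    simp [um, f1, f4, f5, f8, e3, e6, e7, e10] <;> first | linear_combination -e2 | linear_combination -e9

/-- the form -/
def B (x y : Ix → Z3) : Z3 := x ⬝ᵥ (Matrix.J (Fin 2) Z3).mulVec y

theorem B_inv (s : Sp4) (x y : Ix → Z3) : B (s.1.mulVec x) (s.1.mulVec y) = B x y := by
  rw [B, B, Matrix.mulVec_mulVec, ← Matrix.vecMul_transpose, ← Matrix.dotProduct_mulVec,
    Matrix.mulVec_mulVec, ← Matrix.mul_assoc, SymplecticGroup.mem_iff'.1 s.2]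

theorem B_eq (x y : Ix → Z3) : B x y = x (.inr 0) * y (.inl 0) + x (.inr 1) * y (.inl 1) -
    x (.inl 0) * y (.inr 0) - x (.inl 1) * y (.inr 1) := by
  simp [B, Matrix.J, dotProduct, Matrix.mulVec, Fintype.sum_sum_type, Fin.sum_univ_two, Matrix.one_apply]
  ring

theorem nd {v : Ix → Z3} (hv : v ≠ 0) : ∃ w, B w v = 1 := by
  have key : ∀ a b c d : Z3, (a = 0 ∧ b = 0 ∧ c = 0 ∧ d = 0) ∨
      ∃ x y z t : Z3, z * a + t * b - x * c - y * d = 1 := by decide +kernel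
  rcases key (v (.inl 0)) (v (.inl 1)) (v (.inr 0)) (v (.inr 1)) with ⟨h1, h2, h3, h4⟩ | ⟨x, y, z, t, h⟩
  · refine absurd (funext fun i => ?_) hv
    rcases i with i | i <;> fin_cases i <;> assumption
  · exact ⟨Sum.elim ![x, y] ![z, t], by rw [B_eq]; simpa using h⟩

/-- a hyperbolic pair in the `c`-eigenspace -/
theorem pair {s : Sp4} (h2 : s * s = 1) {c : Z3} (hc : c * c = 1) (h : s.1 ≠ (-c) • (1 : M4)) :
    ∃ v w, s.1.mulVec v = c • v ∧ s.1.mulVec w = c • w ∧ B w v = 1 := by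
  have hs : ∀ x, s.1.mulVec (s.1.mulVec x) = x := fun x => by
    rw [Matrix.mulVec_mulVec, show s.1 * s.1 = 1 from congrArg Subtype.val h2, Matrix.one_mulVec]
  have ev : ∀ x, s.1.mulVec (s.1.mulVec x + c • x) = c • (s.1.mulVec x + c • x) := fun x => by
    rw [Matrix.mulVec_add, hs, Matrix.mulVec_smul, smul_add, smul_smul, hc, one_smul, add_comm]
  obtain ⟨x, hx⟩ : ∃ x, s.1.mulVec x + c • x ≠ 0 := by
    by_contra! h0
    refine h (Matrix.ext_iff_mulVec.2 fun x => ?_)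
    rw [Matrix.smul_mulVec, Matrix.one_mulVec, neg_smul]
    exact eq_neg_of_add_eq_zero_left (h0 x)
  obtain ⟨w, hw⟩ := nd hx
  set v := s.1.mulVec x + c • x
  have hv : s.1.mulVec v = c • v := ev x
  refine ⟨v, (-c) • (s.1.mulVec w + c • w), hv, by rw [Matrix.mulVec_smul, ev, smul_comm], ?_⟩
  have h1 := B_inv s w v
  rw [hv] at h1
  simp only [B_eq, Pi.smul_apply, Pi.add_apply, smul_eq_mul] at h1 hw ⊢
  have h3 : (3 : Z3) = 0 := rfl
  linear_combination (-1) * h1 + (-1 - c * c) * hw - hc - h3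

end SpA

open SpA

theorem center_sp4 {g : Sp4} : g ∈ center Sp4 ↔ g = 1 ∨ g = ε0 * ε1 := by
  rw [Symp.mem_center_iff, show Symp.spNegOne (Fin 2) (ZMod 3) = ε0 * ε1 from Subtype.ext neg.symm]

theorem inv_conj {s : Sp4} (h2 : s * s = 1) (h1 : s ≠ 1) (h3 : s ≠ ε0 * ε1) : ∃ g, g * s * g⁻¹ = ε1 := by
  obtain ⟨v, w, hv, hw, h⟩ := pair h2 (c := 1) (one_mul 1) fun e => h3 (Subtype.ext (by rw [e, neg]; simp))
  obtain ⟨v', w', hv', hw', h'⟩ := pair h2 (c := -1) (by simp) fun e => h1 (Subtype.ext (by rw [e]; simp))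
  have o : ∀ x y, s.1.mulVec x = (1 : Z3) • x → s.1.mulVec y = (-1 : Z3) • y → B x y = 0 := fun x y hx hy => by
    have h1 := B_inv s x y
    rw [hx, hy] at h1
    refine half _ ?_
    simp only [B_eq, Pi.smul_apply, smul_eq_mul] at h1 ⊢
    linear_combination h1
  have o1 := o _ _ hv hv'
  have o2 := o _ _ hv hw'
  have o3 := o _ _ hw hv'
  have o4 := o _ _ hw hw'
  let c : Ix → Ix → Z3 := Sum.elim ![v, v'] ![w, w']
  let g : M4 := Matrix.of fun i j => c j i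
  have hg : g ∈ Matrix.symplecticGroup (Fin 2) Z3 := by
    rw [SymplecticGroup.mem_iff']
    have : ∀ i j, (g.transpose * Matrix.J (Fin 2) Z3 * g) i j = B (c i) (c j) := fun i j => by
      rw [Matrix.mul_assoc]; rfl
    ext i j
    rw [this]
    simp only [B_eq] at h h' o1 o2 o3 o4 ⊢
    rcases i with i | i <;> rcases j with j | j <;> fin_cases i <;> fin_cases j <;>
      simp [c, Matrix.J, Matrix.one_apply] <;>
      first | ring1 | linear_combination h | linear_combination -h | linear_combination h' | linear_combination -h'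
            | linear_combination o1 | linear_combination -o1 | linear_combination o2 | linear_combination -o2
            | linear_combination o3 | linear_combination -o3 | linear_combination o4 | linear_combination -o4
  have e : s * ⟨g, hg⟩ = ⟨g, hg⟩ * ε1 := by
    refine Subtype.ext (Matrix.ext fun i j => ?_)
    have : (s * ⟨g, hg⟩ : Sp4).1 i j = s.1.mulVec (c j) i := rfl
    rw [this]
    change _ = (g * ε1.1) i j
    rcases j with j | j <;> fin_cases j <;>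
      simp [c, g, hv, hw, hv', hw', ε1, Matrix.mul_apply, Fintype.sum_sum_type, Fin.sum_univ_two]
  exact ⟨(⟨g, hg⟩ : Sp4)⁻¹, by rw [inv_inv, mul_assoc, e, inv_mul_cancel_left]⟩

theorem xr_conj {u : Sp4} (h3 : u ^ 3 = 1) (h1 : u ≠ 1) (h : ε1 * u * ε1⁻¹ = u⁻¹) :
    ∃ g, g * ε1 = ε1 * g ∧ g * u * g⁻¹ = xr := by
  obtain ⟨α, δ, p, q, r, s, hu⟩ := shape h
  have a1 : ε1 * u * ε1 * u = 1 := by rw [einv] at h; rw [h, inv_mul_cancel]
  have a2 : u * u * u = 1 := by rw [← h3, pow_three, mul_assoc]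
  obtain ⟨rfl, rfl, hd⟩ := par α δ p q r s (by rw [← hu]; exact congrArg Subtype.val a1)
    (by rw [← hu]; exact congrArg Subtype.val a2)
  rcases fin p q r s hd with e | ⟨w, -, e1, e2, e3⟩
  · exact absurd (Subtype.ext (hu.trans e)) h1
  · refine ⟨⟨gm w, SymplecticGroup.mem_iff.2 e2⟩, Subtype.ext e3, ?_⟩
    rw [mul_inv_eq_iff_eq_mul]
    exact Subtype.ext (by rw [← hu] at e1; exact e1)

end CfsgLib.L3F
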