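import Mathlib
import Cfsg.Agent.Lib.L3F.Defs
import Cfsg.Agent.Lib.L3F.Nb

/-! Standard `L₃(3)`, the case `PSp₆(3)`, package Ww: `e` centralizes `O(C(z))`.  See `plans/L3F.md`. -/

set_option autoImplicit false
set_option linter.unusedSectionVars false

namespace CfsgLib.L3F

open Subgroup CfsgLib.Tech CfsgLib.L33 CfsgLib.PComp

variable {G : Type*} [Group G] [Finite G]

namespace Ww

theorem sq_one {W : Subgroup G} (ho : Odd (Nat.card W)) {u : G} (hu : u ∈ W) (h : u * u = 1) :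
    u = 1 := by
  obtain ⟨k, hk⟩ := ho
  have h1 : u ^ Nat.card W = 1 := by
    have := pow_card_eq_one' (G := W) (x := ⟨u, hu⟩)
    exact congrArg Subtype.val this
  rw [hk, pow_succ, pow_mul, pow_two, h, one_pow, one_mul] at h1
  exact h1

/-- a four-group `⟨t, e⟩` acting on a group of odd order: if `e` centralizes the fixed points of `t`
and of `t e`, it centralizes everything -/
theorem four {W : Subgroup G} (ho : Odd (Nat.card W)) {t e : G} (ee : e * e = 1) (tt : t * t = 1)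
    (te : t * e = e * t) (ht : ∀ u ∈ W, t * u * t⁻¹ ∈ W) (he : ∀ u ∈ W, e * u * e⁻¹ ∈ W)
    (h1 : ∀ u ∈ W, u * t = t * u → u * e = e * u)
    (h2 : ∀ u ∈ W, u * (t * e) = t * e * u → u * e = e * u) {w : G} (hw : w ∈ W) :
    w * e = e * w := by
  have key : ∀ u ∈ W, e * u * e⁻¹ = u⁻¹ → u = 1 := by
    intro u hu hi
    have fix : ∀ m ∈ W, e * m * e⁻¹ = m⁻¹ → m * e = e * m → m = 1 := by
      intro m hm h h'
      refine sq_one ho hm ?_
      have : m = m⁻¹ := by rw [← h, ← h']; group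
      exact mul_eq_one_iff_eq_inv.2 this
    set u' := t * u * t⁻¹ with hu'
    have hu'W : u' ∈ W := ht u hu
    have hi' : e * u' * e⁻¹ = u'⁻¹ := by
      calc e * u' * e⁻¹ = (e * t) * u * (e * t)⁻¹ := by rw [hu']; group
        _ = (t * e) * u * (t * e)⁻¹ := by rw [te]
        _ = t * (e * u * e⁻¹) * t⁻¹ := by group
        _ = u'⁻¹ := by rw [hi, hu']; group
    have tu' : t * u' * t⁻¹ = u := by
      rw [hu']
      calc t * (t * u * t⁻¹) * t⁻¹ = (t * t) * u * (t * t)⁻¹ := by group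
        _ = u := by rw [tt]; group
    set d := u⁻¹ * u' with hd
    have hdW : d ∈ W := W.mul_mem (W.inv_mem hu) hu'W
    obtain ⟨k, hk⟩ := ho
    have d1 : d ^ (2 * k + 1) = 1 := by
      have := pow_card_eq_one' (G := W) (x := ⟨d, hdW⟩)
      rw [hk] at this
      exact congrArg Subtype.val this
    set a := d ^ (k + 1) with ha
    have aa : a * a = d := by
      rw [ha, ← pow_add, show k + 1 + (k + 1) = (2 * k + 1) + 1 by ring, pow_succ, d1, one_mul]
    have haW : a ∈ W := W.pow_mem hdW _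
    have td : t * d * t⁻¹ = d⁻¹ := by
      calc t * d * t⁻¹ = (t * u * t⁻¹)⁻¹ * (t * u' * t⁻¹) := by rw [hd]; group
        _ = d⁻¹ := by rw [tu', ← hu', hd]; group
    have ta : t * a * t⁻¹ = a⁻¹ := by rw [ha, ← conj_pow, td, inv_pow]
    have ed : (u⁻¹ * e) * d * (u⁻¹ * e)⁻¹ = d⁻¹ := by
      calc (u⁻¹ * e) * d * (u⁻¹ * e)⁻¹ = u⁻¹ * ((e * u * e⁻¹)⁻¹ * (e * u' * e⁻¹)) * u := by
            rw [hd]; group
        _ = d⁻¹ := by rw [hi, hi', hd]; group
    have ea : (u⁻¹ * e) * a * (u⁻¹ * e)⁻¹ = a⁻¹ := by rw [ha, ← conj_pow, ed, inv_pow]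
    have hm : u * a = 1 := by
      refine fix _ (W.mul_mem hu haW) ?_ (h1 _ (W.mul_mem hu haW) ?_)
      · calc e * (u * a) * e⁻¹ = (e * u * e⁻¹) * u * ((u⁻¹ * e) * a * (u⁻¹ * e)⁻¹) * u⁻¹ := by group
          _ = (u * a)⁻¹ := by rw [hi, ea]; group
      · have : t * (u * a) * t⁻¹ = u * a := by
          calc t * (u * a) * t⁻¹ = u' * (t * a * t⁻¹) := by rw [hu']; group
            _ = u * d * a⁻¹ := by rw [ta, hd]; group
            _ = u * a := by rw [← aa]; group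
        calc u * a * t = t * (u * a) * t⁻¹ * t := by rw [this]
          _ = t * (u * a) := by group
    have ua : u = a⁻¹ := eq_inv_of_mul_eq_one_left hm
    have hu'' : u' = u⁻¹ := by
      calc u' = u * d := by rw [hd]; group
        _ = u⁻¹ := by rw [← aa, ua]; group
    refine fix u hu hi (h2 u hu ?_)
    have : (t * e) * u * (t * e)⁻¹ = u := by
      calc (t * e) * u * (t * e)⁻¹ = t * (e * u * e⁻¹) * t⁻¹ := by group
        _ = u'⁻¹ := by rw [hi, hu']; group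
        _ = u := by rw [hu'', inv_inv]
    calc u * (t * e) = ((t * e) * u * (t * e)⁻¹) * (t * e) := by rw [this]
      _ = t * e * u := by group
  have := key (w⁻¹ * (e * w * e⁻¹)) (W.mul_mem (W.inv_mem hw) (he w hw)) (by
    calc e * (w⁻¹ * (e * w * e⁻¹)) * e⁻¹ = (e * w * e⁻¹)⁻¹ * ((e * e) * w * (e * e)⁻¹) := by group
      _ = (w⁻¹ * (e * w * e⁻¹))⁻¹ := by rw [ee]; group)
  calc w * e = w * (w⁻¹ * (e * w * e⁻¹)) * e := by rw [this, mul_one]
    _ = e * w := by group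

end Ww

namespace Bf

variable (B : Bf G)

theorem e_W {u : G} (h : u ∈ B.W) : u * B.e = B.e * u := by
  have nW : ∀ g : G, g * B.z = B.z * g → ∀ u ∈ B.W, g * u * g⁻¹ ∈ B.W := fun g hg u hu =>
    (mem_normalizer_iff.1 (B.norm_W hg) u).1 hu
  have tP : B.t ∈ B.P := subset_closure (by simp)
  have tR : B.t ∈ B.R := subset_closure (by simp)
  have w1R : B.w1 ∈ B.R := subset_closure (by simp)
  have eE : B.e ∈ B.E := subset_closure (by simp)
  have eP : B.e ∈ B.P := B.T0_le (B.Q_le_T0 (B.E_le_Q eE))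
  have te : B.t * B.e = B.e * B.t := B.ce tR
  have h1 : ∀ u ∈ B.W, u * B.t = B.t * u → u * B.e = B.e * u := by
    intro u hu hut
    have mem : ∀ v, v ∈ B.W ⊓ centralizer {B.t} ↔ v ∈ B.W ∧ v * B.t = B.t * v := fun v => by
      rw [mem_inf, mem_centralizer_singleton_iff]
    have cl : ∀ g : G, g * B.z = B.z * g → g * B.t = B.t * g →
        ∀ v ∈ B.W ⊓ centralizer {B.t}, g * v * g⁻¹ ∈ B.W ⊓ centralizer {B.t} := by
      intro g hz ht v hv
      obtain ⟨hv, hvt⟩ := (mem v).1 hv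
      refine (mem _).2 ⟨nW g hz v hv, ?_⟩
      have c1 : Commute g B.t := ht
      have c2 : Commute v B.t := hvt
      exact (c1.mul_left c2).mul_left c1.inv_left
    refine B.kf.h1 (B.W ⊓ centralizer {B.t}) (B.odd_W.of_dvd_nat (card_dvd_of_le inf_le_left))
      (fun v hv => ((mem v).1 hv).2) (fun v hv => (B.mem_C.1 (B.W_le ((mem v).1 hv).1)).2)
      (cl _ B.xz B.xt) (cl _ (B.cz eP) te.symm) u ((mem u).2 ⟨hu, hut⟩)
  refine Ww.four B.odd_W B.ee B.tt te (nW _ (B.cz tP)) (nW _ (B.cz eP)) h1 ?_ h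
  intro u hu hut
  have cw : Commute B.w1 B.e := B.ce w1R
  have cz : Commute B.w1 B.z := B.cz (B.R_le w1R)
  have hv := nW _ cz.inv_left u hu
  have h3 : Commute (B.w1⁻¹ * u * B.w1⁻¹⁻¹) B.e := by
    refine h1 _ hv ?_
    rw [← B.w1t] at hut
    calc B.w1⁻¹ * u * B.w1⁻¹⁻¹ * B.t = B.w1⁻¹ * (u * (B.w1 * B.t * B.w1⁻¹)) * B.w1 := by group
      _ = B.t * (B.w1⁻¹ * u * B.w1⁻¹⁻¹) := by rw [hut]; group
  have h4 := (cw.mul_left h3).mul_left cw.inv_left
  have : B.w1 * (B.w1⁻¹ * u * B.w1⁻¹⁻¹) * B.w1⁻¹ = u := by group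
  rw [this] at h4
  exact h4

theorem N_W {u n : G} (h : u ∈ B.W) (hn : n ∈ B.N B.z) : u * n = n * u := by
  have hle : B.N B.z ≤ B.C ⊓ centralizer (B.W : Set G) := by
    refine B.N_le_of ?_ ?_
    · intro g hg m hm
      refine ⟨B.C.mul_mem (B.C.mul_mem hg hm.1) (B.C.inv_mem hg), fun v hv => ?_⟩
      have c : Commute g B.z := (B.mem_C.1 hg).2
      have hv' := (mem_normalizer_iff.1 (B.norm_W c.inv_left) v).1 hv
      have := hm.2 _ hv'
      calc v * (g * m * g⁻¹) = g * (g⁻¹ * v * g⁻¹⁻¹ * m) * g⁻¹ := by group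
        _ = g * m * g⁻¹ * v := by rw [this]; group
    · have eE : B.e ∈ B.E := subset_closure (by simp)
      exact ⟨B.T0_le_C (B.Q_le_T0 (B.E_le_Q eE)), fun v hv => B.e_W hv⟩
  exact (hle hn).2 u h

end Bf

end CfsgLib.L3F
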